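import Mathlib
import Cfsg.Agent.L.PSolv

/-! Base sizes of solvable linear groups: basic notions. -/

set_option autoImplicit false

namespace Cfsg.Agent.H1.BS

open Subgroup

universe v

/-- Additive endomorphisms. -/
abbrev En (V : Type v) [AddCommGroup V] := Module.End ℤ V

section Img

variable {A B : Type*} [Group A] [Group B]

/-- All elements have order prime to `s`. -/
def Cop (s : ℕ) (G : Subgroup A) : Prop := ∀ g ∈ G, (orderOf g).Coprime s

lemma Cop.eq_one {s : ℕ} {G : Subgroup A} (h : Cop s G) {g : A} (hg : g ∈ G) {n : ℕ}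
    (hn : g ^ s ^ n = 1) : g = 1 :=
  orderOf_eq_one_iff.1 (((h g hg).pow_right n).eq_one_of_dvd (orderOf_dvd_of_pow_eq_one hn))

lemma Cop.eq_one' {s : ℕ} {G : Subgroup A} (h : Cop s G) {g : A} (hg : g ∈ G)
    (hn : g ^ s = 1) : g = 1 := h.eq_one hg (n := 1) (by simpa using hn)

lemma Cop.mono {s : ℕ} {G H : Subgroup A} (h : Cop s G) (hH : H ≤ G) : Cop s H :=
  fun g hg => h g (hH hg)

lemma Cop.pow_eq_one {s : ℕ} {G : Subgroup A} (h : Cop s G) {g : A} (hg : g ∈ G) {n : ℕ}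
    (hn : g ^ (n * s) = 1) : g ^ n = 1 := h.eq_one' (pow_mem hg n) (by rw [← pow_mul, hn])

lemma Cop.card [Finite A] {s : ℕ} [Fact s.Prime] {G : Subgroup A} (h : Cop s G) :
    ¬ s ∣ Nat.card G := fun hd => by
  obtain ⟨g, hg⟩ := exists_prime_orderOf_dvd_card' s hd
  have := h g g.2
  rw [orderOf_coe, hg, Nat.coprime_self] at this
  exact (Fact.out : s.Prime).ne_one this

/-- The image of a subgroup along a multiplicative relation. -/
def img (R : Subgroup (A × B)) (G : Subgroup A) : Subgroup B :=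
  (R ⊓ G.prod ⊤).map (MonoidHom.snd A B)

lemma mem_img {R : Subgroup (A × B)} {G : Subgroup A} {b : B} :
    b ∈ img R G ↔ ∃ a ∈ G, (a, b) ∈ R :=
  ⟨fun ⟨x, hx, h⟩ => ⟨x.1, hx.2.1, h ▸ hx.1⟩, fun ⟨a, ha, h⟩ => ⟨(a, b), ⟨h, ha, trivial⟩, rfl⟩⟩

lemma img_solv (R : Subgroup (A × B)) {G : Subgroup A} (hG : Group.IsSolvable G)
    (hk : ∀ b b', (1, b) ∈ R → (1, b') ∈ R → b * b' = b' * b) : Group.IsSolvable (img R G) := by
  let f : (R ⊓ G.prod ⊤ : Subgroup (A × B)) →* G :=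
    ((MonoidHom.fst A B).comp (Subgroup.subtype _)).codRestrict G fun x => x.2.2.1
  have h1 : ∀ x : f.ker, (1, x.1.1.2) ∈ R := fun x => by
    have : x.1.1.1 = 1 := congrArg Subtype.val x.2
    exact this ▸ x.1.2.1
  have : Group.IsSolvable f.ker := Group.isSolvable_of_comm fun x y => Subtype.ext (Subtype.ext
    (Prod.ext (by
      have hx : x.1.1.1 = 1 := congrArg Subtype.val x.2
      simp [hx]) (hk _ _ (h1 x) (h1 y))))
  have : Group.IsSolvable (R ⊓ G.prod ⊤ : Subgroup (A × B)) :=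
    Group.isSolvable_of_ker_le_range f.ker.subtype f (by simp)
  exact Group.isSolvable_of_surjective (MonoidHom.subgroupMap_surjective _ _)

lemma img_solv' (R : Subgroup (A × B)) {G : Subgroup A} (hG : Group.IsSolvable G)
    (hk : ∀ b, (1, b) ∈ R → b = 1) : Group.IsSolvable (img R G) :=
  img_solv R hG fun b b' h _ => by simp [hk b h]

lemma img_cop (R : Subgroup (A × B)) {G : Subgroup A} {s : ℕ} (hG : Cop s G)
    (hk : ∀ b, (1, b) ∈ R → (orderOf b).Coprime s) : Cop s (img R G) := by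
  intro b hb
  obtain ⟨a, ha, h⟩ := mem_img.1 hb
  have h1 := hk (b ^ orderOf a) (by simpa using pow_mem h (orderOf a))
  refine Nat.Coprime.coprime_dvd_left (orderOf_dvd_of_pow_eq_one ?_)
    (Nat.Coprime.mul_left (hG a ha) h1)
  rw [pow_mul, pow_orderOf_eq_one]

lemma img_cop' (R : Subgroup (A × B)) {G : Subgroup A} {s : ℕ} (hG : Cop s G)
    (hk : ∀ b, (1, b) ∈ R → b = 1) : Cop s (img R G) :=
  img_cop R hG fun b h => by simp [hk b h]

lemma solv_le {G H : Subgroup A} (hG : Group.IsSolvable G) (h : H ≤ G) : Group.IsSolvable H :=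
  Group.isSolvable_of_isSolvable_injective (inclusion_injective h)

open scoped commutatorElement in
/-- Elements satisfying the relations of elementary matrices in a solvable group are trivial. -/
lemma elem_eq_one {G : Subgroup A} (hG : Group.IsSolvable G) (e : Fin 3 → Fin 3 → A)
    (he : ∀ i j, i ≠ j → e i j ∈ G)
    (h : ∀ i j k, i ≠ j → i ≠ k → k ≠ j → e i j = ⁅e i k, e k j⁆) {i j : Fin 3} (hij : i ≠ j) :
    e i j = 1 := by
  obtain ⟨n, hn⟩ := hG
  have : ∀ m, ∀ i j (hij : i ≠ j), (⟨e i j, he i j hij⟩ : G) ∈ derivedSeries G m := by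
    intro m
    induction m with
    | zero => intros; trivial
    | succ m ih =>
      intro i j hij
      obtain ⟨k, h1, h2⟩ : ∃ k, i ≠ k ∧ k ≠ j := by revert i j; decide
      have : (⟨e i j, he i j hij⟩ : G) = ⁅(⟨e i k, he i k h1⟩ : G), (⟨e k j, he k j h2⟩ : G)⁆ :=
        Subtype.ext (h i j k hij h1 h2)
      rw [this]
      exact commutator_mem_commutator (ih _ _ h1) (ih _ _ h2)
  have := this n i j hij
  rw [hn, mem_bot] at this
  exact congrArg Subtype.val this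

lemma inv_mem_of_into [Finite A] {X : Type*} [MulAction A X] {Z : Set X} {g : A}
    (h : ∀ x ∈ Z, g • x ∈ Z) : ∀ x ∈ Z, g⁻¹ • x ∈ Z := by
  have h1 : ∀ n : ℕ, ∀ x ∈ Z, g ^ n • x ∈ Z := by
    intro n
    induction n with
    | zero => simp
    | succ n ih => intro x hx; rw [pow_succ, mul_smul]; exact ih _ (h x hx)
  rw [show g⁻¹ = g ^ (orderOf g - 1) by
    rw [inv_eq_iff_mul_eq_one, ← pow_succ', Nat.sub_add_cancel (orderOf_pos g),
      pow_orderOf_eq_one]]
  exact h1 _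

end Img

variable {V : Type v} [AddCommGroup V]

instance instFiniteEn [Finite V] : Finite (En V) := DFunLike.finite _

lemma unit_ext {g h : (En V)ˣ} (e : ∀ v : V, g • v = h • v) : g = h :=
  Units.ext (LinearMap.ext e)

lemma unit_eq_one {g : (En V)ˣ} (e : ∀ v : V, g • v = v) : g = 1 := unit_ext e

lemma exists_unit [Finite V] (f : V →+ V) (hf : Function.Injective f) :
    ∃ u : (En V)ˣ, ∀ v : V, u • v = f v :=
  ⟨LinearMap.GeneralLinearGroup.ofLinearEquiv (LinearEquiv.ofBijective f.toIntLinearMap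
    (Finite.injective_iff_bijective.1 hf)), fun _ => rfl⟩

/-- Invariant subgroups. -/
def Inv (G : Subgroup (En V)ˣ) (W : AddSubgroup V) : Prop := ∀ g ∈ G, ∀ w ∈ W, g • w ∈ W

/-- Irreducibility. -/
structure Irr (G : Subgroup (En V)ˣ) : Prop where
  nt : Nontrivial V
  irr : ∀ W : AddSubgroup V, Inv G W → W = ⊥ ∨ W = ⊤

lemma Irr.eq_top {G : Subgroup (En V)ˣ} (h : Irr G) {W : AddSubgroup V} (hW : Inv G W) {w : V}
    (hw : w ∈ W) (h0 : w ≠ 0) : W = ⊤ :=
  (h.irr W hW).resolve_left fun e => h0 (by rwa [e, AddSubgroup.mem_bot] at hw)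

/-- A tuple with trivial stabilizer. -/
def Reg {ι : Type*} (G : Subgroup (En V)ˣ) (t : ι → V) : Prop :=
  ∀ g ∈ G, (∀ i, g • t i = t i) → g = 1

/-- The relation of being compatible with a map. -/
def relOf {X : Type v} [AddCommGroup X] (θ : X →+ V) : Subgroup ((En V)ˣ × (En X)ˣ) where
  carrier := {p | ∀ x, θ (p.2 • x) = p.1 • θ x}
  one_mem' := by simp
  mul_mem' := fun {a b} ha hb x => by simp only [Prod.snd_mul, Prod.fst_mul, mul_smul, ha _, hb _]
  inv_mem' := fun {a} ha x => by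
    rw [Prod.snd_inv, Prod.fst_inv, eq_inv_smul_iff, ← ha, smul_inv_smul]

/-- Restriction to a subgroup. -/
def res (G : Subgroup (En V)ˣ) (W : AddSubgroup V) : Subgroup (En W)ˣ := img (relOf W.subtype) G

lemma mem_res {G : Subgroup (En V)ˣ} {W : AddSubgroup V} {φ : (En W)ˣ} :
    φ ∈ res G W ↔ ∃ g ∈ G, ∀ w : W, ((φ • w : W) : V) = g • (w : V) := mem_img

lemma res_ker {W : AddSubgroup V} (b : (En W)ˣ) (h : (1, b) ∈ relOf W.subtype) : b = 1 :=
  unit_eq_one fun w => Subtype.ext (h w)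

lemma res_solv {G : Subgroup (En V)ˣ} (h : Group.IsSolvable G) (W : AddSubgroup V) :
    Group.IsSolvable (res G W) := img_solv' _ h res_ker

lemma res_cop {G : Subgroup (En V)ˣ} {s : ℕ} (h : Cop s G) (W : AddSubgroup V) :
    Cop s (res G W) := img_cop' _ h res_ker

lemma exists_res [Finite V] {W : AddSubgroup V} {g : (En V)ˣ} (hg : ∀ w ∈ W, g • w ∈ W) :
    ∃ φ : (En W)ˣ, ∀ w : W, ((φ • w : W) : V) = g • (w : V) := by
  obtain ⟨u, hu⟩ := exists_unit (V := W) (((DistribSMul.toAddMonoidHom V g).comp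
    W.subtype).codRestrict W fun w => hg w w.2) fun a b h =>
      Subtype.ext (smul_left_cancel g (congrArg Subtype.val h))
  exact ⟨u, fun w => by rw [hu]; rfl⟩

lemma Reg.res_fix [Finite V] {ι : Type*} {G : Subgroup (En V)ˣ} {W : AddSubgroup V} {t : ι → W}
    (h : Reg (res G W) t) {g : (En V)ˣ} (hG : g ∈ G) (hg : ∀ w ∈ W, g • w ∈ W)
    (ht : ∀ i, g • (t i : V) = t i) : ∀ w ∈ W, g • w = w := by
  obtain ⟨φ, hφ⟩ := exists_res hg
  have := h φ (mem_res.2 ⟨g, hG, hφ⟩) fun i => Subtype.ext (by rw [hφ, ht])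
  intro w hw
  rw [← hφ ⟨w, hw⟩, this, one_smul]

lemma irr_res [Finite V] {G : Subgroup (En V)ˣ} {W : AddSubgroup V} (h0 : W ≠ ⊥) (hW : Inv G W)
    (h : ∀ U ≤ W, Inv G U → U ≠ ⊥ → U = W) : Irr (res G W) := by
  refine ⟨(AddSubgroup.nontrivial_iff_ne_bot W).2 h0, fun U hU => ?_⟩
  by_cases h1 : U = ⊥
  · exact Or.inl h1
  refine Or.inr (AddSubgroup.map_injective W.subtype_injective ?_)
  rw [← AddMonoidHom.range_eq_map, AddSubgroup.range_subtype]
  refine h _ (AddSubgroup.map_subtype_le U) ?_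
    (mt (AddSubgroup.map_eq_bot_iff_of_injective _ W.subtype_injective).1 h1)
  rintro g hg _ ⟨w, hw, rfl⟩
  obtain ⟨φ, hφ⟩ := exists_res (hW g hg)
  exact ⟨φ • w, hU φ (mem_res.2 ⟨g, hg, hφ⟩) w hw, hφ w⟩

lemma card_lt_of_ne_top [Finite V] {W : AddSubgroup V} (h : W ≠ ⊤) : Nat.card W < Nat.card V := by
  rw [← W.card_mul_index]
  exact lt_mul_of_one_lt_right Nat.card_pos (AddSubgroup.one_lt_index_of_ne_top h)

/-- Complete reducibility. -/
def CR (G : Subgroup (En V)ˣ) : Prop :=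
  ∀ U : AddSubgroup V, Inv G U → ∃ W : AddSubgroup V, Inv G W ∧ U ⊓ W = ⊥ ∧ U ⊔ W = ⊤

lemma CR.res [Finite V] {G : Subgroup (En V)ˣ} (h : CR G) {W : AddSubgroup V} (hW : Inv G W) :
    CR (res G W) := by
  intro U hU
  obtain ⟨U', h1, h2, h3⟩ := h (U.map W.subtype) (by
    rintro g hg _ ⟨w, hw, rfl⟩
    obtain ⟨φ, hφ⟩ := exists_res (hW g hg)
    exact ⟨φ • w, hU φ (mem_res.2 ⟨g, hg, hφ⟩) w hw, hφ w⟩)
  refine ⟨U'.addSubgroupOf W, fun φ hφ w hw => ?_, ?_, ?_⟩
  · obtain ⟨g, hg, e⟩ := mem_res.1 hφ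
    rw [AddSubgroup.mem_addSubgroupOf, e]
    exact h1 g hg _ hw
  · refine eq_bot_iff.2 fun w hw => Subtype.ext ?_
    have : (w : V) ∈ U.map W.subtype ⊓ U' := ⟨⟨w, hw.1, rfl⟩, hw.2⟩
    rwa [h2] at this
  · refine eq_top_iff.2 fun w _ => ?_
    obtain ⟨_, ⟨a, ha, rfl⟩, b, hb, e⟩ := AddSubgroup.mem_sup.1 (h3 ▸ AddSubgroup.mem_top (w : V))
    refine AddSubgroup.mem_sup.2 ⟨a, ha, w - a, ?_, by abel⟩
    rw [AddSubgroup.mem_addSubgroupOf, AddSubgroup.coe_sub, ← e]
    simpa using hb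

/-- From irreducible to completely reducible modules. -/
theorem reg_of_cr {ι : Type*}
    (P : ∀ (V : Type v) [AddCommGroup V], Subgroup (En V)ˣ → Prop)
    (hP : ∀ (V : Type v) [AddCommGroup V] (G : Subgroup (En V)ˣ) (W : AddSubgroup V),
      P V G → P W (res G W))
    (hI : ∀ (V : Type v) [AddCommGroup V] [Finite V] (G : Subgroup (En V)ˣ), P V G → Irr G →
      ∃ t : ι → V, Reg G t) (n : ℕ) :
    ∀ (V : Type v) [AddCommGroup V] [Finite V] (G : Subgroup (En V)ˣ), Nat.card V = n → P V G →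
      CR G → ∃ t : ι → V, Reg G t := by
  induction n using Nat.strong_induction_on with | _ n ih
  intro V _ _ G hn h1 h2
  rcases subsingleton_or_nontrivial V with h | h
  · exact ⟨0, fun g _ _ => unit_eq_one fun _ => Subsingleton.elim _ _⟩
  by_cases h3 : Irr G
  · exact hI V G h1 h3
  obtain ⟨U, hU, h4, h5⟩ : ∃ U, Inv G U ∧ U ≠ ⊥ ∧ U ≠ ⊤ := by
    by_contra h4
    push Not at h4
    exact h3 ⟨h, fun W hW => or_iff_not_imp_left.2 (h4 W hW)⟩
  obtain ⟨W, hW, h6, h7⟩ := h2 U hU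
  obtain ⟨t, ht⟩ := ih _ (hn ▸ card_lt_of_ne_top h5) U _ rfl (hP V G U h1) (h2.res hU)
  obtain ⟨s, hs⟩ := ih _ (hn ▸ card_lt_of_ne_top (W := W) fun e => h4 (by simpa [e] using h6)) W _
    rfl (hP V G W h1) (h2.res hW)
  refine ⟨fun i => t i + s i, fun g hg e => unit_eq_one fun v => ?_⟩
  have h8 : ∀ i, g • (t i : V) = t i ∧ g • (s i : V) = s i := fun i => by
    have e1 : g • (t i : V) - t i = s i - g • (s i : V) := by
      have := e i
      rw [smul_add] at this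
      rw [sub_eq_sub_iff_add_eq_add, this, add_comm]
    have : g • (t i : V) - t i ∈ U ⊓ W := ⟨U.sub_mem (hU g hg _ (t i).2) (t i).2,
      e1 ▸ W.sub_mem (s i).2 (hW g hg _ (s i).2)⟩
    rw [h6, AddSubgroup.mem_bot] at this
    exact ⟨sub_eq_zero.1 this, (sub_eq_zero.1 (e1 ▸ this)).symm⟩
  obtain ⟨a, ha, b, hb, rfl⟩ := AddSubgroup.mem_sup.1 (h7 ▸ AddSubgroup.mem_top v)
  rw [smul_add, ht.res_fix hg (hU g hg) (fun i => (h8 i).1) a ha,
    hs.res_fix hg (hW g hg) (fun i => (h8 i).2) b hb]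

/-- A normal `p`-subgroup of an irreducible group in characteristic `p` is trivial. -/
lemma Irr.eq_one_of_pGroup [Finite V] {G N : Subgroup (En V)ˣ} (h : Irr G) {p : ℕ}
    [hp : Fact p.Prime] (hV : ∀ v : V, p • v = 0) (hN : ∀ g ∈ G, ∀ n ∈ N, g⁻¹ * n * g ∈ N)
    (hNp : IsPGroup p N) {n : (En V)ˣ} (hn : n ∈ N) : n = 1 := by
  let C : AddSubgroup V :=
    { carrier := {v | ∀ n ∈ N, n • v = v}
      add_mem' := fun ha hb n hn => by rw [smul_add, ha n hn, hb n hn]
      zero_mem' := fun _ _ => smul_zero _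
      neg_mem' := fun ha n hn => by rw [smul_neg, ha n hn] }
  have hC : Inv G C := fun g hg w hw n hn => by
    have := hw _ (hN g hg n hn)
    rwa [mul_smul, mul_smul, inv_smul_eq_iff] at this
  obtain ⟨v, hv⟩ := (have := h.nt; exists_ne (0 : V))
  obtain ⟨b, hb, h0⟩ := hNp.exists_fixed_point_of_prime_dvd_card_of_fixed_point V
    ((addOrderOf_eq_prime (hV v) hv) ▸ addOrderOf_dvd_natCard v) (a := 0) fun _ => smul_zero _
  have := h.eq_top hC (w := b) (fun n hn => hb ⟨n, hn⟩) h0.symm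
  exact unit_eq_one fun v => (this ▸ AddSubgroup.mem_top v : v ∈ C) n hn

lemma Irr.exists_char [Finite V] {G : Subgroup (En V)ˣ} (h : Irr G) :
    ∃ p : ℕ, p.Prime ∧ ∀ v : V, p • v = 0 := by
  have := h.nt
  obtain ⟨p, hp, hd⟩ := Nat.exists_prime_and_dvd (Finite.one_lt_card (α := V)).ne'
  have := Fact.mk hp
  obtain ⟨v, hv⟩ := exists_prime_addOrderOf_dvd_card' p hd
  have := h.eq_top (W := (nsmulAddMonoidHom p).ker) (fun g _ w hw => by
    have hw : p • w = 0 := hw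
    change p • g • w = 0
    rw [smul_comm, hw, smul_zero]) (w := v) (hv ▸ addOrderOf_nsmul_eq_zero v)
    (by rintro rfl; exact hp.ne_one (by simpa using hv.symm))
  exact ⟨p, hp, fun v => (this ▸ AddSubgroup.mem_top v : v ∈ (nsmulAddMonoidHom p).ker)⟩

end Cfsg.Agent.H1.BS
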