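import Cfsg.Agent.H1.BS9

/-! Base sizes of solvable linear groups: the action on the fixed space of `L`. -/

set_option autoImplicit false

namespace Cfsg.Agent.H1.BS

open Subgroup Finset
open scoped commutatorElement

universe v

variable {V : Type v} [AddCommGroup V] [Finite V] {G E L : Subgroup (En V)ˣ} {K : Subring (En V)}
  {ω : (En V)ˣ} {r : ℕ}

lemma quat_ring {F R : Type*} [CommRing F] [Ring R] [Algebra F R] {i j : R} {a b c : F}
    (hi : i * i = -1) (hj : j * j = -1) (hij : j * i = -(i * j)) (hab : a ^ 2 + b ^ 2 = -1)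
    (hc : 2 * c = 1) {e : R} (he : e = c • (1 + a • i + b • j)) :
    e * e = e ∧ e * i * e = (-a) • e ∧ e * j * e = (-b) • e ∧ e * (i * j) * e = 0 ∧
      e * (i * j) + i * j * e = i * j := by
  have h1 : ∀ x, i * (i * x) = -x := fun x => by rw [← mul_assoc, hi, neg_one_mul]
  have h2 : ∀ x, j * (j * x) = -x := fun x => by rw [← mul_assoc, hj, neg_one_mul]
  have h3 : ∀ x, j * (i * x) = -(i * (j * x)) := fun x => by
    rw [← mul_assoc, hij, neg_mul, mul_assoc]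
  subst he
  refine ⟨?_, ?_, ?_, ?_, ?_⟩ <;>
    simp only [mul_add, add_mul, smul_mul_assoc, mul_smul_comm, mul_assoc, hi, hj, hij, h1, h2, h3,
      mul_one, one_mul, mul_neg, neg_mul, neg_neg] <;> match_scalars <;> grind

omit [Finite V] in
lemma Reg.exists_ne [Nontrivial V] {n : ℕ} {t : Fin (n + 1) → V} (h : Reg G t) :
    ∃ t : Fin (n + 1) → V, Reg G t ∧ t 0 ≠ 0 := by
  by_cases h0 : t = 0
  · obtain ⟨v, hv⟩ := _root_.exists_ne (0 : V)
    exact ⟨fun _ => v, fun g hg _ => h g hg fun i => by simp [h0], hv⟩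
  obtain ⟨j, hj⟩ := Function.ne_iff.1 h0
  exact ⟨t ∘ Equiv.swap 0 j, fun g hg e => h g hg fun i => by simpa using e (Equiv.swap 0 j i),
    by simpa using hj⟩

omit [Finite V] in
lemma pow_smul_res {W : AddSubgroup V} {α : (En W)ˣ} {g : (En V)ˣ}
    (h : ∀ u : W, ((α • u : W) : V) = g • (u : V)) (n : ℕ) (u : W) :
    ((α ^ n • u : W) : V) = g ^ n • (u : V) :=
  (relOf W.subtype).pow_mem (x := (g, α)) h n u

variable {ε π : En V} {k : (En V)ˣ}

lemma Prim.smul_mem (h : Ext G K E ω r) (hε : Prim K E ε) {c : En V} (hc : c ∈ K) {u : V}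
    (hu : u ∈ im V ε) : c • u ∈ im V ε := by
  rw [mem_im, ← mul_smul, ← h.K_comm_alg hc hε.mem, mul_smul, mem_im.1 hu]

omit [Finite V] in
lemma Prim.nontrivial (hε : Prim K E ε) : Nontrivial (im V ε) := by
  obtain ⟨v, hv, h0⟩ := exists_mem_im hε.idem hε.ne0
  exact ⟨⟨v, hv⟩, 0, fun e => h0 (congrArg Subtype.val e)⟩

lemma Mx.prim (h : Ext G K E ω r) (hL : Mx E L) (hπ : Pj K E L π) (hD : Dn E L ≤ hL.Lh h) :
    Prim K E π := by
  obtain ⟨v, hv, h0⟩ := hL.ex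
  refine ⟨hπ.mem, hπ.idem, fun e => h0 (by rw [← hπ.id v hv, e, zero_smul]), fun x hx => ?_⟩
  by_cases h1 : x ∈ Dn E L
  · obtain ⟨z, hz, e⟩ := hL.Lh_smul h (hD h1)
    exact ⟨z, h.zU hz, en_ext fun w => by
      rw [mul_smul, mul_smul, ← Units.smul_def, hπ.id _ (fx_D h1 (hπ.fix w)), e _ (hπ.fix w)]; rfl⟩
  · exact ⟨0, K.zero_mem, en_ext fun w => by
      rw [mul_smul, mul_smul, ← Units.smul_def, hL.proj h hπ hx h1 (hπ.fix w), zero_mul, zero_smul]⟩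

/-- The quaternion case. -/
structure Mn (K : Subring (En V)) (E L : Subgroup (En V)ˣ) (ε : En V) (k : (En V)ˣ) : Prop where
  prim : Prim K E ε
  le : im V ε ≤ Fx L
  kD : k ∈ Dn E L
  dec : ∀ u ∈ Fx L, ε • u + k • ε • k⁻¹ • u = u
  orth : ∀ u ∈ im V ε, ε • k • u = 0
  orth' : ∀ u ∈ im V ε, ε • k⁻¹ • u = 0
  orb : ∀ u ∈ Fx L, {x | ∃ d ∈ Dn E L, d • u = x}.ncard ≤ 8

lemma Mx.quat (h : Ext G K E ω 2) (hL : Mx E L) {i : (En V)ˣ} (hi : i ∈ Dn E L)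
    (hi' : i ∉ hL.Lh h) : ∃ j ∈ Dn E L, i * i = ω ∧ j * j = ω ∧ j * i = ω * (i * j) ∧
      ∀ d ∈ Dn E L, ∃ q : Fin 4, d * (![1, i, j, i * j] q)⁻¹ ∈ hL.Lh h := by
  have h1 : ∀ x ∈ Dn E L, x ∉ hL.Lh h → x * x = ω := fun x hx hx' =>
    (mem_zpowers_two h.ord (sq x ▸ h.pw x hx.1)).resolve_left
      fun e => hx' (hL.Lh_of_pow h hx (by rwa [sq]))
  have h2 : ∀ a ∈ Dn E L, ∀ b ∈ Dn E L, a ∉ hL.Lh h → b ∉ hL.Lh h → a * b⁻¹ ∉ hL.Lh h →
      ¬ Commute a b := fun a ha b hb ha' hb' h3 e => h.ne_one (by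
    rw [← h1 _ (mul_mem ha (inv_mem hb)) h3, ← sq, e.inv_right.mul_pow, inv_pow, sq, sq,
      h1 a ha ha', h1 b hb hb', mul_inv_cancel])
  obtain ⟨j, hj, h3⟩ : ∃ j ∈ Dn E L, ¬ Commute j i := by
    by_contra h3
    push Not at h3
    exact hi' (hL.Lh_of_cent h hi fun d hd => (h3 d hd).symm)
  have hj' : j ∉ hL.Lh h := fun e => h3 (hL.Lh_comm h e hi)
  refine ⟨j, hj, h1 i hi hi', h1 j hj hj', h.anti hj.1 hi.1 h3, fun d hd => ?_⟩
  by_contra h4
  push Not at h4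
  have h5 : d ∉ hL.Lh h := by simpa using h4 0
  exact h2 d hd _ (mul_mem hi hj) h5 (fun e => h3 (by
    have : Commute i (i * j) := (hL.Lh_comm h e hi).symm
    simpa using ((Commute.refl i).inv_right.mul_right this).symm)) (h4 3)
    ((h.comm_mul hd.1 hi.1 hj.1).2 (iff_of_false (h2 d hd i hi h5 hi' (h4 1))
      (h2 d hd j hj h5 hj' (h4 2))))

theorem Mx.cases [hr : Fact r.Prime] (h : Ext G K E ω r) (hL : Mx E L) {p : ℕ} [hp : Fact p.Prime]
    (hV : ∀ v : V, p • v = 0) : Dn E L ≤ hL.Lh h ∨ r = 2 ∧ ∃ ε k, Mn K E L ε k := by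
  refine or_iff_not_imp_left.2 fun h1 => ?_
  obtain ⟨i, hi, hi'⟩ := SetLike.not_le_iff_exists.1 h1
  obtain rfl : r = 2 := by_contra fun e => hi' (hL.Lh_of_pow h hi (h.pw' e i hi.1))
  obtain ⟨j, hj, e1, e2, e3, h2⟩ := hL.quat h hi hi'
  obtain ⟨π, hπ⟩ := hL.exists_pj h
  have := h.fld.nt
  have hp0 : (p : En V) = 0 := en_ext fun v => by simpa using hV v
  have : CharP (En V) p := (CharP.charP_iff_prime_eq_zero hp.out).2 hp0
  let _ := ZMod.algebra (En V) p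
  have hK : ∀ a : ZMod p, ∃ c ∈ K, ∀ x : En V, a • x = c * x := fun a =>
    ⟨a.val, natCast_mem K _, fun x => by
      rw [← nsmul_eq_mul, ← Nat.cast_smul_eq_nsmul (ZMod p), ZMod.natCast_zmod_val]⟩
  obtain ⟨a, b, hab⟩ := ZMod.sq_add_sq p (-1)
  have h3 : (2 : ZMod p) ≠ 0 := fun e => h.fld.natCast_ne_zero h.ωK h.ord (by
    have := congrArg (algebraMap (ZMod p) (En V)) e
    rwa [map_ofNat, map_zero] at this)
  obtain ⟨e, he⟩ : ∃ e : En V, e = (2 : ZMod p)⁻¹ • (1 + a • (i : En V) + b • (j : En V)) := ⟨_, rfl⟩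
  obtain ⟨f1, f2, f3, f4, f5⟩ := quat_ring (by rw [← Units.val_mul, e1, h.coe_eq])
    (by rw [← Units.val_mul, e2, h.coe_eq])
    (by rw [← Units.val_mul, e3, Units.val_mul, h.coe_eq, neg_one_mul, Units.val_mul]) hab
    (mul_inv_cancel₀ h3) he
  have hs : ∀ (a : ZMod p), ∀ x ∈ alg K E, a • x ∈ alg K E := fun a x hx => by
    obtain ⟨c, hc, e⟩ := hK a
    exact e x ▸ h.mul_mem_alg (K_mem_alg hc) hx
  have h4 : e ∈ alg K E := he ▸ hs _ _ (add_mem (add_mem (K_mem_alg K.one_mem)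
    (hs _ _ (coe_mem_alg hi.1))) (hs _ _ (coe_mem_alg hj.1)))
  have h5 : π * e = e * π := by
    simp only [he, mul_add, add_mul, smul_mul_assoc, mul_smul_comm, hπ.comm i hi, hπ.comm j hj,
      mul_one, one_mul]
  have h6 : ∀ d ∈ Dn E L, π * e * d * (π * e) = π * (e * d * e) := fun d hd => by
    rw [← mul_assoc, mul_assoc _ (d : En V), ← hπ.comm d hd, ← mul_assoc, mul_assoc π e, ← h5,
      ← mul_assoc, hπ.idem]
    simp only [mul_assoc]
  have h7 : ∀ w : V, (π * e) • w ∈ Fx L := fun w => mul_smul π e w ▸ hπ.fix _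
  have hij := mul_mem hi hj
  have h8 : ∀ u ∈ Fx L, (π * e) • u + (i * j) • (π * e) • (i * j)⁻¹ • u = u := fun u hu => by
    rw [Units.smul_def, ← mul_smul, ← mul_assoc, ← hπ.comm _ hij, ← smul_inv_smul (i * j) u,
      inv_smul_smul, Units.smul_def (i * j), ← mul_smul, ← add_smul, mul_assoc, mul_assoc, ← mul_add,
      Units.val_mul, f5, mul_smul]
    exact hπ.id _ (by rwa [← Units.val_mul, ← Units.smul_def, smul_inv_smul])
  have h9 : ∀ u ∈ im V (π * e), (π * e) • (i * j) • u = 0 := fun u hu => by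
    rw [← mem_im.1 hu, Units.smul_def, ← mul_smul, ← mul_smul, h6 _ hij, Units.val_mul, f4]
    simp
  have hq : ∀ q : Fin 4, ![1, i, j, i * j] q ∈ Dn E L := fun q => by
    fin_cases q
    exacts [one_mem _, hi, hj, hij]
  refine ⟨rfl, π * e, i * j, ⟨h.mul_mem_alg hπ.mem h4, by simpa [f1] using h6 1 (one_mem _),
    fun e0 => ?_, fun x hx => ?_⟩, fun u hu => mem_im.1 hu ▸ h7 u, hij, h8, h9, fun u hu => ?_,
    fun u hu => ?_⟩
  · obtain ⟨v, hv, h0⟩ := hL.ex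
    exact h0 (by simpa [e0] using (h8 v hv).symm)
  · by_cases hx' : x ∈ Dn E L
    · obtain ⟨q, hq'⟩ := h2 x hx'
      obtain ⟨z, hz, e4⟩ := hL.Lh_smul h hq'
      obtain ⟨c, hc⟩ : ∃ c : ZMod p, e * (![1, i, j, i * j] q : (En V)ˣ) * e = c • e := by
        fin_cases q
        exacts [⟨1, by simp [f1]⟩, ⟨_, f2⟩, ⟨_, f3⟩, ⟨0, f4.trans (zero_smul _ _).symm⟩]
      obtain ⟨c', hc', e5⟩ := hK c
      refine ⟨_, K.mul_mem (h.zU hz) hc', ?_⟩
      rw [mul_assoc (z : En V), ← e5, ← mul_smul_comm, ← hc, ← h6 _ (hq q), ← mul_assoc (z : En V),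
        ← mul_assoc (z : En V),
        h.K_comm_alg (h.zU hz) (h.mul_mem_alg hπ.mem h4)]
      refine en_ext fun w => ?_
      simp only [mul_smul _ _ w, mul_smul (π * e), mul_smul _ (![1, i, j, i * j] q : (En V)ˣ).1,
        ← Units.smul_def]
      rw [← mul_smul π e, ← e4 _ (fx_D (hq q) (h7 w)), ← mul_smul (x * _), inv_mul_cancel_right]
    · exact ⟨0, K.zero_mem, en_ext fun w => by
        rw [mul_smul, h5, mul_smul, mul_smul, ← Units.smul_def, ← h5,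
          hL.proj h hπ hx hx' (h7 w), zero_mul, zero_smul, smul_zero]⟩
  · rw [show (i * j)⁻¹ = ω * (i * j) by
      rw [← e3, inv_eq_iff_mul_eq_one, mul_assoc, ← mul_assoc j, e2, h.zc (mem_zpowers ω) hi.1,
        ← mul_assoc, e1, h.ωω], mul_smul ω, Units.smul_def ω, h.coe_eq, neg_one_smul, smul_neg, h9 u hu,
      neg_zero]
  · refine (Set.ncard_le_ncard (t := (fun q : Fin 2 × Fin 4 =>
      ![1, ω] q.1 • ![1, i, j, i * j] q.2 • u) '' Set.univ) ?_).trans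
      ((Set.ncard_image_le).trans (by simp [Set.ncard_univ]))
    rintro _ ⟨d, hd, rfl⟩
    obtain ⟨q, hq'⟩ := h2 d hd
    obtain ⟨z, hz, e4⟩ := hL.Lh_smul h hq'
    have := e4 _ (fx_D (hq q) hu)
    rw [← mul_smul, inv_mul_cancel_right] at this
    rcases mem_zpowers_two h.ord hz with rfl | rfl
    exacts [⟨(0, q), trivial, this.symm⟩, ⟨(1, q), trivial, this.symm⟩]

omit [Finite V] in
lemma Mn.uniq (hM : Mn K E L ε k) {a b a' b' : V} (ha : a ∈ im V ε) (hb : b ∈ im V ε)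
    (ha' : a' ∈ im V ε) (hb' : b' ∈ im V ε) (e : a + k • b = a' + k • b') : a = a' ∧ b = b' := by
  have := congrArg (ε • ·) e
  simp only [smul_add, mem_im.1 ha, mem_im.1 ha', hM.orth _ hb, hM.orth _ hb', add_zero] at this
  exact ⟨this, smul_left_cancel k (by simpa [this] using e)⟩

omit [Finite V] in
lemma Mn.triv (hM : Mn K E L ε k) {g : (En V)ˣ} (h1 : ∀ u ∈ im V ε, g • u = u)
    (h2 : ∀ u ∈ im V ε, g • k • u = k • u) : ∀ u ∈ Fx L, g • u = u := fun u hu => by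
  rw [← hM.dec u hu, smul_add, h1 _ (smul_mem_im hM.prim.idem _), h2 _ (smul_mem_im hM.prim.idem _)]

lemma Mn.card (hM : Mn K E L ε k) {p : ℕ} [hp : Fact p.Prime] (hV : ∀ v : V, p • v = 0) :
    p * p ≤ Nat.card (Fx L) := by
  obtain ⟨v, hv⟩ := (have := hM.prim.nontrivial; exists_ne (0 : im V ε))
  have h1 : p ≤ Nat.card (im V ε) := Nat.le_of_dvd Nat.card_pos
    ((addOrderOf_eq_prime (Subtype.ext (hV v)) hv) ▸ addOrderOf_dvd_natCard v)
  refine (Nat.mul_le_mul h1 h1).trans ?_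
  rw [← Nat.card_prod]
  refine Nat.card_le_card_of_injective (fun x => ⟨x.1 + k • x.2,
    add_mem (hM.le x.1.2) (fx_D hM.kD (hM.le x.2.2))⟩) fun x y e => ?_
  have := hM.uniq x.1.2 x.2.2 y.1.2 y.2.2 (Subtype.mk.inj e)
  exact Prod.ext (Subtype.ext this.1) (Subtype.ext this.2)

variable [hr : Fact r.Prime]

lemma Prim.exists_res (h : Ext G K E ω r) (hε : Prim K E ε) {g : (En V)ˣ} (hg : g ∈ G)
    (h1 : ∀ u ∈ im V ε, g • u ∈ im V ε) :
    ∃ α ∈ img (Re h ε) G, ∀ u : im V ε, ((α • u : im V ε) : V) = g • (u : V) := by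
  obtain ⟨α, hα⟩ := BS.exists_res h1
  exact ⟨α, mem_img.2 ⟨g, hg, hg, 1, K_mem_alg K.one_mem, fun u => by rw [hα, one_smul]⟩, hα⟩

lemma Mn.step (h : Ext G K E ω r) (hL : Mx E L) (hM : Mn K E L ε k) {g : (En V)ˣ} (hg : g ∈ G)
    {χ : V} (hχ : χ ∈ im V ε) (h0 : χ ≠ 0) (h1 : g • χ = χ) : (∀ u ∈ im V ε, g • u ∈ im V ε) ∧
      ∃ c ∈ K, ∃ c' ∈ K, ∀ u ∈ im V ε, g • k • u = c' • g • u + k • c • g • u := by
  have hn := hL.nrm h.nrm hg (hM.le hχ) h0 h1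
  have h2 : ∀ u ∈ im V ε, g • u ∈ im V ε := fun u hu => by
    have := hM.prim.zero_or h hg (coe_mem_alg (inv_mem hM.kD.1)) hχ h0
      (by rw [h1]; exact hM.orth' _ hχ) u hu
    have e := hM.dec _ (fx_nrm hn (hM.le hu))
    rwa [Units.smul_def k⁻¹, this, smul_zero, add_zero] at e
  have h3 := h.nrm g hg k hM.kD.1
  obtain ⟨c, hc, e⟩ := hM.prim.scalar h (coe_mem_alg (mul_mem (inv_mem hM.kD.1) h3))
  obtain ⟨c', hc', e'⟩ := hM.prim.scalar h (coe_mem_alg h3)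
  refine ⟨h2, c, hc, c', hc', fun u hu => ?_⟩
  rw [← e _ (h2 u hu), ← e' _ (h2 u hu), ← hM.dec _ (fx_nrm hn (fx_D hM.kD (hM.le hu)))]
  simp only [← Units.smul_def, mul_smul, inv_smul_smul]

theorem Mx.loc_three (h : Ext G K E ω r) (hL : Mx E L) (hG : Irr G)
    (IH : ∀ ε, Prim K E ε → ∃ t : Fin 3 → im V ε, Reg (img (Re h ε) G) t) :
    ∃ v ∈ Fx L, v ≠ 0 ∧ ∃ u : Fin 2 → V, (∀ i, u i ∈ Fx L) ∧
      ∀ g ∈ G, g • v = v → (∀ i, g • u i = u i) → ∀ x ∈ Fx L, g • x = x := by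
  obtain ⟨p, hp, hV⟩ := hG.exists_char
  have := Fact.mk hp
  rcases hL.cases h hV with hD | ⟨-, ε, k, hM⟩
  · obtain ⟨π, hπ⟩ := hL.exists_pj h
    have hε := hL.prim h hπ hD
    have := hε.nontrivial
    obtain ⟨t, ht, h0⟩ := (IH π hε).choose_spec.exists_ne
    have h0 : (t 0 : V) ≠ 0 := fun e => h0 (Subtype.ext e)
    rw [← hπ.im_eq]
    refine ⟨t 0, (t 0).2, h0, fun i => t i.succ, fun i => (t _).2, fun g hg h1 h2 x hx => ?_⟩
    obtain ⟨α, hα, e⟩ := hε.exists_res h hg fun u hu => hπ.im_eq ▸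
      fx_nrm (hL.nrm h.nrm hg (hπ.im_eq ▸ (t 0).2) h0 h1) (hπ.im_eq ▸ hu)
    rw [← e ⟨x, hx⟩, ht α hα fun i => Subtype.ext ((e _).trans (Fin.cases h1 h2 i)), one_smul]
  have := hM.prim.nontrivial
  obtain ⟨t, ht, h0⟩ := (IH ε hM.prim).choose_spec.exists_ne
  have h0 : (t 0 : V) ≠ 0 := fun e => h0 (Subtype.ext e)
  refine ⟨t 0, hM.le (t 0).2, h0, fun i => t i.succ + k • t i.castSucc,
    fun i => add_mem (hM.le (t _).2) (fx_D hM.kD (hM.le (t _).2)), fun g hg h1 h2 => ?_⟩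
  obtain ⟨h3, c, hc, c', hc', e⟩ := hM.step h hL hg (t 0).2 h0 h1
  obtain ⟨α, hα, e'⟩ := hM.prim.exists_res h hg h3
  have h4 := fun i : Fin 2 => hM.uniq (add_mem (h3 _ (t i.succ).2)
    (hM.prim.smul_mem h hc' (h3 _ (t i.castSucc).2))) (hM.prim.smul_mem h hc (h3 _ (t i.castSucc).2))
    (t i.succ).2 (t i.castSucc).2 (by rw [add_assoc, ← e _ (t _).2, ← smul_add, h2])
  obtain ⟨h5, h6⟩ := h4 0
  obtain ⟨h7, h8⟩ := h4 1
  simp only [Fin.castSucc_zero, Fin.castSucc_one, Fin.succ_zero_eq_one, Fin.succ_one_eq_two,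
    h1] at h5 h6 h7 h8
  obtain rfl := h.fld.eq_of_smul hc K.one_mem h0 (h6.trans (one_smul _ _).symm)
  rw [one_smul] at h8
  obtain rfl := h.fld.smul_eq_zero hc' h0 (by simpa [h8] using h5)
  obtain rfl := ht α hα fun i => Subtype.ext ((e' _).trans (by
    fin_cases i; exacts [h1, h8, by simpa using h7]))
  have h9 : ∀ u ∈ im V ε, g • u = u := fun u hu => (e' ⟨u, hu⟩).symm
  exact hM.triv h9 fun u hu => by simp [e u hu, h9 u hu]

theorem Mx.loc_cop (h : Ext G K E ω r) (hL : Mx E L) {p : ℕ} [Fact p.Prime]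
    (hV : ∀ v : V, p • v = 0) (hG : Cop p G)
    (IH : ∀ ε, Prim K E ε → ∃ t : Fin 2 → im V ε, Reg (img (Re h ε) G) t) :
    ∃ v ∈ Fx L, v ≠ 0 ∧ ∃ u ∈ Fx L, ∀ g ∈ G, (∀ c ∈ K, cn g c = c) → g • v = v → g • u = u →
      ∀ x ∈ Fx L, g • x = x := by
  rcases hL.cases h hV with hD | ⟨-, ε, k, hM⟩
  · obtain ⟨π, hπ⟩ := hL.exists_pj h
    have hε := hL.prim h hπ hD
    have := hε.nontrivial
    obtain ⟨t, ht, h0⟩ := (IH π hε).choose_spec.exists_ne
    have h0 : (t 0 : V) ≠ 0 := fun e => h0 (Subtype.ext e)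
    rw [← hπ.im_eq]
    refine ⟨t 0, (t 0).2, h0, t 1, (t _).2, fun g hg _ h1 h2 x hx => ?_⟩
    obtain ⟨α, hα, e⟩ := hε.exists_res h hg fun u hu => hπ.im_eq ▸
      fx_nrm (hL.nrm h.nrm hg (hπ.im_eq ▸ (t 0).2) h0 h1) (hπ.im_eq ▸ hu)
    rw [← e ⟨x, hx⟩, ht α hα fun i => Subtype.ext ((e _).trans (by fin_cases i; exacts [h1, h2])),
      one_smul]
  have := hM.prim.nontrivial
  obtain ⟨t, ht, h0⟩ := (IH ε hM.prim).choose_spec.exists_ne
  have h0 : (t 0 : V) ≠ 0 := fun e => h0 (Subtype.ext e)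
  refine ⟨t 0, hM.le (t 0).2, h0, t 1 + k • t 0,
    add_mem (hM.le (t _).2) (fx_D hM.kD (hM.le (t _).2)), fun g hg hK h1 h2 => ?_⟩
  obtain ⟨h3, c, hc, c', hc', e⟩ := hM.step h hL hg (t 0).2 h0 h1
  obtain ⟨α, hα, e'⟩ := hM.prim.exists_res h hg h3
  obtain ⟨h5, h6⟩ := hM.uniq (add_mem (h3 _ (t 1).2)
    (hM.prim.smul_mem h hc' (h3 _ (t 0).2))) (hM.prim.smul_mem h hc (h3 _ (t 0).2))
    (t 1).2 (t 0).2 (by rw [add_assoc, ← e _ (t _).2, ← smul_add, h2])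
  rw [h1] at h5 h6
  obtain rfl := h.fld.eq_of_smul hc K.one_mem h0 (h6.trans (one_smul _ _).symm)
  have h7 : ∀ n : ℕ, g ^ n • (t 1 : V) + n • c' • (t 0 : V) = t 1 := fun n => by
    induction n with
    | zero => simp
    | succ n ih =>
      have := congrArg (g • ·) ih
      simp only [smul_add, smul_comm g n, ← cn_smul g c', hK c' hc', h1] at this
      rw [pow_succ', mul_smul, succ_nsmul, ← add_assoc, this, h5]
  obtain rfl := (hM.prim.cop h hV hG).eq_one' hα (ht _ (pow_mem hα p) fun i =>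
    Subtype.ext ((pow_smul_res e' p _).trans (by
      fin_cases i
      exacts [(MulAction.stabilizer _ (t 0 : V)).pow_mem h1 p,
        by simpa [hV] using h7 p])))
  have h9 : ∀ u ∈ im V ε, g • u = u := fun u hu => (e' ⟨u, hu⟩).symm
  obtain rfl := h.fld.smul_eq_zero hc' h0 (by simpa [h9 _ (t 1).2] using h5)
  exact hM.triv h9 fun u hu => by simp [e u hu, h9 u hu]

end Cfsg.Agent.H1.BS
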