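import Cfsg.Agent.H1.BS10

/-! Base sizes of solvable linear groups: reductions and a special case. -/

set_option autoImplicit false

namespace Cfsg.Agent.H1.BS

open Subgroup Finset
open scoped commutatorElement

universe v

variable {V : Type v} [AddCommGroup V] [Finite V] {G E L : Subgroup (En V)ˣ} {K : Subring (En V)}
  {ω : (En V)ˣ} {r : ℕ}

theorem Fld.galois (hK : Fld G K) {p : ℕ} [hp : Fact p.Prime] (hV : ∀ v : V, p • v = 0)
    (hG : Cop p G) {v w : V} (h0 : v ≠ 0)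
    (h : ∀ g ∈ G, (∀ c ∈ K, cn g c = c) → g • v = v → g • w = w → g = 1) :
    ∃ t : Fin 2 → V, Reg G t := by
  let P : Subgroup (En V)ˣ :=
    { carrier := {g | g ∈ G ∧ g • v = v ∧ ∃ c ∈ K, g • w = w + c • v}
      one_mem' := ⟨one_mem _, one_smul _ _, 0, K.zero_mem, by simp⟩
      mul_mem' := fun {a b} ⟨ha, h1, c, hc, e⟩ ⟨hb, h2, d, hd, e'⟩ => ⟨mul_mem ha hb,
        by rw [mul_smul, h2, h1], _, K.add_mem hc (hK.stab a ha d hd), by
          rw [mul_smul, e', smul_add, e, ← cn_smul, h1, add_smul, add_assoc]⟩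
      inv_mem' := fun {a} ⟨ha, h1, c, hc, e⟩ => ⟨inv_mem ha, inv_smul_eq_iff.2 h1.symm, _,
        K.neg_mem (hK.stab _ (inv_mem ha) c hc), by
          rw [inv_smul_eq_iff, smul_add, e, ← cn_smul, h1, map_neg, cn_cn_inv]; simp⟩ }
  obtain ⟨n, hn⟩ : ∃ n : ℕ, ∀ x : V, n • Nat.card P • x = x := by
    obtain ⟨n, -, hn⟩ := Nat.exists_mul_mod_eq_one_of_coprime (k := p) (n := Nat.card P)
      ((hp.out.coprime_iff_not_dvd.2 (Cop.card (hG.mono (H := P) fun _ h => h.1))).symm) hp.out.one_lt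
    exact ⟨n, fun x => by
      rw [← mul_nsmul, ← Nat.div_add_mod (Nat.card P * n) p, hn, add_nsmul, mul_nsmul, hV]; simp⟩
  choose c hc e using fun g : P => g.2.2.2
  obtain ⟨k, hk⟩ := hK.exists_gen
  have hkK : (k : En V) ∈ K := (hk ▸ mem_zpowers k : k ∈ un K)
  have h1 : n • ∑ g : P, g.1 • w = w + (n • ∑ g, c g) • v := by
    simp only [e, sum_add_distrib, sum_const, card_univ, ← Nat.card_eq_fintype_card, smul_add, hn,
      smul_assoc, Finset.sum_smul]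
  have h2 : n • ∑ g, c g + k ∈ K := K.add_mem (nsmul_mem (sum_mem fun g _ => hc g) _) hkK
  refine ⟨![v, w + (n • ∑ g, c g + k) • v], fun g hg ht => ?_⟩
  have h3 : g • v = v := ht 0
  have h4 : g • (w + (n • ∑ g, c g + k) • v) = w + (n • ∑ g, c g + k) • v := ht 1
  have h5 : g ∈ P := ⟨hg, h3, _, K.sub_mem h2 (hK.stab g hg _ h2), by
    rw [sub_smul, ← add_sub_assoc, ← h4, smul_add, ← cn_smul, h3, add_sub_cancel_right]⟩
  have h6 : g • n • ∑ g : P, g.1 • w = n • ∑ g : P, g.1 • w := by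
    rw [smul_comm, smul_sum]
    exact congrArg _ (Fintype.sum_equiv (Equiv.mulLeft ⟨g, h5⟩) _ _ fun x => (mul_smul _ _ _).symm)
  have h7 := h4
  rw [add_smul, ← add_assoc, ← h1, smul_add, h6, add_right_inj, ← cn_smul, h3] at h7
  have h8 := fun c => hK.centralizes (c := c) hk (hK.eq_of_smul (hK.stab g hg _ hkK) hkK h0 h7)
  exact h g hg h8 h3 (by rwa [smul_add, ← cn_smul, h3, h8 _ h2, add_left_inj] at h4)

theorem odd_part {P : Subgroup (En V)ˣ} (hP : Irr P)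
    (hc : ∀ φ ∈ P, ∀ n : ℕ, φ ^ 2 ^ n = 1 → ∀ ψ ∈ P, ψ * φ = φ * ψ) :
    ∃ H ≤ P, Cop 2 H ∧ (∀ φ ∈ P, (orderOf φ).Coprime 2 → φ ∈ H) ∧ ∃ U : AddSubgroup V,
      Irr (res H U) ∧ Inv H U ∧ ∀ φ ∈ H, (∀ u ∈ U, φ • u = u) → φ = 1 := by
  have h1 : (center P).index.Coprime 2 := by
    obtain ⟨S⟩ : Nonempty (Sylow 2 P) := inferInstance
    rw [Nat.coprime_comm, Nat.prime_two.coprime_iff_not_dvd]
    refine fun h => S.not_dvd_index (h.trans (index_dvd_of_le fun x hx => ?_))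
    obtain ⟨n, hn⟩ := S.isPGroup' ⟨x, hx⟩
    exact mem_center_iff.2 fun y => Subtype.ext
      (hc x x.2 n (congrArg (fun a : S => (a.1 : (En V)ˣ)) hn) y y.2)
  let H : Subgroup (En V)ˣ :=
    { carrier := {φ | φ ∈ P ∧ (orderOf φ).Coprime 2}
      one_mem' := ⟨one_mem _, by simp⟩
      inv_mem' := fun h => ⟨inv_mem h.1, by simpa using h.2⟩
      mul_mem' := fun {a b} ha hb => ⟨mul_mem ha.1 hb.1, by
        refine Nat.Coprime.coprime_dvd_left (orderOf_dvd_of_pow_eq_one ?_)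
          (h1.mul_left (ha.2.mul_left hb.2))
        have h2 : ∀ x : P, MonoidHom.transferCenterPow P x ^ orderOf x.1 = 1 := fun x => by
          rw [← map_pow, orderOf_coe, pow_orderOf_eq_one, map_one]
        have := congrArg (fun x : center P => (x.1 : (En V)ˣ))
          (show MonoidHom.transferCenterPow P (⟨a, ha.1⟩ * ⟨b, hb.1⟩) ^ (orderOf a * orderOf b) = 1 by
            rw [map_mul, Commute.mul_pow (Subtype.ext (mem_center_iff.1 (Subtype.prop _) _)), pow_mul, h2 ⟨a, ha.1⟩, pow_mul', h2 ⟨b, hb.1⟩]; simp)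
        rw [pow_mul]
        simpa using this⟩ }
  have := hP.nt
  have : Finite (AddSubgroup V) := Finite.of_injective _ SetLike.coe_injective
  obtain ⟨U, ⟨h2, h3⟩, hmin⟩ := Set.exists_min_image {U : AddSubgroup V | U ≠ ⊥ ∧ Inv H U}
    (fun U => Nat.card U) (Set.toFinite _) ⟨⊤, top_ne_bot, fun _ _ _ _ => trivial⟩
  refine ⟨H, fun _ h => h.1, fun _ h => h.2, fun _ h h' => ⟨h, h'⟩, U, irr_res h2 h3
    fun W h4 h5 h6 => AddSubgroup.eq_of_le_of_card_ge h4 (hmin W ⟨h6, h5⟩), h3, fun φ hφ h4 => ?_⟩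
  obtain ⟨⟨u, hu⟩, hu0⟩ := AddSubgroup.ne_bot_iff_exists_ne_zero.1 h2
  let C : AddSubgroup V :=
    { carrier := {w | ∀ φ ∈ H, (∀ u ∈ U, φ • u = u) → φ • w = w}
      zero_mem' := fun _ _ _ => smul_zero _
      add_mem' := fun ha hb φ h h' => by rw [smul_add, ha φ h h', hb φ h h']
      neg_mem' := fun ha φ h h' => by rw [smul_neg, ha φ h h'] }
  have h5 : C = ⊤ := hP.eq_top (fun ψ hψ w hw φ hφ h => ?_) (w := u) (fun φ _ h => h u hu)
    fun e => hu0 (Subtype.ext e)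
  · exact unit_eq_one fun w => (h5 ▸ AddSubgroup.mem_top w : w ∈ C) φ hφ h4
  obtain ⟨n, m, hm, e⟩ := Nat.exists_eq_two_pow_mul_odd (orderOf_pos ψ).ne'
  obtain ⟨x, y, hxy⟩ := Nat.isCoprime_iff_coprime.2 ((Nat.coprime_two_left.2 hm).pow_left n)
  have h6 : (ψ ^ 2 ^ n) ^ x ∈ H := zpow_mem (show ψ ^ 2 ^ n ∈ H from ⟨pow_mem hψ _,
    (Nat.coprime_two_right.2 hm).coprime_dvd_left (orderOf_dvd_of_pow_eq_one (by
      rw [← pow_mul, ← e, pow_orderOf_eq_one]))⟩) x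
  have h7 : Commute φ ((ψ ^ m) ^ y) := Commute.zpow_right (hc _ (pow_mem hψ m) n (by
    rw [← pow_mul, mul_comm, ← e, pow_orderOf_eq_one]) φ hφ.1) y
  have h8 := hw _ (mul_mem (mul_mem (inv_mem h6) hφ) h6) fun u hu => by
    rw [mul_smul, mul_smul, h _ (h3 _ h6 u hu), inv_smul_smul]
  rw [mul_smul, mul_smul, inv_smul_eq_iff] at h8
  rw [show ψ = (ψ ^ m) ^ y * (ψ ^ 2 ^ n) ^ x by
    rw [← zpow_natCast, ← zpow_natCast, ← zpow_mul, ← zpow_mul, ← zpow_add, add_comm, mul_comm,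
      mul_comm _ y, hxy, zpow_one], ← mul_smul, ← mul_assoc, h7.eq, mul_smul, mul_smul, h8,
    mul_smul]

lemma Fld.fix_two (hK : Fld G K) (h2 : Cop 2 G) {g : (En V)ˣ} (hg : g ∈ G) (n : ℕ) :
    ∀ u ∈ un K, u ^ 2 ^ n = 1 → g * u * g⁻¹ = u := by
  induction n with
  | zero => intro u _ h; simp [show u = 1 by simpa using h]
  | succ n ih =>
    intro u hu h
    have h1 := ih _ (pow_mem hu 2) (by rwa [← pow_mul, ← pow_succ'])
    have h3 := hK.nrm g hg u hu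
    by_contra h4
    have h5 : cn g (u : En V) = -u := eq_neg_of_add_eq_zero_left (hK.cancel (K.sub_mem h3 hu)
      (fun e => h4 (Units.ext (sub_eq_zero.1 e))) (by
        rw [cn_coe, sub_mul, mul_add, mul_add, hK.comm _ hu _ h3, ← Units.val_mul, ← sq, conj_pow,
          h1, sq, Units.val_mul]
        abel))
    have h6 : g ^ 2 ∈ stb (u : En V) := by
      change cn _ _ = _
      rw [sq, cn_mul, h5, map_neg, h5, neg_neg]
    obtain ⟨m, hm⟩ := exists_pow_eq_self_of_coprime (h2 g hg).symm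
    exact h4 (Units.ext (hm ▸ pow_mem h6 m : g ∈ stb (u : En V)))

theorem Mx.loc_odd [hr : Fact r.Prime] (h : Ext G K E ω r) (hL : Mx E L) (hG : Irr G)
    (hr2 : r ≠ 2) (h2 : Cop 2 G) (hs : Group.IsSolvable G)
    (IH : ∀ (W : Type v) [AddCommGroup W] [Finite W] (H : Subgroup (En W)ˣ),
      Nat.card W < Nat.card V → Group.IsSolvable H → Cop 2 H → Irr H → ∃ t : Fin 2 → W, Reg H t) :
    ∃ v ∈ Fx L, v ≠ 0 ∧ ∃ u ∈ Fx L, ∀ g ∈ G, g • v = v → g • u = u → ∀ x ∈ Fx L, g • x = x := by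
  obtain ⟨π, hπ⟩ := hL.exists_pj h
  have hε := hL.prim h hπ fun i hi => hL.Lh_of_pow h hi (h.pw' hr2 i hi.1)
  obtain ⟨H, h3, h4, h5, U, h6, h7, h8⟩ := odd_part (hε.irr h hG) fun φ hφ n hn ψ hψ => by
    obtain ⟨g, hg, e⟩ := mem_img.1 hφ
    obtain ⟨k, hk, -, a, ha, e'⟩ := mem_img.1 hψ
    obtain ⟨m, hm⟩ := exists_pow_eq_self_of_coprime (x := φ)
      (((h2 g hg).pow_right n).coprime_dvd_right (orderOf_dvd_of_pow_eq_one hn))
    obtain ⟨u, hu, e1⟩ := hε.ker h (φ := φ) (by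
      simpa [hm] using pow_mem (pow_mem e (orderOf g)) m)
    obtain ⟨v, hv, h0⟩ := exists_mem_im hε.idem hε.ne0
    have e2 := h.fld.fix_two h2 hk n u hu (h.fld.un_eq_one (pow_mem hu _) h0 (by
      rw [← pow_smul_res e1 _ ⟨v, hv⟩, hn, one_smul]))
    refine unit_ext fun w => Subtype.ext ?_
    rw [mul_smul, mul_smul, e', e1, e1, e', ← mul_smul k, mul_inv_eq_iff_eq_mul.1 e2, mul_smul,
      Units.smul_def u, Units.smul_def u, ← mul_smul, ← h.K_comm_alg hu ha, mul_smul]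
  have := h6.nt
  obtain ⟨t, ht, h0⟩ := (IH U _ ((Nat.le_of_dvd Nat.card_pos U.card_addSubgroup_dvd_card).trans_lt
    (card_lt_of_ne_top (hε.ne_top h))) (res_solv (solv_le (hε.solv h hs) h3) U) (res_cop h4 U)
    h6).choose_spec.exists_ne
  have h0 : (t 0 : V) ≠ 0 := fun e => h0 (Subtype.ext (Subtype.ext e))
  rw [← hπ.im_eq]
  refine ⟨t 0, (t 0).1.2, h0, t 1, (t _).1.2, fun g hg h9 h10 x hx => ?_⟩
  obtain ⟨α, hα, e⟩ := hε.exists_res h hg fun u hu => hπ.im_eq ▸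
    fx_nrm (hL.nrm h.nrm hg (hπ.im_eq ▸ (t 0).1.2) h0 h9) (hπ.im_eq ▸ hu)
  have h11 := h5 α hα ((h2 g hg).coprime_dvd_left (orderOf_dvd_of_pow_eq_one (unit_eq_one fun w =>
    Subtype.ext (by rw [pow_smul_res e, pow_orderOf_eq_one, one_smul]))))
  rw [← e ⟨x, hx⟩, h8 α h11 (ht.res_fix h11 (h7 α h11) fun i => Subtype.ext ((e _).trans (by
    fin_cases i; exacts [h9, h10]))), one_smul]

end Cfsg.Agent.H1.BS
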