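import Cfsg.Agent.H1.BS11

/-! Base sizes of solvable linear groups: the extraspecial group of order 32 in characteristic 5. -/

set_option autoImplicit false

namespace Cfsg.Agent.H1.BS

open Subgroup Finset
open scoped commutatorElement

universe v

variable {V : Type v} [AddCommGroup V] [Finite V] {G E L : Subgroup (En V)ˣ} {K : Subring (En V)}
  {ω : (En V)ˣ}

lemma card_four {X : Type*} [AddCommGroup X] (h2 : ∀ x : X, 2 • x = 0) (h : Nat.card X = 4) :
    ∃ a b : X, a ≠ 0 ∧ b ≠ 0 ∧ a + b ≠ 0 ∧ ∀ x, x = 0 ∨ x = a ∨ x = b ∨ x = a + b := by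
  classical
  have : Finite X := Nat.finite_of_card_ne_zero (by omega)
  have := Fintype.ofFinite X
  rw [Nat.card_eq_fintype_card] at h
  obtain ⟨a, ha⟩ := exists_mem_notMem_of_card_lt_card (s := {(0 : X)}) (t := univ) (by simp [h])
  obtain ⟨b, hb⟩ := exists_mem_notMem_of_card_lt_card (s := {(0 : X), a}) (t := univ)
    (card_le_two.trans_lt (by simp [h]))
  simp only [mem_univ, mem_singleton, mem_insert, true_and, not_or] at ha hb
  have h3 : a + b ≠ 0 := fun e => hb.2 (add_left_cancel (e.trans ((h2 a).symm.trans (two_nsmul a))))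
  refine ⟨a, b, ha, hb.1, h3, fun x => ?_⟩
  have : ({0, a, b, a + b} : Finset X) = univ := eq_univ_of_card _ (by
    rw [h, card_insert_of_notMem (by simp [ha, Ne.symm ha, Ne.symm hb.1, h3.symm]),
      card_insert_of_notMem (by simp [hb.1, Ne.symm hb.2]), card_pair (by simp [ha])])
  simpa using (this ▸ mem_univ x : x ∈ ({0, a, b, a + b} : Finset X))

variable (h : Ext G K E ω 2) (hL : Mx E L)
include h hL

lemma Mx.exists_sq {x z : (En V)ˣ} (hx : x ∈ E) (hz : z ∈ L) (hn : ¬ Commute z x) :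
    ∃ y, (y = x ∨ y = x * z) ∧ y * y = ω := by
  rcases mem_zpowers_two h.ord (h.pw x hx) with e | e
  · refine ⟨_, Or.inr rfl, ?_⟩
    rw [mul_assoc, ← mul_assoc z, h.anti (hL.le hz) hx hn, mul_assoc ω, mul_assoc x,
      hL.Lh_sq h (hL.le_Lh h hz), mul_one, ← mul_assoc, ← h.zc (mem_zpowers ω) hx, mul_assoc, ← sq, e,
      mul_one]
  · exact ⟨x, Or.inl rfl, sq x ▸ e⟩

lemma Mx.pauli (Q : Quo E (Dn E L)) (hX : Nat.card Q.X = 4) : ∃ a ∈ E, ∃ b ∈ E, ∃ s ∈ L, ∃ t ∈ L,
    a * a = ω ∧ b * b = ω ∧ Commute a b ∧ ¬ Commute s a ∧ Commute s b ∧ Commute t a ∧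
      ¬ Commute t b ∧ ∀ x ∈ E, ∃ d ∈ Dn E L, x = d ∨ x = a * d ∨ x = b * d ∨ x = a * b * d := by
  obtain ⟨m, n, hm, hn, hmn, hall⟩ := card_four (Q.nsmul_eq_zero fun x hx =>
    hL.z_D h (h.pw x hx)) hX
  have h1 : ∀ x ∈ E, Q.cl x ≠ 0 → ∃ l ∈ L, ¬ Commute l x := fun x hx h0 => by
    by_contra h1
    push Not at h1
    exact h0 ((Q.mk_eq_zero x hx).2 ⟨hx, h1⟩)
  have h2 : ∀ l ∈ L, ∀ l' ∈ L, Commute l l' := fun l hl l' hl' => (hL.le_D h hl').2 l hl
  obtain ⟨s, hs, h3⟩ := h1 (Q.rep m * Q.rep n) (mul_mem (Q.rep_mem _) (Q.rep_mem _)) (by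
    rwa [Q.mk_mul _ (Q.rep_mem _) _ (Q.rep_mem _), Q.mk_rep, Q.mk_rep])
  rw [h.comm_mul (hL.le hs) (Q.rep_mem _) (Q.rep_mem _)] at h3
  wlog h4 : Commute s (Q.rep n) generalizing m n
  · exact this n m hn hm (by rwa [add_comm]) (fun x => by rw [add_comm]; have := hall x; tauto)
      (by tauto) (by tauto)
  have h5 : ¬ Commute s (Q.rep m) := by tauto
  obtain ⟨t, ht, h6, h7⟩ : ∃ t ∈ L, Commute t (Q.rep m) ∧ ¬ Commute t (Q.rep n) := by
    obtain ⟨t, ht, h6⟩ := h1 _ (Q.rep_mem n) (by rwa [Q.mk_rep])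
    by_cases h7 : Commute t (Q.rep m)
    · exact ⟨t, ht, h7, h6⟩
    refine ⟨t * s, mul_mem ht hs, ?_, ?_⟩ <;>
      rw [Commute.symm_iff, h.comm_mul (Q.rep_mem _) (hL.le ht) (hL.le hs), Commute.symm_iff,
        Commute.symm_iff (b := s)] <;> tauto
  have hc : ∀ x ∈ E, ∀ l ∈ L, x * l ∈ E ∧ Q.cl (x * l) = Q.cl x ∧
      ∀ l' ∈ L, Commute l' (x * l) ↔ Commute l' x := fun x hx l hl => ⟨mul_mem hx (hL.le hl), by
    rw [Q.mk_mul _ hx _ (hL.le hl), (Q.mk_eq_zero _ (hL.le hl)).2 (hL.le_D h hl), add_zero],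
    fun l' hl' => by simp [h.comm_mul (hL.le hl') hx (hL.le hl), h2 l' hl' l hl]⟩
  obtain ⟨a, ha, a1, a2, a3, a4⟩ : ∃ a ∈ E, Q.cl a = m ∧ ¬ Commute s a ∧ Commute t a ∧ a * a = ω := by
    obtain ⟨a, rfl | rfl, e⟩ := hL.exists_sq h (Q.rep_mem m) hs h5
    · exact ⟨_, Q.rep_mem m, Q.mk_rep m, h5, h6, e⟩
    · obtain ⟨e1, e2, e3⟩ := hc _ (Q.rep_mem m) s hs
      exact ⟨_, e1, e2.trans (Q.mk_rep m), by rwa [e3 s hs], by rwa [e3 t ht], e⟩
  obtain ⟨b, hb, b1, b2, b3, b4⟩ : ∃ b ∈ E, Q.cl b = n ∧ Commute s b ∧ ¬ Commute t b ∧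
      Commute a b := by
    by_cases e : Commute a (Q.rep n)
    · exact ⟨_, Q.rep_mem n, Q.mk_rep n, h4, h7, e⟩
    · obtain ⟨e1, e2, e3⟩ := hc _ (Q.rep_mem n) s hs
      exact ⟨_, e1, e2.trans (Q.mk_rep n), by rwa [e3 s hs], by rwa [e3 t ht],
        (h.comm_mul ha (Q.rep_mem n) (hL.le hs)).2 (iff_of_false e fun e => a2 e.symm)⟩
  obtain ⟨b, hb, b1, b2, b3, b4, b5⟩ : ∃ b ∈ E, Q.cl b = n ∧ Commute s b ∧ ¬ Commute t b ∧
      Commute a b ∧ b * b = ω := by
    obtain ⟨c, rfl | rfl, e⟩ := hL.exists_sq h hb ht b3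
    · exact ⟨_, hb, b1, b2, b3, b4, e⟩
    · obtain ⟨e1, e2, e3⟩ := hc _ hb t ht
      exact ⟨_, e1, e2.trans b1, by rwa [e3 s hs], by rwa [e3 t ht], b4.mul_right a3.symm, e⟩
  refine ⟨a, ha, b, hb, s, hs, t, ht, a4, b5, b4, a2, b2, a3, b3, fun x hx => ?_⟩
  rcases hall (Q.cl x) with e | e | e | e
  · exact ⟨x, (Q.mk_eq_zero x hx).1 e, Or.inl rfl⟩
  · exact ⟨_, (Q.mk_eq ha hx).1 (a1.trans e.symm), by simp⟩
  · exact ⟨_, (Q.mk_eq hb hx).1 (b1.trans e.symm), by simp⟩
  · exact ⟨_, (Q.mk_eq (mul_mem ha hb) hx).1 (by rw [Q.mk_mul _ ha _ hb, a1, b1, e]),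
      Or.inr (Or.inr (Or.inr (mul_inv_cancel_left _ _).symm))⟩

theorem Mx.special (hD : Dn E L ≤ hL.Lh h) (Q : Quo E (Dn E L)) (hX : Nat.card Q.X = 4)
    (hV : ∀ v : V, 5 • v = 0) {v : V} (hv : v ∈ Fx L) (h0 : v ≠ 0)
    (h1 : ∀ u ∈ Fx L, ∃ n : ℤ, u = n • v) : ∃ x w : V, x ≠ 0 ∧
      ∀ g ∈ G, (∀ c ∈ K, cn g c = c) → g • x = x → g • w = w → g = 1 := by
  obtain ⟨a, ha, b, hb, s, hs, t, ht, aa, bb, ab, sa, sb, ta, tb, hall⟩ := hL.pauli h Q hX
  obtain ⟨π, hπ⟩ := hL.exists_pj h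
  have hs' := hL.le hs
  have ht' := hL.le ht
  have st : Commute s t := (hL.le_D h ht).2 s hs
  have hω : ∀ u : V, ω • u = -u := fun u => by rw [Units.smul_def, h.coe_eq, neg_one_smul]
  have hc : ∀ {x y : (En V)ˣ}, Commute x y → ∀ u : V, x • y • u = y • x • u := fun e u => by
    rw [← mul_smul, e.eq, mul_smul]
  have hn : ∀ {x y : (En V)ˣ}, x ∈ E → y ∈ E → ¬ Commute x y → ∀ u : V, x • y • u = -(y • x • u) :=
    fun hx hy e u => by rw [← mul_smul, h.anti hx hy e, mul_smul, hω, mul_smul]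
  have hDc : ∀ l ∈ L, ∀ x ∈ E, ∀ d ∈ Dn E L, Commute l (x * d) ↔ Commute l x := fun l hl x hx d hd => by
    simp [h.comm_mul (hL.le hl) hx hd.1, show Commute l d from hd.2 l hl]
  have hZ : ∀ y ∈ E, Commute a y → Commute b y → Commute s y → Commute t y → y = 1 ∨ y = ω := by
    intro y hy e1 e2 e3 e4
    have h2 : y ∈ Dn E L := by
      obtain ⟨d, hd, rfl | rfl | rfl | rfl⟩ := hall y hy
      · exact hd
      · exact absurd ((hDc s hs a ha d hd).1 e3) sa
      · exact absurd ((hDc t ht b hb d hd).1 e4) tb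
      · exact absurd (((h.comm_mul hs' ha hb).1 ((hDc s hs _ (mul_mem ha hb) d hd).1 e3)).2 sb) sa
    refine mem_zpowers_two h.ord (h.cen y hy fun x hx => ?_)
    obtain ⟨d, hd, e⟩ := hall x hx
    have h3 : Commute y d := hL.Lh_comm h (hD h2) hd
    rcases e with rfl | rfl | rfl | rfl
    exacts [h3, e1.symm.mul_right h3, e2.symm.mul_right h3, (e1.symm.mul_right e2.symm).mul_right h3]
  obtain ⟨x, hx⟩ : ∃ x, x = a • b • v + 2 • a • v + 2 • b • v + 4 • v := ⟨_, rfl⟩
  have xa : a • x = 2 • x := by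
    simp only [hx, smul_add, smul_comm a (_ : ℕ), ← mul_smul a a, aa, hω]
    linear_combination (norm := abel1) -hV (b • v) - 2 • hV v
  have xb : b • x = 2 • x := by
    simp only [hx, smul_add, smul_comm b (_ : ℕ), hc ab, ← mul_smul b b, bb, hω]
    linear_combination (norm := abel1) -hV (a • v) - 2 • hV v
  have xπ : π • x = -v := by
    have e : ∀ y ∈ E, ∀ l ∈ L, ¬ Commute l y → π • y • v = 0 := fun y hy l hl e =>
      hL.proj h hπ hy (fun e' => e (e'.2 l hl)) hv
    rw [hx, ← mul_smul]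
    simp only [smul_add, smul_comm π (_ : ℕ), e a ha s hs sa, e b hb t ht tb, hπ.id v hv,
      e _ (mul_mem ha hb) s hs fun e' => sa (((h.comm_mul hs' ha hb).1 e').2 sb)]
    linear_combination (norm := abel1) hV v
  have x0 : x ≠ 0 := fun e => h0 (by simpa [e] using xπ)
  have y0 : ∀ y : (En V)ˣ, y • x ≠ 0 := fun y => (smul_ne_zero_iff_ne y).2 x0
  have hF : ∀ y ∈ E, y • x = x → y = 1 ∨ y * a = b := by
    intro y hy e
    have e0 : ∀ c ∈ E, c • x = 2 • x → Commute c y := fun c hc' e' => by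
      by_contra e1
      have := hn hc' hy e1 x
      rw [e, e', smul_comm y, e] at this
      exact x0 (by linear_combination (norm := abel1) hV x - this)
    have e1 := e0 a ha xa
    have e2 := e0 b hb xb
    have e3 : ∀ c ∈ E, c • x = 2 • x → ¬ (y * c = 1 ∨ y * c = ω) := fun c hc' e' e'' => by
      have : (y * c) • x = 2 • x := by rw [mul_smul, e', smul_comm y, e]
      rcases e'' with e'' | e''
      · rw [e'', one_smul] at this
        exact x0 (by linear_combination (norm := abel1) -this)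
      · rw [e'', hω] at this
        exact x0 (by linear_combination (norm := abel1) -(2 • this) - hV x)
    by_cases e4 : Commute s y <;> by_cases e5 : Commute t y
    · exact Or.inl ((hZ y hy e1 e2 e4 e5).resolve_right fun e' => x0 (by
        rw [e', hω] at e
        linear_combination (norm := abel1) 2 • e + hV x))
    · exact absurd (hZ _ (mul_mem hy hb) (e1.mul_right ab) (e2.mul_right (Commute.refl b))
        (e4.mul_right sb) ((h.comm_mul ht' hy hb).2 (iff_of_false e5 tb))) (e3 b hb xb)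
    · exact absurd (hZ _ (mul_mem hy ha) (e1.mul_right (Commute.refl a)) (e2.mul_right ab.symm)
        ((h.comm_mul hs' hy ha).2 (iff_of_false e4 sa)) (e5.mul_right ta)) (e3 a ha xa)
    · rcases hZ _ (mul_mem (mul_mem hy ha) hb) ((e1.mul_right (Commute.refl a)).mul_right ab)
        ((e2.mul_right ab.symm).mul_right (Commute.refl b))
        (((h.comm_mul hs' hy ha).2 (iff_of_false e4 sa)).mul_right sb)
        ((h.comm_mul ht' (mul_mem hy ha) hb).2 (iff_of_false
          (fun e => e5 (((h.comm_mul ht' hy ha).1 e).2 ta)) tb)) with e' | e'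
      · have := congrArg (· • x) e'
        simp only [mul_smul, xb, xa, smul_comm _ (2 : ℕ), e, one_smul] at this
        exact absurd (by linear_combination (norm := abel1) 2 • this - hV x) x0
      · exact Or.inr (mul_right_cancel (e'.trans bb.symm))
  have as : ¬ Commute a s := fun e => sa e.symm
  have wa : a • (s • x + s • t • x) = -(2 • (s • x + s • t • x)) := by
    rw [smul_add, hn ha hs' as, hn ha hs' as, hc ta.symm, xa]
    simp only [smul_comm _ (2 : ℕ)]
    abel1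
  have wb : b • (s • x + s • t • x) = 2 • s • x - 2 • s • t • x := by
    rw [smul_add, hc sb.symm, hc sb.symm, hn hb ht' fun e => tb e.symm, xb]
    simp only [smul_comm _ (2 : ℕ), smul_neg]
    abel1
  refine ⟨x, s • x + s • t • x, x0, fun g hg hK e1 e2 => ?_⟩
  have hg1 : ∀ {y : (En V)ˣ} {u : V}, g • u = u → g • y • u = y • u → dl g y • u = u :=
    fun {y u} e e' => by
      rw [dl, mul_smul, mul_smul, mul_smul, inv_smul_eq_iff.2 e.symm, e', inv_smul_smul]
  have hg2 : ∀ {y : (En V)ˣ}, g * y * g⁻¹ = y → Commute g y := fun e => mul_inv_eq_iff_eq_mul.1 e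
  have hg3 : ∀ y : (En V)ˣ, g * y * g⁻¹ = y * dl g y := fun y => (mul_inv_cancel_left _ _).symm
  have ga : g * a * g⁻¹ = a := dl_eq_one ((hF _ (h.dl_mem hg ha)
    (hg1 e1 (by rw [xa, smul_comm, e1]))).resolve_right fun e => y0 s (by
      have e3 := hg1 (y := a) e2 (by rw [wa, smul_neg, smul_comm, e2])
      rw [← e, mul_smul, wa, smul_neg, smul_comm, e3] at wb
      linear_combination (norm := abel1) wb + hV (s • x)))
  have gb : g * b * g⁻¹ = b := dl_eq_one ((hF _ (h.dl_mem hg hb)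
    (hg1 e1 (by rw [xb, smul_comm, e1]))).resolve_right fun e => sa (by
      have : g * b * g⁻¹ = g * a * g⁻¹ := by
        rw [hg3, ga, eq_mul_inv_of_mul_eq e, ← mul_assoc, bb, ← aa, mul_inv_cancel_right]
      rwa [← mul_left_cancel (mul_right_cancel this)]))
  have e3 := hc (hg2 gb) (s • x + s • t • x)
  rw [e2, wb, smul_sub, smul_comm g (2 : ℕ), smul_comm g (2 : ℕ)] at e3
  rw [smul_add] at e2
  have gs : g * s * g⁻¹ = s := dl_eq_one ((hF _ (h.dl_mem hg hs') (hg1 e1 (by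
    linear_combination (norm := abel1) -e3 - 2 • e2 + hV (g • s • x) - hV (s • x)))).resolve_right
      fun e => h.ne_one (by
        have e4 : g * (s * s) * g⁻¹ = s * dl g s * (s * dl g s) := by rw [← hg3]; group
        have e5 : ¬ Commute (b * a⁻¹) s := fun e' => as (by
          simpa using (((h.comm_mul hs' hb (inv_mem ha)).1 e'.symm).1 sb).symm)
        rw [hL.Lh_sq h (hL.le_Lh h hs), eq_mul_inv_of_mul_eq e, mul_assoc s, ← mul_assoc _ s,
          h.anti (mul_mem hb (inv_mem ha)) hs' e5, mul_assoc ω, mul_assoc s, ← sq,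
          ab.symm.inv_right.mul_pow, inv_pow, sq, sq, aa, bb, mul_inv_cancel, mul_one, mul_one,
          h.zc (mem_zpowers ω) hs', ← mul_assoc, hL.Lh_sq h (hL.le_Lh h hs)] at e4
        simpa using e4.symm))
  have gst : g * (s * t) * g⁻¹ = s * t := dl_eq_one ((hF _ (h.dl_mem hg (mul_mem hs' ht')) (hg1 e1 (by
    rw [mul_smul]
    linear_combination (norm := abel1) e3 - 2 • e2 + hV (g • s • t • x) - hV (s • t • x)))).resolve_right
      fun e => sa (by
        have e4 := (Commute.conj_iff g).2 ((Commute.refl s).mul_right st)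
        rw [gs, hg3, eq_mul_inv_of_mul_eq e] at e4
        simpa using ((h.comm_mul hs' hb (inv_mem ha)).1 (((h.comm_mul hs' (mul_mem hs' ht')
          (mul_mem hb (inv_mem ha))).1 e4).1 ((Commute.refl s).mul_right st))).1 sb))
  have gs := hg2 gs
  have gt : Commute g t := by simpa using gs.inv_right.mul_right (hg2 gst)
  have gD : ∀ d ∈ Dn E L, Commute g d := fun d hd => by
    have e4 : ∀ d ∈ Dn E L, Commute a d → Commute b d → Commute g d := fun d hd e e' => by
      rcases hZ d hd.1 e e' (hd.2 s hs) (hd.2 t ht) with rfl | rfl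
      · exact Commute.one_right g
      · exact Units.ext (cn_eq_iff.1 (hK _ h.ωK))
    have e5 : ∀ d ∈ Dn E L, Commute a d → Commute g d := fun d hd e => by
      by_cases e' : Commute b d
      · exact e4 d hd e e'
      · simpa using (e4 _ (mul_mem hd (hL.le_D h ht)) (e.mul_right ta.symm)
          ((h.comm_mul hb hd.1 ht').2 (iff_of_false e' fun e => tb e.symm))).mul_right gt.inv_right
    by_cases e : Commute a d
    · exact e5 d hd e
    · simpa using (e5 _ (mul_mem hd (hL.le_D h hs))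
        ((h.comm_mul ha hd.1 hs').2 (iff_of_false e as))).mul_right gs.inv_right
  have gE : ∀ y ∈ E, Commute g y := fun y hy => by
    obtain ⟨d, hd, rfl | rfl | rfl | rfl⟩ := hall y hy
    exacts [gD _ hd, (hg2 ga).mul_right (gD d hd), (hg2 gb).mul_right (gD d hd),
      ((hg2 ga).mul_right (hg2 gb)).mul_right (gD d hd)]
  have gπ : cn g π = π := alg_ind (p := fun a => cn g a = a) (fun c hc x hx => by
    rw [map_mul, hK c hc, cn_eq_iff.2 (congrArg Units.val (gE x hx))]) (map_zero _)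
    (fun _ _ e e' => by rw [map_add, e, e']) (fun _ e => by rw [map_neg, e]) hπ.mem
  have gv := cn_smul g π x
  rw [gπ, e1, xπ, smul_neg, neg_inj] at gv
  refine hL.eq_one h (fun u hu => ?_) (fun y hy => mul_inv_eq_iff_eq_mul.2 (gE y hy)) hg
  obtain ⟨n, rfl⟩ := h1 u hu
  rw [smul_comm, ← gv]

end Cfsg.Agent.H1.BS
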