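import Cfsg.Agent.H1.BS12

/-! Base sizes of solvable linear groups: the primitive case. -/

set_option autoImplicit false

namespace Cfsg.Agent.H1.BS

open Subgroup Finset
open scoped commutatorElement

universe v

variable {V : Type v} [AddCommGroup V] [Finite V] {G E L : Subgroup (En V)ˣ} {K : Subring (En V)}
  {ω : (En V)ˣ} {r : ℕ}

lemma Fld.scalar_case (hK : Fld G K)
    (h : ¬ ∃ g ∈ G, g ∈ centralizer (un K : Set (En V)ˣ) ∧ g ∉ un K) :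
    ∃ t : Fin 2 → V, Reg G t := by
  obtain ⟨v, hv⟩ := (have := hK.nt; exists_ne (0 : V))
  obtain ⟨k, hk⟩ := hK.exists_gen
  have hkK : (k : En V) ∈ K := (hk ▸ mem_zpowers k : k ∈ un K)
  refine ⟨![v, (k : En V) • v], fun g hg ht => ?_⟩
  have h1 : g • v = v := ht 0
  have h2 : g • (k : En V) • v = (k : En V) • v := ht 1
  rw [← cn_smul, h1] at h2
  by_contra h3
  exact h ⟨g, hg, fun u hu => Units.ext (cn_eq_iff.1 (hK.centralizes hk
    (hK.eq_of_smul (hK.stab g hg _ hkK) hkK hv h2) hu)).symm, fun e => h3 (hK.un_eq_one e hv h1)⟩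

section Col

variable [hr : Fact r.Prime] (h : Ext G K E ω r) (hL : Mx E L) (Q : Quo E (Dn E L))
include h hL

lemma Mx.nsmul_X (m : Q.X) : r • m = 0 := Q.nsmul_eq_zero (fun x hx => hL.z_D h (h.pw x hx)) m

theorem Mx.two_col (hs : Group.IsSolvable G) {ι : Type} {v : V} (hv : v ∈ Fx L) (h0 : v ≠ 0)
    (u : ι → V) (hu : ∀ i, u i ∈ Fx L) (c : Fin 3 → ι → V) (hc : ∀ k i, c k i ∈ Fx L)
    (sep : ∀ k k', ∀ d ∈ Dn E L, (∀ i, d • c k i = c k' i) → k = k') (c0 : c 0 ≠ 0) (c2 : c 2 ≠ 0)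
    (c1 : c 1 ≠ 0 ∨ Nat.card Q.X ≠ 4) : ∃ w : ι → V, ∀ g ∈ G, g • v = v → (∀ i, g • w i = w i) →
      ((∀ i, g • u i = u i) → ∀ x ∈ Fx L, g • x = x) → g = 1 := by
  classical
  obtain ⟨A, B, hAB, h1, h2⟩ := col_two (hL.nsmul_X h Q) (img_solv' Q.R hs Q.R_ker)
  obtain ⟨w, hw⟩ := hL.block h Q hv h0 u hu (fun m => if m ∈ A then 0 else if m ∈ B then 1 else 2)
    c hc sep
  refine ⟨w, fun g hg e1 e2 e3 => ?_⟩
  obtain ⟨e4, e5⟩ := hw g hg e1 e2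
  obtain ⟨φ, hφ, e6, e7⟩ := e5 (e3 e4)
  have e8 := e7 (h2 φ (mem_img.2 ⟨g, hg, hφ⟩) (fun x hx => by
    by_cases e : x = 0
    · simpa [e] using hx
    have := e6 x e
    rw [if_pos hx] at this
    split_ifs at this <;> first | assumption | cases this) fun x hx => by
    by_cases e : x = 0
    · simpa [e] using hx
    have := e6 x e
    rw [if_neg (Set.disjoint_right.1 hAB hx), if_pos hx] at this
    split_ifs at this <;> first | assumption | cases this)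
  refine hL.eq_one h (e3 e4) ?_ hg
  by_cases e : c 1 = 0
  · exact hL.diag h Q hg (h1.resolve_right (c1.resolve_left (not_not.2 e))) fun x hx e =>
      (e8 x hx).2 (Or.inr (by split_ifs; exacts [c0, c2]))
  · exact hL.diag h Q hg (B := ∅) (by simpa using hr.out.one_lt) fun x hx _ =>
      (e8 x hx).2 (Or.inr (by split_ifs; exacts [c0, e, c2]))

theorem Mx.one_col {v u : V} (hv : v ∈ Fx L) (h0 : v ≠ 0) (hu : u ∈ Fx L) (Z : Set Q.X) :
    ∃ w : V, ∀ g ∈ G, g • v = v → g • w = w → (g • u = u → ∀ x ∈ Fx L, g • x = x) →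
      (∀ x ∈ Fx L, g • x = x) ∧ ∃ φ ∈ img Q.R G, (∀ m ∈ Z, φ • m ∈ Z) ∧
        (φ = 1 → ∀ x ∈ E, Q.cl x ∉ Z → dl g x ∈ L) := by
  classical
  obtain ⟨w, hw⟩ := hL.block h Q hv h0 (fun _ : Unit => u) (fun _ => hu) (· ∈ Z)
    (fun k _ => if k then 0 else v) (fun k _ => by split_ifs; exacts [zero_mem _, hv])
    fun k k' d _ e => by
      have := e ()
      by_cases hk : k <;> by_cases hk' : k' <;> simp_all [smul_eq_zero_iff_eq]
  refine ⟨w (), fun g hg e1 e2 e3 => ?_⟩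
  obtain ⟨e4, e5⟩ := hw g hg e1 fun _ => e2
  obtain ⟨φ, hφ, e6, e7⟩ := e5 (e3 (e4 ()))
  refine ⟨e3 (e4 ()), φ, mem_img.2 ⟨g, hg, hφ⟩, fun m hm => ?_, fun e x hx e' =>
    (e7 e x hx).2 (Or.inr fun e => h0 (by simpa [e'] using congrFun e ()))⟩
  by_cases e : m = 0
  · simpa [e] using hm
  · exact e6 m e ▸ hm

end Col

omit [Finite V] in
lemma sep_three {D : Subgroup (En V)ˣ} {a b c : V} (h1 : ∀ d ∈ D, d • a ≠ b)
    (h2 : ∀ d ∈ D, d • a ≠ c) (h3 : ∀ d ∈ D, d • b ≠ c) (k k' : Fin 3) (d : (En V)ˣ) (hd : d ∈ D)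
    (e : ∀ _ : Unit, d • ![a, b, c] k = ![a, b, c] k') : k = k' := by
  have e := e ()
  have e' := inv_smul_eq_iff.2 e.symm
  have hd' := inv_mem hd
  fin_cases k <;> fin_cases k'
  exacts [rfl, absurd e (h1 _ hd), absurd e (h2 _ hd), absurd e' (h1 _ hd'), rfl,
    absurd e (h3 _ hd), absurd e' (h2 _ hd'), absurd e' (h3 _ hd'), rfl]

lemma three_orb {D : Subgroup (En V)ˣ} {W : AddSubgroup V} {s : ℕ}
    (h : ∀ u ∈ W, {x | ∃ d ∈ D, d • u = x}.ncard ≤ s) (hs : 2 * s + 1 < Nat.card W) :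
    ∃ a ∈ W, ∃ b ∈ W, ∃ c ∈ W, a ≠ 0 ∧ b ≠ 0 ∧ c ≠ 0 ∧ (∀ d ∈ D, d • a ≠ b) ∧
      (∀ d ∈ D, d • a ≠ c) ∧ ∀ d ∈ D, d • b ≠ c := by
  have h1 : ∀ a ∈ W, ∀ b ∈ W, ∃ c ∈ W, c ≠ 0 ∧ (∀ d ∈ D, d • a ≠ c) ∧ ∀ d ∈ D, d • b ≠ c := by
    intro a ha b hb
    obtain ⟨c, hc, e⟩ := Set.exists_mem_notMem_of_ncard_lt_ncard (t := W)
      (s := insert 0 ({x | ∃ d ∈ D, d • a = x} ∪ {x | ∃ d ∈ D, d • b = x}))
      ((Set.ncard_insert_le _ _).trans_lt (by
        have := Set.ncard_union_le {x | ∃ d ∈ D, d • a = x} {x | ∃ d ∈ D, d • b = x}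
        have := h a ha
        have := h b hb
        rw [← Nat.card_coe_set_eq (W : Set V), SetLike.coe_sort_coe]
        omega))
    exact ⟨c, hc, fun e' => e (Or.inl e'), fun d hd e' => e (Or.inr (Or.inl ⟨d, hd, e'⟩)),
      fun d hd e' => e (Or.inr (Or.inr ⟨d, hd, e'⟩))⟩
  obtain ⟨a, ha, a0, -⟩ := h1 0 W.zero_mem 0 W.zero_mem
  obtain ⟨b, hb, b0, e1, -⟩ := h1 a ha a ha
  obtain ⟨c, hc, c0, e2, e3⟩ := h1 a ha b hb
  exact ⟨a, ha, b, hb, c, hc, a0, b0, c0, e1, e2, e3⟩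

theorem prim_three (hG : Irr G) (hs : Group.IsSolvable G) (hb : ∀ e, ¬ Blk G e)
    (IH : ∀ (W : Type v) [AddCommGroup W] [Finite W] (H : Subgroup (En W)ˣ),
      Nat.card W < Nat.card V → Group.IsSolvable H → Irr H → ∃ t : Fin 3 → W, Reg H t) :
    ∃ t : Fin 3 → V, Reg G t := by
  obtain ⟨K, hK⟩ := exists_fld hG hb
  by_cases hc : ∃ g ∈ G, g ∈ centralizer (un K : Set (En V)ˣ) ∧ g ∉ un K
  swap
  · obtain ⟨t, ht⟩ := hK.scalar_case hc
    exact ⟨Fin.cons 0 t, fun g hg e => ht g hg fun i => e i.succ⟩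
  obtain ⟨r, E, ω, hr, h, -⟩ := exists_ext hK hs hc
  have := Fact.mk hr
  have := hG.nt
  obtain ⟨L, hL⟩ := exists_mx E
  obtain ⟨Q⟩ := hL.nonempty_quo h
  obtain ⟨v, hv, h0, u, hu, h1⟩ := hL.loc_three h hG fun ε hε =>
    IH _ _ (card_lt_of_ne_top (hε.ne_top h)) (hε.solv h hs) (hε.irr h hG)
  obtain ⟨w, hw⟩ := hL.two_col h Q hs hv h0 u hu ![![v, 0], ![0, v], ![v, v]]
    (fun k i => by fin_cases k <;> fin_cases i <;> first | exact hv | exact zero_mem _)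
    (fun k k' d _ e => by
      have e0 := e 0
      have e1 := e 1
      fin_cases k <;> fin_cases k' <;> simp_all [smul_eq_zero_iff_eq])
    (fun e => h0 (congrFun e 0)) (fun e => h0 (congrFun e 0)) (Or.inl fun e => h0 (congrFun e 1))
  exact ⟨Fin.cons v w, fun g hg e => hw g hg (e 0) (fun i => e i.succ) (h1 g hg (e 0))⟩

theorem prim_odd (hG : Irr G) (hs : Group.IsSolvable G) (h2 : Cop 2 G) (hb : ∀ e, ¬ Blk G e)
    (IH : ∀ (W : Type v) [AddCommGroup W] [Finite W] (H : Subgroup (En W)ˣ),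
      Nat.card W < Nat.card V → Group.IsSolvable H → Cop 2 H → Irr H → ∃ t : Fin 2 → W, Reg H t) :
    ∃ t : Fin 2 → V, Reg G t := by
  obtain ⟨K, hK⟩ := exists_fld hG hb
  by_cases hc : ∃ g ∈ G, g ∈ centralizer (un K : Set (En V)ˣ) ∧ g ∉ un K
  swap
  · exact hK.scalar_case hc
  obtain ⟨r, E, ω, hr, h, g, hg, h3, h4⟩ := exists_ext hK hs hc
  have hr2 : r ≠ 2 := by
    rintro rfl
    obtain ⟨m, hm⟩ := exists_pow_eq_self_of_coprime (h2 g hg).symm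
    exact h3 (hm ▸ pow_mem h4 m)
  have := Fact.mk hr
  have := hG.nt
  obtain ⟨L, hL⟩ := exists_mx E
  obtain ⟨Q⟩ := hL.nonempty_quo h
  obtain ⟨v, hv, h0, u, hu, h1⟩ := hL.loc_odd h hG hr2 h2 hs IH
  obtain ⟨Z, h5, h6⟩ := col_odd (hL.nsmul_X h Q) hr2
  obtain ⟨w, hw⟩ := hL.one_col h Q hv h0 hu Z
  refine ⟨![v, w], fun g hg e => ?_⟩
  obtain ⟨e1, φ, hφ, e2, e3⟩ := hw g hg (e 0) (e 1) (h1 g hg (e 0))
  exact hL.eq_one h e1 (hL.diag h Q hg h5 (e3 ((img_cop' _ h2 Q.R_ker).eq_one' hφ (h6 φ e2)))) hg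

theorem prim_cop
    (hI : ∀ (X : Type v) [AddCommGroup X] [Finite X] (S : Subgroup (En X)ˣ), Group.IsSolvable S →
      Irr S → ∃ t : Fin 3 → X, Reg S t) {p : ℕ} [hp : Fact p.Prime] (hp2 : p ≠ 2)
    (hV : ∀ v : V, p • v = 0) (hG : Irr G) (hs : Group.IsSolvable G) (h2 : Cop p G)
    (hb : ∀ e, ¬ Blk G e)
    (IH : ∀ (W : AddSubgroup V) (H : Subgroup (En W)ˣ), W ≠ ⊤ → Group.IsSolvable H → Cop p H →
      Irr H → ∃ t : Fin 2 → W, Reg H t) : ∃ t : Fin 2 → V, Reg G t := by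
  obtain ⟨K, hK⟩ := exists_fld hG hb
  by_cases hc : ∃ g ∈ G, g ∈ centralizer (un K : Set (En V)ˣ) ∧ g ∉ un K
  swap
  · exact hK.scalar_case hc
  obtain ⟨r, E, ω, hr, h, -⟩ := exists_ext hK hs hc
  have := Fact.mk hr
  have := hG.nt
  obtain ⟨L, hL⟩ := exists_mx E
  obtain ⟨Q⟩ := hL.nonempty_quo h
  obtain ⟨v, hv, h0, u, hu, h1⟩ := hL.loc_cop h hV h2 fun ε hε =>
    IH _ _ (hε.ne_top h) (hε.solv h hs) (hε.cop h hV h2) (hε.irr h hG)
  have ho : ∀ n : ℕ, n • v = 0 → p ∣ n := fun n e =>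
    addOrderOf_eq_prime (hV v) h0 ▸ addOrderOf_dvd_of_nsmul_eq_zero e
  have key : ∀ a ∈ Fx L, ∀ b ∈ Fx L, ∀ c ∈ Fx L, a ≠ 0 → b ≠ 0 ∨ Nat.card Q.X ≠ 4 → c ≠ 0 →
      (∀ d ∈ Dn E L, d • a ≠ b) → (∀ d ∈ Dn E L, d • a ≠ c) → (∀ d ∈ Dn E L, d • b ≠ c) →
      ∃ t : Fin 2 → V, Reg G t := fun a ha b hb c hc a0 b0 c0 e1 e2 e3 => by
    obtain ⟨w, hw⟩ := hL.two_col h Q hs hv h0 (fun _ : Unit => u) (fun _ => hu)
      (fun k _ => ![a, b, c] k) (fun k _ => by fin_cases k; exacts [ha, hb, hc]) (sep_three e1 e2 e3)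
      (fun e => a0 (congrFun e ())) (fun e => c0 (congrFun e ()))
      (b0.imp_left fun b0 e => b0 (congrFun e ()))
    exact hK.galois hV h2 h0 (w := w ()) fun g hg e4 e5 e6 =>
      hw g hg e5 (fun _ => e6) fun e => h1 g hg e4 e5 (e ())
  by_cases hr2 : r = 2
  swap
  · refine key v hv 0 (zero_mem _) (-v) (neg_mem hv) h0 (Or.inr fun e => ?_) (neg_ne_zero.2 h0)
      (fun d _ => (smul_ne_zero_iff_ne d).2 h0) (fun d hd e => ?_)
      fun d _ => by simpa using h0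
    · obtain ⟨x, hx⟩ := exists_prime_addOrderOf_dvd_card' (G := Q.X) 2 (by simp [e])
      exact hr2 ((Nat.prime_dvd_prime_iff_eq Nat.prime_two hr).1
        (hx ▸ addOrderOf_dvd_of_nsmul_eq_zero (hL.nsmul_X h Q x))).symm
    · obtain ⟨n, hn⟩ := hr.odd_of_ne_two hr2
      have e1 : d ^ 2 ∈ MulAction.stabilizer _ v := by
        rw [MulAction.mem_stabilizer_iff, sq, mul_smul, e, smul_neg, e, neg_neg]
      have e2 : (d ^ 2) ^ n • v = v := pow_mem e1 n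
      rw [← pow_mul, ← smul_left_cancel_iff d, ← mul_smul, ← pow_succ', ← hn, h.pw' hr2 d hd.1, e,
        one_smul, eq_neg_iff_add_eq_zero, ← two_nsmul] at e2
      exact hp2 ((Nat.prime_dvd_prime_iff_eq hp.out Nat.prime_two).1 (ho 2 e2))
  subst hr2
  by_cases hp3 : p = 3
  · subst hp3
    obtain ⟨Z, h5, h6, h7⟩ := col_three hI (hL.nsmul_X h Q) (img_solv' Q.R hs Q.R_ker)
      (img_cop' _ h2 Q.R_ker)
    obtain ⟨w, hw⟩ := hL.one_col h Q hv h0 hu Z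
    refine hK.galois hV h2 h0 (w := w) fun g hg e4 e5 e6 => ?_
    obtain ⟨e1, φ, hφ, e2, e3⟩ := hw g hg e5 e6 (h1 g hg e4 e5)
    exact hL.eq_one h e1 (hL.diag_three h Q h2 hg h5 h6 (e3 (h7 φ hφ e2))) hg
  have hp5 : 5 ≤ p := hp.out.five_le_of_ne_two_of_ne_three hp2 hp3
  rcases hL.cases h hV with hD | ⟨-, ε, k, hM⟩
  swap
  · obtain ⟨a, ha, b, hb, c, hc, a0, b0, c0, e⟩ := three_orb hM.orb
      (lt_of_lt_of_le (by nlinarith) (hM.card hV))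
    exact key a ha b hb c hc a0 (Or.inl b0) c0 e.1 e.2.1 e.2.2
  have h3 : ∀ d ∈ Dn E L, ∀ x ∈ Fx L, d • x = x ∨ d • x = -x := fun d hd x hx => by
    obtain ⟨z, hz, e⟩ := hL.Lh_smul h (hD hd)
    rcases mem_zpowers_two h.ord hz with rfl | rfl
    · exact Or.inl ((e x hx).trans (one_smul _ _))
    · exact Or.inr (by rw [e x hx, Units.smul_def, h.coe_eq, neg_one_smul])
  by_cases h4 : 5 < Nat.card (Fx L)
  · obtain ⟨a, ha, b, hb, c, hc, a0, b0, c0, e⟩ := three_orb (D := Dn E L) (s := 2) (fun x hx =>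
      (Set.ncard_le_ncard (t := {x, -x}) (by rintro _ ⟨d, hd, rfl⟩; exact h3 d hd x hx)).trans
        ((Set.ncard_insert_le _ _).trans (by simp))) h4
    exact key a ha b hb c hc a0 (Or.inl b0) c0 e.1 e.2.1 e.2.2
  by_cases h5 : Nat.card Q.X = 4
  · have h6 : Nat.card (AddSubgroup.zmultiples v) = p := by
      rw [Nat.card_zmultiples, addOrderOf_eq_prime (hV v) h0]
    have h7 := AddSubgroup.zmultiples_le.2 hv
    obtain rfl : p = 5 := by have := AddSubgroup.card_le_of_le h7; omega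
    obtain ⟨x, w, x0, e⟩ := hL.special h hD Q h5 hV hv h0 fun u hu => by
      rw [← AddSubgroup.eq_of_le_of_card_ge h7 (by omega)] at hu
      exact hu.imp fun _ e => e.symm
    exact hK.galois hV h2 x0 e
  have h6 : ∀ n : ℕ, 0 < n → n < 5 → n • v ≠ 0 := fun n h h' e =>
    absurd (Nat.le_of_dvd h (ho n e)) (by omega)
  refine key v hv 0 (zero_mem _) (2 • v) (nsmul_mem hv 2) h0 (Or.inr h5) (h6 2 two_pos (by omega))
    (fun d _ => (smul_ne_zero_iff_ne d).2 h0) (fun d hd e => ?_)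
    fun d _ => by simpa using (h6 2 two_pos (by omega)).symm
  rcases h3 d hd v hv with e' | e' <;> rw [e'] at e
  · exact h0 (by linear_combination (norm := abel1) -e)
  · exact h6 3 three_pos (by omega) (by linear_combination (norm := abel1) -e)

end Cfsg.Agent.H1.BS
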