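import Cfsg.Agent.H1.BS13
import Cfsg.Agent.H9.Burnside

/-! Base sizes of solvable linear groups: the main theorems. -/

set_option autoImplicit false

namespace Cfsg.Agent.H1.BS

open Subgroup Finset
open scoped commutatorElement Pointwise

universe v

section Orbits

variable {W : Type v} [AddCommGroup W] {H : Subgroup (En W)ˣ}

/-- Elementary operations on triples. -/
def el (W : Type v) [AddCommGroup W] (i j : Fin 3) : Equiv.Perm (Fin 3 → W) :=
  if h : i = j then 1 else ⟨fun s => s + Pi.single i (s j), fun s => s - Pi.single i (s j),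
    fun s => by simp [Ne.symm h], fun s => by simp [Ne.symm h]⟩

lemma el_apply {i j : Fin 3} (h : i ≠ j) (s : Fin 3 → W) : el W i j s = s + Pi.single i (s j) := by
  rw [el, dif_neg h]; rfl

lemma el_comm {i j k : Fin 3} (h1 : i ≠ j) (h2 : i ≠ k) (h3 : k ≠ j) :
    el W i j = ⁅el W i k, el W k j⁆ := by
  rw [commutatorElement_def, eq_mul_inv_iff_mul_eq, eq_mul_inv_iff_mul_eq]
  refine Equiv.ext fun s => ?_
  simp [el_apply, h1, h2, h3, h1.symm, h3.symm, Pi.single_add]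
  abel

lemma five_orb [Finite W] [Nontrivial W] (hs : Group.IsSolvable H) {t : Fin 3 → W} (ht : Reg H t) :
    ∃ T : Fin 5 → Fin 3 → W, (∀ c, Reg H (T c)) ∧
      ∀ c c', ∀ φ ∈ H, (∀ i, φ • T c i = T c' i) → c = c' := by
  obtain ⟨t, ht, h0⟩ := ht.exists_ne
  let Γ := centralizer ((MulAction.toPerm (β := Fin 3 → W)) '' (H : Set (En W)ˣ))
  have h1 : ∀ σ : Γ, ∀ φ ∈ H, ∀ s, σ.1 (φ • s) = φ • σ.1 s := fun σ φ hφ s =>
    (DFunLike.congr_fun (σ.2 _ ⟨φ, hφ, rfl⟩) s).symm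
  let Ω : SubMulAction Γ (Set (Fin 3 → W)) := ⟨{S | ∃ s, Reg H s ∧ S = MulAction.orbit H s}, by
    rintro σ _ ⟨s, hs, rfl⟩
    refine ⟨σ.1 s, fun φ hφ e => hs φ hφ (congrFun (σ.1.injective ((h1 σ φ hφ s).trans (funext e)))),
      Set.ext fun x => ⟨?_, ?_⟩⟩
    · rintro ⟨_, ⟨φ, rfl⟩, rfl⟩
      exact ⟨φ, (h1 σ φ φ.2 s).symm⟩
    · rintro ⟨φ, rfl⟩
      exact ⟨_, ⟨φ, rfl⟩, h1 σ φ φ.2 s⟩⟩
  by_cases h5 : 5 ≤ Nat.card Ω
  · have := Fintype.ofFinite Ω
    obtain ⟨f⟩ := Function.Embedding.nonempty_of_card_le (α := Fin 5) (β := Ω) (by simpa using h5)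
    choose T h2 h3 using fun c => (f c).2
    refine ⟨T, h2, fun c c' φ hφ e => f.injective (Subtype.ext ?_)⟩
    rw [h3, h3, ← funext e]
    exact (MulAction.orbit_smul (⟨φ, hφ⟩ : H) _).symm
  have h2 : ∀ i j, el W i j ∈ Γ := fun i j => by
    rintro _ ⟨φ, -, rfl⟩
    by_cases h : i = j
    · simp [el, h]
    · exact Equiv.ext fun s => by simp [el_apply h, Pi.single_smul]
  have h3 : Group.IsSolvable (Equiv.Perm Ω) := H9.burnside_pq (a := 3) (b := 1) Nat.prime_two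
    Nat.prime_three (by rw [Nat.card_perm]; exact Nat.factorial_dvd_factorial (n := 4) (by omega))
  have h4 : ∀ i j, i ≠ j → ∃ φ ∈ H, el W i j (φ • t) = t := fun i j h => by
    have := elem_eq_one (G := ⊤) inferInstance (fun i j => MulAction.toPermHom Γ Ω ⟨_, h2 i j⟩)
      (fun _ _ _ => trivial) (fun i j k h h' h'' => by
        rw [← map_commutatorElement]; exact congrArg _ (Subtype.ext (el_comm h h' h''))) h
    have := congrArg Subtype.val (DFunLike.congr_fun this ⟨_, t, ht, rfl⟩)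
    obtain ⟨_, ⟨φ, rfl⟩, e⟩ := this.ge (MulAction.mem_orbit_self t)
    exact ⟨φ, φ.2, e⟩
  choose! a ha e using h4
  have h7 : ∀ i j, i ≠ j → a i j • t = (el W i j)⁻¹ t := fun i j h =>
    (Equiv.Perm.eq_inv_iff_eq.2 (e i j h))
  have h8 : ∀ i j, i ≠ j → (a i j)⁻¹ • t = el W i j t := fun i j h => by
    rw [inv_smul_eq_iff, ← h1 ⟨_, h2 i j⟩ _ (ha i j h), e i j h]
  have := elem_eq_one hs a ha (fun i j k h h' h'' => by
    have hk := ha i k h'
    have hj := ha k j h''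
    refine mul_inv_eq_one.1 (ht _ (mul_mem (ha i j h) (inv_mem (mul_mem (mul_mem (mul_mem hk hj)
      (inv_mem hk)) (inv_mem hj)))) (congrFun (f := (a i j * _) • t) ?_))
    rw [mul_smul, ← eq_inv_smul_iff, h8 i j h, el_comm h h' h'']
    simp only [mul_inv_rev, inv_inv, mul_smul, commutatorElement_def, Equiv.Perm.mul_apply]
    rw [h8 i k h', ← h1 ⟨_, h2 i k⟩ _ (inv_mem hj), h8 k j h'', ← h1 ⟨_, h2 i k⟩ _ hk,
      ← h1 ⟨_, h2 k j⟩ _ hk, h7 i k h', ← h1 ⟨_, h2 i k⟩ _ hj, ← h1 ⟨_, h2 k j⟩ _ hj,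
      ← h1 ⟨_, inv_mem (h2 i k)⟩ _ hj, h7 k j h'']) (i := 1) (j := 0) (by decide)
  have h9 := congrFun (e 1 0 (by decide)) 1
  rw [this, one_smul, el_apply (by decide)] at h9
  exact absurd (by simpa using h9) h0

lemma cop_orb [Nontrivial W] {p n : ℕ} [Fact p.Prime] (hn : n ≤ p) (hV : ∀ v : W, p • v = 0)
    (hc : Cop p H) {t : Fin 2 → W} (ht : Reg H t) : ∃ T : Fin n → Fin 2 → W, (∀ c, Reg H (T c)) ∧
      ∀ c c', ∀ φ ∈ H, (∀ i, φ • T c i = T c' i) → c = c' := by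
  obtain ⟨t, ht, h0⟩ := ht.exists_ne
  refine ⟨fun c => ![t 0, t 1 + c.1 • t 0], fun c φ hφ e => ht φ hφ fun i => ?_,
    fun c c' φ hφ e => ?_⟩ <;> have e0 : φ • t 0 = t 0 := e 0
  · have e1 : φ • (t 1 + c.1 • t 0) = t 1 + c.1 • t 0 := e 1
    fin_cases i
    exacts [e0, by simpa [smul_comm φ, e0] using e1]
  have e1 : φ • (t 1 + c.1 • t 0) = t 1 + c'.1 • t 0 := e 1
  rw [smul_add, smul_comm, e0] at e1
  have h7 : ∀ m : ℕ, φ ^ m • t 1 + m • c.1 • t 0 = t 1 + m • c'.1 • t 0 := fun m => by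
    induction m with
    | zero => simp
    | succ m ih =>
      have := congrArg (φ • ·) ih
      simp only [smul_add, smul_comm φ (_ : ℕ), e0] at this
      rw [pow_succ', mul_smul, succ_nsmul, succ_nsmul]
      linear_combination (norm := abel1) this + e1
  obtain rfl := hc.eq_one' hφ (ht _ (pow_mem hφ p) fun i => by
    fin_cases i
    exacts [(MulAction.stabilizer _ (t 0)).pow_mem e0 p, by simpa [hV] using h7 p])
  have := addOrderOf_eq_prime (hV (t 0)) h0
  exact Fin.ext (nsmul_injOn_Iio_addOrderOf (x := t 0) (this ▸ c.2.trans_le hn)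
    (this ▸ c'.2.trans_le hn) (by simpa using e1))

lemma odd_orb [Nontrivial W] (hc : Cop 2 H) {t : Fin 2 → W} (ht : Reg H t) :
    ∃ T : Fin 2 → Fin 2 → W, (∀ c, Reg H (T c)) ∧
      ∀ c c', ∀ φ ∈ H, (∀ i, φ • T c i = T c' i) → c = c' := by
  obtain ⟨t, ht, h0⟩ := ht.exists_ne
  obtain ⟨v, w, h1, h2⟩ : ∃ v w : W, v ≠ w ∧ ∀ φ ∈ H, φ • v = v → φ • w = w → φ = 1 := by
    by_cases e : t 0 = t 1
    · exact ⟨t 0, 0, h0, fun φ hφ e0 _ => ht φ hφ fun i => by fin_cases i; exacts [e0, e ▸ e0]⟩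
    · exact ⟨t 0, t 1, e, fun φ hφ e0 e1 => ht φ hφ fun i => by fin_cases i; exacts [e0, e1]⟩
  have h3 : ∀ φ ∈ H, φ • v = w → φ • w ≠ v := fun φ hφ e e' => h1 (by
    rw [← e, hc.eq_one' hφ (h2 _ (pow_mem hφ 2) (by rw [sq, mul_smul, e, e'])
      (by rw [sq, mul_smul, e', e])), one_smul])
  refine ⟨![![v, w], ![w, v]], fun c φ hφ e => ?_, fun c c' φ hφ e => ?_⟩
  · fin_cases c
    exacts [h2 φ hφ (e 0) (e 1), h2 φ hφ (e 1) (e 0)]
  · fin_cases c <;> fin_cases c'
    exacts [rfl, absurd (e 1) (h3 φ hφ (e 0)), absurd (e 0) (h3 φ hφ (e 1)), rfl]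

lemma aff_five {t : Fin 3 → W} (ht : Reg H t) : ∃ col : W → Fin 5,
    ∀ φ ∈ H, ∀ a, (∀ x, col (φ • x + a) = col x) → φ = 1 ∧ a = 0 := by
  classical
  let col : W → Fin 5 := fun x => if x = 0 then 0 else if x = t 0 then 1 else if x = t 1 then 2
    else if x = t 2 then 3 else 4
  have h1 : ∀ x y, col x = col y → col y ≠ 4 → x = y := fun x y => by
    simp only [col]; split_ifs <;> simp_all
  refine ⟨col, fun φ hφ a e => ?_⟩
  obtain rfl : a = 0 := by simpa using h1 _ _ (e 0) (by simp [col])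
  exact ⟨ht φ hφ fun i => by
    simpa using h1 _ _ (e (t i)) (by fin_cases i <;> simp only [col] <;> split_ifs <;> simp_all), rfl⟩

lemma aff_three {Z : Set W} (hZ : ∀ φ ∈ H, (∀ x ∈ Z, φ • x ∈ Z) → φ = 1) : ∃ col : W → Fin 3,
    ∀ φ ∈ H, ∀ a, (∀ x, col (φ • x + a) = col x) → φ = 1 ∧ a = 0 := by
  classical
  refine ⟨fun x => if x = 0 then 0 else if x ∈ Z then 1 else 2, fun φ hφ a e => ?_⟩
  obtain rfl : a = 0 := by
    have := e 0
    simp only [smul_zero, zero_add, if_true] at this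
    split_ifs at this <;> first | assumption | cases this
  refine ⟨hZ φ hφ fun x hx => ?_, rfl⟩
  by_cases h : x = 0
  · simpa [h] using hx
  have := e x
  simp only [add_zero, if_neg h, if_pos hx] at this
  split_ifs at this <;> first | assumption | cases this

set_option maxHeartbeats 1000000 in
lemma aff_two [Finite W] [Nontrivial W] (hc : Cop 2 H) (hW : ∀ x : W, (addOrderOf x).Coprime 2)
    {t : Fin 2 → W} (ht : Reg H t) : ∃ col : W → Fin 2,
    ∀ φ ∈ H, ∀ a, (∀ x, col (φ • x + a) = col x) → φ = 1 ∧ a = 0 := by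
  classical
  obtain ⟨t, ht, h0⟩ := ht.exists_ne
  have h4 : ∀ x : W, 4 • x = 0 → x = 0 := fun x e => AddMonoid.addOrderOf_eq_one_iff.1
    (((hW x).pow_right 2).eq_one_of_dvd (addOrderOf_dvd_of_nsmul_eq_zero e))
  have h2 : ∀ x : W, x ≠ 0 → x ≠ -x := fun x h e => h (h4 x (by
    linear_combination (norm := abel1) 2 • e))
  obtain ⟨v, w, hv, hw, h1⟩ : ∃ v w : W, v ≠ 0 ∧ w ≠ 0 ∧ ∀ φ ∈ H, φ • v = v → φ • w = w → φ = 1 := by
    by_cases e : t 1 = 0
    · exact ⟨t 0, t 0, h0, h0, fun φ hφ e0 _ => ht φ hφ fun i => by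
        fin_cases i; exacts [e0, by simp [e]]⟩
    · exact ⟨t 0, t 1, h0, e, fun φ hφ e0 e1 => ht φ hφ fun i => by fin_cases i; exacts [e0, e1]⟩
  let D : Finset W := {v, -v, w, -w}
  refine ⟨fun x => if x ∈ D then 0 else 1, fun φ hφ a e => ?_⟩
  have h3 : ∀ x, x ∈ D ↔ φ • x + a ∈ D := fun x => by
    have := e x
    dsimp only at this
    split_ifs at this <;> simp_all
  have h5 : ∑ x ∈ D, x = 0 := h4 _ (by
    have := sum_equiv (s := D) (t := D) (f := fun x => x) (g := fun x => -x) (Equiv.neg W)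
      (fun x => by simp [D, neg_eq_iff_eq_neg]; tauto) (by simp)
    rw [sum_neg_distrib] at this
    linear_combination (norm := abel1) 2 • this)
  obtain rfl : a = 0 := h4 a (by
    have := sum_equiv (s := D) (t := D) (f := fun x => φ • x + a) (g := fun x => x)
      ((MulAction.toPerm φ).trans (Equiv.addRight a)) h3 fun _ _ => rfl
    rw [sum_add_distrib, ← smul_sum, h5, smul_zero, zero_add, sum_const] at this
    obtain ⟨c, hc⟩ : D.card ∣ 4 := by
      by_cases e1 : w = v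
      · rw [show D = {v, -v} by ext; simp [D, e1], card_pair (h2 v hv)]; decide
      by_cases e2 : w = -v
      · rw [show D = {v, -v} by ext; simp [D, e2]; tauto, card_pair (h2 v hv)]; decide
      rw [card_insert_of_notMem (by simp [h2 v hv, Ne.symm e1, ← neg_eq_iff_eq_neg, Ne.symm e2]),
        card_insert_of_notMem (by simp [Ne.symm e1, Ne.symm e2]), card_pair (h2 w hw)]
    rw [hc, mul_nsmul, this, smul_zero])
  have h6 : ∀ v w : W, φ • v ∈ ({v, -v, w, -w} : Finset W) → φ • w ∈ ({v, -v, w, -w} : Finset W) →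
      φ ^ 2 ^ 2 • v = v := fun v w e1 e2 => by
    rw [show φ ^ 2 ^ 2 • v = φ • φ • φ • φ • v by simp [pow_succ, mul_smul]]
    simp only [mem_insert, mem_singleton] at e1 e2
    rcases e1 with e1 | e1 | e1 | e1
    · simp [e1]
    · simp [e1]
    all_goals rcases e2 with e2 | e2 | e2 | e2
    · simp [e1, e2]
    · simp [e1, e2]
    · simp [smul_left_cancel φ (e1.trans e2.symm), e2]
    · simp [smul_left_cancel φ (show φ • v = φ • -w by simp [e1, e2]), e2]
    · simp [e1, e2]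
    · simp [e1, e2]
    · simp [smul_left_cancel φ (show φ • v = φ • -w by simp [e1, e2]), e2]
    · simp [smul_left_cancel φ (e1.trans e2.symm), e2]
  simp only [add_zero] at h3
  have h7 := (h3 v).1 (by simp [D])
  have h8 := (h3 w).1 (by simp [D])
  have h9 : D = {w, -w, v, -v} := by ext; simp [D]; tauto
  exact ⟨hc.eq_one hφ (h1 _ (pow_mem hφ _) (h6 v w h7 h8) (h6 w v (h9 ▸ h8) (h9 ▸ h7))), rfl⟩

end Orbits

variable {V : Type v} [AddCommGroup V] [Finite V] {G : Subgroup (En V)ˣ}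

theorem imprim' {ι κ : Type} (hG : Irr G) (hs : Group.IsSolvable G) (hb : ∃ e, Blk G e)
    (h1 : ∀ (W : AddSubgroup V), W ≠ ⊤ → ∀ H ≤ G, Irr (res H W) →
      ∃ T : κ → ι → W, (∀ c, Reg (res H W) (T c)) ∧
        ∀ c c', ∀ φ ∈ res H W, (∀ i, φ • T c i = T c' i) → c = c')
    (h2 : ∀ (X : Type v) [AddCommGroup X] [Finite X] (S : Subgroup (En X)ˣ),
      Nat.card X < Nat.card V → Irr S → Group.IsSolvable S →
      (∀ s, Cop s G → Cop s S ∧ ∀ x : X, (addOrderOf x).Coprime s) → ∃ col : X → κ,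
        ∀ φ ∈ S, ∀ a, (∀ x, col (φ • x + a) = col x) → φ = 1 ∧ a = 0) :
    ∃ t : ι → V, Reg G t := by
  obtain ⟨e, he, hq⟩ := exists_quasiprim hG hb.choose_spec
  obtain ⟨T, h3, h4⟩ := h1 _ (im_ne_top he.ne1) _ inf_le_left (he.irr hG)
  have := he.nontrivial_orb hG
  obtain ⟨X, _, θ, S, h5, h6, h7, h8⟩ := affine _ (img_solv' _ hs Rp_ker) _ Rp_trans hq
  have := Finite.of_equiv _ θ.symm
  obtain ⟨col, h9⟩ := h2 X S (Nat.card_congr θ ▸ he.card_orb_lt) h5 h6
    fun s h => h7 s (img_cop' _ h Rp_ker)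
  refine imprim hG he T h3 h4 (col ∘ θ.symm) fun γ hγ h => ?_
  obtain ⟨φ, hφ, a, h10⟩ := h8 γ hγ
  obtain ⟨rfl, rfl⟩ := h9 φ hφ a fun x => by simpa [h10] using h (θ x)
  exact Equiv.ext fun f => by simpa using h10 (θ.symm f)

theorem irr_three_aux (n : ℕ) : ∀ (V : Type v) [AddCommGroup V] [Finite V] (G : Subgroup (En V)ˣ),
    Nat.card V = n → Group.IsSolvable G → Irr G → ∃ t : Fin 3 → V, Reg G t := by
  induction n using Nat.strong_induction_on with | _ n ih
  rintro V _ _ G rfl hs hG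
  by_cases hb : ∃ e, Blk G e
  · refine imprim' (κ := Fin 5) hG hs hb (fun W hW H hH h => ?_) fun X _ _ S h1 h2 h3 _ =>
      aff_five (ih _ h1 X S rfl h3 h2).choose_spec
    have h1 := res_solv (solv_le hs hH) W
    have := h.nt
    exact five_orb h1 (ih _ (card_lt_of_ne_top hW) W _ rfl h1 h).choose_spec
  · exact prim_three hG hs (not_exists.1 hb) fun W _ _ H h => ih _ h W H rfl

theorem irr_three (V : Type v) [AddCommGroup V] [Finite V] (G : Subgroup (En V)ˣ)
    (hs : Group.IsSolvable G) (hG : Irr G) : ∃ t : Fin 3 → V, Reg G t :=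
  irr_three_aux _ V G rfl hs hG

theorem irr_odd (n : ℕ) : ∀ (V : Type v) [AddCommGroup V] [Finite V] (G : Subgroup (En V)ˣ),
    Nat.card V = n → Group.IsSolvable G → Cop 2 G → Irr G → ∃ t : Fin 2 → V, Reg G t := by
  induction n using Nat.strong_induction_on with | _ n ih
  rintro V _ _ G rfl hs hc hG
  by_cases hb : ∃ e, Blk G e
  · refine imprim' (κ := Fin 2) hG hs hb (fun W hW H hH h => ?_) fun X _ _ S h1 h2 h3 h4 => ?_
    · have h1 := res_cop (hc.mono hH) W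
      have := h.nt
      exact odd_orb h1 (ih _ (card_lt_of_ne_top hW) W _ rfl (res_solv (solv_le hs hH) W) h1
        h).choose_spec
    · have := h2.nt
      exact aff_two (h4 2 hc).1 (h4 2 hc).2 (ih _ h1 X S rfl h3 (h4 2 hc).1 h2).choose_spec
  · exact prim_odd hG hs hc (not_exists.1 hb) fun W _ _ H h => ih _ h W H rfl

theorem irr_cop {p : ℕ} [hp : Fact p.Prime] (n : ℕ) : ∀ (V : Type v) [AddCommGroup V] [Finite V]
    (G : Subgroup (En V)ˣ), Nat.card V = n → (∀ v : V, p • v = 0) → Group.IsSolvable G → Cop p G →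
    Irr G → ∃ t : Fin 2 → V, Reg G t := by
  by_cases hp2 : p = 2
  · exact fun V _ _ G h _ hs hc => irr_odd n V G h hs (hp2 ▸ hc)
  induction n using Nat.strong_induction_on with | _ n ih
  rintro V _ _ G rfl hV hs hc hG
  have h0 : ∀ W : AddSubgroup V, ∀ w : W, p • w = 0 := fun W w => Subtype.ext (hV w)
  by_cases hb : ∃ e, Blk G e
  swap
  · exact prim_cop irr_three hp2 hV hG hs hc (not_exists.1 hb) fun W H h =>
      ih _ (card_lt_of_ne_top h) W H rfl (h0 W)
  have h1 : ∀ n ≤ p, ∀ (W : AddSubgroup V), W ≠ ⊤ → ∀ H ≤ G, Irr (res H W) →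
      ∃ T : Fin n → Fin 2 → W, (∀ c, Reg (res H W) (T c)) ∧
        ∀ c c', ∀ φ ∈ res H W, (∀ i, φ • T c i = T c' i) → c = c' := fun n hn W hW H hH h => by
    have h1 := res_cop (hc.mono hH) W
    have := h.nt
    exact cop_orb hn (h0 W) h1 (ih _ (card_lt_of_ne_top hW) W _ rfl (h0 W)
      (res_solv (solv_le hs hH) W) h1 h).choose_spec
  by_cases hp3 : p = 3
  · subst hp3
    refine imprim' hG hs hb (h1 3 le_rfl) fun X _ _ S _ h2 h3 h4 => ?_
    obtain ⟨r, hr, h5⟩ := h2.exists_char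
    have := Fact.mk hr
    by_cases hr2 : r = 2
    · subst hr2
      obtain ⟨Z, -, -, h⟩ := col_three irr_three h5 h3 (h4 3 hc).1
      exact aff_three h
    · obtain ⟨Z, h⟩ := col_five h5 hr2 (by
        rintro rfl
        obtain ⟨x, hx⟩ := (have := h2.nt; exists_ne (0 : X))
        simpa [addOrderOf_eq_prime (h5 x) hx] using (h4 3 hc).2 x)
      exact aff_three fun φ _ => h φ
  · exact imprim' hG hs hb (h1 5 (hp.out.five_le_of_ne_two_of_ne_three hp2 hp3))
      fun X _ _ S _ h2 h3 _ => aff_five (irr_three X S h3 h2).choose_spec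

end Cfsg.Agent.H1.BS
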