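import Cfsg.Agent.H1.BS14

/-! Base sizes of solvable linear groups: abstract groups acting on modules. -/

set_option autoImplicit false

namespace Cfsg.Agent.H1.BS

open Subgroup

universe v

variable {A : Type*} {V : Type v} [Group A] [Finite A] [AddCommGroup V] [Finite V]
  [DistribMulAction A V]

variable (A V) in
/-- The representation attached to an action. -/
def rho : A →* (En V)ˣ := (DistribMulAction.toModuleEnd ℤ V).toHomUnits

omit [Finite A] [Finite V] in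
lemma rho_smul (a : A) (v : V) : rho A V a • v = a • v := rfl

omit [Finite A] [Finite V] in
lemma rho_solv (h : Group.IsSolvable A) : Group.IsSolvable (rho A V).range :=
  Group.isSolvable_of_surjective (rho A V).rangeRestrict_surjective

omit [Finite V] in
lemma rho_cop {s : ℕ} (h : (Nat.card A).Coprime s) : Cop s (rho A V).range := by
  rintro _ ⟨a, rfl⟩
  exact h.coprime_dvd_left ((orderOf_map_dvd _ a).trans (orderOf_dvd_natCard a))

omit [Finite A] [Finite V] in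
lemma rho_cr (h : ∀ U : AddSubgroup V, (∀ a : A, ∀ v ∈ U, a • v ∈ U) → ∃ W : AddSubgroup V,
    (∀ a : A, ∀ w ∈ W, a • w ∈ W) ∧ U ⊓ W = ⊥ ∧ U ⊔ W = ⊤) : CR (rho A V).range := fun U hU => by
  obtain ⟨W, h1, h2⟩ := h U fun a => hU _ ⟨a, rfl⟩
  exact ⟨W, by rintro _ ⟨a, rfl⟩; exact h1 a, h2⟩

omit [Finite A] [Finite V] in
lemma Reg.trivial {ι : Type*} {t : ι → V} (h : Reg (rho A V).range t) {a : A}
    (e : ∀ i, a • t i = t i) (v : V) : a • v = v := by
  rw [← rho_smul, h _ ⟨a, rfl⟩ e, one_smul]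

theorem cr_three {G : Subgroup (En V)ˣ} (hs : Group.IsSolvable G) (h : CR G) :
    ∃ t : Fin 3 → V, Reg G t :=
  reg_of_cr (fun _ _ G => Group.IsSolvable G) (fun _ _ _ W h => res_solv h W) irr_three _ V G rfl
    hs h

theorem cr_odd {G : Subgroup (En V)ˣ} (hs : Group.IsSolvable G) (h2 : Cop 2 G) (h : CR G) :
    ∃ t : Fin 2 → V, Reg G t :=
  reg_of_cr (fun _ _ G => Group.IsSolvable G ∧ Cop 2 G)
    (fun _ _ _ W h => ⟨res_solv h.1 W, res_cop h.2 W⟩)
    (fun V _ _ G h => irr_odd _ V G rfl h.1 h.2) _ V G rfl ⟨hs, h2⟩ h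

theorem cr_cop {G : Subgroup (En V)ˣ} {p : ℕ} [Fact p.Prime] (hV : ∀ v : V, p • v = 0)
    (hs : Group.IsSolvable G) (h2 : Cop p G) (h : CR G) : ∃ t : Fin 2 → V, Reg G t :=
  reg_of_cr (fun V _ G => (∀ v : V, p • v = 0) ∧ Group.IsSolvable G ∧ Cop p G)
    (fun _ _ _ W h => ⟨fun w => Subtype.ext (h.1 w), res_solv h.2.1 W, res_cop h.2.2 W⟩)
    (fun V _ _ G h => irr_cop _ V G rfl h.1 h.2.1 h.2.2) _ V G rfl ⟨hV, hs, h2⟩ h

end Cfsg.Agent.H1.BS
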