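import Cfsg.Agent.H1.BS15
import Cfsg.Agent.H2.Maschke
import Cfsg.Agent.H2.Hall
import Cfsg.Agent.L.Bender

/-! Base sizes of solvable groups acting coprimely. -/

set_option autoImplicit false

namespace Cfsg.Agent.H1.BS

open Subgroup
open scoped commutatorElement Pointwise

universe v

lemma cr_of_cop {V : Type v} [AddCommGroup V] [Finite V] {G : Subgroup (En V)ˣ} {p : ℕ}
    [hp : Fact p.Prime] (hV : ∀ v : V, p • v = 0) (h : Cop p G) : CR G := fun U hU => by
  let φ : G →* MulAut (Multiplicative V) :=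
    { toFun := fun g => AddEquiv.toMultiplicative (DistribMulAction.toAddEquiv V g)
      map_one' := MulEquiv.ext fun v => one_smul G v.toAdd
      map_mul' := fun a b => MulEquiv.ext fun v => mul_smul a b v.toAdd }
  obtain ⟨W, h1, h2, h3⟩ := H2.act_maschke (p := p) hV φ (hp.out.coprime_iff_not_dvd.2 h.card).symm
    (W := AddSubgroup.toSubgroup U) fun a => hU a a.2
  refine ⟨AddSubgroup.toSubgroup.symm W, fun g hg => h1 ⟨g, hg⟩, ?_, ?_⟩ <;>
    apply AddSubgroup.toSubgroup.injective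
  · rw [OrderIso.map_inf, OrderIso.apply_symm_apply, inf_comm, h2, OrderIso.map_bot]
  · rw [OrderIso.map_sup, OrderIso.apply_symm_apply, sup_comm, h3, OrderIso.map_top]

lemma marks_aux {X S : Type*} [Fintype X] [Fintype S] [PartialOrder S] [DecidableEq S]
    [DecidableLT S] (s : X → S) (B : S) : Nat.card {x // B ≤ s x} =
      (Finset.univ.filter fun x => s x = B).card +
        ∑ C ∈ Finset.univ.filter (B < ·), (Finset.univ.filter fun x => s x = C).card := by
  classical
  rw [Nat.card_eq_fintype_card, Fintype.card_subtype, ← Finset.card_biUnion fun a _ b _ e =>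
    Finset.disjoint_filter.2 fun x _ e1 e2 => e (e1.symm.trans e2),
    ← Finset.card_union_of_disjoint (Finset.disjoint_left.2 fun x e1 e2 => by
      simp only [Finset.mem_filter, Finset.mem_biUnion] at e1 e2
      obtain ⟨C, ⟨-, e3⟩, -, e4⟩ := e2
      exact e3.ne (e1.2.symm.trans e4))]
  congr 1
  ext x
  simp [le_iff_eq_or_lt, eq_comm]

lemma marks {X Y S : Type*} [Finite X] [Finite Y] [Finite S] [PartialOrder S] (s : X → S)
    (t : Y → S) (h : ∀ B, Nat.card {x // B ≤ s x} = Nat.card {y // B ≤ t y}) (x : X) :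
    ∃ y, t y = s x := by
  classical
  have := Fintype.ofFinite X
  have := Fintype.ofFinite Y
  have := Fintype.ofFinite S
  have h2 : ∀ B, (Finset.univ.filter fun x => s x = B).card =
      (Finset.univ.filter fun y => t y = B).card := fun B => by
    induction B using WellFoundedGT.induction with | _ B ih
    have := h B
    rwa [marks_aux, marks_aux, Finset.sum_congr rfl fun C hC => ih C (Finset.mem_filter.1 hC).2,
      add_left_inj] at this
  obtain ⟨y, hy⟩ := Finset.card_pos.1 (h2 (s x) ▸ Finset.card_pos.2 ⟨x, by simp⟩)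
  exact ⟨y, (Finset.mem_filter.1 hy).2⟩

variable {G : Type v} [Group G] [Finite G] {A K : Subgroup G}

theorem pair_pGroup {p : ℕ} [hp : Fact p.Prime] (hK : IsPGroup p K) (hA : A ≤ normalizer (K : Set G))
    (hc : (Nat.card A).Coprime p) (hs : Group.IsSolvable A) :
    ∃ t : Fin 2 → K, ∀ a ∈ A, (∀ i, a * t i = t i * a) → ∀ k ∈ K, a * k = k * a := by
  obtain ⟨Q⟩ := nonempty_quo (E := K) (Z := (frattini K).map K.subtype) fun x hx y hy =>
    ⟨⁅(⟨x, hx⟩ : K), ⟨y, hy⟩⁆, H2.commutator_le_frattini hK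
      (commutator_mem_commutator (mem_top _) (mem_top _)), rfl⟩
  have h1 := Q.nsmul_eq_zero fun x hx => ⟨_, H2.pow_mem_frattini hK ⟨x, hx⟩, rfl⟩
  have h2 : Cop p (img Q.R A) := img_cop' _
    (fun a ha => hc.coprime_dvd_left (A.orderOf_dvd_natCard ha)) Q.R_ker
  obtain ⟨t, ht⟩ := cr_cop h1 (img_solv' _ hs Q.R_ker) h2 (cr_of_cop h1 h2)
  refine ⟨fun i => ⟨Q.rep (t i), Q.rep_mem _⟩, fun a ha e k hk => ?_⟩
  obtain ⟨φ, hφ⟩ := Q.exists_R (hA ha) fun z => (mem_normalizer_iff.1
    (H2.le_normalizer_map_of_characteristic hA (frattini K) ha) z).1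
  obtain rfl := ht φ (mem_img.2 ⟨a, ha, hφ⟩) fun i => by
    rw [← Q.mk_rep (t i), hφ.2 _ (Q.rep_mem _), mul_inv_eq_iff_eq_mul.2 (e i)]
  obtain ⟨n, hn⟩ := IsPGroup.iff_card.1 hK
  refine H2.le_centralizer_of_commutator_le_frattini ((zpowers_le.2 ha).trans hA)
    (hn ▸ (hc.coprime_dvd_left (card_dvd_of_le (zpowers_le.2 ha))).pow_right n)
    (commutator_le.2 ?_) hk a (mem_zpowers a)
  rintro x hx _ ⟨m, rfl⟩
  have := (zpow_mem hφ m).2 _ (inv_mem hx)
  rw [Prod.pow_snd, one_zpow, one_smul, Q.mk_eq (inv_mem hx)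
    ((mem_normalizer_iff.1 (zpow_mem hφ m).1 _).1 (inv_mem hx))] at this
  simpa [commutatorElement_def, mul_assoc] using this

theorem pair_coprime (hA : A ≤ normalizer (K : Set G))
    (hc : (Nat.card A).Coprime (Nat.card K)) (hs : Group.IsSolvable A) :
    ∃ x ∈ K, ∃ y ∈ K, ∀ a ∈ A, a * x = x * a → a * y = y * a → ∀ k ∈ K, a * k = k * a := by
  classical
  have h0 : ∀ p : (Nat.card K).primeFactors, Fact p.1.Prime := fun p =>
    ⟨Nat.prime_of_mem_primeFactors p.2⟩
  choose P h1 h2 h3 h4 using fun p : (Nat.card K).primeFactors =>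
    H2.exists_invariant_sylow p hA hc (Or.inl hs)
  choose t ht using fun p : (Nat.card K).primeFactors => pair_pGroup (h2 p) (h4 p)
    (hc.coprime_dvd_right (Nat.dvd_of_mem_primeFactors p.2)) hs
  have : Finite (Subgroup G) := Finite.of_injective _ SetLike.coe_injective
  have h5 := marks (fun x : ∀ p, P p => A ⊓ centralizer (Set.range fun p => (x p : G)))
    (fun y : K => A ⊓ centralizer {(y : G)}) fun B => by
    by_cases hB : B ≤ A
    swap
    · simp [hB]
    have e1 : Nat.card {y : K // B ≤ A ⊓ centralizer {(y : G)}} =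
        Nat.card (K ⊓ centralizer (B : Set G) : Subgroup G) := Nat.card_congr
      ⟨fun y => ⟨y.1, y.1.2, fun b hb => ((y.2 hb).2 _ rfl).symm⟩, fun y => ⟨⟨y.1, y.2.1⟩,
        fun b hb => ⟨hB hb, by rintro _ rfl; exact (y.2.2 b hb).symm⟩⟩, fun _ => rfl, fun _ => rfl⟩
    have e2 : Nat.card {x : ∀ p, P p // B ≤ A ⊓ centralizer (Set.range fun p => (x p : G))} =
        Nat.card (∀ p, (P p ⊓ centralizer (B : Set G) : Subgroup G)) := Nat.card_congr
      ⟨fun x p => ⟨x.1 p, (x.1 p).2, fun b hb => ((x.2 hb).2 _ ⟨p, rfl⟩).symm⟩,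
        fun y => ⟨fun p => ⟨y p, (y p).2.1⟩, fun b hb => ⟨hB hb, by
          rintro _ ⟨p, rfl⟩; exact ((y p).2.2 b hb).symm⟩⟩, fun _ => rfl, fun _ => rfl⟩
    rw [e1, e2, Nat.card_pi, ← Nat.prod_factorization_pow_eq_self (n := Nat.card
      (K ⊓ centralizer (B : Set G) : Subgroup G)) Nat.card_pos.ne',
      Finsupp.prod_of_support_subset _ (Nat.primeFactors_mono (card_dvd_of_le inf_le_left)
        Nat.card_pos.ne') _ (by simp), ← Finset.prod_coe_sort (Nat.card K).primeFactors]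
    refine Finset.prod_congr rfl fun p _ => ?_
    have hB1 := hB.trans hA
    have hB2 := hc.coprime_dvd_left (card_dvd_of_le hB)
    have hB3 : Group.IsSolvable B ∨ Group.IsSolvable K := Or.inl (solv_le hs hB)
    obtain ⟨Q, -, q1, q2, q3⟩ := H2.exists_sylow_le (p := p) (K := K ⊓ centralizer (B : Set G))
      IsPGroup.of_bot bot_le
    obtain ⟨R, r1, r2, r3, r4, r5⟩ := H2.exists_invariant_sylow_ge hB1 hB2 hB3 (q1.trans inf_le_left)
      q2 (H2.le_normalizer_of_le_centralizer (le_centralizer_iff.1 (q1.trans inf_le_right)))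
    obtain ⟨c, hc', e⟩ := H2.exists_centralizer_conj_sylow hB1 hB2 hB3 r2 r3 r4 r5 (h1 p) (h2 p)
      (h3 p) (hB.trans (h4 p))
    have e3 : MulAut.conj c • Q ≤ P p ⊓ centralizer (B : Set G) := le_inf
      (e ▸ pointwise_smul_le_pointwise_smul_iff.2 r1) (by
        rintro _ ⟨x, hx, rfl⟩
        exact mul_mem (mul_mem hc'.2 (q1 hx).2) (inv_mem hc'.2))
    have e4 := card_dvd_of_le e3
    rw [H2.card_conj_smul] at e4
    have e5 : P p ⊓ centralizer (B : Set G) ≤ K ⊓ centralizer (B : Set G) := inf_le_inf_right _ (h1 p)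
    rw [← Sylow.card_eq_multiplicity (H2.toSylowIn ((h2 p).to_le inf_le_left) fun e6 => q3 (e6.trans ?_)),
      H2.coe_toSylowIn, L.card_subgroupOf_of_le e5]
    obtain ⟨d, hd⟩ := e4
    have := (L.relIndex_mul_card e5).trans (L.relIndex_mul_card q1).symm
    rw [hd, mul_comm (Nat.card Q), ← mul_assoc, mul_left_inj' Nat.card_pos.ne'] at this
    exact ⟨d, this.symm⟩
  obtain ⟨x, hx⟩ := h5 fun p => t p 0
  obtain ⟨y, hy⟩ := h5 fun p => t p 1
  refine ⟨x, x.2, y, y.2, fun a ha e1 e2 k hk => ?_⟩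
  have e3 := (hx.le ⟨ha, mem_centralizer_singleton_iff.2 e1⟩).2
  have e4 := (hy.le ⟨ha, mem_centralizer_singleton_iff.2 e2⟩).2
  refine (H2.le_of_forall_prime_exists (L := centralizer {a}) (fun q hq hd => ?_) hk) a rfl
  let p : (Nat.card K).primeFactors := ⟨q, hq.mem_primeFactors hd Nat.card_pos.ne'⟩
  exact ⟨P p, h1 p, h3 p, fun k hk => mem_centralizer_singleton_iff.2 (ht p a ha (fun i => by
    fin_cases i; exacts [(e3 _ ⟨p, rfl⟩).symm, (e4 _ ⟨p, rfl⟩).symm]) k hk).symm⟩

end Cfsg.Agent.H1.BS
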