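import Cfsg.Agent.H1.BS1

/-! Base sizes of solvable linear groups: the imprimitive case. -/

set_option autoImplicit false

namespace Cfsg.Agent.H1.BS

open Subgroup

universe v

section Cn

variable {R : Type*} [Ring R]

/-- Conjugation by a unit. -/
def cn (g : Rˣ) : R ≃+* R := MulSemiringAction.toRingEquiv (ConjAct Rˣ) R (ConjAct.toConjAct g)

lemma cn_apply (g : Rˣ) (a : R) : cn g a = g * a * (g⁻¹ : Rˣ) := rfl

lemma cn_mul (g h : Rˣ) (a : R) : cn (g * h) a = cn g (cn h a) := by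
  simp [cn_apply, mul_assoc]

@[simp] lemma cn_one (a : R) : cn 1 a = a := by simp [cn_apply]

@[simp] lemma cn_inv_cn (g : Rˣ) (a : R) : cn g⁻¹ (cn g a) = a := by
  rw [← cn_mul, inv_mul_cancel, cn_one]

@[simp] lemma cn_cn_inv (g : Rˣ) (a : R) : cn g (cn g⁻¹ a) = a := by
  rw [← cn_mul, mul_inv_cancel, cn_one]

lemma cn_coe (g x : Rˣ) : cn g (x : R) = (g * x * g⁻¹ : Rˣ) := rfl

lemma cn_mul_self (g : Rˣ) (a : R) : cn g a * g = g * a := by simp [cn_apply]

lemma cn_eq_iff {g : Rˣ} {a : R} : cn g a = a ↔ (g : R) * a = a * g := by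
  rw [cn_apply, Units.mul_inv_eq_iff_eq_mul]

lemma cn_smul {V : Type*} [AddCommGroup V] [Module R V] (g : Rˣ) (a : R) (v : V) :
    cn g a • g • v = g • a • v := by
  rw [Units.smul_def, Units.smul_def, ← mul_smul, cn_mul_self, mul_smul]

/-- The stabilizer of an element under conjugation. -/
def stb (e : R) : Subgroup Rˣ where
  carrier := {g | cn g e = e}
  one_mem' := cn_one e
  mul_mem' := fun {a b} ha hb => by
    change cn (a * b) e = e
    rw [cn_mul, hb, ha]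
  inv_mem' := fun {a} ha => by
    change cn a⁻¹ e = e
    nth_rewrite 1 [← ha]
    exact cn_inv_cn _ _

/-- The fixed points of a ring element (the image, for an idempotent). -/
def im (V : Type*) [AddCommGroup V] [Module R V] (e : R) : AddSubgroup V where
  carrier := {v | e • v = v}
  zero_mem' := smul_zero e
  add_mem' := fun {a b} ha hb => by
    change e • (a + b) = a + b
    rw [smul_add, ha, hb]
  neg_mem' := fun {a} ha => by
    change e • (-a) = -a
    rw [smul_neg, ha]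

lemma mem_im {V : Type*} [AddCommGroup V] [Module R V] {e : R} {v : V} :
    v ∈ im V e ↔ e • v = v := Iff.rfl

lemma smul_mem_im {V : Type*} [AddCommGroup V] [Module R V] {e : R} (he : e * e = e) (v : V) :
    e • v ∈ im V e := by rw [mem_im, ← mul_smul, he]

lemma stb_mem_im {V : Type*} [AddCommGroup V] [Module R V] {e : R} {g : Rˣ} (hg : g ∈ stb e)
    {v : V} (hv : v ∈ im V e) : g • v ∈ im V e := by
  have hg : cn g e = e := hg
  rw [mem_im, ← hg, cn_smul, mem_im.1 hv]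

end Cn

variable {V : Type v} [AddCommGroup V] {G : Subgroup (En V)ˣ} {e : En V}

lemma en_ext {a b : En V} (h : ∀ v : V, a • v = b • v) : a = b := LinearMap.ext h

lemma exists_mem_im (he : e * e = e) (h0 : e ≠ 0) : ∃ v ∈ im V e, v ≠ 0 := by
  by_contra h
  push Not at h
  exact h0 (en_ext fun v => h _ (smul_mem_im he v))

lemma im_ne_top (h : e ≠ 1) : im V e ≠ ⊤ := fun h' =>
  h (en_ext fun v => (h' ▸ AddSubgroup.mem_top v : v ∈ im V e))

/-- An idempotent whose conjugates form a system of imprimitivity. -/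
structure Blk (G : Subgroup (En V)ˣ) (e : En V) : Prop where
  ne0 : e ≠ 0
  ne1 : e ≠ 1
  idem : e * e = e
  orth : ∀ g ∈ G, cn g e = e ∨ cn g e * e = 0

/-- The conjugates of `e`. -/
def Orb (G : Subgroup (En V)ˣ) (e : En V) : Type v := {f : En V // ∃ g ∈ G, cn g e = f}

instance instFiniteOrb [Finite V] : Finite (Orb G e) := Subtype.finite

noncomputable instance instFintypeOrb [Finite V] : Fintype (Orb G e) := Fintype.ofFinite _

/-- The base point. -/
def Orb.o (G : Subgroup (En V)ˣ) (e : En V) : Orb G e := ⟨e, 1, one_mem _, cn_one e⟩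

/-- The action on the blocks. -/
def Rp (G : Subgroup (En V)ˣ) (e : En V) : Subgroup ((En V)ˣ × Equiv.Perm (Orb G e)) where
  carrier := {p | ∀ f, (p.2 f).1 = cn p.1 f.1}
  one_mem' := fun f => (cn_one _).symm
  mul_mem' := fun {a b} ha hb f => by
    rw [Prod.snd_mul, Prod.fst_mul, Equiv.Perm.mul_apply, ha, hb, cn_mul]
  inv_mem' := fun {a} ha f => by
    have := ha (a.2⁻¹ f)
    rw [← Equiv.Perm.mul_apply, mul_inv_cancel, Equiv.Perm.one_apply] at this
    rw [Prod.snd_inv, Prod.fst_inv, this, cn_inv_cn]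

lemma exists_Rp {g : (En V)ˣ} (hg : g ∈ G) : ∃ γ, (g, γ) ∈ Rp G e := by
  have h : ∀ g ∈ G, ∀ f : Orb G e, ∃ k ∈ G, cn k e = cn g f.1 := fun g hg f => by
    obtain ⟨k, hk, h⟩ := f.2
    exact ⟨g * k, mul_mem hg hk, by rw [cn_mul, h]⟩
  exact ⟨⟨fun f => ⟨_, h g hg f⟩, fun f => ⟨_, h g⁻¹ (inv_mem hg) f⟩,
    fun f => Subtype.ext (cn_inv_cn _ _), fun f => Subtype.ext (cn_cn_inv _ _)⟩, fun _ => rfl⟩

lemma Rp_ker (γ : Equiv.Perm (Orb G e)) (h : (1, γ) ∈ Rp G e) : γ = 1 :=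
  Equiv.ext fun f => Subtype.ext ((h f).trans (cn_one _))

lemma Rp_trans (f : Orb G e) : ∃ γ ∈ img (Rp G e) G, γ (Orb.o G e) = f := by
  obtain ⟨g, hg, h⟩ := f.2
  obtain ⟨γ, hγ⟩ := exists_Rp (e := e) hg
  exact ⟨γ, mem_img.2 ⟨g, hg, hγ⟩, Subtype.ext ((hγ _).trans h)⟩

lemma Blk.mul_self (he : Blk G e) (f : Orb G e) : f.1 * f.1 = f.1 := by
  obtain ⟨g, -, h⟩ := f.2
  rw [← h, ← map_mul, he.idem]

lemma Blk.ne_zero (he : Blk G e) (f : Orb G e) : f.1 ≠ 0 := by
  obtain ⟨g, -, h⟩ := f.2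
  rw [← h]
  simpa using he.ne0

lemma Blk.mul_ne (he : Blk G e) {f f' : Orb G e} (h : f ≠ f') : f.1 * f'.1 = 0 := by
  obtain ⟨g, hg, e1⟩ := f.2
  obtain ⟨g', hg', e2⟩ := f'.2
  rcases he.orth _ (mul_mem (inv_mem hg') hg) with h1 | h1
  · exact absurd (Subtype.ext (by rw [← e1, ← e2, ← mul_inv_cancel_left g' g, cn_mul, h1])) h
  · rw [← e1, ← e2, ← mul_inv_cancel_left g' g, cn_mul, ← map_mul, h1, map_zero]

lemma Blk.sum_mul (he : Blk G e) (S : Finset (Orb G e)) (f : Orb G e) [Decidable (f ∈ S)] :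
    (∑ a ∈ S, a.1) * f.1 = if f ∈ S then f.1 else 0 := by
  rw [Finset.sum_mul]
  split_ifs with h
  · rw [Finset.sum_eq_single_of_mem f h fun _ _ h => he.mul_ne h, he.mul_self]
  · exact Finset.sum_eq_zero fun a ha => he.mul_ne fun e => h (e ▸ ha)

variable [Finite V]

lemma Blk.sum_eq_one (hG : Irr G) (he : Blk G e) : ∑ a : Orb G e, a.1 = 1 := by
  classical
  by_contra h
  obtain ⟨v, hv, h0⟩ := exists_mem_im he.idem he.ne0
  refine im_ne_top h (hG.eq_top (fun g hg w hw => stb_mem_im ?_ hw) (w := v) ?_ h0)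
  · obtain ⟨γ, hγ⟩ := exists_Rp (e := e) hg
    change cn g _ = _
    rw [map_sum]
    exact Fintype.sum_equiv γ _ _ fun f => (hγ f).symm
  · have := he.sum_mul Finset.univ (Orb.o G e)
    rw [if_pos (Finset.mem_univ _)] at this
    rw [mem_im, ← mem_im.1 hv, ← mul_smul]
    exact congrArg (· • v) this

lemma Blk.irr (hG : Irr G) (he : Blk G e) : Irr (res (G ⊓ stb e) (im V e)) := by
  obtain ⟨v, hv, h0⟩ := exists_mem_im he.idem he.ne0
  refine irr_res (fun h => h0 (by rwa [h, AddSubgroup.mem_bot] at hv))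
    (fun g hg w hw => stb_mem_im hg.2 hw) fun U hU h1 h2 => le_antisymm hU fun w hw => ?_
  obtain ⟨⟨u, hu⟩, hu0⟩ := AddSubgroup.ne_bot_iff_exists_ne_zero.1 h2
  let U' : AddSubgroup V :=
    { carrier := {x | ∀ g ∈ G, e • g • x ∈ U}
      zero_mem' := fun g _ => by simp
      add_mem' := fun ha hb g hg => by
        rw [smul_add, smul_add]; exact U.add_mem (ha g hg) (hb g hg)
      neg_mem' := fun ha g hg => by rw [smul_neg, smul_neg]; exact U.neg_mem (ha g hg) }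
  have h3 : U' = ⊤ := hG.eq_top (fun k hk x hx g hg => by
    rw [← mul_smul g]; exact hx _ (mul_mem hg hk)) (w := u) (fun g hg => by
      rcases he.orth _ (inv_mem hg) with h | h
      · have hg' : g ∈ stb e := inv_inv g ▸ (stb e).inv_mem h
        rw [mem_im.1 (stb_mem_im hg' (hU hu))]
        exact h1 g ⟨hg, hg'⟩ u hu
      · rw [← cn_cn_inv g e, cn_smul, ← mem_im.1 (hU hu), ← mul_smul _ e, h]
        simp) fun h => hu0 (Subtype.ext h)
  have := (h3 ▸ AddSubgroup.mem_top w : w ∈ U') 1 (one_mem _)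
  rwa [one_smul, mem_im.1 hw] at this

lemma Blk.card_orb_lt (he : Blk G e) : Nat.card (Orb G e) < Nat.card V := by
  have h : ∀ f : Orb G e, ∃ v ∈ im V f.1, v ≠ 0 := fun f =>
    exists_mem_im (he.mul_self f) (he.ne_zero f)
  choose a ha h0 using h
  have := Fintype.ofFinite V
  rw [Nat.card_eq_fintype_card, Nat.card_eq_fintype_card]
  refine Fintype.card_lt_of_injective_of_notMem a (fun f f' h => ?_) (b := 0) ?_
  · by_contra hne
    refine h0 f' ?_
    have := mem_im.1 (ha f)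
    rw [h, ← mem_im.1 (ha f'), ← mul_smul, he.mul_ne hne, zero_smul, mem_im.1 (ha f')] at this
    exact this.symm
  · rintro ⟨f, hf⟩
    exact h0 f hf

theorem imprim {ι κ : Type*} (hG : Irr G) (he : Blk G e) (t : κ → ι → im V e)
    (h1 : ∀ c, Reg (res (G ⊓ stb e) (im V e)) (t c))
    (h2 : ∀ c c', ∀ φ ∈ res (G ⊓ stb e) (im V e), (∀ i, φ • t c i = t c' i) → c = c')
    (col : Orb G e → κ) (hcol : ∀ γ ∈ img (Rp G e) G, (∀ f, col (γ f) = col f) → γ = 1) :
    ∃ T : ι → V, Reg G T := by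
  choose k hk hke using fun f : Orb G e => f.2
  refine ⟨fun i => ∑ f, k f • (t (col f) i : V), fun g hg hT => ?_⟩
  obtain ⟨γ, hγ⟩ := exists_Rp (e := e) hg
  have h3 : ∀ (f : Orb G e) i, f.1 • ∑ f, k f • (t (col f) i : V) = k f • (t (col f) i : V) := by
    intro f i
    have h4 : ∀ f : Orb G e, f.1 • k f • (t (col f) i : V) = k f • (t (col f) i : V) := fun f => by
      rw [← hke f, cn_smul, mem_im.1 (t _ _).2]
    rw [Finset.smul_sum, Finset.sum_eq_single_of_mem f (Finset.mem_univ _), h4]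
    intro f' _ h
    rw [← h4, ← mul_smul, he.mul_ne h.symm, zero_smul]
  have h4 : ∀ f, (k (γ f))⁻¹ * g * k f ∈ G ⊓ stb e := fun f =>
    ⟨G.mul_mem (G.mul_mem (G.inv_mem (hk _)) hg) (hk _), by
      change cn _ e = e
      rw [cn_mul, cn_mul, hke, ← hγ f, ← hke, cn_inv_cn]⟩
  have h5 : ∀ f i, ((k (γ f))⁻¹ * g * k f) • (t (col f) i : V) = t (col (γ f)) i := fun f i => by
    rw [mul_smul, mul_smul, inv_smul_eq_iff, ← h3, ← h3, ← cn_smul, hT, hγ f]
  have h6 : γ = 1 := hcol γ (mem_img.2 ⟨g, hg, hγ⟩) fun f => by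
    obtain ⟨φ, hφ⟩ := exists_res (W := im V e) fun w hw => stb_mem_im (h4 f).2 hw
    exact (h2 _ _ φ (mem_res.2 ⟨_, h4 f, hφ⟩) fun i => Subtype.ext (by rw [hφ, h5])).symm
  subst h6
  refine unit_eq_one fun v => ?_
  rw [← one_smul (En V) v, ← he.sum_eq_one hG, Finset.sum_smul, Finset.smul_sum]
  refine Finset.sum_congr rfl fun f _ => ?_
  have := (h1 (col f)).res_fix (h4 f) (fun w hw => stb_mem_im (h4 f).2 hw) (h5 f) _
    (smul_mem_im he.idem ((k f)⁻¹ • v))
  rw [mul_smul, mul_smul, inv_smul_eq_iff, Equiv.Perm.one_apply, ← cn_smul (k f), hke,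
    smul_inv_smul] at this
  exact this

theorem exists_quasiprim (hG : Irr G) (he : Blk G e) : ∃ e, Blk G e ∧
    ∀ N ≤ img (Rp G e) G, (∀ γ ∈ img (Rp G e) G, ∀ n ∈ N, γ⁻¹ * n * γ ∈ N) →
      N = ⊥ ∨ ∀ f, ∃ n ∈ N, n (Orb.o G e) = f := by
  classical
  obtain ⟨e, he, hmax⟩ := Set.exists_max_image {e | Blk G e} (fun e => Nat.card (im V e))
    (Set.toFinite _) ⟨e, he⟩
  have he : Blk G e := he
  refine ⟨e, he, fun N hN hn => ?_⟩
  let S : Orb G e → Finset (Orb G e) := fun a => Finset.univ.filter fun f => ∃ n ∈ N, n a = f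
  have hS : ∀ a f, f ∈ S a ↔ ∃ n ∈ N, n a = f := fun a f => by simp [S]
  have hself : ∀ a, a ∈ S a := fun a => (hS a a).2 ⟨1, one_mem _, rfl⟩
  set o := Orb.o G e
  set e' := ∑ a ∈ S o, a.1 with he'
  have h1 : ∀ f ∈ S o, e' * f.1 = f.1 := fun f hf => by rw [he', he.sum_mul, if_pos hf]
  by_cases h2 : e' = 1
  · refine Or.inr fun f => (hS _ _).1 ?_
    by_contra h
    have := he.sum_mul (S o) f
    rw [if_neg h, ← he', h2, one_mul] at this
    exact he.ne_zero f this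
  have h3 : Blk G e' := by
    refine ⟨fun h => he.ne0 ?_, h2, ?_, fun g hg => ?_⟩
    · have := h1 o (hself o)
      rw [h, zero_mul] at this
      exact this.symm
    · nth_rewrite 2 [he']
      rw [Finset.mul_sum, Finset.sum_congr rfl h1]
    · obtain ⟨γ, hγ⟩ := exists_Rp (e := e) hg
      have hγ' := mem_img.2 ⟨g, hg, hγ⟩
      have h4 : cn g e' = ∑ a ∈ S (γ o), a.1 := by
        rw [he', map_sum]
        refine Finset.sum_equiv γ (fun a => ?_) fun a _ => (hγ a).symm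
        rw [hS, hS]
        constructor
        · rintro ⟨n, hn', rfl⟩
          exact ⟨_, hn _ (inv_mem hγ') n hn', by simp⟩
        · rintro ⟨n, hn', h⟩
          exact ⟨_, hn _ hγ' n hn', by simp [h]⟩
      rw [h4]
      by_cases h5 : γ o ∈ S o
      · obtain ⟨m, hm, h5⟩ := (hS _ _).1 h5
        refine Or.inl (Finset.sum_congr (Finset.ext fun a => ?_) fun _ _ => rfl)
        rw [hS, hS, ← h5]
        exact ⟨fun ⟨n, hn, h⟩ => ⟨n * m, mul_mem hn hm, h⟩,
          fun ⟨n, hn, h⟩ => ⟨n * m⁻¹, mul_mem hn (inv_mem hm), by simpa using h⟩⟩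
      · refine Or.inr ?_
        rw [he', Finset.mul_sum]
        refine Finset.sum_eq_zero fun f hf => ?_
        rw [he.sum_mul, if_neg fun h => h5 ?_]
        obtain ⟨n, hn, h6⟩ := (hS _ _).1 hf
        obtain ⟨m, hm, h7⟩ := (hS _ _).1 h
        exact (hS _ _).2 ⟨m⁻¹ * n, mul_mem (inv_mem hm) hn, by simp [h6, ← h7]⟩
  have h4 : ∀ f ∈ S o, im V f.1 ≤ im V e' := fun f hf v hv => by
    rw [mem_im, ← mem_im.1 hv, ← mul_smul, h1 f hf]
  have h5 : im V e = im V e' := AddSubgroup.eq_of_le_of_card_ge (h4 o (hself o)) (hmax e' h3)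
  have h6 : ∀ n ∈ N, n o = o := fun n hn => by
    by_contra h
    obtain ⟨v, hv, h0⟩ := exists_mem_im (he.mul_self (n o)) (he.ne_zero _)
    have h7 : o.1 • v = v := (h5 ▸ h4 _ ((hS _ _).2 ⟨n, hn, rfl⟩) hv : v ∈ im V e)
    rw [← mem_im.1 hv, ← mul_smul, he.mul_ne (Ne.symm h), zero_smul, mem_im.1 hv] at h7
    exact h0 h7.symm
  refine Or.inl (eq_bot_iff.2 fun n hn' => Equiv.ext fun f => ?_)
  obtain ⟨γ, hγ, rfl⟩ := Rp_trans f
  simpa [Equiv.symm_apply_eq] using h6 _ (hn γ hγ n hn')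

lemma Blk.nontrivial_orb (hG : Irr G) (he : Blk G e) : Nontrivial (Orb G e) := by
  by_contra h
  rw [not_nontrivial_iff_subsingleton] at h
  have := he.sum_eq_one hG
  rw [Fintype.sum_subsingleton _ (Orb.o G e)] at this
  exact he.ne1 this

/-- A solvable quasiprimitive permutation group is affine. -/
theorem affine {Ω : Type v} [Finite Ω] [Nontrivial Ω] (Γ : Subgroup (Equiv.Perm Ω))
    (hs : Group.IsSolvable Γ) (o : Ω) (ht : ∀ f, ∃ γ ∈ Γ, γ o = f)
    (hq : ∀ N ≤ Γ, (∀ γ ∈ Γ, ∀ n ∈ N, γ⁻¹ * n * γ ∈ N) → N = ⊥ ∨ ∀ f, ∃ n ∈ N, n o = f) :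
    ∃ (X : Type v) (_ : AddCommGroup X) (θ : X ≃ Ω) (S : Subgroup (En X)ˣ), Irr S ∧
      Group.IsSolvable S ∧ (∀ s, Cop s Γ → Cop s S ∧ ∀ x : X, (addOrderOf x).Coprime s) ∧
      ∀ γ ∈ Γ, ∃ φ ∈ S, ∃ t, ∀ x, γ (θ x) = θ (φ • x + t) := by
  have : Nontrivial Γ := by
    obtain ⟨f, hf⟩ := exists_ne o
    obtain ⟨γ, hγ, rfl⟩ := ht f
    exact ⟨⟨γ, hγ⟩, 1, fun h => hf (by rw [show γ = 1 from congrArg Subtype.val h]; rfl)⟩
  obtain ⟨A, hA⟩ := L.exists_isMinNormal (G := Γ)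
  have hc := hA.isMulCommutative inferInstance
  have hn := hA.1
  have htr : ∀ f, ∃ a ∈ A, a.1 o = f := by
    rcases hq (A.map Γ.subtype) (map_subtype_le A) (by
      rintro γ hγ _ ⟨a, ha, rfl⟩
      exact ⟨_, hn.conj_mem' a ha ⟨γ, hγ⟩, rfl⟩) with h | h
    · exact absurd ((map_eq_bot_iff_of_injective _ Γ.subtype_injective).1 h) hA.2.1
    · intro f
      obtain ⟨_, ⟨a, ha, rfl⟩, h⟩ := h f
      exact ⟨a, ha, h⟩
  have hinj : ∀ a b : A, a.1.1 o = b.1.1 o → a = b := fun a b h => by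
    refine Subtype.ext (Subtype.ext (Equiv.ext fun f => ?_))
    obtain ⟨c, hc', rfl⟩ := htr f
    have e1 : ∀ a : A, a.1.1 (c.1 o) = c.1 (a.1.1 o) := fun a =>
      DFunLike.congr_fun (congrArg (fun x : A => x.1.1) (hc.is_comm.comm a ⟨c, hc'⟩)) o
    rw [e1, e1, h]
  open scoped IsMulCommutative in
  let θ : Additive A ≃ Ω := Equiv.ofBijective (fun a => a.toMul.1.1 o) ⟨fun a b h => hinj _ _ h,
    fun f => by obtain ⟨c, hc, h⟩ := htr f; exact ⟨Additive.ofMul ⟨c, hc⟩, h⟩⟩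
  open scoped IsMulCommutative in
  let R : Subgroup (Γ × (En (Additive A))ˣ) :=
    { carrier := {p | ∀ x : Additive A, ((Additive.toMul (p.2 • x : Additive A) : A) : Γ) =
        p.1 * x.toMul * p.1⁻¹}
      one_mem' := fun x => by
        rw [Prod.snd_one, one_smul, Prod.fst_one, inv_one, one_mul, mul_one]
      mul_mem' := fun {a b} ha hb x => by
        rw [Prod.snd_mul, mul_smul, ha, hb, Prod.fst_mul]; group
      inv_mem' := fun {a} ha x => by
        have := ha (a.2⁻¹ • x)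
        rw [smul_inv_smul] at this
        rw [Prod.snd_inv, Prod.fst_inv, this]; group }
  open scoped IsMulCommutative in
  have hR : ∀ γ : Γ, ∃ φ, (γ, φ) ∈ R := fun γ => by
    obtain ⟨u, hu⟩ := exists_unit (V := Additive A)
      (MonoidHom.toAdditive (MulAut.conjNormal γ).toMonoidHom) (MulAut.conjNormal γ).injective
    exact ⟨u, fun x => by rw [hu]; rfl⟩
  have hk : ∀ b, (1, b) ∈ R → b = 1 := fun b h => unit_eq_one fun x =>
    Additive.toMul.injective (Subtype.ext ((h x).trans (by rw [inv_one, one_mul, mul_one])))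
  open scoped IsMulCommutative in
  refine ⟨Additive A, inferInstance, θ, img R ⊤, ⟨?_, fun W hW => ?_⟩,
    img_solv' R inferInstance hk, fun s h => ⟨img_cop' R (fun g _ => ?_) hk, fun x => ?_⟩,
    fun γ hγ => ?_⟩
  · exact θ.nontrivial
  · have := hA.2.2 ((AddSubgroup.toSubgroup' W).map A.subtype) ⟨by
      rintro _ ⟨a, ha, rfl⟩ γ
      obtain ⟨φ, hφ⟩ := hR γ
      exact ⟨_, hW φ (mem_img.2 ⟨γ, trivial, hφ⟩) (Additive.ofMul a) ha, hφ _⟩⟩ (map_subtype_le _)
    rcases this with h | h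
    · exact Or.inl (eq_bot_iff.2 fun w hw => by
        have : (w.toMul : Γ) ∈ (⊥ : Subgroup Γ) := h ▸ ⟨w.toMul, hw, rfl⟩
        exact Additive.toMul.injective (Subtype.ext this))
    · refine Or.inr (eq_top_iff.2 fun w _ => ?_)
      obtain ⟨a, ha, e⟩ : (w.toMul : Γ) ∈ (AddSubgroup.toSubgroup' W).map A.subtype :=
        h.symm ▸ w.toMul.2
      rwa [show a = w.toMul from Subtype.ext e] at ha
  · exact orderOf_coe g ▸ h g g.2
  · have := h _ x.toMul.1.2
    rwa [orderOf_coe, orderOf_coe] at this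
  · obtain ⟨φ, hφ⟩ := hR ⟨γ, hγ⟩
    obtain ⟨c, hc', h⟩ := htr (γ o)
    refine ⟨φ, mem_img.2 ⟨_, trivial, hφ⟩, Additive.ofMul ⟨c, hc'⟩, fun x => ?_⟩
    change γ (x.toMul.1.1 o) = ((Additive.toMul (φ • x : Additive A) : A) : Γ).1 (c.1 o)
    rw [hφ, h]
    simp

end Cfsg.Agent.H1.BS
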