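import Cfsg.Agent.H1.BS1
import Cfsg.Agent.H3.BaerSuzuki

/-! Base sizes of solvable linear groups: rigid subsets of elementary abelian groups. -/

set_option autoImplicit false

namespace Cfsg.Agent.H1.BS

open Subgroup Finset

universe v

variable {X : Type v} [AddCommGroup X]

/-- A basis with its coordinate functions. -/
structure Bas (r : ℕ) {j : ℕ} (b : Fin j → X) (c : Fin j → X →+ ZMod r) : Prop where
  co : ∀ i k, c i (b k) = if i = k then 1 else 0
  sp : AddSubgroup.closure (Set.range b) = ⊤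

lemma exists_bas' [Finite X] (r : ℕ) [Fact r.Prime] [Module (ZMod r) X] :
    ∃ (j : ℕ) (b : Fin j → X) (c : Fin j → X →+ ZMod r), Bas r b c ∧ Nat.card X = r ^ j := by
  let b := Module.finBasis (ZMod r) X
  refine ⟨_, b, fun i => (b.coord i).toAddMonoidHom, ⟨fun i k => ?_, ?_⟩, ?_⟩
  · simp [Finsupp.single_apply, eq_comm]
  · refine eq_top_iff.2 fun x _ => ?_
    have : x ∈ Submodule.span (ZMod r) (Set.range b) := b.span_eq ▸ Submodule.mem_top
    exact Submodule.span_le (p := AddSubgroup.toZModSubmodule r (AddSubgroup.closure (Set.range b)))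
      |>.2 (fun _ h => AddSubgroup.subset_closure h) this
  · rw [Module.natCard_eq_pow_finrank (K := ZMod r), Nat.card_zmod]

lemma exists_bas [Finite X] {r : ℕ} [Fact r.Prime] (h : ∀ x : X, r • x = 0) :
    ∃ (j : ℕ) (b : Fin j → X) (c : Fin j → X →+ ZMod r), Bas r b c ∧ Nat.card X = r ^ j :=
  @exists_bas' X _ _ r _ (AddCommGroup.zmodModule h)

lemma card_closure_le' [Finite X] (r : ℕ) [hr : Fact r.Prime] [Module (ZMod r) X]
    (S : Finset X) : Nat.card (AddSubgroup.closure (S : Set X)) ≤ r ^ S.card := by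
  have h1 : AddSubgroup.closure (S : Set X) ≤ (Submodule.span (ZMod r) (S : Set X)).toAddSubgroup :=
    (AddSubgroup.closure_le _).2 Submodule.subset_span
  refine (AddSubgroup.card_le_of_le h1).trans ?_
  change Nat.card ↥(Submodule.span (ZMod r) (S : Set X)) ≤ _
  rw [Module.natCard_eq_pow_finrank (K := ZMod r), Nat.card_zmod]
  exact Nat.pow_le_pow_right hr.out.pos (finrank_span_finset_le_card S)

lemma card_closure_le [Finite X] {r : ℕ} [hr : Fact r.Prime] (h : ∀ x : X, r • x = 0)
    (S : Finset X) : Nat.card (AddSubgroup.closure (S : Set X)) ≤ r ^ S.card :=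
  @card_closure_le' X _ _ r _ (AddCommGroup.zmodModule h) S

lemma eq_one_of_closure {S : Set X} (h : AddSubgroup.closure S = ⊤) {φ : (En X)ˣ}
    (hφ : ∀ x ∈ S, φ • x = x) : φ = 1 :=
  unit_eq_one fun x => AddSubgroup.closure_induction (p := fun x _ => φ • x = x) hφ (smul_zero _)
    (fun _ _ _ _ ha hb => by rw [smul_add, ha, hb]) (fun _ _ ha => by rw [smul_neg, ha])
    (h ▸ AddSubgroup.mem_top x)

section Basis

variable {r j : ℕ} [hr : Fact r.Prime] {b : Fin j → X} {c : Fin j → X →+ ZMod r}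

/-- The sum of a set of basis vectors. -/
def bs (b : Fin j → X) (I : Finset (Fin j)) : X := ∑ i ∈ I, b i

/-- An initial segment. -/
def ch (j n : ℕ) : Finset (Fin j) := univ.filter fun i => i.val < n

lemma mem_ch {n : ℕ} {i : Fin j} : i ∈ ch j n ↔ i.val < n := by simp [ch]

lemma card_ch {n : ℕ} (h : n ≤ j) : (ch j n).card = n := by
  simp [ch, Fin.card_filter_val_lt, h]

lemma Bas.co_bs (h : Bas r b c) (I : Finset (Fin j)) (i : Fin j) :
    c i (bs b I) = if i ∈ I then 1 else 0 := by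
  simp [bs, h.co]

lemma Bas.bs_inj (h : Bas r b c) {I J : Finset (Fin j)} (e : bs b I = bs b J) : I = J := by
  ext i
  have := h.co_bs I i
  rw [e, h.co_bs] at this
  split_ifs at this <;> simp_all

lemma bs_single (b : Fin j → X) (i : Fin j) : bs b {i} = b i := sum_singleton _ _

lemma Bas.inj (h : Bas r b c) {i k : Fin j} (e : b i = b k) : i = k :=
  singleton_injective (h.bs_inj (by rw [bs_single, bs_single, e]))

lemma Bas.bs_ne_zero (h : Bas r b c) {I : Finset (Fin j)} (hI : I.Nonempty) : bs b I ≠ 0 :=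
  fun e => hI.ne_empty (h.bs_inj (e.trans (sum_empty).symm))

lemma Bas.exists_perm (h : Bas r b c) {φ : (En X)ˣ} (hφ : ∀ i, ∃ k, φ • b i = b k) :
    ∃ π : Equiv.Perm (Fin j), (∀ i, φ • b i = b (π i)) ∧
      ∀ I, φ • bs b I = bs b (I.map π.toEmbedding) := by
  choose f hf using hφ
  have : Function.Injective f := fun i k e => h.inj (smul_left_cancel φ (by rw [hf, hf, e]))
  refine ⟨Equiv.ofBijective f (Finite.injective_iff_bijective.1 this), hf, fun I => ?_⟩
  simp [bs, smul_sum, hf]

lemma perm_fix {π : Equiv.Perm (Fin j)} {m : ℕ}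
    (h : ∀ n, m ≤ n → n < j → (ch j n).map π.toEmbedding = ch j n) (i : Fin j) (hi : m ≤ i.val) :
    π i = i := by
  have h1 : ∀ n, m ≤ n → ∀ k : Fin j, (π k).val < n ↔ k.val < n := fun n hn k => by
    rcases lt_or_ge n j with h2 | h2
    · rw [← mem_ch, ← h n hn h2, mem_map_equiv, Equiv.symm_apply_apply, mem_ch]
    · have := k.2
      have := (π k).2
      omega
  have := h1 i hi i
  have := h1 (i + 1) (by omega) i
  exact Fin.ext (by omega)

/-- The chain of partial sums. -/
def chain (b : Fin j → X) : Set X := {x | ∃ n, 2 ≤ n ∧ n < j ∧ x = bs b (ch j n)}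

lemma ncard_chain (b : Fin j → X) : (chain b).ncard ≤ j - 2 := by
  have : chain b = (fun n => bs b (ch j n)) '' (Ico 2 j : Finset ℕ) := by
    ext x; simp [chain, and_assoc, eq_comm]
  rw [this]
  exact (Set.ncard_image_le (finite_toSet _)).trans (by simp)

lemma ncard_range (b : Fin j → X) : (Set.range b).ncard ≤ j := by
  rw [← Set.image_univ]
  exact (Set.ncard_image_le Set.finite_univ).trans (by simp)

/-- The rigid configuration in odd characteristic. -/
lemma Bas.odd_rigid [Finite X] (h : Bas r b c) (hr2 : r ≠ 2) {φ : (En X)ˣ}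
    (hφ : ∀ x ∈ Set.range b ∪ chain b, φ • x ∈ Set.range b ∪ chain b) :
    ∃ π : Equiv.Perm (Fin j), (∀ i, φ • b i = b (π i)) ∧ ∀ i : Fin j, 2 ≤ i.val → π i = i := by
  have h2 : (2 : ZMod r) ≠ 0 := fun e => hr2 ((Nat.prime_dvd_prime_iff_eq hr.out Nat.prime_two).1
    ((ZMod.natCast_eq_zero_iff 2 r).1 e))
  have hZ : ∀ x ∈ Set.range b ∪ chain b, ∃ I, I.Nonempty ∧ x = bs b I := by
    rintro _ (⟨i, rfl⟩ | ⟨n, h1, h2, rfl⟩)
    · exact ⟨{i}, singleton_nonempty i, (bs_single b i).symm⟩
    · exact ⟨_, card_pos.1 (by rw [card_ch h2.le]; omega), rfl⟩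
  have h3 : ∀ i, ∀ x ∈ Set.range b ∪ chain b, ∀ y ∈ Set.range b ∪ chain b, b i ≠ x + y := by
    intro i x hx y hy e
    obtain ⟨I, ⟨k, hk⟩, rfl⟩ := hZ x hx
    obtain ⟨J, ⟨l, hl⟩, rfl⟩ := hZ y hy
    have h4 : ∀ m, (if m = i then 1 else 0 : ZMod r) =
        (if m ∈ I then 1 else 0) + if m ∈ J then 1 else 0 := fun m => by
      rw [← h.co, e, map_add, h.co_bs, h.co_bs]
    have h5 := h4 k
    have h6 := h4 l
    rw [if_pos hk] at h5
    rw [if_pos hl] at h6
    have e1 : k = i := by
      by_contra h7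
      rw [if_neg h7] at h5
      split_ifs at h5
      · exact h2 (by linear_combination -h5)
      · simp at h5
    have e2 : l = i := by
      by_contra h7
      rw [if_neg h7] at h6
      split_ifs at h6
      · exact h2 (by linear_combination -h6)
      · simp at h6
    rw [if_pos e1, if_pos (e1 ▸ e2 ▸ hl)] at h5
    simp at h5
  obtain ⟨π, h4, h5⟩ := h.exists_perm (φ := φ) fun i => by
    rcases hφ _ (Or.inl ⟨i, rfl⟩) with ⟨k, hk⟩ | ⟨n, h1, h2, e⟩
    · exact ⟨k, hk.symm⟩
    obtain ⟨n, rfl⟩ : ∃ m, n = m + 1 := ⟨n - 1, by omega⟩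
    have h6 : ch j (n + 1) = insert ⟨n, by omega⟩ (ch j n) := by
      ext i; simp [mem_ch, Fin.ext_iff]; omega
    rw [h6, bs, sum_insert (by simp [mem_ch]), ← eq_inv_smul_iff, smul_add] at e
    refine absurd e (h3 i _ (inv_mem_of_into hφ _ (Or.inl ⟨_, rfl⟩)) _ (inv_mem_of_into hφ _ ?_))
    rcases Nat.lt_or_ge n 2 with h7 | h7
    · refine Or.inl ⟨⟨0, by omega⟩, ?_⟩
      rw [show ch j n = {⟨0, by omega⟩} by ext i; simp [mem_ch, Fin.ext_iff]; omega, sum_singleton]
    · exact Or.inr ⟨n, h7, by omega, rfl⟩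
  refine ⟨π, h4, perm_fix fun n h6 h7 => ?_⟩
  have h8 : ((ch j n).map π.toEmbedding).card = n := by rw [card_map, card_ch h7.le]
  rcases hφ _ (Or.inr ⟨n, h6, h7, rfl⟩) with ⟨k, hk⟩ | ⟨m, h1, h2, e⟩
  · rw [h5, ← bs_single b k] at hk
    rw [← h.bs_inj hk, card_singleton] at h8
    omega
  · rw [h5] at e
    rw [h.bs_inj e, card_ch h2.le] at h8
    rw [h.bs_inj e, h8]

lemma perm_aux {π : Equiv.Perm (Fin j)} (h : ∀ i : Fin j, 2 ≤ i.val → π i = i) :
    (∀ i, π (π i) = i) ∧ ∀ o : Fin j, o.val = 0 → π o = o → ∀ i, π i = i := by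
  have h1 : ∀ i : Fin j, i.val < 2 → (π i).val < 2 := fun i hi => by
    by_contra h2
    rw [π.injective (h _ (not_lt.1 h2))] at h2
    exact h2 hi
  refine ⟨fun i => ?_, fun o ho e i => ?_⟩
  · rcases lt_or_ge i.val 2 with h2 | h2
    · have h3 := h1 _ h2
      have h4 := h1 _ h3
      by_cases h5 : π i = i
      · rw [h5, h5]
      · have h6 := mt (fun e => π.injective e) h5
        rw [Fin.ext_iff] at h5 h6 ⊢
        omega
    · rw [h i h2, h i h2]
  · rcases lt_or_ge i.val 2 with h2 | h2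
    · by_cases h5 : i = o
      · rw [h5, e]
      · have h6 : ¬ π i = o := fun e' => h5 (π.injective (e'.trans e.symm))
        have := h1 _ h2
        rw [Fin.ext_iff] at h5 h6 ⊢
        omega
    · exact h i h2

lemma odd_bound (hr2 : r ≠ 2) (h3 : r ^ j ≠ 3) : 2 * r * (j + (j - 2)) < (r - 1) * r ^ j := by
  have := hr.out.two_le
  obtain ⟨s, rfl⟩ : ∃ s, r = s + 3 := ⟨r - 3, by omega⟩
  rcases j with _ | _ | j
  · simp
  · simp at h3 ⊢; nlinarith [Nat.pos_of_ne_zero h3]
  · have h1 : 2 * j + 2 < (s + 3) ^ (j + 1) := by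
      have : ∀ n, 2 * n + 2 < 3 ^ (n + 1) := fun n => by
        induction n with
        | zero => norm_num
        | succ n ih => rw [pow_succ]; omega
      exact (this j).trans_le (Nat.pow_le_pow_left (by omega) _)
    rw [pow_succ, show j + 1 + 1 + (j + 1 + 1 - 2) = 2 * j + 2 by omega,
      show s + 3 - 1 = s + 2 by omega]
    nlinarith [Nat.zero_le (s * (s + 3) ^ (j + 1) * (s + 3))]

end Basis

variable [Finite X] {r : ℕ} [hr : Fact r.Prime]

/-- A small set whose stabilizer has exponent two, in odd characteristic. -/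
theorem col_odd (h : ∀ x : X, r • x = 0) (hr2 : r ≠ 2) : ∃ Z : Set X,
    2 * r * Z.ncard < (r - 1) * Nat.card X ∧
      ∀ φ : (En X)ˣ, (∀ x ∈ Z, φ • x ∈ Z) → φ ^ 2 = 1 := by
  obtain ⟨j, b, c, hb, hc⟩ := exists_bas h
  by_cases h3 : r ^ j = 3
  · refine ⟨∅, by simpa using hr.out.one_lt, fun φ _ => unit_eq_one fun x => ?_⟩
    by_contra hx
    have h1 : φ • x ≠ x := fun e => hx (by rw [sq, mul_smul, e, e])
    have h0 : x ≠ 0 := by rintro rfl; simp at h1
    have := Fintype.ofFinite X
    classical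
    have := card_le_univ {0, x, φ • x, φ • φ • x}
    rw [← Nat.card_eq_fintype_card, hc, h3, card_eq_four.2 ⟨_, _, _, _, h0.symm,
      (smul_ne_zero_iff_ne φ).2 h0 |>.symm, ((smul_ne_zero_iff_ne φ).2
        ((smul_ne_zero_iff_ne φ).2 h0)).symm, h1.symm, fun e => hx (by rw [sq, mul_smul, ← e]),
      fun e => h1 (smul_left_cancel φ e).symm, rfl⟩] at this
    omega
  refine ⟨Set.range b ∪ chain b, ?_, fun φ hφ => ?_⟩
  · rw [hc]
    exact (Nat.mul_le_mul_left _ ((Set.ncard_union_le _ _).trans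
      (add_le_add (ncard_range b) (ncard_chain b)))).trans_lt (odd_bound hr2 h3)
  · obtain ⟨π, h1, h2⟩ := hb.odd_rigid hr2 hφ
    refine eq_one_of_closure hb.sp ?_
    rintro _ ⟨i, rfl⟩
    rw [sq, mul_smul, h1, h1, (perm_aux h2).1]

/-- A rigid set in characteristic at least five. -/
theorem col_five (h : ∀ x : X, r • x = 0) (hr2 : r ≠ 2) (hr3 : r ≠ 3) : ∃ Z : Set X,
    ∀ φ : (En X)ˣ, (∀ x ∈ Z, φ • x ∈ Z) → φ = 1 := by
  obtain ⟨j, b, c, hb, hc⟩ := exists_bas h
  rcases j with _ | j
  · exact ⟨∅, fun φ _ => eq_one_of_closure hb.sp (by simp)⟩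
  have h2 : (2 : ZMod r) ≠ 0 := fun e => hr2 ((Nat.prime_dvd_prime_iff_eq hr.out Nat.prime_two).1
    ((ZMod.natCast_eq_zero_iff 2 r).1 e))
  have h3 : (3 : ZMod r) ≠ 0 := fun e => hr3 ((Nat.prime_dvd_prime_iff_eq hr.out Nat.prime_three).1
    ((ZMod.natCast_eq_zero_iff 3 r).1 e))
  have hZ : ∀ x ∈ Set.range b ∪ chain b, ∃ I, I.Nonempty ∧ x = bs b I := by
    rintro _ (⟨i, rfl⟩ | ⟨n, h1, h2, rfl⟩)
    · exact ⟨{i}, singleton_nonempty i, (bs_single b i).symm⟩
    · exact ⟨_, card_pos.1 (by rw [card_ch h2.le]; omega), rfl⟩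
  refine ⟨insert (b 0 + b 0) (Set.range b ∪ chain b), fun φ hφ => ?_⟩
  have h4 : φ • b 0 = b 0 := by
    have e1 := hφ _ (Or.inl rfl)
    rw [smul_add] at e1
    rcases hφ _ (Or.inr (Or.inl ⟨0, rfl⟩)) with e | e
    · rw [e] at e1
      rcases e1 with e1 | e1
      · have := congrArg (c 0) e1
        simp only [map_add, hb.co, if_true] at this
        exact absurd (by linear_combination this) h2
      · obtain ⟨J, -, e1⟩ := hZ _ e1
        have := congrArg (c 0) e1
        simp only [map_add, hb.co, if_true, hb.co_bs] at this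
        split_ifs at this
        · exact absurd (by linear_combination this) h3
        · exact absurd (by linear_combination this) (mul_ne_zero h2 h2)
    · obtain ⟨I, ⟨k, hk⟩, e⟩ := hZ _ e
      rw [e] at e1 ⊢
      rcases e1 with e1 | e1
      · rw [← bs_single b 0]
        congr 1
        ext i
        have := congrArg (c i) e1
        simp only [map_add, hb.co, hb.co_bs] at this
        split_ifs at this with h5 h6 h6
        · simp [h5, ← h6]
        · exact absurd (by linear_combination this) h2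
        · exact absurd (by linear_combination -this) h2
        · simp [h5, h6]
      · obtain ⟨J, -, e1⟩ := hZ _ e1
        have := congrArg (c k) e1
        simp only [map_add, hb.co_bs, if_pos hk] at this
        split_ifs at this
        · simp at this
        · exact absurd (by linear_combination this) h2
  obtain ⟨π, h1, h5⟩ := hb.odd_rigid hr2 (φ := φ) fun x hx => (hφ x (Or.inr hx)).resolve_left
    fun e => by
      have e : φ • x = b 0 + b 0 := e
      rw [← h4, ← smul_add, smul_left_cancel_iff] at e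
      obtain ⟨J, -, e1⟩ := hZ _ hx
      have := congrArg (c 0) (e.symm.trans e1)
      simp only [map_add, hb.co, if_true, hb.co_bs] at this
      split_ifs at this
      · simp at this
      · exact absurd (by linear_combination this) h2
  refine eq_one_of_closure hb.sp ?_
  rintro _ ⟨i, rfl⟩
  rw [h1, (perm_aux h5).2 0 rfl (hb.inj ((h1 0).symm.trans h4))]

open scoped commutatorElement in
/-- Two disjoint sets, the second one small, with trivial common stabilizer. -/
theorem col_two (h : ∀ x : X, r • x = 0) {S : Subgroup (En X)ˣ} (hS : Group.IsSolvable S) :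
    ∃ A B : Set X, Disjoint A B ∧ (2 * r * B.ncard < (r - 1) * Nat.card X ∨ Nat.card X = 4) ∧
      ∀ φ ∈ S, (∀ x ∈ A, φ • x ∈ A) → (∀ x ∈ B, φ • x ∈ B) → φ = 1 := by
  obtain ⟨j, b, c, hb, hc⟩ := exists_bas h
  have hr1 := hr.out.one_lt
  rcases j with _ | _ | j
  · exact ⟨∅, ∅, by simp, by simp [hc, hr1], fun φ _ _ _ => eq_one_of_closure hb.sp (by simp)⟩
  · exact ⟨{b 0}, ∅, by simp, by simp [hc, hr1, hr.out.pos],
      fun φ _ h _ => eq_one_of_closure hb.sp (by simpa using h)⟩
  by_cases hr2 : r = 2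
  swap
  · refine ⟨{b 0}, (Set.range b ∪ chain b) \ {b 0}, Set.disjoint_sdiff_right, Or.inl ?_,
      fun φ _ h1 h2 => ?_⟩
    · rw [hc]
      refine (Nat.mul_le_mul_left _ ((Set.ncard_le_ncard Set.sdiff_subset).trans
        ((Set.ncard_union_le _ _).trans (add_le_add (ncard_range b) (ncard_chain b))))).trans_lt
        (odd_bound hr2 fun e => ?_)
      exact absurd (e ▸ Nat.prime_three) (Nat.Prime.not_prime_pow (by omega))
    · have h4 : φ • b 0 = b 0 := h1 _ rfl
      obtain ⟨π, h3, h5⟩ := hb.odd_rigid hr2 (φ := φ) fun x hx => by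
        by_cases e : x = b 0
        · rw [e, h4]; exact e ▸ hx
        · exact (h2 x ⟨hx, e⟩).1
      refine eq_one_of_closure hb.sp ?_
      rintro _ ⟨i, rfl⟩
      rw [h3, (perm_aux h5).2 0 rfl (hb.inj ((h3 0).symm.trans h4))]
  subst hr2
  rcases j with _ | _ | j
  · exact ⟨{b 0}, {b 1}, by simpa using fun e => absurd (hb.inj e) (by decide), Or.inr hc,
      fun φ _ h1 h2 => eq_one_of_closure hb.sp (Set.forall_mem_range.2
        (Fin.forall_fin_two.2 ⟨h1 _ rfl, h2 _ rfl⟩))⟩
  · have h2 : ∀ x : X, x + x = 0 := fun x => by rw [← two_nsmul, h]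
    have h2' : ∀ x y : X, x + (x + y) = y := fun x y => by rw [← add_assoc, h2, zero_add]
    have h3 : ∀ i k : Fin 3, ∃ u : (En X)ˣ, i ≠ k → ∀ x, u • x = x + (c k x).val • b i := by
      intro i k
      by_cases hik : i = k
      · exact ⟨1, fun h => absurd hik h⟩
      let _ : Module (ZMod 2) X := AddCommGroup.zmodModule h
      let f : X →+ X := AddMonoidHom.id X + ((smulAddHom (ZMod 2) X).flip (b i)).comp (c k)
      have hf : ∀ x, f x = x + c k x • b i := fun _ => rfl
      obtain ⟨u, hu⟩ := exists_unit f (Function.Involutive.injective fun x => by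
        rw [hf, hf, map_add, ZMod.map_smul, hb.co, if_neg (Ne.symm hik), smul_zero, add_zero,
          add_assoc, h2, add_zero])
      exact ⟨u, fun _ x => by
        rw [hu, hf, ← Nat.cast_smul_eq_nsmul (ZMod 2), ZMod.natCast_zmod_val]⟩
    choose e he using h3
    have he' : ∀ i k, i ≠ k → ∀ l, e i k • b l = if k = l then b l + b i else b l := by
      intro i k hik l
      rw [he i k hik, hb.co]
      split_ifs <;> simp [ZMod.val_one]
    have hinv : ∀ i k, i ≠ k → (e i k)⁻¹ = e i k := fun i k hik =>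
      inv_eq_of_mul_eq_one_left (eq_one_of_closure hb.sp (by
        rintro _ ⟨l, rfl⟩
        rw [mul_smul, he' i k hik]
        split_ifs with h <;> simp [he' i k hik, h, add_assoc, h2, hik.symm]
        subst h
        simp [he' i k hik, add_assoc, h2, hik.symm]))
    obtain ⟨i, k, hik, hS'⟩ : ∃ i k, i ≠ k ∧ e i k ∉ S := by
      by_contra h4
      push Not at h4
      have := elem_eq_one hS e h4 (fun i k l h1 h5 h6 => by
        rw [commutatorElement_def, hinv _ _ h5, hinv _ _ h6, eq_comm, ← mul_inv_eq_one,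
          hinv _ _ h1]
        refine eq_one_of_closure hb.sp ?_
        rintro _ ⟨m, rfl⟩
        have : m = i ∨ m = k ∨ m = l := by revert i k l m; decide
        rcases this with rfl | rfl | rfl <;>
          simp [mul_smul, he' _ _ h1, he' _ _ h5, he' _ _ h6, h1, h5, h6, h1.symm, h5.symm,
            h6.symm, add_assoc, h2, h2', add_comm, add_left_comm]) (i := 0) (j := 1) (by decide)
      have h5 := he' 0 1 (by decide) 1
      rw [this, one_smul, if_pos rfl, left_eq_add] at h5
      exact hb.bs_ne_zero (singleton_nonempty 0) ((bs_single _ _).trans h5)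
    obtain ⟨l, h4, h5, h6⟩ : ∃ l : Fin 3, l ≠ i ∧ l ≠ k ∧ ∀ m, m = i ∨ m = k ∨ m = l := by
      clear hS'; revert i k; decide
    refine ⟨{b k, b k + b i}, {b l}, ?_, Or.inl (by simp [hc]), fun φ hφ h7 h8 => ?_⟩
    · rw [Set.disjoint_singleton_right]
      rintro (e | e) <;> simpa [hb.co, h4, h5] using congrArg (c l) e
    have h8 : φ • b l = b l := h8 _ rfl
    have h9 := h7 _ (Or.inr rfl)
    rw [smul_add] at h9
    have hb0 : b i ≠ 0 := bs_single b i ▸ hb.bs_ne_zero (singleton_nonempty i)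
    have h10 : φ • b i = b i := by
      rcases h7 _ (Or.inl rfl) with e | e <;> rcases h9 with e' | e' <;> rw [e] at e'
      · exact absurd (add_eq_left.1 e') ((smul_ne_zero_iff_ne φ).2 hb0)
      · simpa using e'
      · rw [add_assoc, add_eq_left, add_eq_zero_iff_neg_eq, neg_eq_of_add_eq_zero_left (h2 _)] at e'
        exact e'.symm
      · exact absurd (add_eq_left.1 e') ((smul_ne_zero_iff_ne φ).2 hb0)
    rcases h7 _ (Or.inl rfl) with e1 | e1
    · refine eq_one_of_closure hb.sp ?_
      rintro _ ⟨m, rfl⟩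
      rcases h6 m with rfl | rfl | rfl <;> assumption
    · refine absurd ((?_ : e i k = φ) ▸ hφ) hS'
      rw [← inv_mul_eq_one]
      refine eq_one_of_closure hb.sp ?_
      rintro _ ⟨m, rfl⟩
      rw [mul_smul, inv_smul_eq_iff, he' _ _ hik]
      rcases h6 m with rfl | rfl | rfl
      · rw [if_neg hik.symm, h10]
      · rw [if_pos rfl, e1]
      · rw [if_neg h5.symm, h8]
  · set l := Fin.last (j + 3)
    have hl : (0 : Fin (j + 4)) ≠ l := by simp [l, Fin.ext_iff]
    have hB : ∀ x ∈ insert (bs b {0, l}) (chain b), ∃ I, x = bs b I ∧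
        (I = {0, l} ∧ I.card = 2 ∨ I = ch _ I.card ∧ 2 ≤ I.card ∧ I.card < j + 4) := by
      rintro _ (rfl | ⟨n, h1, h2, rfl⟩)
      · exact ⟨_, rfl, Or.inl ⟨rfl, card_pair hl⟩⟩
      · exact ⟨_, rfl, Or.inr (by rw [card_ch h2.le]; exact ⟨rfl, h1, h2⟩)⟩
    refine ⟨Set.range b, insert (bs b {0, l}) (chain b), ?_, Or.inl ?_, fun φ _ h1 h2 => ?_⟩
    · rw [Set.disjoint_left]
      rintro _ ⟨i, rfl⟩ hi
      obtain ⟨I, e, hI⟩ := hB _ hi
      rw [← hb.bs_inj ((bs_single b i).trans e), card_singleton] at hI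
      omega
    · have h1 := (Set.ncard_insert_le (bs b {0, l}) _).trans
        (Nat.add_le_add_right (ncard_chain b) 1)
      have : j + 3 < 2 ^ (j + 2) := by
        have := Nat.lt_two_pow_self (n := j)
        rw [pow_add]; omega
      rw [hc, pow_succ, pow_succ]
      omega
    obtain ⟨π, h3, h4⟩ := hb.exists_perm (φ := φ) fun i => (h1 _ ⟨i, rfl⟩).imp fun _ => Eq.symm
    have h5 := perm_fix (π := π) (m := 3) fun n h6 h7 => by
      obtain ⟨I, e, hI⟩ := hB _ (h2 _ (Or.inr ⟨n, by omega, h7, rfl⟩))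
      rw [h4] at e
      rw [← hb.bs_inj e, card_map, card_ch h7.le] at hI
      exact (hI.resolve_left (by omega)).1
    have h6 : π l = l := h5 l (by simp [l])
    have h7 : π 0 = 0 := by
      obtain ⟨I, e, hI⟩ := hB _ (h2 _ (Or.inl rfl))
      rw [h4] at e
      rw [← hb.bs_inj e, card_map, card_pair hl] at hI
      have h8 : l ∈ ({0, l} : Finset _).map π.toEmbedding := by simp [h6]
      have h9 : π 0 ∈ ({0, l} : Finset _).map π.toEmbedding := by simp
      rcases hI with hI | hI <;> rw [hI.1] at h8 h9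
      · exact (by simpa using h9 : π 0 = 0 ∨ π 0 = l).resolve_right fun e =>
          hl (π.injective (e.trans h6.symm))
      · simp [mem_ch, l] at h8
    have h8 := perm_fix (π := π) (m := 2) fun n h6' h7' => by
      obtain ⟨I, e, hI⟩ := hB _ (h2 _ (Or.inr ⟨n, by omega, h7', rfl⟩))
      rw [h4] at e
      rw [← hb.bs_inj e, card_map, card_ch h7'.le] at hI
      refine (hI.resolve_left fun hI => ?_).1
      have h8 : π l ∈ (ch _ n).map π.toEmbedding := by rw [hI.1, h6]; simp
      simp [mem_ch, l] at h8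
      omega
    refine eq_one_of_closure hb.sp ?_
    rintro _ ⟨i, rfl⟩
    rw [h3, (perm_aux h8).2 0 rfl h7]

end Cfsg.Agent.H1.BS
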