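import Cfsg.Agent.H1.BS3

/-! Base sizes of solvable linear groups: groups of order prime to three in characteristic two. -/

set_option autoImplicit false

namespace Cfsg.Agent.H1.BS

open Subgroup Finset

universe v

variable {X : Type v} [AddCommGroup X]

/-- The commutator space of an automorphism. -/
def rg (g : (En X)ˣ) : AddSubgroup X := (LinearMap.range ((g : En X) - 1)).toAddSubgroup

lemma mem_rg {g : (En X)ˣ} {x : X} : x ∈ rg g ↔ ∃ m, g • m - m = x := Iff.rfl

lemma card_rg_conj [Finite X] (g t : (En X)ˣ) : Nat.card (rg (g * t * g⁻¹)) ≤ Nat.card (rg t) := by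
  refine Nat.card_le_card_of_injective (fun x => ⟨g⁻¹ • x.1, ?_⟩) fun x y h =>
    Subtype.ext (smul_left_cancel g⁻¹ (congrArg Subtype.val h))
  obtain ⟨m, hm⟩ := mem_rg.1 x.2
  exact mem_rg.2 ⟨g⁻¹ • m, by rw [← hm, smul_sub, mul_smul, mul_smul, inv_smul_smul]⟩

lemma card_rg_mul [Finite X] (a b : (En X)ˣ) :
    Nat.card (rg (a * b)) ≤ Nat.card (rg a) * Nat.card (rg b) := by
  choose f hf using fun x : rg (a * b) => mem_rg.1 x.2
  rw [← Nat.card_prod]
  refine Nat.card_le_card_of_injective (fun x => (⟨_, mem_rg.2 ⟨b • f x, rfl⟩⟩,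
    ⟨_, mem_rg.2 ⟨f x, rfl⟩⟩)) fun x y h => Subtype.ext ?_
  simp only [Prod.mk.injEq, Subtype.mk.injEq] at h
  rw [← hf x, ← hf y, mul_smul, mul_smul, ← sub_add_sub_cancel _ (b • f x), h.1, h.2,
    sub_add_sub_cancel]

lemma smul_closure {S : Set X} {W : AddSubgroup X} {φ : (En X)ˣ} (h : ∀ a ∈ S, φ • a ∈ W)
    {x : X} (hx : x ∈ AddSubgroup.closure S) : φ • x ∈ W :=
  (AddSubgroup.closure_le (W.comap (DistribSMul.toAddMonoidHom X φ))).2 h hx

lemma eq_top_of_quot {Y W : AddSubgroup X} (h : Y ≤ W)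
    (h' : W.map (QuotientAddGroup.mk' Y) = ⊤) : W = ⊤ := by
  rw [← AddSubgroup.comap_map_eq_self (f := QuotientAddGroup.mk' Y) (H := W) (by simpa using h), h',
    AddSubgroup.comap_top]

variable [Finite X] {Γ : Subgroup (En X)ˣ}

lemma exists_inverted (hΓ : Irr Γ) (h2 : ∀ x : X, 2 • x = 0) (h3 : Cop 3 Γ) {t : (En X)ˣ}
    (ht : t ∈ Γ) (htt : t * t = 1) (h1 : t ≠ 1) : ∃ y ∈ Γ, ∃ s : ℕ, s.Prime ∧ 5 ≤ s ∧
      orderOf y = s ∧ t * y * t⁻¹ = y⁻¹ ∧ ∀ i : ℕ, ∃ g ∈ Γ, t * y ^ i = g * t * g⁻¹ := by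
  obtain ⟨h, h4, h5, h6⟩ := H3.exists_inverted_odd (t := (⟨t, ht⟩ : Γ))
    (orderOf_eq_prime (Subtype.ext (by simp [sq, htt])) fun e => h1 (congrArg Subtype.val e))
    fun N hN hp hm => h1 (hΓ.eq_one_of_pGroup (N := N.map Γ.subtype) h2 (by
      rintro g hg _ ⟨n, hn, rfl⟩
      exact ⟨_, hN.conj_mem' n hn ⟨g, hg⟩, rfl⟩) (hp.map _) ⟨_, hm, rfl⟩)
  obtain ⟨s, hs, hd⟩ := Nat.exists_prime_and_dvd (mt orderOf_eq_one_iff.1 h4)
  have h7 : orderOf (h ^ (orderOf h / s)) = s := orderOf_pow_orderOf_div (orderOf_pos h).ne' hd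
  set y := h ^ (orderOf h / s) with hy
  have h8 : t * y * t⁻¹ = (y : (En X)ˣ)⁻¹ := by
    have : (⟨t, ht⟩ : Γ) * y * (⟨t, ht⟩ : Γ)⁻¹ = y⁻¹ := by rw [hy, ← conj_pow, h6, inv_pow]
    exact congrArg Subtype.val this
  have hs2 : Odd s := h5.of_dvd_nat hd
  have hs3 : s ≠ 3 := by
    rintro rfl
    have := h3 y y.2
    rw [orderOf_coe, h7] at this
    simp at this
  refine ⟨y, y.2, s, hs, ?_, (orderOf_coe y).trans h7, h8, fun i => ?_⟩
  · have := hs.two_le
    obtain ⟨k, rfl⟩ := hs2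
    omega
  · obtain ⟨k, hk⟩ := hs2
    have h9 : (y : (En X)ˣ) ^ s = 1 := by rw [← h7, ← orderOf_coe, pow_orderOf_eq_one]
    refine ⟨((y : (En X)ˣ) ^ (i * (k + 1)))⁻¹, inv_mem (pow_mem y.2 _), ?_⟩
    rw [inv_inv, ← inv_pow, ← h8, conj_pow, inv_mul_cancel_right,
      mul_assoc, ← pow_add, show i * (k + 1) + i * (k + 1) = i + s * i by rw [hk]; ring,
      pow_add, pow_mul, h9, one_pow, mul_one]

section Odd

variable {y : (En X)ˣ} {s : ℕ}

omit [Finite X] in
lemma sum_rg (hy : orderOf y = s) {w : X} (hw : w ∈ rg y) : ∑ i ∈ range s, y ^ i • w = 0 := by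
  obtain ⟨m, rfl⟩ := mem_rg.1 hw
  simp only [smul_sub, ← mul_smul, ← pow_succ]
  rw [sum_range_sub (fun i => y ^ i • m), ← hy, pow_orderOf_eq_one, pow_zero, sub_self]

omit [Finite X] in
lemma sub_sum_mem (h2 : ∀ x : X, 2 • x = 0) (hs : Odd s) {W : AddSubgroup X} {m : X}
    (h : ∀ i : ℕ, y • y ^ i • m - y ^ i • m ∈ W) : m - ∑ i ∈ range s, y ^ i • m ∈ W := by
  have h1 : ∀ i : ℕ, m - y ^ i • m ∈ W := fun i => by
    induction i with
    | zero => simp
    | succ i ih => simpa [pow_succ', mul_smul] using W.sub_mem ih (h i)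
  obtain ⟨k, rfl⟩ := hs
  have : m - ∑ i ∈ range (2 * k + 1), y ^ i • m = ∑ i ∈ range (2 * k + 1), (m - y ^ i • m) := by
    rw [sum_sub_distrib, sum_const, card_range, add_nsmul, mul_nsmul, h2]; simp
  exact this ▸ W.sum_mem fun i _ => h1 i

lemma card_ge (h2 : ∀ x : X, 2 • x = 0) (hs : s.Prime) (h5 : 5 ≤ s) (hy : orderOf y = s)
    {W : AddSubgroup X} {w : X} (hw : w ∈ rg y) (h0 : w ≠ 0) (hW : ∀ i : ℕ, y ^ i • w ∈ W) :
    6 ≤ Nat.card W := by
  have h1 : y • w ≠ w := fun e => h0 (by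
    have := sub_sum_mem (y := y) h2 (hs.odd_of_ne_two (by omega)) (W := ⊥) (m := w) fun i => by
      rw [← mul_smul, ← pow_succ', pow_succ, mul_smul, e, sub_self]; exact zero_mem _
    rwa [sum_rg hy hw, sub_zero] at this)
  have h3 : MulAction.period y w = s := ((Nat.dvd_prime hs).1
    (hy ▸ MulAction.period_dvd_orderOf y w)).resolve_left fun e => h1 (by
      simpa using (MulAction.pow_smul_eq_iff_period_dvd (n := 1)).2 e.dvd)
  have h4 : ∀ i k : Fin 5, i < k → y ^ i.val • w ≠ y ^ k.val • w := fun i k hik e => by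
    have : y ^ (k.val - i.val) • w = w := by
      apply smul_left_cancel (y ^ i.val)
      rw [← mul_smul, ← pow_add, Nat.add_sub_cancel' hik.le, e]
    have := Nat.le_of_dvd (by omega) (h3 ▸ MulAction.pow_smul_eq_iff_period_dvd.1 this)
    omega
  have := Nat.card_le_card_of_injective (fun o : Option (Fin 5) =>
    (o.elim 0 fun i => ⟨_, hW i⟩ : W)) (by
      rintro (_ | i) (_ | k) e
      · rfl
      · exact absurd (congrArg Subtype.val e).symm ((smul_ne_zero_iff_ne _).2 h0)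
      · exact absurd (congrArg Subtype.val e) ((smul_ne_zero_iff_ne _).2 h0)
      · have e := congrArg Subtype.val e
        rcases lt_trichotomy i k with h | h | h
        · exact absurd e (h4 i k h)
        · rw [h]
        · exact absurd e.symm (h4 k i h))
  simpa using this

omit [Finite X] in
lemma pow_smul_rg (i : ℕ) {w : X} (hw : w ∈ rg y) : y ^ i • w ∈ rg y := by
  obtain ⟨m, rfl⟩ := mem_rg.1 hw
  exact mem_rg.2 ⟨y ^ i • m, by rw [smul_sub, ← mul_smul, ← mul_smul, pow_mul_comm']⟩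

omit [Finite X] in
lemma exists_rg (h : y ≠ 1) : ∃ w ∈ rg y, w ≠ 0 := by
  by_contra h1
  push Not at h1
  exact h (unit_eq_one fun m => sub_eq_zero.1 (h1 _ (mem_rg.2 ⟨m, rfl⟩)))

end Odd

lemma card_rg_le {t y : (En X)ˣ} (htt : t * t = 1) (h : ∃ g ∈ Γ, t * y ^ 1 = g * t * g⁻¹) :
    Nat.card (rg y) ≤ Nat.card (rg t) * Nat.card (rg t) := by
  obtain ⟨g, -, h⟩ := h
  rw [show y = t * (g * t * g⁻¹) by rw [← h, ← mul_assoc, htt, one_mul, pow_one]]
  exact (card_rg_mul _ _).trans (Nat.mul_le_mul_left _ (card_rg_conj _ _))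

/-- There are no transvections. -/
lemma no_transvection (hΓ : Irr Γ) (h2 : ∀ x : X, 2 • x = 0) (h3 : Cop 3 Γ) {t : (En X)ˣ}
    (ht : t ∈ Γ) (htt : t * t = 1) (h : Nat.card (rg t) ≤ 2) : t = 1 := by
  by_contra h1
  obtain ⟨y, -, s, hs, h5, hy, -, h6⟩ := exists_inverted hΓ h2 h3 ht htt h1
  obtain ⟨w, hw, h0⟩ := exists_rg (y := y) (by rintro rfl; simp at hy; omega)
  have := card_ge h2 hs h5 hy hw h0 fun i => pow_smul_rg i hw
  have := card_rg_le htt (h6 1)
  nlinarith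

/-- There are no involutions of type `a₂`. -/
lemma no_a_two (hΓ : Irr Γ) (h2 : ∀ x : X, 2 • x = 0) (h3 : Cop 3 Γ) (O : X → X → Prop)
    (hs : ∀ a b, O a b → O b a) (ha : ∀ a b c, O (a + b) c ↔ (O a c ↔ O b c))
    (hi : ∀ g ∈ Γ, ∀ a b, O (g • a) (g • b) ↔ O a b) (hn : ∀ a, (∀ b, O a b) → a = 0)
    {t : (En X)ˣ} (ht : t ∈ Γ) (htt : t * t = 1) (h : Nat.card (rg t) ≤ 4)
    (hO : ∀ m, O m (t • m)) : t = 1 := by
  by_contra h1
  obtain ⟨y, hyΓ, s, hs', h5, hy, h7, h6⟩ := exists_inverted hΓ h2 h3 ht htt h1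
  have hodd := hs'.odd_of_ne_two (by omega)
  have h2' : ∀ x : X, -x = x := fun x => neg_eq_of_add_eq_zero_left (by rw [← two_nsmul, h2])
  have htm : ∀ m : X, t • t • m = m := fun m => by rw [← mul_smul, htt, one_smul]
  obtain ⟨m, hm, h0, hmt⟩ : ∃ m ∈ rg y, m ≠ 0 ∧ t • m = m := by
    obtain ⟨w, hw, h0⟩ := exists_rg (y := y) (by rintro rfl; simp at hy; omega)
    by_cases e : t • w = w
    · exact ⟨w, hw, h0, e⟩
    refine ⟨t • w - w, sub_mem ?_ hw, sub_ne_zero.2 e, by rw [smul_sub, htm, ← neg_sub, h2']⟩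
    obtain ⟨m, rfl⟩ := mem_rg.1 hw
    refine mem_rg.2 ⟨-(y⁻¹ • t • m), ?_⟩
    rw [smul_neg, smul_inv_smul, smul_sub, ← h7, mul_smul, mul_smul, inv_smul_smul]; abel
  have h8 : ∀ i : ℕ, O m (y ^ i • m) := fun i => by
    obtain ⟨g, hg, e⟩ := h6 i
    have := (hi g hg _ _).2 (hO (g⁻¹ • m))
    rw [smul_inv_smul, ← mul_smul, ← mul_smul, ← e, mul_smul, ← hi t ht, htm, hmt] at this
    exact this
  have hO0 : ∀ c, O 0 c := fun c => by simpa [← two_nsmul, h2] using (ha 0 0 c).2 Iff.rfl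
  let P : X → AddSubgroup X := fun c =>
    { carrier := {a | O a c}
      zero_mem' := hO0 c
      add_mem' := fun h h' => (ha _ _ _).2 (iff_of_true h h')
      neg_mem' := fun h => by rwa [h2'] }
  set W := AddSubgroup.closure (Set.range fun i : ℕ => y ^ i • m)
  have hW : W ≤ rg y := (AddSubgroup.closure_le _).2 (by
    rintro _ ⟨i, rfl⟩; exact pow_smul_rg i hm)
  have h9 : ∀ a ∈ W, ∀ b ∈ W, O a b := fun a ha' b hb => by
    refine (AddSubgroup.closure_le (P b)).2 ?_ ha'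
    rintro _ ⟨i, rfl⟩
    refine hs _ _ ((AddSubgroup.closure_le (P _)).2 ?_ hb)
    rintro _ ⟨k, rfl⟩
    change O (y ^ k • m) (y ^ i • m)
    rcases le_total i k with h | h
    · rw [← Nat.add_sub_cancel' h, pow_add, mul_smul, hi _ (pow_mem hyΓ _)]
      exact hs _ _ (h8 _)
    · rw [← Nat.add_sub_cancel' h, pow_add, mul_smul, hi _ (pow_mem hyΓ _)]
      exact h8 _
  have h10 := card_ge h2 hs' h5 hy hm h0 (W := W) fun i => AddSubgroup.subset_closure ⟨i, rfl⟩
  have h11 := card_rg_le htt (h6 1)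
  have hyW : ∀ a ∈ W, y • a ∈ W := fun a ha => by
    refine smul_closure ?_ ha
    rintro _ ⟨i, rfl⟩
    exact AddSubgroup.subset_closure ⟨i + 1, by simp [pow_succ', mul_smul]⟩
  have h12 : ∀ w ∈ rg y, y • w - w ∈ W := fun w hw => by
    by_contra h12
    have h13 : w ∉ W := fun h => h12 (W.sub_mem (hyW w h) h)
    have h14 : y • w ∉ W := fun h => h13 (by simpa using inv_mem_of_into (Z := (W : Set X)) hyW _ h)
    have hw' : y • w ∈ rg y := by simpa using pow_smul_rg 1 hw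
    have := Nat.card_le_card_of_injective (fun o : Fin 3 × W =>
      (⟨![0, w, y • w] o.1 + o.2, add_mem (by
        rcases o with ⟨i, -⟩
        fin_cases i <;> simp [hw, hw']) (hW o.2.2)⟩ : rg y)) (by
      rintro ⟨i, a⟩ ⟨k, b⟩ e
      have e := congrArg Subtype.val e
      have e1 : ![0, w, y • w] i - ![0, w, y • w] k ∈ W := by
        rw [show ![0, w, y • w] i - ![0, w, y • w] k = b - a by
          rw [sub_eq_sub_iff_add_eq_add, add_comm b.1]; exact e]
        exact W.sub_mem b.2 a.2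
      have h15 : w - y • w ∉ W := fun h => h12 (by simpa using W.neg_mem h)
      have : i = k := by
        fin_cases i <;> fin_cases k <;> first | rfl | (simp [h12, h13, h14, h15] at e1)
      subst this
      exact Prod.ext rfl (Subtype.ext (add_left_cancel e)))
    simp only [Nat.card_prod, Nat.card_eq_fintype_card, Fintype.card_fin] at this
    nlinarith
  have h13 : ∀ w ∈ rg y, w ∈ W := fun w hw => by
    simpa [sum_rg hy hw] using sub_sum_mem h2 hodd fun i => h12 _ (pow_smul_rg i hw)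
  refine h0 (hn m fun b => ?_)
  have h14 := sub_sum_mem (y := y) h2 hodd (W := rg y) (m := b) fun i => mem_rg.2 ⟨_, rfl⟩
  set c := ∑ i ∈ range s, y ^ i • b with hc
  have h15 : y • c = c := by
    rw [← sub_eq_zero, ← sum_rg hy (mem_rg.2 ⟨b, rfl⟩), hc, smul_sum, ← sum_sub_distrib]
    exact sum_congr rfl fun i _ => by rw [smul_sub, ← mul_smul, ← mul_smul, pow_mul_comm']
  refine hs _ _ ?_
  rw [← sub_add_cancel b c, ha]
  refine iff_of_true (h9 _ (h13 _ h14) _ (h13 _ hm)) (hs _ _ ?_)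
  obtain ⟨n, rfl⟩ := mem_rg.1 hm
  rw [sub_eq_add_neg, h2', ha, ← hi y hyΓ n, h15]

lemma closure_erase_eq_top [DecidableEq X] {Z : Finset X} {φ : (En X)ˣ} (hφ : ∀ x ∈ Z, φ • x ∈ Z)
    {z : X} (h : AddSubgroup.closure (Z.erase z : Set X) = ⊤) :
    AddSubgroup.closure (Z.erase (φ • z) : Set X) = ⊤ := by
  refine eq_top_iff.2 fun x _ => ?_
  rw [← smul_inv_smul φ x]
  refine smul_closure (fun a ha => ?_) (h ▸ AddSubgroup.mem_top (φ⁻¹ • x))
  have ha := mem_erase.1 ha
  exact AddSubgroup.subset_closure (mem_erase.2 ⟨fun e => ha.1 (smul_left_cancel φ e), hφ a ha.2⟩)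

/-- Extending a basis of a subgroup by a circuit. -/
lemma exists_circuit [DecidableEq X] (h2 : ∀ x : X, 2 • x = 0) (Z : Finset X)
    (hZ : 2 ^ Z.card ≤ Nat.card (AddSubgroup.closure (Z : Set X)))
    (hm : 4 * 2 ^ Z.card ≤ Nat.card X) : ∃ C : Finset X, ∑ x ∈ C, x = 0 ∧
      2 ^ (Z.card + C.card) = 2 * Nat.card X ∧ AddSubgroup.closure ((Z ∪ C : Finset X) : Set X) = ⊤ ∧
      ∀ φ : (En X)ˣ, (∀ x ∈ Z ∪ C, φ • x ∈ Z ∪ C) → (∀ x ∈ Z, φ • x ∈ Z) ∧ ∀ x ∈ C, φ • x ∈ C := by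
  set Y := AddSubgroup.closure (Z : Set X)
  have hY : Nat.card Y = 2 ^ Z.card := le_antisymm (card_closure_le h2 Z) hZ
  obtain ⟨j, b, c, hb, hc⟩ := exists_bas (X := X ⧸ Y) (r := 2) fun x => by
    obtain ⟨x, rfl⟩ := QuotientAddGroup.mk_surjective x
    rw [← QuotientAddGroup.mk_nsmul, h2, QuotientAddGroup.mk_zero]
  have hX : Nat.card X = 2 ^ (j + Z.card) := by
    rw [AddSubgroup.card_eq_card_quotient_mul_card_addSubgroup Y, hc, hY, pow_add]
  have hj : 2 ≤ j := by
    rw [hX, pow_add, Nat.mul_le_mul_right_iff (by positivity)] at hm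
    exact (Nat.pow_le_pow_iff_right one_lt_two).1 hm
  choose a ha using fun i => QuotientAddGroup.mk'_surjective Y (b i)
  have hinj : Function.Injective a := fun i k e => hb.inj (by rw [← ha, ← ha, e])
  have hs : ∑ i, a i ∉ univ.image a := by
    simp only [mem_image, mem_univ, true_and, not_exists]
    intro i e
    have := congrArg (QuotientAddGroup.mk' Y) e
    rw [map_sum, ha, sum_congr rfl fun i _ => ha i, ← bs_single b i] at this
    have := congrArg card (hb.bs_inj this)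
    simp at this
    omega
  have htop : ∀ W : AddSubgroup X, (Z : Set X) ⊆ W → (∀ i, a i ∈ W) → W = ⊤ := fun W h1 h3 => by
    have h4 : Y ≤ W := (AddSubgroup.closure_le _).2 h1
    have h5 : W.map (QuotientAddGroup.mk' Y) = ⊤ := eq_top_iff.2 (hb.sp ▸
      (AddSubgroup.closure_le _).2 (by rintro _ ⟨i, rfl⟩; exact ⟨_, h3 i, ha i⟩))
    exact eq_top_of_quot h4 h5
  set C := insert (∑ i, a i) (univ.image a)
  have hC : ∑ x ∈ C, x = 0 := by
    rw [sum_insert hs, sum_image fun _ _ _ _ e => hinj e, ← two_nsmul, h2]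
  have hcard : C.card = j + 1 := by
    rw [card_insert_of_notMem hs, card_image_of_injective _ hinj]; simp
  have haC : ∀ i, a i ∈ C := fun i => mem_insert_of_mem (mem_image_of_mem _ (mem_univ i))
  have hdis : ∀ x ∈ C, x ∉ Z := fun x hx hz => by
    have h0 : QuotientAddGroup.mk' Y x = 0 := by simpa using AddSubgroup.subset_closure hz
    rcases mem_insert.1 hx with rfl | hx
    · rw [map_sum, sum_congr rfl fun i _ => ha i] at h0
      exact hb.bs_ne_zero ⟨⟨0, by omega⟩, mem_univ _⟩ h0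
    · obtain ⟨i, -, rfl⟩ := mem_image.1 hx
      rw [ha, ← bs_single b i] at h0
      exact hb.bs_ne_zero (singleton_nonempty i) h0
  have h3 : ∀ x ∈ C, AddSubgroup.closure ((Z ∪ C).erase x : Set X) = ⊤ := fun x hx => by
    have h4 : ∀ y ∈ C, y ≠ x → y ∈ AddSubgroup.closure ((Z ∪ C).erase x : Set X) :=
      fun y hy e => AddSubgroup.subset_closure (mem_erase.2 ⟨e, mem_union_right _ hy⟩)
    refine htop _ (fun z hz => AddSubgroup.subset_closure (mem_erase.2
      ⟨fun e => hdis x hx (e ▸ hz), mem_union_left _ hz⟩)) fun i => ?_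
    by_cases e : a i = x
    · rw [← add_sum_erase _ _ hx, add_eq_zero_iff_eq_neg] at hC
      rw [e]
      nth_rewrite 2 [hC]
      exact neg_mem (sum_mem fun y hy => h4 y (mem_of_mem_erase hy) (ne_of_mem_erase hy))
    · exact h4 _ (haC i) e
  have h4 : ∀ x ∈ Z, AddSubgroup.closure ((Z ∪ C).erase x : Set X) ≠ ⊤ := fun x hx e => by
    have h5 : AddSubgroup.closure ((Z.erase x ∪ univ.image a : Finset X) : Set X) = ⊤ := by
      refine eq_top_iff.2 (e ▸ (AddSubgroup.closure_le _).2 fun y hy => ?_)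
      obtain ⟨h6, h7⟩ := mem_erase.1 hy
      have h8 : ∀ i, a i ∈ AddSubgroup.closure ((Z.erase x ∪ univ.image a : Finset X) : Set X) :=
        fun i => AddSubgroup.subset_closure (mem_union_right _ (mem_image_of_mem _ (mem_univ i)))
      rcases mem_union.1 h7 with h7 | h7
      · exact AddSubgroup.subset_closure (mem_union_left _ (mem_erase.2 ⟨h6, h7⟩))
      rcases mem_insert.1 h7 with rfl | h7
      · exact sum_mem fun i _ => h8 i
      · obtain ⟨i, -, rfl⟩ := mem_image.1 h7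
        exact h8 i
    have h6 := card_closure_le h2 (Z.erase x ∪ univ.image a)
    rw [h5, AddSubgroup.card_top, hX, Nat.pow_le_pow_iff_right one_lt_two] at h6
    have := card_union_le (Z.erase x) (univ.image a)
    rw [card_erase_of_mem hx, card_image_of_injective _ hinj, card_univ, Fintype.card_fin] at this
    have := card_pos.2 ⟨x, hx⟩
    omega
  refine ⟨C, hC, by rw [hX, hcard]; ring, htop _ (fun z hz => AddSubgroup.subset_closure
    (mem_union_left _ hz)) fun i => AddSubgroup.subset_closure (mem_union_right _ (haC i)),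
    fun φ hφ => ⟨fun x hx => ?_, fun x hx => ?_⟩⟩
  · refine (mem_union.1 (hφ x (mem_union_left _ hx))).resolve_right fun h => h4 x hx ?_
    have := closure_erase_eq_top (Z := Z ∪ C)
      (inv_mem_of_into (Z := ((Z ∪ C : Finset X) : Set X)) hφ) (h3 _ h)
    rwa [inv_smul_smul] at this
  · exact (mem_union.1 (hφ x (mem_union_right _ hx))).resolve_left fun h =>
      h4 _ h (closure_erase_eq_top hφ (h3 x hx))

lemma small_rigid [DecidableEq X] (hΓ : Irr Γ) (h2 : ∀ x : X, 2 • x = 0) (h3 : Cop 3 Γ)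
    {Z C : Finset X} (hZ : AddSubgroup.closure ((Z ∪ C : Finset X) : Set X) = ⊤)
    (hC : C.card ≤ 3 ∨ C.card = 4 ∧ ∑ x ∈ C, x = 0) {φ : (En X)ˣ} (hφ : φ ∈ Γ)
    (h4 : ∀ x ∈ Z, φ • x = x) (h5 : ∀ x ∈ C, φ • x ∈ C) : φ = 1 := by
  have h6 : ∀ i : ℕ, (∀ x ∈ Z, φ ^ i • x = x) ∧ ∀ x ∈ C, φ ^ i • x ∈ C := fun i => by
    induction i with
    | zero => simp
    | succ i ih => exact ⟨fun x hx => by rw [pow_succ, mul_smul, h4 x hx, ih.1 x hx],
        fun x hx => by rw [pow_succ, mul_smul]; exact ih.2 _ (h5 x hx)⟩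
  have h7 : φ ^ (4 * 3) = 1 := eq_one_of_closure hZ fun x hx => by
    rcases mem_union.1 hx with hx | hx
    · exact (h6 _).1 x hx
    obtain ⟨i, hi, k, hk, hik, e⟩ := exists_ne_map_eq_of_card_lt_of_maps_to (s := range 5) (t := C)
      (by simp; omega) (f := fun i => φ ^ i • x) fun i _ => (h6 i).2 x hx
    wlog h : i < k generalizing i k
    · exact this k hk i hi hik.symm e.symm (by omega)
    have : φ ^ (k - i) • x = x := by
      apply smul_left_cancel (φ ^ i)
      rw [← mul_smul, ← pow_add, Nat.add_sub_cancel' h.le, e]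
    refine MulAction.pow_smul_eq_iff_period_dvd.2
      ((MulAction.pow_smul_eq_iff_period_dvd.1 this).trans ?_)
    have : k - i = 1 ∨ k - i = 2 ∨ k - i = 3 ∨ k - i = 4 := by simp at hk; omega
    rcases this with e | e | e | e <;> simp [e]
  have h8 : ∀ i : ℕ, φ ^ i * φ ^ i = 1 → φ ^ i = 1 := fun i hi => by
    set t := φ ^ i
    have htm : ∀ m : X, t • t • m = m := fun m => by rw [← mul_smul, hi, one_smul]
    refine no_transvection hΓ h2 h3 (pow_mem hφ i) hi ?_
    have h2' : ∀ x : X, -x = x := fun x => neg_eq_of_add_eq_zero_left (by rw [← two_nsmul, h2])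
    obtain ⟨d, hd⟩ : ∃ d, ∀ x ∈ C, t • x - x = 0 ∨ t • x - x = d := by
      by_contra h
      push Not at h
      obtain ⟨a, ha, ha0, -⟩ := h 0
      obtain ⟨b, hb, hb0, hab⟩ := h (t • a - a)
      have e1 : a ≠ b := fun e => hab (e ▸ rfl)
      have e2 : t • a ≠ b := fun e => hab (by rw [← e, htm, ← neg_sub, h2'])
      have e3 : ({a, t • a, b, t • b} : Finset X).card = 4 := card_eq_four.2 ⟨_, _, _, _,
        (sub_ne_zero.1 ha0).symm, e1, fun e => e2 (by rw [e, htm]), e2,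
        fun e => e1 (smul_left_cancel t e), (sub_ne_zero.1 hb0).symm, rfl⟩
      have e4 : ({a, t • a, b, t • b} : Finset X) ⊆ C := by
        simp [insert_subset_iff, ha, hb, (h6 i).2 a ha, (h6 i).2 b hb, t]
      have := card_le_card e4
      obtain ⟨e5, e6⟩ := hC.resolve_left (by omega)
      rw [← eq_of_subset_of_card_le e4 (by omega), sum_insert, sum_insert, sum_pair
        (sub_ne_zero.1 hb0).symm] at e6
      · exact hab (by
          rw [sub_eq_add_neg, sub_eq_add_neg, h2', h2', ← h2' (t • a + a), eq_neg_iff_add_eq_zero,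
            ← e6]; abel)
      · simpa using ⟨e2, e1⟩
      · simpa using ⟨(sub_ne_zero.1 ha0).symm, e1, fun e => e2 (by rw [e, htm])⟩
    refine le_trans (AddSubgroup.card_le_of_le (K := AddSubgroup.closure (({d} : Finset X) : Set X))
      fun x hx => ?_) (card_closure_le h2 {d})
    obtain ⟨m, rfl⟩ := mem_rg.1 hx
    refine AddSubgroup.closure_induction
      (p := fun m _ => t • m - m ∈ AddSubgroup.closure (({d} : Finset X) : Set X)) (fun a ha => ?_)
      (by simp) (fun _ _ _ _ h h' => by rw [smul_add, add_sub_add_comm]; exact add_mem h h')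
      (fun _ _ h => by rwa [h2']) (hZ ▸ AddSubgroup.mem_top m)
    rcases mem_union.1 ha with ha | ha
    · simp [t, (h6 i).1 a ha]
    · rcases hd a ha with e | e <;> rw [e]
      · exact zero_mem _
      · exact AddSubgroup.subset_closure (by simp)
  simpa using h8 1 (by rw [← pow_add, h8 2 (by rw [← pow_add, h3.pow_eq_one hφ h7])])

/-- Rigid spanning sets for solvable groups of order prime to three. -/
theorem rigid_three
    (hI : ∀ (X : Type v) [AddCommGroup X] [Finite X] (S : Subgroup (En X)ˣ), Group.IsSolvable S →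
      Irr S → ∃ t : Fin 3 → X, Reg S t) (n : ℕ) :
    ∀ (X : Type v) [AddCommGroup X] [Finite X] (S : Subgroup (En X)ˣ), Nat.card X = 2 ^ n →
      (∀ x : X, 2 • x = 0) → Group.IsSolvable S → Cop 3 S → ∃ Z : Finset X, 0 ∉ Z ∧
        4 * Z.card ≤ 5 * n ∧ AddSubgroup.closure (Z : Set X) = ⊤ ∧
        ∀ φ ∈ S, (∀ x ∈ Z, φ • x ∈ Z) → φ = 1 := by
  classical
  induction n using Nat.strong_induction_on with | _ n ih
  intro X _ _ S hn h2 hS h3
  have hsub : ∀ Y : AddSubgroup X, Y ≠ ⊤ → ∃ m, Nat.card Y = 2 ^ m ∧ ∃ Z : Finset X,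
      0 ∉ Z ∧ 4 * Z.card ≤ 5 * m ∧ AddSubgroup.closure (Z : Set X) = Y ∧
        ∀ φ ∈ S, (∀ x ∈ Z, φ • x ∈ Z) → ∀ y ∈ Y, φ • y = y := fun Y hY => by
    have h2' : ∀ x : Y, 2 • x = 0 := fun x => Subtype.ext (h2 x)
    obtain ⟨m, -, -, -, hm⟩ := exists_bas h2'
    obtain ⟨Z, h4, h5, h6, h7⟩ := ih m ((Nat.pow_lt_pow_iff_right one_lt_two).1
      (hm ▸ hn ▸ card_lt_of_ne_top hY)) Y _ hm h2' (res_solv hS Y) (res_cop h3 Y)
    have h8 : AddSubgroup.closure ((Z.image Y.subtype : Finset X) : Set X) = Y := by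
      rw [coe_image, ← AddMonoidHom.map_closure, h6, ← AddMonoidHom.range_eq_map,
        AddSubgroup.range_subtype]
    refine ⟨m, hm, Z.image Y.subtype, by simpa using h4, by
      rwa [card_image_of_injective _ Y.subtype_injective], h8, fun φ hφ h y hy => ?_⟩
    obtain ⟨ψ, hψ⟩ := exists_res (W := Y) (g := φ) fun w hw => by
      rw [← h8] at hw ⊢
      exact smul_closure (fun a ha => AddSubgroup.subset_closure (h a ha)) hw
    rw [← hψ ⟨y, hy⟩, h7 ψ (mem_res.2 ⟨φ, hφ, hψ⟩) fun x hx => ?_, one_smul]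
    obtain ⟨z, hz, e⟩ := mem_image.1 (h x (mem_image_of_mem _ hx))
    rwa [show ψ • x = z from Subtype.ext ((hψ x).trans e.symm)]
  by_cases hirr : Irr S
  · rcases le_or_gt n 3 with h4 | h4
    · obtain ⟨j, b, c, hb, hc⟩ := exists_bas h2
      obtain rfl : j = n := Nat.pow_right_injective le_rfl (hc.symm.trans hn)
      have h5 : (univ.image b).card ≤ j := card_image_le.trans (by simp)
      have h6 : ∀ i, b i ≠ 0 := fun i => bs_single b i ▸ hb.bs_ne_zero (singleton_nonempty i)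
      refine ⟨univ.image b, by simpa using h6, by omega, by simpa using hb.sp, fun φ hφ h => ?_⟩
      exact small_rigid hirr h2 h3 (Z := ∅) (by simpa using hb.sp) (Or.inl (by omega)) hφ
        (by simp) h
    have hz : ∀ Z C : Finset X,
        2 ^ (Z.card + C.card) = 2 * Nat.card X → 4 * ((Z ∪ C).erase 0).card ≤ 5 * n := by
      intro Z C h
      rw [hn, ← pow_succ'] at h
      have := Nat.pow_right_injective le_rfl h
      have := card_union_le Z C
      have := card_erase_le (s := Z ∪ C) (a := 0)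
      omega
    have hcl : ∀ Z : Finset X, AddSubgroup.closure (Z : Set X) = ⊤ →
        AddSubgroup.closure (Z.erase 0 : Set X) = ⊤ := fun Z h =>
      eq_top_iff.2 (h ▸ (AddSubgroup.closure_le _).2 fun x hx => by
        by_cases e : x = 0
        · rw [e]; exact zero_mem _
        · exact AddSubgroup.subset_closure (mem_erase.2 ⟨e, hx⟩))
    have her : ∀ (Z : Finset X) (φ : (En X)ˣ), (∀ x ∈ Z.erase 0, φ • x ∈ Z.erase 0) →
        ∀ x ∈ Z, φ • x ∈ Z := fun Z φ h x hx => by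
      by_cases e : x = 0
      · rwa [e, smul_zero, ← e]
      · exact mem_of_mem_erase (h x (mem_erase.2 ⟨e, hx⟩))
    rcases (show n = 4 ∨ 5 ≤ n by omega) with rfl | h5
    · obtain ⟨a, ha⟩ := (have := hirr.nt; exists_ne (0 : X))
      have h6 : 2 ^ ({a} : Finset X).card ≤
          Nat.card (AddSubgroup.closure (({a} : Finset X) : Set X)) :=
        (AddSubgroup.one_lt_card_iff_ne_bot _).2 (by simpa using ha)
      obtain ⟨C, h7, h8, h9, h10⟩ := exists_circuit h2 {a} h6 (by simp [hn])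
      refine ⟨_, notMem_erase _ _, hz _ _ h8, hcl _ h9, fun φ hφ h => ?_⟩
      obtain ⟨h11, h12⟩ := h10 φ (her _ _ h)
      rw [hn, ← pow_succ', card_singleton] at h8
      have := Nat.pow_right_injective le_rfl h8
      exact small_rigid hirr h2 h3 h9 (Or.inr ⟨by omega, h7⟩) hφ (by simpa using h11) h12
    · obtain ⟨t, ht⟩ := hI X S hS hirr
      have h6 := card_closure_le h2 (univ.image t)
      have h7 : 2 ^ (univ.image t).card ≤ 2 ^ 3 :=
        Nat.pow_le_pow_right two_pos (card_image_le.trans (by simp))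
      have h8 : 2 ^ 5 ≤ 2 ^ n := Nat.pow_le_pow_right two_pos h5
      obtain ⟨m, hm, Z, -, h9, h10, h11⟩ := hsub (AddSubgroup.closure (univ.image t : Finset X))
        fun e => by rw [e, AddSubgroup.card_top] at h6; omega
      have h12 : m ≤ 3 := (Nat.pow_le_pow_iff_right one_lt_two).1 (by omega)
      have h13 : 2 ^ Z.card ≤ 2 ^ m := Nat.pow_le_pow_right two_pos (by omega)
      obtain ⟨C, -, h14, h15, h16⟩ := exists_circuit h2 Z (h10 ▸ hm ▸ h13) (by omega)
      exact ⟨_, notMem_erase _ _, hz _ _ h14, hcl _ h15,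
        fun φ hφ h => ht φ hφ fun i => h11 φ hφ (h16 φ (her _ _ h)).1 _
          (AddSubgroup.subset_closure (by simp))⟩
  rcases subsingleton_or_nontrivial X with h | h
  · exact ⟨∅, by simp, by simp, Subsingleton.elim _ _,
      fun φ _ _ => unit_eq_one fun _ => Subsingleton.elim _ _⟩
  obtain ⟨Y, hY, h4, h5⟩ : ∃ U, Inv S U ∧ U ≠ ⊥ ∧ U ≠ ⊤ := by
    by_contra h4
    push Not at h4
    exact hirr ⟨h, fun W hW => or_iff_not_imp_left.2 (h4 W hW)⟩
  obtain ⟨m, hm, Z, h6, h7, h8, h9⟩ := hsub Y h5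
  have h2' : ∀ x : X ⧸ Y, 2 • x = 0 := fun x => by
    obtain ⟨x, rfl⟩ := QuotientAddGroup.mk_surjective x
    rw [← QuotientAddGroup.mk_nsmul, h2, QuotientAddGroup.mk_zero]
  obtain ⟨k, -, -, -, hk⟩ := exists_bas h2'
  have hmk : n = k + m := Nat.pow_right_injective le_rfl (by
    change 2 ^ n = 2 ^ (k + m)
    rw [← hn, AddSubgroup.card_eq_card_quotient_mul_card_addSubgroup Y, hm, hk, pow_add])
  have hm0 : m ≠ 0 := by
    rintro rfl
    exact h4 (AddSubgroup.card_eq_one.1 hm)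
  let R := (relOf (QuotientAddGroup.mk' Y)).map (MulEquiv.prodComm (M := _) (N := _)).toMonoidHom
  have hR : ∀ a b, (a, b) ∈ R ↔ ∀ x : X, ((a • x : X) : X ⧸ Y) = b • (x : X ⧸ Y) := fun a b =>
    ⟨fun ⟨p, hp, e⟩ => by obtain ⟨rfl, rfl⟩ := Prod.ext_iff.1 e; exact hp,
      fun h => ⟨(b, a), h, rfl⟩⟩
  have hRk : ∀ b, (1, b) ∈ R → b = 1 := fun b h => unit_eq_one fun x => by
    obtain ⟨x, rfl⟩ := QuotientAddGroup.mk_surjective x
    exact ((hR _ _).1 h x).symm
  obtain ⟨Z', h10, h11, h12, h13⟩ := ih k (by omega) (X ⧸ Y) (img R S) hk h2'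
    (img_solv' R hS hRk) (img_cop' R h3 hRk)
  have hsp : AddSubgroup.closure ((Z ∪ Z'.image Quotient.out : Finset X) : Set X) = ⊤ := by
    have h14 : Y ≤ AddSubgroup.closure ((Z ∪ Z'.image Quotient.out : Finset X) : Set X) :=
      h8 ▸ AddSubgroup.closure_mono (by simp)
    exact eq_top_of_quot h14 (eq_top_iff.2 (h12 ▸ (AddSubgroup.closure_le _).2 fun z hz => ⟨z.out,
        AddSubgroup.subset_closure (mem_union_right _ (mem_image_of_mem _ hz)), z.out_eq⟩))
  have hout : ∀ z ∈ Z', z.out ∉ Y := fun z hz h =>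
    h10 (by rwa [← QuotientAddGroup.out_eq' z, (QuotientAddGroup.eq_zero_iff _).2 h] at hz)
  refine ⟨Z ∪ Z'.image Quotient.out, ?_, ?_, hsp, fun φ hφ h => eq_one_of_closure hsp ?_⟩
  · refine fun h => (mem_union.1 h).elim h6 fun h => ?_
    obtain ⟨z, hz, e⟩ := mem_image.1 h
    exact hout z hz (e ▸ zero_mem _)
  · have := card_union_le Z (Z'.image Quotient.out)
    have := card_image_le (s := Z') (f := Quotient.out)
    omega
  have hZY : ∀ x ∈ Z, x ∈ Y := fun x hx => h8 ▸ AddSubgroup.subset_closure hx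
  have h14 : ∀ z ∈ Z', ∃ z' ∈ Z', z'.out = φ • z.out := fun z hz =>
    mem_image.1 ((mem_union.1 (h _ (mem_union_right _ (mem_image_of_mem _ hz)))).resolve_left
      fun h => hout z hz (by simpa using hY _ (inv_mem hφ) _ (hZY _ h)))
  obtain ⟨ψ, hψ⟩ : ∃ ψ, (φ, ψ) ∈ R := by
    obtain ⟨u, hu⟩ := exists_unit (QuotientAddGroup.map Y Y (DistribSMul.toAddMonoidHom X φ)
      fun x hx => hY φ hφ x hx) (by
        rw [injective_iff_map_eq_zero]
        intro x hx
        obtain ⟨x, rfl⟩ := QuotientAddGroup.mk_surjective x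
        have hx : φ • x ∈ Y := (QuotientAddGroup.eq_zero_iff _).1 hx
        rw [QuotientAddGroup.eq_zero_iff]
        simpa using hY _ (inv_mem hφ) _ hx)
    exact ⟨u, (hR _ _).2 fun x => by rw [hu]; rfl⟩
  have h15 : ∀ z : X ⧸ Y, ((φ • z.out : X) : X ⧸ Y) = ψ • z := fun z => by
    rw [(hR _ _).1 hψ, QuotientAddGroup.out_eq']
  have h16 := h13 ψ (mem_img.2 ⟨φ, hφ, hψ⟩) fun z hz => by
    obtain ⟨z', hz', e⟩ := h14 z hz
    rwa [← h15, ← e, QuotientAddGroup.out_eq']
  intro x hx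
  rcases mem_union.1 hx with hx | hx
  · refine h9 φ hφ (fun x hx => (mem_union.1 (h _ (mem_union_left _ hx))).resolve_right
      fun h => ?_) x (hZY x hx)
    obtain ⟨z, hz, e⟩ := mem_image.1 h
    exact hout z hz (e ▸ hY φ hφ x (hZY x hx))
  · obtain ⟨z, hz, rfl⟩ := mem_image.1 hx
    obtain ⟨z', -, e⟩ := h14 z hz
    have := h15 z
    rw [h16, one_smul, ← e, QuotientAddGroup.out_eq'] at this
    rw [← e, this]

/-- Small rigid sets for solvable groups of order prime to three. -/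
theorem col_three
    (hI : ∀ (X : Type v) [AddCommGroup X] [Finite X] (S : Subgroup (En X)ˣ), Group.IsSolvable S →
      Irr S → ∃ t : Fin 3 → X, Reg S t) {S : Subgroup (En X)ˣ} (h2 : ∀ x : X, 2 • x = 0)
    (hS : Group.IsSolvable S) (h3 : Cop 3 S) : ∃ Z : Set X, 2 * Z.ncard < Nat.card X ∧
      4 * Z.ncard < Nat.card X + 8 ∧ ∀ φ ∈ S, (∀ x ∈ Z, φ • x ∈ Z) → φ = 1 := by
  classical
  obtain ⟨n, -, -, -, hn⟩ := exists_bas h2
  obtain ⟨Z, h4, h5, -, h6⟩ := rigid_three hI n X S hn h2 hS h3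
  by_cases h7 : 2 * Z.card < 2 ^ n ∧ 4 * Z.card < 2 ^ n + 8
  · exact ⟨Z, by simpa [hn] using h7.1, by simpa [hn] using h7.2, h6⟩
  have h8 : n ≤ 2 := by
    by_contra h8
    obtain ⟨k, rfl⟩ : ∃ k, n = k + 3 := ⟨n - 3, by omega⟩
    rcases k with _ | _ | k
    · omega
    · omega
    · have := Nat.lt_two_pow_self (n := k)
      rw [show k + 1 + 1 + 3 = k + 5 from rfl, pow_add] at h7
      omega
  have h9 : ((insert 0 Z : Finset X) : Set X)ᶜ.ncard + (Z.card + 1) = 2 ^ n := by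
    rw [← card_insert_of_notMem h4, ← Set.ncard_coe_finset, add_comm, Set.ncard_add_ncard_compl, hn]
  refine ⟨((insert 0 Z : Finset X) : Set X)ᶜ, ?_, ?_, fun φ hφ h => h6 φ hφ fun x hx => ?_⟩
  · rw [hn]; interval_cases n <;> omega
  · rw [hn]; interval_cases n <;> omega
  · by_contra h10
    refine inv_mem_of_into h (φ • x) (fun h11 => ?_) (by simp [hx])
    rcases mem_insert.1 h11 with e | e
    · exact h4 ((smul_eq_zero_iff_eq φ).1 e ▸ hx)
    · exact h10 e

end Cfsg.Agent.H1.BS
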