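import Cfsg.Agent.H1.BS2
import Cfsg.Agent.H2.Class2

/-! Base sizes of solvable linear groups: the structure of primitive groups. -/

set_option autoImplicit false

namespace Cfsg.Agent.H1.BS

open Subgroup
open scoped commutatorElement

universe v

section Quo

variable {A : Type v} [Group A]

/-- `G` normalizes `E`. -/
def Nrm (G E : Subgroup A) : Prop := ∀ g ∈ G, ∀ x ∈ E, g * x * g⁻¹ ∈ E

lemma Nrm.mem_normalizer {G E : Subgroup A} (h : Nrm G E) {g : A} (hg : g ∈ G) :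
    g ∈ normalizer (E : Set A) :=
  mem_normalizer_iff.2 fun x => ⟨h g hg x, fun hx => by simpa [mul_assoc] using h _ (inv_mem hg) _ hx⟩

/-- An abelian section, written additively. -/
structure Quo (E Z : Subgroup A) where
  X : Type v
  [grp : AddCommGroup X]
  cl : A → X
  mk_mul : ∀ x ∈ E, ∀ y ∈ E, cl (x * y) = cl x + cl y
  mk_eq_zero : ∀ x ∈ E, cl x = 0 ↔ x ∈ Z
  surj : ∀ m, ∃ x ∈ E, cl x = m

attribute [instance] Quo.grp

variable {E Z : Subgroup A}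

lemma nonempty_quo (hc : ∀ x ∈ E, ∀ y ∈ E, ⁅x, y⁆ ∈ Z) : Nonempty (Quo E Z) := by
  classical
  have : (Z.subgroupOf E).Normal := ⟨fun z hz x => by
    have := mul_mem (hc x x.2 z z.2) (mem_subgroupOf.1 hz)
    rwa [commutatorElement_def, inv_mul_cancel_right] at this⟩
  have h : ∀ a b : E ⧸ Z.subgroupOf E, a * b = b * a := fun a b => by
    obtain ⟨a, rfl⟩ := QuotientGroup.mk_surjective a
    obtain ⟨b, rfl⟩ := QuotientGroup.mk_surjective b
    rw [← QuotientGroup.mk_mul, ← QuotientGroup.mk_mul, QuotientGroup.eq]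
    simpa [commutatorElement_def, mem_subgroupOf, mul_assoc] using
      hc _ (inv_mem b.2) _ (inv_mem a.2)
  let _ : CommGroup (E ⧸ Z.subgroupOf E) := { mul_comm := h }
  refine ⟨⟨Additive (E ⧸ Z.subgroupOf E), fun x => if h : x ∈ E then
    Additive.ofMul (QuotientGroup.mk ⟨x, h⟩) else 0, fun x hx y hy => ?_, fun x hx => ?_,
    fun m => ?_⟩⟩
  · rw [dif_pos hx, dif_pos hy, dif_pos (mul_mem hx hy)]; rfl
  · rw [dif_pos hx]
    exact QuotientGroup.eq_one_iff _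
  · obtain ⟨a, ha⟩ := QuotientGroup.mk_surjective m.toMul
    exact ⟨a, a.2, by rw [dif_pos a.2]; exact ha⟩

namespace Quo

variable (Q : Quo E Z)

lemma mk_one : Q.cl 1 = 0 := (Q.mk_eq_zero 1 (one_mem _)).2 (one_mem _)

lemma mk_inv {x : A} (hx : x ∈ E) : Q.cl x⁻¹ = -Q.cl x := by
  rw [eq_neg_iff_add_eq_zero, ← Q.mk_mul _ (inv_mem hx) _ hx, inv_mul_cancel, mk_one]

lemma mk_eq {x y : A} (hx : x ∈ E) (hy : y ∈ E) : Q.cl x = Q.cl y ↔ x⁻¹ * y ∈ Z := by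
  rw [← Q.mk_eq_zero _ (mul_mem (inv_mem hx) hy), Q.mk_mul _ (inv_mem hx) _ hy, Q.mk_inv hx,
    neg_add_eq_zero]

lemma mk_pow {x : A} (hx : x ∈ E) (n : ℕ) : Q.cl (x ^ n) = n • Q.cl x := by
  induction n with
  | zero => simp [mk_one]
  | succ n ih => rw [pow_succ, Q.mk_mul _ (pow_mem hx n) _ hx, ih, succ_nsmul]

lemma nsmul_eq_zero {n : ℕ} (h : ∀ x ∈ E, x ^ n ∈ Z) (m : Q.X) : n • m = 0 := by
  obtain ⟨x, hx, rfl⟩ := Q.surj m
  rw [← Q.mk_pow hx, Q.mk_eq_zero _ (pow_mem hx n)]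
  exact h x hx

open Classical in
/-- A section. -/
noncomputable def rep (m : Q.X) : A := if m = 0 then 1 else (Q.surj m).choose

lemma rep_zero : Q.rep 0 = 1 := if_pos rfl

lemma rep_mem (m : Q.X) : Q.rep m ∈ E := by
  rw [rep]; split_ifs; exacts [one_mem _, (Q.surj m).choose_spec.1]

lemma mk_rep (m : Q.X) : Q.cl (Q.rep m) = m := by
  rw [rep]; split_ifs with h; exacts [h ▸ Q.mk_one, (Q.surj m).choose_spec.2]

instance instFiniteX [Finite A] : Finite Q.X :=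
  Finite.of_injective Q.rep fun a b h => by rw [← Q.mk_rep a, h, mk_rep]

lemma ncard_preimage (hZ : Z ≤ E) (S : Set Q.X) :
    {x | x ∈ E ∧ Q.cl x ∈ S}.ncard = S.ncard * Nat.card Z := by
  rw [← SetLike.coe_sort_coe, Nat.card_coe_set_eq, ← Set.ncard_prod]
  symm
  refine Set.ncard_congr (fun p _ => Q.rep p.1 * p.2) (fun p hp => ?_) (fun p q hp hq h => ?_)
    fun x hx => ⟨(Q.cl x, (Q.rep (Q.cl x))⁻¹ * x), ⟨hx.2,
      (Q.mk_eq (Q.rep_mem _) hx.1).1 (Q.mk_rep _)⟩, mul_inv_cancel_left _ _⟩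
  · refine ⟨mul_mem (Q.rep_mem _) (hZ hp.2), ?_⟩
    rw [Q.mk_mul _ (Q.rep_mem _) _ (hZ hp.2), mk_rep, (Q.mk_eq_zero _ (hZ hp.2)).2 hp.2, add_zero]
    exact hp.1
  · have := congrArg Q.cl h
    rw [Q.mk_mul _ (Q.rep_mem _) _ (hZ hp.2), Q.mk_mul _ (Q.rep_mem _) _ (hZ hq.2), mk_rep, mk_rep,
      (Q.mk_eq_zero _ (hZ hp.2)).2 hp.2, (Q.mk_eq_zero _ (hZ hq.2)).2 hq.2, add_left_inj] at this
    rw [this] at h
    exact Prod.ext this (mul_left_cancel h)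

lemma card_eq (hZ : Z ≤ E) : Nat.card E = Nat.card Q.X * Nat.card Z := by
  rw [← SetLike.coe_sort_coe, Nat.card_coe_set_eq]
  simpa [Set.ncard_univ] using Q.ncard_preimage hZ Set.univ

/-- The action of the normalizer. -/
def R : Subgroup (A × (En Q.X)ˣ) where
  carrier := {p | p.1 ∈ normalizer (E : Set A) ∧ ∀ x ∈ E, p.2 • Q.cl x = Q.cl (p.1 * x * p.1⁻¹)}
  one_mem' := ⟨one_mem _, by simp⟩
  mul_mem' := fun {a b} ha hb => ⟨mul_mem ha.1 hb.1, fun x hx => by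
    rw [Prod.snd_mul, mul_smul, hb.2 x hx, ha.2 _ ((mem_normalizer_iff.1 hb.1 x).1 hx),
      Prod.fst_mul]
    congr 1; group⟩
  inv_mem' := fun {a} ha => ⟨inv_mem ha.1, fun x hx => by
    rw [Prod.snd_inv, inv_smul_eq_iff, Prod.fst_inv,
      ha.2 _ ((mem_normalizer_iff.1 (inv_mem ha.1) x).1 hx)]
    congr 1; group⟩

lemma R_ker (b : (En Q.X)ˣ) (h : (1, b) ∈ Q.R) : b = 1 := unit_eq_one fun m => by
  obtain ⟨x, hx, rfl⟩ := Q.surj m
  simpa using h.2 x hx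

lemma exists_R [Finite A] {g : A} (hg : g ∈ normalizer (E : Set A))
    (hZ : ∀ z ∈ Z, g * z * g⁻¹ ∈ Z) : ∃ φ, (g, φ) ∈ Q.R := by
  have h0 := fun x => (mem_normalizer_iff.1 hg x).1
  have h1 : ∀ x ∈ E, Q.cl (g * Q.rep (Q.cl x) * g⁻¹) = Q.cl (g * x * g⁻¹) := fun x hx => by
    rw [Q.mk_eq (h0 _ (Q.rep_mem _)) (h0 _ hx)]
    convert hZ _ ((Q.mk_eq (Q.rep_mem _) hx).1 (Q.mk_rep _)) using 1
    group
  let f : Q.X →+ Q.X := AddMonoidHom.mk' (fun m => Q.cl (g * Q.rep m * g⁻¹)) fun a b => by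
    have := h1 _ (mul_mem (Q.rep_mem a) (Q.rep_mem b))
    rw [Q.mk_mul _ (Q.rep_mem a) _ (Q.rep_mem b), mk_rep, mk_rep] at this
    rw [this, ← Q.mk_mul _ (h0 _ (Q.rep_mem a)) _ (h0 _ (Q.rep_mem b))]
    congr 1; group
  obtain ⟨u, hu⟩ := exists_unit f (Finite.injective_iff_surjective.2 fun m => by
    obtain ⟨x, hx, rfl⟩ := Q.surj m
    refine ⟨_, (h1 _ ((mem_normalizer_iff.1 (inv_mem hg) x).1 hx)).trans ?_⟩
    congr 1; group)
  exact ⟨u, hg, fun x hx => (hu _).trans (h1 x hx)⟩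

lemma irr [Finite A] {G : Subgroup A} (hZ : Z ≤ E) (hE : Nrm G E) (hZ' : Nrm G Z)
    (hne : ∃ x ∈ E, x ∉ Z) (h : ∀ N, Z ≤ N → N ≤ E → Nrm G N → N ≤ Z ∨ E ≤ N) :
    Irr (img Q.R G) := by
  obtain ⟨x, hx, hx'⟩ := hne
  refine ⟨⟨Q.cl x, 0, mt (Q.mk_eq_zero x hx).1 hx'⟩, fun W hW => ?_⟩
  let N : Subgroup A :=
    { carrier := {x | x ∈ E ∧ Q.cl x ∈ W}
      one_mem' := ⟨one_mem _, Q.mk_one ▸ W.zero_mem⟩
      mul_mem' := fun ha hb => ⟨mul_mem ha.1 hb.1, Q.mk_mul _ ha.1 _ hb.1 ▸ W.add_mem ha.2 hb.2⟩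
      inv_mem' := fun ha => ⟨inv_mem ha.1, Q.mk_inv ha.1 ▸ W.neg_mem ha.2⟩ }
  rcases h N (fun z hz => ⟨hZ hz, (Q.mk_eq_zero z (hZ hz)).2 hz ▸ W.zero_mem⟩) (fun _ h => h.1)
    (fun g hg x hx => by
      obtain ⟨φ, hφ⟩ := Q.exists_R (hE.mem_normalizer hg) (hZ' g hg)
      exact ⟨hE g hg x hx.1, hφ.2 x hx.1 ▸ hW φ (mem_img.2 ⟨g, hg, hφ⟩) _ hx.2⟩) with h | h
  · exact Or.inl (eq_bot_iff.2 fun m hm =>
      Q.mk_rep m ▸ (Q.mk_eq_zero _ (Q.rep_mem m)).2 (h ⟨Q.rep_mem m, (Q.mk_rep m).symm ▸ hm⟩))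
  · exact Or.inr (eq_top_iff.2 fun m _ => Q.mk_rep m ▸ (h (Q.rep_mem m)).2)

end Quo

end Quo

variable {V : Type v} [AddCommGroup V] [Finite V] {G : Subgroup (En V)ˣ} {K : Subring (En V)}

lemma exists_inv_of_noBlk (hG : Irr G) (hb : ∀ e, ¬ Blk G e) (hc : ∀ a ∈ K, ∀ b ∈ K, a * b = b * a)
    (hs : ∀ g ∈ G, ∀ a ∈ K, cn g a ∈ K) {a : En V} (ha : a ∈ K) (h0 : a ≠ 0) :
    ∃ b ∈ K, a * b = 1 := by
  have h1 : ∀ e ∈ K, e * e = e → e = 0 ∨ e = 1 := by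
    intro e0 h1 h2
    by_contra h3
    push Not at h3
    obtain ⟨e, ⟨he, h4, h5, h6⟩, hmin⟩ := Set.exists_min_image
      {e | e ∈ K ∧ e * e = e ∧ e ≠ 0 ∧ e ≠ 1} (fun e => Nat.card (im V e)) (Set.toFinite _)
      ⟨e0, h1, h2, h3⟩
    have h7 : ∀ g ∈ G, cn g e * e = 0 ∨ cn g e * e = e := fun g hg => by
      refine or_iff_not_imp_left.2 fun h7 => ?_
      have h8 : cn g e * e * e = cn g e * e := by rw [mul_assoc, h4]
      have h9 : im V (cn g e * e) = im V e := AddSubgroup.eq_of_le_of_card_ge (fun v hv => by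
        rw [mem_im, ← mem_im.1 hv, ← mul_smul, hc _ he _ (mul_mem (hs g hg e he) he), h8])
        (hmin _ ⟨mul_mem (hs g hg e he) he, by
          rw [← mul_assoc, hc _ (mul_mem (hs g hg e he) he) _ (hs g hg e he), ← mul_assoc,
            ← map_mul, h4, h8], h7, fun h => h6 (by rw [← one_mul e, ← h, h8])⟩)
      rw [← h8]
      exact en_ext fun v => by rw [mul_smul]; exact (h9 ▸ smul_mem_im h4 v : _ ∈ im V _)
    refine hb e ⟨h5, h6, h4, fun g hg => (h7 g hg).symm.imp_left fun h8 => ?_⟩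
    have := congrArg (cn g) ((h7 _ (inv_mem hg)).resolve_left fun h => h5 (by
      have := congrArg (cn g) h
      rwa [map_mul, cn_cn_inv, map_zero, hc _ he _ (hs g hg e he), h8] at this))
    rw [map_mul, cn_cn_inv, hc _ he _ (hs g hg e he), h8] at this
    exact this.symm
  have h2 : ∀ n : ℕ, a ^ n ≠ 0 := by
    obtain ⟨v0, hv0⟩ := (have := hG.nt; exists_ne (0 : V))
    obtain ⟨v, hv, hmax⟩ := Set.exists_max_image {v : V | v ≠ 0}
      (fun v => {b | b ∈ K ∧ b • v = 0}.ncard) (Set.toFinite _) ⟨v0, hv0⟩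
    let W : AddSubgroup V :=
      { carrier := {v | ∀ b ∈ K, IsNilpotent b → b • v = 0}
        zero_mem' := fun _ _ _ => smul_zero _
        add_mem' := fun h h' b hb hn => by rw [smul_add, h b hb hn, h' b hb hn, add_zero]
        neg_mem' := fun h b hb hn => by rw [smul_neg, h b hb hn, neg_zero] }
    have h3 : W = ⊤ := hG.eq_top (fun g hg w hw b hb hn => by
      rw [← cn_cn_inv g b, cn_smul, hw _ (hs _ (inv_mem hg) b hb) (hn.map _), smul_zero])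
      (w := v) (fun b hb ⟨n, hn⟩ => by
        classical
        have h4 : ∃ n : ℕ, b ^ n • v = 0 := ⟨n, by rw [hn, zero_smul]⟩
        obtain ⟨m, hm⟩ : ∃ m, Nat.find h4 = m + 1 := Nat.exists_eq_succ_of_ne_zero fun h => hv (by
          simpa [h] using Nat.find_spec h4)
        have h5 := Set.eq_of_subset_of_ncard_le (s := {b | b ∈ K ∧ b • v = 0})
          (t := {c | c ∈ K ∧ c • b ^ m • v = 0}) (fun c hc' => ⟨hc'.1, by
          rw [← mul_smul, hc c hc'.1 _ (pow_mem hb m), mul_smul, hc'.2, smul_zero]⟩)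
          (hmax (b ^ m • v) (Nat.find_min h4 (by omega)))
        exact (h5.ge ⟨hb, by rw [← mul_smul, ← pow_succ', ← hm, Nat.find_spec h4]⟩).2) hv
    exact fun n hn => h0 (en_ext fun v => (h3 ▸ AddSubgroup.mem_top v : v ∈ W) a ha ⟨n, hn⟩)
  obtain ⟨i, j, hij, e⟩ := Finite.exists_ne_map_eq_of_infinite fun n : ℕ => a ^ n
  wlog h : i < j generalizing i j
  · exact this j i hij.symm e.symm (by omega)
  obtain ⟨d, rfl⟩ : ∃ d, j = i + (d + 1) := ⟨j - i - 1, by omega⟩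
  have h3 : ∀ m, a ^ (i + (d + 1) * m) = a ^ i := fun m => by
    induction m with
    | zero => simp
    | succ m ih =>
      rw [show i + (d + 1) * (m + 1) = i + (d + 1) + (d + 1) * m by ring, pow_add, ← e, ← pow_add, ih]
  have h4 := (h1 _ (pow_mem ha ((d + 1) * (i + 1))) (by
    rw [← pow_add, show (d + 1) * (i + 1) + (d + 1) * (i + 1) =
      (i + (d + 1) * (i + 1)) + (d * i + d + 1) by ring, pow_add, h3, ← pow_add]
    congr 1; ring)).resolve_left (h2 _)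
  exact ⟨a ^ (d * i + d + i), pow_mem ha _, by rw [← pow_succ', ← h4]; congr 1; ring⟩

/-- A maximal stable subfield of the endomorphism ring. -/
structure Fld (G : Subgroup (En V)ˣ) (K : Subring (En V)) : Prop where
  nt : Nontrivial V
  comm : ∀ a ∈ K, ∀ b ∈ K, a * b = b * a
  stab : ∀ g ∈ G, ∀ a ∈ K, cn g a ∈ K
  inv : ∀ a ∈ K, a ≠ 0 → ∃ b ∈ K, a * b = 1
  max : ∀ K' : Subring (En V), K ≤ K' → (∀ a ∈ K', ∀ b ∈ K', a * b = b * a) →
    (∀ g ∈ G, ∀ a ∈ K', cn g a ∈ K') → K' ≤ K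

lemma exists_fld (hG : Irr G) (hb : ∀ e, ¬ Blk G e) : ∃ K, Fld G K := by
  have : Finite (Subring (En V)) := Finite.of_injective _ SetLike.coe_injective
  obtain ⟨K, hK, hmax⟩ := Set.Finite.exists_maximal (Set.toFinite {K : Subring (En V) |
    (∀ a ∈ K, ∀ b ∈ K, a * b = b * a) ∧ ∀ g ∈ G, ∀ a ∈ K, cn g a ∈ K})
    ⟨Subring.center _, fun a _ b hb => Subring.mem_center_iff.1 hb a, fun g _ a ha => by
      rwa [cn_eq_iff.2 (Subring.mem_center_iff.1 ha g)]⟩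
  exact ⟨K, hG.nt, hK.1, hK.2, fun a => exists_inv_of_noBlk hG hb hK.1 hK.2,
    fun K' h h1 h2 => hmax ⟨h1, h2⟩ h⟩

/-- The units lying in a subring. -/
def un (K : Subring (En V)) : Subgroup (En V)ˣ where
  carrier := {u | (u : En V) ∈ K}
  one_mem' := K.one_mem
  mul_mem' := K.mul_mem
  inv_mem' := fun {u} hu => by
    have := inv_mem_of_into (Z := {x : (En V)ˣ | (x : En V) ∈ K}) (g := u)
      (fun x hx => K.mul_mem hu hx) 1 K.one_mem
    simpa using this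

lemma mem_un {u : (En V)ˣ} : u ∈ un K ↔ (u : En V) ∈ K := Iff.rfl

namespace Fld

variable (hK : Fld G K)
include hK

lemma exists_unit {a : En V} (ha : a ∈ K) (h0 : a ≠ 0) : ∃ u ∈ un K, (u : En V) = a := by
  obtain ⟨b, hb, e⟩ := hK.inv a ha h0
  exact ⟨⟨a, b, e, (hK.comm _ hb _ ha).trans e⟩, ha, rfl⟩

lemma smul_eq_zero {a : En V} (ha : a ∈ K) {v : V} (hv : v ≠ 0) (h : a • v = 0) : a = 0 := by
  by_contra h0
  obtain ⟨u, -, rfl⟩ := hK.exists_unit ha h0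
  exact hv ((smul_eq_zero_iff_eq u).1 h)

lemma eq_of_smul {a b : En V} (ha : a ∈ K) (hb : b ∈ K) {v : V} (hv : v ≠ 0) (h : a • v = b • v) :
    a = b :=
  sub_eq_zero.1 (hK.smul_eq_zero (K.sub_mem ha hb) hv (by rw [sub_smul, h, sub_self]))

lemma un_eq_one {u : (En V)ˣ} (hu : u ∈ un K) {v : V} (hv : v ≠ 0) (h : u • v = v) : u = 1 :=
  Units.ext (hK.eq_of_smul hu K.one_mem hv (h.trans (one_smul _ v).symm))

lemma nrm : Nrm G (un K) := fun g hg x hx => hK.stab g hg x hx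

lemma un_comm {a b : (En V)ˣ} (ha : a ∈ un K) (hb : b ∈ un K) : a * b = b * a :=
  Units.ext (hK.comm _ ha _ hb)

lemma exists_gen : ∃ k : (En V)ˣ, un K = zpowers k := by
  have := hK.nt
  let _ : Field K := IsField.toField ⟨exists_pair_ne _, fun a b => Subtype.ext
    (hK.comm _ a.2 _ b.2), fun {a} h => by
      obtain ⟨b, hb, e⟩ := hK.inv a a.2 fun e => h (Subtype.ext e)
      exact ⟨⟨b, hb⟩, Subtype.ext e⟩⟩
  obtain ⟨k, hk⟩ := IsCyclic.exists_generator (α := Kˣ)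
  refine ⟨Units.map K.subtype.toMonoidHom k, le_antisymm (fun u hu => ?_) (zpowers_le.2 k.1.2)⟩
  obtain ⟨n, hn⟩ := hk ⟨⟨_, hu⟩, ⟨_, (un K).inv_mem hu⟩, Subtype.ext u.mul_inv, Subtype.ext u.inv_mul⟩
  have hn : k ^ n = _ := hn
  exact ⟨n, by change _ ^ n = _; rw [← map_zpow, hn]; rfl⟩

lemma natCast_ne_zero {ω : (En V)ˣ} (hω : ω ∈ un K) {r : ℕ} [hr : Fact r.Prime]
    (ho : orderOf ω = r) : (r : En V) ≠ 0 := fun h => by
  have := hK.nt
  have : CharP (En V) r := (CharP.charP_iff_prime_eq_zero hr.out).2 h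
  have h1 : ((ω : En V) - 1) ^ r = 0 := by
    rw [sub_pow_char_of_commute _ (Commute.one_right _), one_pow, ← Units.val_pow_eq_pow_val, ← ho,
      pow_orderOf_eq_one, Units.val_one, sub_self]
  obtain ⟨u, -, hu⟩ := hK.exists_unit (K.sub_mem hω K.one_mem) fun e => hr.out.ne_one (by
    rw [← ho, show ω = 1 from Units.ext (sub_eq_zero.1 e), orderOf_one])
  rw [← hu, ← Units.val_pow_eq_pow_val] at h1
  exact Units.ne_zero _ h1

lemma centralizes {g k : (En V)ˣ} (hk : un K = zpowers k) (h : cn g k = k) {c : En V}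
    (hc : c ∈ K) : cn g c = c := by
  by_cases h0 : c = 0
  · simp [h0]
  obtain ⟨u, hu, rfl⟩ := hK.exists_unit hc h0
  obtain ⟨n, rfl⟩ := hk ▸ hu
  rw [cn_coe, ← conj_zpow, show g * k * g⁻¹ = k from Units.ext h]

end Fld

end Cfsg.Agent.H1.BS
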