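import Cfsg.Agent.H1.BS5
import Cfsg.Agent.FT.Base

/-! Base sizes of solvable linear groups: the normal extraspecial subgroup. -/

set_option autoImplicit false

namespace Cfsg.Agent.H1.BS

open Subgroup
open scoped commutatorElement

universe v

variable {V : Type v} [AddCommGroup V] [Finite V] {G : Subgroup (En V)ˣ} {K : Subring (En V)}

lemma mem_zpowers_two {A : Type*} [Group A] [Finite A] {ω x : A} (ho : orderOf ω = 2)
    (h : x ∈ zpowers ω) : x = 1 ∨ x = ω := by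
  classical
  rw [mem_zpowers_iff_mem_range_orderOf, ho] at h
  obtain ⟨i, hi, rfl⟩ := Finset.mem_image.1 h
  have := Finset.mem_range.1 hi
  interval_cases i <;> simp

/-- An extraspecial group normalized by `G`. -/
structure Ext (G : Subgroup (En V)ˣ) (K : Subring (En V)) (E : Subgroup (En V)ˣ) (ω : (En V)ˣ)
    (r : ℕ) : Prop where
  fld : Fld G K
  ord : orderOf ω = r
  ωK : ω ∈ un K
  ωE : ω ∈ E
  nrm : Nrm G E
  cK : ∀ x ∈ E, ∀ u ∈ un K, u * x = x * u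
  inK : ∀ x ∈ E, x ∈ un K → x ∈ zpowers ω
  comm : ∀ x ∈ E, ∀ y ∈ E, ⁅x, y⁆ ∈ zpowers ω
  cen : ∀ x ∈ E, (∀ y ∈ E, x * y = y * x) → x ∈ zpowers ω
  pw : ∀ x ∈ E, x ^ r ∈ zpowers ω
  pw' : r ≠ 2 → ∀ x ∈ E, x ^ r = 1
  nab : ∃ x ∈ E, x ∉ zpowers ω
  irr : ∀ N, zpowers ω ≤ N → N ≤ E → Nrm G N → N ≤ zpowers ω ∨ E ≤ N

/-- The product with the scalars. -/
def mulU (hK : Fld G K) (N : Subgroup (En V)ˣ) (h : N ≤ centralizer (un K : Set (En V)ˣ)) :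
    Subgroup (En V)ˣ where
  carrier := {x | ∃ n ∈ N, ∃ u ∈ un K, x = n * u}
  one_mem' := ⟨1, one_mem _, 1, one_mem _, (mul_one _).symm⟩
  mul_mem' := by
    rintro _ _ ⟨n, hn, u, hu, rfl⟩ ⟨m, hm, w, hw, rfl⟩
    exact ⟨_, mul_mem hn hm, _, mul_mem hu hw, by
      rw [mul_assoc, ← mul_assoc u, h hm u hu]; group⟩
  inv_mem' := by
    rintro _ ⟨n, hn, u, hu, rfl⟩
    exact ⟨_, inv_mem hn, _, inv_mem hu, by rw [← h hn u hu, mul_inv_rev]⟩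

lemma le_mulU (hK : Fld G K) {N : Subgroup (En V)ˣ} (h) : N ≤ mulU hK N h :=
  fun n hn => ⟨n, hn, 1, one_mem _, (mul_one _).symm⟩

lemma un_le_mulU (hK : Fld G K) {N : Subgroup (En V)ˣ} (h) : un K ≤ mulU hK N h :=
  fun n hn => ⟨1, one_mem _, n, hn, (one_mul _).symm⟩

lemma mulU_le (hK : Fld G K) {N F : Subgroup (En V)ˣ} (h) (h1 : N ≤ F) (h2 : un K ≤ F) :
    mulU hK N h ≤ F := by
  rintro _ ⟨n, hn, u, hu, rfl⟩
  exact mul_mem (h1 hn) (h2 hu)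

lemma nrm_mulU (hK : Fld G K) {N : Subgroup (En V)ˣ} (h) (hN : Nrm G N) : Nrm G (mulU hK N h) := by
  rintro g hg _ ⟨n, hn, u, hu, rfl⟩
  exact ⟨_, hN g hg n hn, _, hK.nrm g hg u hu, by group⟩

/-- A chief factor above the scalars. -/
structure Chief (G : Subgroup (En V)ˣ) (K : Subring (En V)) (F : Subgroup (En V)ˣ) : Prop where
  nrm : Nrm G F
  le : un K ≤ F
  cK : F ≤ centralizer (un K : Set (En V)ˣ)
  comm : ∀ x ∈ F, ∀ y ∈ F, ⁅x, y⁆ ∈ un K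
  ne : ∃ x ∈ F, x ∉ un K
  min : ∀ N, un K ≤ N → N ≤ F → Nrm G N → N ≤ un K ∨ F ≤ N
  sub : ∀ x ∈ F, ∃ g ∈ G, ∃ u ∈ un K, x = g * u

lemma exists_chief (hK : Fld G K) (hs : Group.IsSolvable G)
    (h : ∃ g ∈ G, g ∈ centralizer (un K : Set (En V)ˣ) ∧ g ∉ un K) : ∃ F, Chief G K F := by
  obtain ⟨F, ⟨h1, h2, h3⟩, hmin⟩ := Set.Finite.exists_minimal (Set.toFinite {H : Subgroup (En V)ˣ |
    H ≤ G ⊓ centralizer (un K : Set (En V)ˣ) ∧ Nrm G H ∧ ¬ H ≤ un K})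
    ⟨_, le_rfl, fun g hg x hx => ⟨G.mul_mem (G.mul_mem hg hx.1) (G.inv_mem hg), fun u hu => by
      have := hx.2 _ (hK.nrm _ (inv_mem hg) u hu)
      calc u * (g * x * g⁻¹) = g * (g⁻¹ * u * g⁻¹⁻¹ * x) * g⁻¹ := by group
        _ = _ := by rw [this]; group⟩, fun h' => by
      obtain ⟨g, h1, h2, h3⟩ := h
      exact h3 (h' ⟨h1, h2⟩)⟩
  have h4 : ∀ N ≤ F, Nrm G N → N ≤ un K ∨ F ≤ N := fun N hN h =>
    or_iff_not_imp_left.2 fun h' => hmin ⟨hN.trans h1, h, h'⟩ hN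
  have h5 : ⁅F, F⁆ ≤ un K := by
    have := H2.commutator_self_lt_of_solvable (solv_le hs (h1.trans inf_le_left))
      (show F ≠ ⊥ by rintro rfl; exact h3 bot_le)
    refine (h4 _ this.le fun g hg x => ?_).resolve_right this.not_ge
    exact (mem_normalizer_iff.1 (H2.le_normalizer_commutator (A := G)
      (fun _ => h2.mem_normalizer) (fun _ => h2.mem_normalizer) hg) x).1
  have hc := h1.trans inf_le_right
  refine ⟨mulU hK F hc, nrm_mulU hK hc h2, un_le_mulU hK hc,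
    mulU_le hK hc hc fun u hu w hw => hK.un_comm hw hu, ?_, ?_, fun N h6 h7 h8 => ?_, ?_⟩
  · rintro _ ⟨n, hn, u, hu, rfl⟩ _ ⟨m, hm, w, hw, rfl⟩
    convert h5 (commutator_mem_commutator hn hm) using 1
    have e1 : u * (m * w) = m * w * u := by
      rw [← mul_assoc, hc hm u hu, mul_assoc, hK.un_comm hu hw, mul_assoc]
    have e2 : w * n⁻¹ = n⁻¹ * w := hc (inv_mem hn) w hw
    calc n * u * (m * w) * (n * u)⁻¹ * (m * w)⁻¹ = n * (u * (m * w)) * (n * u)⁻¹ * (m * w)⁻¹ := by group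
      _ = n * m * (w * n⁻¹) * (m * w)⁻¹ := by rw [e1]; group
      _ = _ := by rw [e2, commutatorElement_def]; group
  · obtain ⟨x, h6, h7⟩ := SetLike.not_le_iff_exists.1 h3
    exact ⟨x, le_mulU hK hc h6, h7⟩
  · refine (h4 (N ⊓ F) inf_le_right fun g hg x hx => ⟨h8 g hg x hx.1, h2 g hg x hx.2⟩).imp
      (fun h x hx => ?_) fun h => mulU_le hK hc (h.trans inf_le_left) h6
    obtain ⟨n, hn, u, hu, rfl⟩ := h7 hx
    exact mul_mem (h ⟨(N.mul_mem_cancel_right (h6 hu)).1 hx, hn⟩) hu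
  · rintro _ ⟨n, hn, u, hu, rfl⟩
    exact ⟨n, (h1 hn).1, u, hu, rfl⟩

variable {F : Subgroup (En V)ˣ}

lemma Chief.cen (hK : Fld G K) (hF : Chief G K F) {x : (En V)ˣ} (hx : x ∈ F)
    (h : ∀ y ∈ F, x * y = y * x) : x ∈ un K := by
  let S : Set (En V) := {a | a ∈ K ∨ ∃ z ∈ F, (∀ y ∈ F, z * y = y * z) ∧ a = z}
  have h1 : ∀ a ∈ K, ∀ z ∈ F, a * z = z * a := fun a ha z hz => by
    by_cases h0 : a = 0
    · simp [h0]
    obtain ⟨u, hu, rfl⟩ := hK.exists_unit ha h0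
    exact congrArg Units.val (hF.cK hz u hu)
  refine hK.max (Subring.closure S) (fun a ha => Subring.subset_closure (Or.inl ha))
    (fun a ha b hb => ?_) (fun g hg a ha => ?_) (Subring.subset_closure (Or.inr ⟨x, hx, h, rfl⟩))
  · refine congrArg Subtype.val ((Subring.isMulCommutative_closure (s := S) ?_).is_comm.comm
      ⟨a, ha⟩ ⟨b, hb⟩)
    rintro a (ha | ⟨z, hz, h2, rfl⟩) b (hb | ⟨y, hy, -, rfl⟩)
    exacts [hK.comm a ha b hb, h1 a ha y hy, (h1 b hb z hz).symm, congrArg Units.val (h2 y hy)]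
  · refine Subring.closure_le (t := (Subring.closure S).comap (cn g).toRingHom) |>.2 ?_ ha
    rintro a (ha | ⟨z, hz, h2, rfl⟩)
    · exact Subring.subset_closure (Or.inl (hK.stab g hg a ha))
    · refine Subring.subset_closure (Or.inr ⟨_, hF.nrm g hg z hz, fun y hy => ?_, rfl⟩)
      have := h2 _ (hF.nrm _ (inv_mem hg) y hy)
      calc g * z * g⁻¹ * y = g * (z * (g⁻¹ * y * g⁻¹⁻¹)) * g⁻¹ := by group
        _ = _ := by rw [this]; group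

lemma Chief.ext (hK : Fld G K) (hF : Chief G K F) {E : Subgroup (En V)ˣ} {ω : (En V)ˣ} {r : ℕ}
    (ho : orderOf ω = r) (hω : ω ∈ un K) (hr : ∀ u ∈ un K, u ^ r = 1 → u ∈ zpowers ω)
    (hp : ∀ x ∈ F, x ^ r ∈ un K) (h1 : Nrm G E) (h2 : ω ∈ E) (h3 : E ≤ F)
    (h4 : r ≠ 2 → ∀ x ∈ E, x ^ r = 1) (h5 : ∀ x ∈ E, x ∈ un K → x ∈ zpowers ω)
    (h6 : ∃ x ∈ E, x ∉ un K) : Ext G K E ω r := by
  obtain ⟨z, hz, hz'⟩ := h6
  have h7 : ∀ N ≤ E, Nrm G N → N ≤ zpowers ω ∨ ∀ x ∈ F, ∃ n ∈ N, ∃ u ∈ un K, x = n * u :=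
    fun N hN h => (hF.min (mulU hK N (hN.trans (h3.trans hF.cK))) (un_le_mulU hK _)
      (mulU_le hK _ (hN.trans h3) hF.le) (nrm_mulU hK _ h)).imp_left
      fun h' x hx => h5 x (hN hx) (h' (le_mulU hK _ hx))
  refine ⟨hK, ho, hω, h2, h1, fun x hx => hF.cK (h3 hx), h5, fun x hx y hy => h5 _
    (mul_mem (mul_mem (mul_mem hx hy) (inv_mem hx)) (inv_mem hy)) (hF.comm _ (h3 hx) _ (h3 hy)),
    fun x hx h => h5 x hx (hF.cen hK (h3 hx) fun y hy => ?_),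
    fun x hx => h5 _ (pow_mem hx r) (hp x (h3 hx)), h4,
    ⟨z, hz, fun h => hz' (zpowers_le.2 hω h)⟩, fun N h8 h9 h10 => (h7 N h9 h10).imp_right
      fun h x hx => ?_⟩
  · obtain ⟨n, hn, u, hu, rfl⟩ := (h7 E le_rfl h1).resolve_left
      (fun h => hz' (zpowers_le.2 hω (h hz))) y hy
    rw [← mul_assoc, h n hn, mul_assoc, ← hF.cK (h3 hx) u hu, mul_assoc]
  · obtain ⟨n, hn, u, hu, rfl⟩ := h x (h3 hx)
    exact mul_mem hn (h8 (h5 u ((E.mul_mem_cancel_left (h9 hn)).1 hx) hu))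

lemma Chief.ext_two (hK : Fld G K) (hF : Chief G K F) (hs : Group.IsSolvable G) {ω : (En V)ˣ}
    (ho : orderOf ω = 2) (hω : ω ∈ un K) (hr : ∀ u ∈ un K, u ^ 2 = 1 → u ∈ zpowers ω)
    (hp : ∀ x ∈ F, x ^ 2 ∈ un K) {E : Subgroup (En V)ˣ} (hE : ∀ x, x ∈ E ↔ x ∈ F ∧ x ^ 4 = 1)
    (h6 : ∀ x ∈ F, ∃ n ∈ E, ∃ u ∈ un K, x = n * u) (hc : ∀ x ∈ F, ∀ y ∈ F, ⁅x, y⁆ ^ 2 = 1) :
    ∃ E, Ext G K E ω 2 := by
  classical
  have hω2 : ω ^ 2 = 1 := ho ▸ pow_orderOf_eq_one ω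
  have hEn : Nrm G E := fun g hg x hx => (hE _).2 ⟨hF.nrm g hg x ((hE _).1 hx).1, by
    rw [conj_pow, ((hE _).1 hx).2]; simp⟩
  have hEF : E ≤ F := fun x hx => ((hE _).1 hx).1
  have hωE : zpowers ω ≤ E := zpowers_le.2 ((hE _).2 ⟨hF.le hω, by
    rw [show 4 = 2 * 2 from rfl, pow_mul, hω2, one_pow]⟩)
  have hsq : ∀ x ∈ E, x ^ 2 ∈ zpowers ω := fun x hx =>
    hr _ (hp x (hEF hx)) (by rw [← pow_mul]; exact ((hE _).1 hx).2)
  have hz : ∀ g ∈ G, ∀ z ∈ zpowers ω, g * z * g⁻¹ = z := fun g hg z ⟨n, hn⟩ => by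
    have h1 := hr _ (hK.nrm g hg ω hω) (by rw [conj_pow, hω2]; simp)
    rw [← hn, ← conj_zpow]
    rcases mem_zpowers_two ho h1 with h1 | h1
    · simp [conj_eq_one_iff.1 h1]
    · rw [h1]
  obtain ⟨M⟩ := nonempty_quo hF.comm
  obtain ⟨A⟩ := nonempty_quo (E := E) fun x hx y hy =>
    hr _ (hF.comm x (hEF hx) y (hEF hy)) (hc x (hEF hx) y (hEF hy))
  have hirr := M.irr hF.le hF.nrm hK.nrm hF.ne hF.min
  have hM := M.nsmul_eq_zero hp
  have hA : ∀ g ∈ G, ∀ x ∈ E, x⁻¹ * (g * x * g⁻¹) ∈ un K → A.cl (g * x * g⁻¹) = A.cl x := by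
    intro g hg x hx h
    rw [eq_comm, A.mk_eq hx (hEn g hg x hx)]
    refine hr _ h (mul_left_cancel (a := x ^ 2) ?_)
    rw [← Commute.mul_pow (hF.cK (hEF hx) _ h).symm, mul_inv_cancel_left, conj_pow,
      hz g hg _ (hsq x hx), mul_one]
  have : Nontrivial (img M.R G) := by
    by_contra h
    rw [not_nontrivial_iff_subsingleton] at h
    obtain ⟨x, hx, hx'⟩ := hF.ne
    refine hx' (hF.cen hK hx fun y hy => ?_)
    obtain ⟨n, hn⟩ : M.cl y ∈ AddSubmonoid.multiples (M.cl x) := by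
      rw [mem_multiples_iff_mem_zmultiples, hirr.eq_top (W := AddSubgroup.zmultiples (M.cl x))
        (fun g hg w hw => ?_) (AddSubgroup.mem_zmultiples _) (mt (M.mk_eq_zero x hx).1 hx')]
      · trivial
      · rwa [show g = 1 from congrArg Subtype.val (Subsingleton.elim (⟨g, hg⟩ : img M.R G) 1),
          one_smul]
    have hn : n • M.cl x = M.cl y := hn
    rw [← M.mk_pow hx, M.mk_eq (pow_mem hx n) hy] at hn
    rw [← mul_inv_cancel_left (x ^ n) y, ← mul_assoc, ← (Commute.self_pow x n).symm.eq, mul_assoc,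
      ← hF.cK hx _ hn, ← mul_assoc]
  have := img_solv' M.R hs M.R_ker
  obtain ⟨N, hN⟩ := L.exists_isMinNormal (G := img M.R G)
  obtain ⟨n0, hn0⟩ := ne_bot_iff_exists_ne_one.1 hN.2.1
  have hn0 : n0.1.1 ≠ 1 := fun h => hn0 (Subtype.ext (Subtype.ext h))
  have hodd : Odd (Nat.card N) := by
    obtain ⟨s, hs, -, h⟩ := hN.exists_elementary inferInstance
    have := Fact.mk hs
    obtain ⟨k, hk⟩ := IsPGroup.iff_card.1 h
    refine hk ▸ (hs.odd_of_ne_two ?_).pow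
    rintro rfl
    exact hn0 (hirr.eq_one_of_pGroup (N := N.map (img M.R G).subtype) hM (by
      rintro g hg _ ⟨n, hn, rfl⟩
      exact ⟨_, hN.1.conj_mem' n hn ⟨g, hg⟩, rfl⟩) (h.map _) ⟨_, n0.2, rfl⟩)
  choose a ha hR using fun n : N => mem_img.1 n.1.2
  have := Fintype.ofFinite N
  let T : Subgroup (En V)ˣ :=
    { carrier := {x | x ∈ E ∧ ∑ n, A.cl (a n * x * (a n)⁻¹) = 0}
      one_mem' := ⟨one_mem _, by simp [A.mk_one]⟩
      mul_mem' := fun {x y} hx hy => ⟨mul_mem hx.1 hy.1, by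
        rw [← add_zero 0]
        nth_rewrite 1 [← hx.2, ← hy.2]
        rw [← Finset.sum_add_distrib]
        exact Finset.sum_congr rfl fun n _ => by
          rw [← A.mk_mul _ (hEn _ (ha n) _ hx.1) _ (hEn _ (ha n) _ hy.1), conj_mul]⟩
      inv_mem' := fun {x} hx => ⟨inv_mem hx.1, by
        rw [← neg_eq_zero, ← hx.2, ← Finset.sum_neg_distrib]
        exact Finset.sum_congr rfl fun n _ => by
          rw [← A.mk_inv (hEn _ (ha n) _ (inv_mem hx.1)), conj_inv, inv_inv]⟩ }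
  let S : Set (En V)ˣ := {y | y = ω ∨ ∃ x ∈ E, ∃ g ∈ G, ∃ n : N, (g, n.1.1) ∈ M.R ∧
    y = x⁻¹ * (g * x * g⁻¹)}
  have hT : closure S ≤ T := (closure_le _).2 (by
    rintro _ (rfl | ⟨x, hx, g, hg, m, hm, rfl⟩)
    · exact ⟨hωE (mem_zpowers _), Finset.sum_eq_zero fun n _ => by
        rw [hz _ (ha n) _ (mem_zpowers _), A.mk_eq_zero _ (hωE (mem_zpowers _))]
        exact mem_zpowers _⟩
    refine ⟨mul_mem (inv_mem hx) (hEn g hg x hx), ?_⟩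
    have h1 : ∀ n, A.cl (a n * (x⁻¹ * (g * x * g⁻¹)) * (a n)⁻¹) =
        A.cl (a (n * m) * x * (a (n * m))⁻¹) - A.cl (a n * x * (a n)⁻¹) := fun n => by
      have h2 := hEn _ (ha (n * m)) x hx
      have h3 := mul_mem (mul_mem (ha n) hg) (inv_mem (ha (n * m)))
      have h4 := (mul_mem (mul_mem (hR n) hm) (inv_mem (hR (n * m)))).2 _ (hEF h2)
      rw [← hA _ h3 _ h2 ((M.mk_eq (hEF h2) (hEF (hEn _ h3 _ h2))).1 (by simpa using h4)),
        ← conj_mul, A.mk_mul _ (hEn _ (ha n) _ (inv_mem hx)) _ (hEn _ (ha n) _ (hEn g hg x hx)),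
        ← conj_inv, A.mk_inv (hEn _ (ha n) _ hx), neg_add_eq_sub]
      congr 2; group
    simp only [h1, Finset.sum_sub_distrib, sub_eq_zero]
    exact Fintype.sum_equiv (Equiv.mulRight m) _ _ fun _ => rfl)
  refine ⟨closure S, hF.ext hK ho hω hr hp (fun g hg x hx => ?_) (subset_closure (Or.inl rfl))
    (fun x hx => hEF (hT hx).1) (fun h => absurd rfl h) (fun u hu hu' => ?_) ?_⟩
  · refine (closure_le ((closure S).comap (MulAut.conj g).toMonoidHom)).2 ?_ hx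
    rintro _ (rfl | ⟨x, hx, k, hk, m, hm, rfl⟩)
    · exact subset_closure (Or.inl (hz g hg _ (mem_zpowers _)))
    obtain ⟨φ, hφ⟩ := M.exists_R (hF.nrm.mem_normalizer hg) (hK.nrm g hg)
    refine subset_closure (Or.inr ⟨_, hEn g hg x hx, _, mul_mem (mul_mem hg hk) (inv_mem hg),
      ⟨_, hN.1.conj_mem m.1 m.2 ⟨φ, mem_img.2 ⟨g, hg, hφ⟩⟩⟩,
      mul_mem (mul_mem hφ hm) (inv_mem hφ), ?_⟩)
    simp [mul_assoc]
  · obtain ⟨h1, h2⟩ := hT hu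
    rw [Finset.sum_congr rfl fun n _ => hA _ (ha n) u h1
      (mul_mem (inv_mem hu') (hK.nrm _ (ha n) u hu')), Finset.sum_const, Finset.card_univ,
      ← Nat.card_eq_fintype_card] at h2
    obtain ⟨k, hk⟩ := hodd
    rwa [hk, add_nsmul, mul_nsmul', A.nsmul_eq_zero hsq, one_nsmul, zero_add,
      A.mk_eq_zero u h1] at h2
  · by_contra h
    push Not at h
    refine hn0 (unit_eq_one fun m => ?_)
    obtain ⟨y, hy, rfl⟩ := M.surj m
    obtain ⟨x, hx, u, hu, rfl⟩ := h6 y hy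
    rw [M.mk_mul _ (hEF hx) _ (hF.le hu), (M.mk_eq_zero _ (hF.le hu)).2 hu, add_zero,
      (hR n0).2 x (hEF hx), eq_comm, M.mk_eq (hEF hx) (hEF (hEn _ (ha n0) x hx))]
    exact h _ (subset_closure (Or.inr ⟨x, hx, _, ha n0, n0, hR n0, rfl⟩))

theorem exists_ext (hK : Fld G K) (hs : Group.IsSolvable G)
    (h : ∃ g ∈ G, g ∈ centralizer (un K : Set (En V)ˣ) ∧ g ∉ un K) :
    ∃ r E ω, r.Prime ∧ Ext G K E ω r ∧ ∃ g ∈ G, g ∉ un K ∧ g ^ r ∈ un K := by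
  classical
  obtain ⟨F, hF⟩ := exists_chief hK hs h
  have hcm : ∀ x ∈ F, ∀ y ∈ F, ∀ z ∈ F, Commute x ⁅y, z⁆ := fun x hx y hy z hz =>
    (hF.cK hx _ (hF.comm y hy z hz)).symm
  obtain ⟨x, hx, hx'⟩ := hF.ne
  obtain ⟨r, hr, hp⟩ : ∃ r : ℕ, r.Prime ∧ ∀ x ∈ F, x ^ r ∈ un K := by
    have h1 : ∃ n, 0 < n ∧ x ^ n ∈ un K := ⟨_, orderOf_pos x, pow_orderOf_eq_one x ▸ one_mem _⟩
    obtain ⟨r, hr, m, hm⟩ := Nat.exists_prime_and_dvd (n := Nat.find h1) fun e => hx' (by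
      simpa [e] using (Nat.find_spec h1).2)
    let N : Subgroup (En V)ˣ :=
      { carrier := {x | x ∈ F ∧ x ^ r ∈ un K}
        one_mem' := ⟨one_mem _, by simp [one_mem]⟩
        mul_mem' := fun {a b} ha hb => ⟨mul_mem ha.1 hb.1, by
          rw [H2.mul_pow_of_commute_commutator (hcm _ ha.1 _ hb.1 _ ha.1) (hcm _ hb.1 _ hb.1 _ ha.1)]
          exact mul_mem (mul_mem ha.2 hb.2) (pow_mem (hF.comm _ hb.1 _ ha.1) _)⟩
        inv_mem' := fun ha => ⟨inv_mem ha.1, by rw [inv_pow]; exact inv_mem ha.2⟩ }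
    have h2 := Nat.find_spec h1
    have hm0 : 0 < m := Nat.pos_of_mul_pos_left (hm ▸ h2.1)
    refine ⟨r, hr, fun y hy => ((hF.min N (fun u hu => ⟨hF.le hu, pow_mem hu r⟩) (fun _ h => h.1)
      fun g hg y hy => ⟨hF.nrm g hg y hy.1, by rw [conj_pow]; exact hK.nrm g hg _ hy.2⟩).resolve_left
      (fun h => Nat.find_min h1 (m := m) (by rw [hm]; nlinarith [hr.two_le]) ⟨hm0, h ⟨pow_mem hx m,
        by rw [← pow_mul, mul_comm, ← hm]; exact h2.2⟩⟩) hy).2⟩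
  have hc : ∀ x ∈ F, ∀ y ∈ F, ⁅x, y⁆ ^ r = 1 := fun x hx y hy => by
    rw [← H2.commutator_pow_left_of_commute (hcm _ hx _ hx _ hy), commutatorElement_eq_one_iff_mul_comm]
    exact hF.cK hy _ (hp x hx)
  obtain ⟨y, hy, hxy⟩ : ∃ y ∈ F, x * y ≠ y * x := by
    by_contra h
    push Not at h
    exact hx' (hF.cen hK hx h)
  have := Fact.mk hr
  have ho := orderOf_eq_prime (hc x hx y hy) (mt commutatorElement_eq_one_iff_mul_comm.1 hxy)
  have hω := hF.comm x hx y hy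
  obtain ⟨k, hk⟩ := hK.exists_gen
  have hμ : ∀ u ∈ un K, u ^ r = 1 → u ∈ zpowers ⁅x, y⁆ := fun u hu h =>
    (FT.mem_iff_of_le_cyclic (C := un K) (hk ▸ inferInstance) (zpowers_le.2 hω)).2
      ⟨hu, by rwa [Nat.card_zpowers, ho]⟩
  obtain ⟨m, hm, hm'⟩ : ∃ m, (r = 2 ∧ m = 2 ∨ r ≠ 2 ∧ m = 1) ∧ r ∣ (r * m).choose 2 := by
    by_cases h : r = 2
    · exact ⟨2, Or.inl ⟨h, rfl⟩, by rw [h]; decide⟩
    · exact ⟨1, Or.inr ⟨h, rfl⟩, by rw [mul_one]; exact H2.dvd_choose_two (hr.odd_of_ne_two h)⟩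
  have hmul : ∀ x ∈ F, ∀ y ∈ F, (x * y) ^ (r * m) = x ^ (r * m) * y ^ (r * m) := fun a ha b hb => by
    obtain ⟨c, hc'⟩ := hm'
    rw [H2.mul_pow_of_commute_commutator (hcm _ ha _ hb _ ha) (hcm _ hb _ hb _ ha), hc', pow_mul _ r c,
      hc b hb a ha, one_pow, mul_one]
  let E : Subgroup (En V)ˣ :=
    { carrier := {x | x ∈ F ∧ x ^ (r * m) = 1}
      one_mem' := ⟨one_mem _, one_pow _⟩
      mul_mem' := fun ha hb => ⟨mul_mem ha.1 hb.1, by rw [hmul _ ha.1 _ hb.1, ha.2, hb.2, one_mul]⟩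
      inv_mem' := fun ha => ⟨inv_mem ha.1, by rw [inv_pow, ha.2, inv_one]⟩ }
  have hEn : Nrm G E := fun g hg x hx => ⟨hF.nrm g hg x hx.1, by rw [conj_pow, hx.2]; simp⟩
  have hkU : k ∈ un K := hk ▸ mem_zpowers k
  obtain ⟨z, hz, hz'⟩ : ∃ z ∈ E, z ∉ un K := by
    obtain ⟨z, hz, hz', d, hd⟩ : ∃ z ∈ F, z ∉ un K ∧ ∃ d : ℕ, z ^ (r * m) = (k ^ d) ^ (r * m) := by
      obtain ⟨a, ha⟩ := mem_powers_iff_mem_zpowers.2 (hk ▸ hp x hx)
      obtain ⟨b, hb⟩ := mem_powers_iff_mem_zpowers.2 (hk ▸ hp y hy)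
      have ha : k ^ a = x ^ r := ha
      have hb : k ^ b = y ^ r := hb
      by_cases h : r ∣ a
      · obtain ⟨d, rfl⟩ := h
        exact ⟨x, hx, hx', d, by rw [pow_mul, ← ha, ← pow_mul, ← pow_mul]; congr 1; ring⟩
      obtain ⟨c, d, hd⟩ : ∃ c, r ∣ a * c + b := by
        refine ⟨(-(a : ZMod r)⁻¹ * b).val, (ZMod.natCast_eq_zero_iff _ _).1 ?_⟩
        have : (a : ZMod r) ≠ 0 := mt (ZMod.natCast_eq_zero_iff _ _).1 h
        push_cast
        rw [ZMod.natCast_zmod_val]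
        field_simp
        ring
      refine ⟨x ^ c * y, mul_mem (pow_mem hx c) hy, fun h => hxy (mul_left_cancel (a := x ^ c) ?_),
        d, ?_⟩
      · rw [← mul_assoc, ← mul_assoc, hF.cK hx _ h, ← mul_assoc, pow_mul_comm']
      · rw [hmul _ (pow_mem hx c) _ hy, ← pow_mul, mul_left_comm, pow_mul x, pow_mul y, ← ha, ← hb,
          ← pow_mul, ← pow_mul, ← pow_mul, ← pow_add]
        congr 1
        linear_combination m * hd
    have h1 := pow_mem hkU d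
    exact ⟨z * (k ^ d)⁻¹, ⟨mul_mem hz (hF.le (inv_mem h1)), by
      rw [hmul _ hz _ (hF.le (inv_mem h1)), hd, inv_pow, mul_inv_cancel]⟩,
      fun h => hz' ((mul_mem_cancel_right (inv_mem h1)).1 h)⟩
  have h7 : ∃ g ∈ G, g ∉ un K ∧ g ^ r ∈ un K := by
    obtain ⟨g, hg, u, hu, rfl⟩ := hF.sub x hx
    have hgF := (mul_mem_cancel_right (hF.le hu)).1 hx
    exact ⟨g, hg, fun h => hx' (mul_mem h hu), hp g hgF⟩
  rcases hm with ⟨rfl, rfl⟩ | ⟨h2, rfl⟩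
  · obtain ⟨E', hE'⟩ := hF.ext_two hK hs ho hω hμ hp (E := E) (fun _ => Iff.rfl)
      ((hF.min (mulU hK E fun _ h => hF.cK h.1) (un_le_mulU hK _)
        (mulU_le hK _ (fun _ h => h.1) hF.le) (nrm_mulU hK _ hEn)).resolve_left
        fun h => hz' (h (le_mulU hK _ hz))) hc
    exact ⟨2, E', _, hr, hE', h7⟩
  · exact ⟨r, E, _, hr, hF.ext hK ho hω hμ hp hEn ⟨hF.le hω, by rw [mul_one, hc x hx y hy]⟩
      (fun _ h => h.1) (fun _ x hx => mul_one r ▸ hx.2)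
      (fun u hu hu' => hμ u hu' (mul_one r ▸ hu.2)) ⟨z, hz, hz'⟩, h7⟩

end Cfsg.Agent.H1.BS
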