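import Cfsg.Agent.H1.BS6

/-! Base sizes of solvable linear groups: the algebra spanned by the extraspecial group. -/

set_option autoImplicit false

namespace Cfsg.Agent.H1.BS

open Subgroup Finset
open scoped commutatorElement

universe v

variable {V : Type v} [AddCommGroup V] [Finite V] {G E : Subgroup (En V)ˣ} {K : Subring (En V)}
  {ω : (En V)ˣ} {r : ℕ}

noncomputable instance instFintypeSub (E : Subgroup (En V)ˣ) : Fintype E := Fintype.ofFinite _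

/-- The algebra spanned by `E` over `K`. -/
def alg (K : Subring (En V)) (E : Subgroup (En V)ˣ) : AddSubgroup (En V) :=
  AddSubgroup.closure {a | ∃ c ∈ K, ∃ x ∈ E, a = c * (x : (En V)ˣ)}

/-- The averaging operator. -/
noncomputable def tr (E : Subgroup (En V)ˣ) : En V →+ En V :=
  ∑ x : E, (cn (x : (En V)ˣ)).toAddMonoidHom

lemma tr_apply (a : En V) : tr E a = ∑ x : E, cn (x : (En V)ˣ) a := by
  simp [tr]

omit [Finite V] in
lemma mono_mem {c : En V} (hc : c ∈ K) {x : (En V)ˣ} (hx : x ∈ E) : c * x ∈ alg K E :=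
  AddSubgroup.subset_closure ⟨c, hc, x, hx, rfl⟩

omit [Finite V] in
lemma coe_mem_alg {x : (En V)ˣ} (hx : x ∈ E) : (x : En V) ∈ alg K E :=
  one_mul (x : En V) ▸ mono_mem K.one_mem hx

omit [Finite V] in
lemma K_mem_alg {c : En V} (hc : c ∈ K) : c ∈ alg K E :=
  mul_one c ▸ mono_mem hc (one_mem E)

omit [Finite V] in
lemma alg_ind {p : En V → Prop} (h1 : ∀ c ∈ K, ∀ x ∈ E, p (c * (x : (En V)ˣ))) (h0 : p 0)
    (h2 : ∀ a b, p a → p b → p (a + b)) (h3 : ∀ a, p a → p (-a)) {a : En V} (ha : a ∈ alg K E) :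
    p a :=
  AddSubgroup.closure_induction (p := fun a _ => p a)
    (by rintro _ ⟨c, hc, x, hx, rfl⟩; exact h1 c hc x hx) h0 (fun _ _ _ _ => h2 _ _)
    (fun _ _ => h3 _) ha

lemma Fld.cancel (hK : Fld G K) {c a : En V} (hc : c ∈ K) (h0 : c ≠ 0) (h : c * a = 0) : a = 0 := by
  obtain ⟨u, -, rfl⟩ := hK.exists_unit hc h0
  exact (Units.mul_right_eq_zero u).1 h

lemma Fld.cop (hK : Fld G K) {p : ℕ} [hp : Fact p.Prime] (hV : ∀ v : V, p • v = 0) :
    Cop p (un K) := fun u hu => by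
  rw [Nat.coprime_comm, hp.out.coprime_iff_not_dvd]
  intro h
  exact hK.natCast_ne_zero (pow_mem hu _) (orderOf_pow_orderOf_div (orderOf_pos u).ne' h)
    (en_ext fun v => by simpa using hV v)

namespace Ext

variable (h : Ext G K E ω r)
include h

lemma zU {z : (En V)ˣ} (hz : z ∈ zpowers ω) : z ∈ un K := zpowers_le.2 h.ωK hz

lemma zE {z : (En V)ˣ} (hz : z ∈ zpowers ω) : z ∈ E := zpowers_le.2 h.ωE hz

lemma zc {z x : (En V)ˣ} (hz : z ∈ zpowers ω) (hx : x ∈ E) : z * x = x * z := h.cK x hx z (h.zU hz)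

lemma z_pow {z : (En V)ˣ} (hz : z ∈ zpowers ω) : z ^ r = 1 := by
  obtain ⟨n, rfl⟩ := hz
  rw [← zpow_natCast, ← zpow_mul, mul_comm, zpow_mul, zpow_natCast, ← h.ord, pow_orderOf_eq_one,
    one_zpow]

lemma cK' {c : En V} (hc : c ∈ K) {x : (En V)ˣ} (hx : x ∈ E) : c * x = x * c := by
  by_cases h0 : c = 0
  · simp [h0]
  obtain ⟨u, hu, rfl⟩ := h.fld.exists_unit hc h0
  exact congrArg Units.val (h.cK x hx u hu)

lemma nrm_z : Nrm G (zpowers ω) := fun g hg z hz =>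
  h.inK _ (h.nrm g hg z (h.zE hz)) (h.fld.nrm g hg z (h.zU hz))

lemma mul_mem_alg {a b : En V} (ha : a ∈ alg K E) (hb : b ∈ alg K E) : a * b ∈ alg K E := by
  refine alg_ind (p := fun a => a * b ∈ alg K E) (fun c hc x hx => ?_) (by simp)
    (fun _ _ h1 h2 => add_mul _ _ b ▸ add_mem h1 h2) (fun _ h1 => neg_mul _ b ▸ neg_mem h1) ha
  refine alg_ind (p := fun b : En V => c * (x : En V) * b ∈ alg K E) (fun d hd y hy => ?_) (by simp)
    (fun _ _ h1 h2 => mul_add (c * (x : En V)) _ _ ▸ add_mem h1 h2)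
    (fun _ h1 => mul_neg (c * (x : En V)) _ ▸ neg_mem h1) hb
  rw [mul_assoc, ← mul_assoc _ d, ← h.cK' hd hx, mul_assoc, ← mul_assoc]
  exact mono_mem (K.mul_mem hc hd) (mul_mem hx hy)

lemma cn_mem_alg {g : (En V)ˣ} (hg : g ∈ G) {a : En V} (ha : a ∈ alg K E) : cn g a ∈ alg K E :=
  alg_ind (p := fun a => cn g a ∈ alg K E) (fun c hc x hx => by
    rw [map_mul]; exact mono_mem (h.fld.stab g hg c hc) (h.nrm g hg x hx)) (by simp)
    (fun _ _ h1 h2 => map_add (cn g) _ _ ▸ add_mem h1 h2)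
    (fun _ h1 => map_neg (cn g) _ ▸ neg_mem h1) ha

lemma K_comm_alg {c a : En V} (hc : c ∈ K) (ha : a ∈ alg K E) : c * a = a * c :=
  alg_ind (p := fun a => c * a = a * c) (fun d hd x hx => by
    rw [← mul_assoc, h.fld.comm c hc d hd, mul_assoc, h.cK' hc hx, mul_assoc]) (by simp)
    (fun _ _ h1 h2 => by rw [mul_add, add_mul, h1, h2]) (fun _ h1 => by simp [h1]) ha

lemma tr_mul {c : En V} (hc : c ∈ K) (a : En V) : tr E (c * a) = c * tr E a := by
  rw [tr_apply, tr_apply, mul_sum]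
  exact sum_congr rfl fun x _ => by rw [map_mul, cn_eq_iff.2 (h.cK' hc x.2).symm]

lemma tr_K {c : En V} (hc : c ∈ K) : tr E c = c * Nat.card E := by
  rw [← mul_one c, h.tr_mul hc, tr_apply]; simp

lemma tr_eq_zero {y : (En V)ˣ} (hy : y ∈ E) (hy' : y ∉ zpowers ω) : tr E y = 0 := by
  obtain ⟨x, hx, hxy⟩ : ∃ x ∈ E, y * x ≠ x * y := by
    by_contra h1
    push Not at h1
    exact hy' (h.cen y hy h1)
  have h1 := h.zU (h.comm x hx y hy)
  refine h.fld.cancel (K.sub_mem h1 K.one_mem) (fun e => hxy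
    (commutatorElement_eq_one_iff_mul_comm.1 (Units.ext (sub_eq_zero.1 e))).symm) ?_
  rw [sub_mul, one_mul, ← h.tr_mul h1, sub_eq_zero, tr_apply, tr_apply]
  refine Fintype.sum_equiv (Equiv.mulRight ⟨x, hx⟩) _ _ fun w => ?_
  rw [Equiv.coe_mulRight, Subgroup.coe_mul, cn_mul, cn_coe x, ← Units.val_mul,
    commutatorElement_def, inv_mul_cancel_right]

lemma tr_mem {a : En V} (ha : a ∈ alg K E) : tr E a ∈ K :=
  alg_ind (p := fun a => tr E a ∈ K) (fun c hc x hx => by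
    rw [h.tr_mul hc]
    by_cases hx' : x ∈ zpowers ω
    · rw [h.tr_K (h.zU hx')]
      exact K.mul_mem hc (K.mul_mem (h.zU hx') (natCast_mem K _))
    · rw [h.tr_eq_zero hx hx', mul_zero]; exact K.zero_mem) (by simp)
    (fun _ _ h1 h2 => map_add (tr E) _ _ ▸ add_mem h1 h2)
    (fun _ h1 => map_neg (tr E) _ ▸ neg_mem h1) ha

variable [hr : Fact r.Prime]

lemma isPGroup : IsPGroup r E := fun x => ⟨2, Subtype.ext (by
  rw [Subgroup.coe_pow, sq, pow_mul, h.z_pow (h.pw x x.2)]; rfl)⟩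

lemma card_ne_zero {L : Subgroup (En V)ˣ} (hL : L ≤ E) : (Nat.card L : En V) ≠ 0 := by
  obtain ⟨n, hn⟩ := IsPGroup.iff_card.1 (h.isPGroup.to_le hL)
  obtain ⟨u, -, hu⟩ := h.fld.exists_unit (natCast_mem K r) (h.fld.natCast_ne_zero h.ωK h.ord)
  have := h.fld.nt
  rw [hn, Nat.cast_pow, ← hu, ← Units.val_pow_eq_pow_val]
  exact Units.ne_zero _

lemma exists_tr {a : En V} (ha : a ∈ alg K E) (h0 : a ≠ 0) : ∃ y ∈ E, tr E (a * y) ≠ 0 := by
  classical
  have h1 : ∑ y : E, tr E (a * (y : (En V)ˣ)) * ((y : (En V)ˣ)⁻¹ : (En V)ˣ) =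
      (Nat.card (zpowers ω) * Nat.card E : En V) * a := by
    refine alg_ind (p := fun a : En V => ∑ y : E, tr E (a * (y : (En V)ˣ)) * ((y : (En V)ˣ)⁻¹ : (En V)ˣ) =
      (Nat.card (zpowers ω) * Nat.card E : En V) * a) (fun c hc x hx => ?_) (by simp)
      (fun _ _ h1 h2 => by simp only [add_mul, map_add, sum_add_distrib, mul_add, h1, h2])
      (fun _ h1 => by simp only [neg_mul, map_neg, sum_neg_distrib, mul_neg, h1]) ha
    rw [← Equiv.sum_comp (Equiv.mulLeft (⟨x, hx⟩ : E)⁻¹)]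
    have h2 : ∀ y : E, tr E (c * x * ((Equiv.mulLeft (⟨x, hx⟩ : E)⁻¹ y : E) : (En V)ˣ)) *
        (((Equiv.mulLeft (⟨x, hx⟩ : E)⁻¹ y : E) : (En V)ˣ)⁻¹ : (En V)ˣ) =
        if y.1 ∈ zpowers ω then Nat.card E * (c * x) else 0 := fun y => by
      simp only [Equiv.coe_mulLeft, Subgroup.coe_mul, InvMemClass.coe_inv, Units.val_mul, mul_assoc,
        Units.mul_inv_cancel_left, mul_inv_rev, inv_inv, h.tr_mul hc]
      split_ifs with hy
      · rw [h.tr_K (h.zU hy), ← Nat.cast_comm, mul_assoc, Units.mul_inv_cancel_left, ← mul_assoc,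
          ← Nat.cast_comm, mul_assoc]
      · rw [h.tr_eq_zero y.2 hy, zero_mul, mul_zero]
    simp only [h2]
    rw [← sum_filter, sum_const, nsmul_eq_mul, mul_assoc, ← Nat.card_congr
      (subgroupOfEquivOfLe fun _ => h.zE).toEquiv, ← Fintype.card_subtype,
      ← Nat.card_eq_fintype_card]
    rfl
  by_contra h2
  push Not at h2
  rw [sum_eq_zero fun y _ => by rw [h2 y y.2, zero_mul], mul_assoc] at h1
  exact h0 (h.fld.cancel (natCast_mem K _) (h.card_ne_zero le_rfl) (h.fld.cancel (natCast_mem K _)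
    (h.card_ne_zero fun _ => h.zE) h1.symm))

/-- An element centralizing `E` and `K` is determined on the image of an idempotent. -/
lemma eq_one {π : En V} (hπ : π ∈ alg K E) (h1 : π * π = π) (h0 : π ≠ 0) {g : (En V)ˣ} (hg : g ∈ G)
    (h2 : ∀ w ∈ im V π, g • w = w) (h3 : ∀ c ∈ K, ∀ w ∈ im V π, c • w ∈ im V π)
    (h4 : ∀ x ∈ E, g * x * g⁻¹ = x) : g = 1 := by
  obtain ⟨y, hy, h5⟩ := h.exists_tr hπ h0
  obtain ⟨u, hu, h6⟩ := h.fld.exists_unit (h.tr_mem (h.mul_mem_alg hπ (coe_mem_alg hy))) h5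
  refine unit_eq_one fun v => ?_
  rw [← smul_inv_smul u v, Units.smul_def u, h6, tr_apply, Finset.sum_smul, smul_sum]
  refine sum_congr rfl fun x _ => ?_
  rw [← smul_inv_smul (x : (En V)ˣ) (u⁻¹ • v), cn_smul, ← mul_smul g,
    mul_inv_eq_iff_eq_mul.1 (h4 x x.2), mul_smul, mul_smul, h2 _ (smul_mem_im h1 _)]

end Ext

/-- A primitive idempotent of the algebra. -/
structure Prim (K : Subring (En V)) (E : Subgroup (En V)ˣ) (ε : En V) : Prop where
  mem : ε ∈ alg K E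
  idem : ε * ε = ε
  ne0 : ε ≠ 0
  loc : ∀ x ∈ E, ∃ c ∈ K, ε * (x : (En V)ˣ) * ε = c * ε

variable {ε : En V}

lemma Prim.loc' (h : Ext G K E ω r) (hε : Prim K E ε) {a : En V} (ha : a ∈ alg K E) :
    ∃ c ∈ K, ε * a * ε = c * ε :=
  alg_ind (p := fun a => ∃ c ∈ K, ε * a * ε = c * ε) (fun c hc x hx => by
    obtain ⟨d, hd, e⟩ := hε.loc x hx
    exact ⟨_, K.mul_mem hc hd, by
      rw [← mul_assoc, ← h.K_comm_alg hc hε.mem, mul_assoc c, mul_assoc c, e, mul_assoc]⟩)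
    ⟨0, K.zero_mem, by simp⟩
    (fun _ _ ⟨c, hc, e⟩ ⟨d, hd, e'⟩ => ⟨_, K.add_mem hc hd, by rw [mul_add, add_mul, e, e', add_mul]⟩)
    (fun _ ⟨c, hc, e⟩ => ⟨_, K.neg_mem hc, by simp [← e]⟩) ha

lemma Prim.scalar (h : Ext G K E ω r) (hε : Prim K E ε) {a : En V} (ha : a ∈ alg K E) :
    ∃ c ∈ K, ∀ w ∈ im V ε, ε • a • w = c • w := by
  obtain ⟨c, hc, e⟩ := hε.loc' h ha
  exact ⟨c, hc, fun w hw => by rw [← mem_im.1 hw, ← mul_smul, ← mul_smul, e, mul_smul]⟩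

lemma Prim.ne_top (h : Ext G K E ω r) (hε : Prim K E ε) : im V ε ≠ ⊤ := im_ne_top fun e => by
  obtain ⟨x, hx, hx'⟩ := h.nab
  obtain ⟨c, hc, e'⟩ := hε.loc x hx
  rw [e, one_mul, mul_one, mul_one] at e'
  exact hx' (h.inK x hx (by rwa [mem_un, e']))

/-- The action on the multiplicity space. -/
def Re (h : Ext G K E ω r) (ε : En V) : Subgroup ((En V)ˣ × (En (im V ε))ˣ) where
  carrier := {p | p.1 ∈ G ∧ ∃ a ∈ alg K E, ∀ w : im V ε, ((p.2 • w : im V ε) : V) = a • p.1 • (w : V)}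
  one_mem' := ⟨one_mem _, 1, K_mem_alg K.one_mem, by simp⟩
  mul_mem' := fun {p q} ⟨hp, a, ha, e⟩ ⟨hq, b, hb, e'⟩ => ⟨mul_mem hp hq, _,
    h.mul_mem_alg ha (h.cn_mem_alg hp hb), fun w => by
      rw [Prod.snd_mul, mul_smul, e, e', Prod.fst_mul, mul_smul, mul_smul, cn_smul]⟩
  inv_mem' := fun {p} ⟨hp, a, ha, e⟩ => by
    simpa using inv_mem_of_into (g := p) (Z := {q : (En V)ˣ × (En (im V ε))ˣ | q.1 ∈ G ∧
      ∃ a ∈ alg K E, ∀ w : im V ε, ((q.2 • w : im V ε) : V) = a • q.1 • (w : V)})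
      (fun q ⟨hq, b, hb, e'⟩ => ⟨mul_mem hp hq, _,
        h.mul_mem_alg ha (h.cn_mem_alg hp hb), fun w => by
          rw [smul_eq_mul, Prod.snd_mul, mul_smul, e, e', Prod.fst_mul, mul_smul, mul_smul,
            cn_smul]⟩) 1 ⟨one_mem _, 1, K_mem_alg K.one_mem, by simp⟩

lemma Prim.ker (h : Ext G K E ω r) (hε : Prim K E ε) {φ : (En (im V ε))ˣ} (hφ : (1, φ) ∈ Re h ε) :
    ∃ u ∈ un K, ∀ w : im V ε, ((φ • w : im V ε) : V) = u • (w : V) := by
  obtain ⟨-, a, ha, e⟩ := hφ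
  obtain ⟨c, hc, e'⟩ := hε.scalar h ha
  have h1 : ∀ w : im V ε, ((φ • w : im V ε) : V) = c • (w : V) := fun w => by
    rw [← mem_im.1 (φ • w).2, e, one_smul, e' _ w.2]
  obtain ⟨v, hv, h0⟩ := exists_mem_im hε.idem hε.ne0
  obtain ⟨u, hu, rfl⟩ := h.fld.exists_unit hc fun e => h0 (congrArg Subtype.val
    ((smul_eq_zero_iff_eq φ).1 (Subtype.ext ((h1 ⟨v, hv⟩).trans (by simp [e])))))
  exact ⟨u, hu, h1⟩

lemma Prim.solv (h : Ext G K E ω r) (hε : Prim K E ε) (hs : Group.IsSolvable G) :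
    Group.IsSolvable (img (Re h ε) G) := img_solv _ hs fun a b ha hb => by
  obtain ⟨u, hu, e⟩ := hε.ker h ha
  obtain ⟨w, hw, e'⟩ := hε.ker h hb
  exact unit_ext fun x => Subtype.ext (by
    rw [mul_smul, mul_smul, e, e', e', e, ← mul_smul, ← mul_smul, h.fld.un_comm hu hw])

lemma Prim.ker_pow (h : Ext G K E ω r) (hε : Prim K E ε) {φ : (En (im V ε))ˣ}
    (hφ : (1, φ) ∈ Re h ε) : ∃ u ∈ un K, orderOf φ ∣ orderOf u := by
  obtain ⟨u, hu, e⟩ := hε.ker h hφ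
  have : ∀ (n : ℕ) (w : im V ε), ((φ ^ n • w : im V ε) : V) = u ^ n • (w : V) := fun n => by
    induction n with
    | zero => simp
    | succ n ih => intro w; rw [pow_succ', mul_smul, e, ih, pow_succ', mul_smul]
  exact ⟨u, hu, orderOf_dvd_of_pow_eq_one (unit_eq_one fun w => Subtype.ext (by
    rw [this, pow_orderOf_eq_one, one_smul]))⟩

lemma Prim.cop (h : Ext G K E ω r) (hε : Prim K E ε) {p : ℕ} [Fact p.Prime]
    (hV : ∀ v : V, p • v = 0) (hG : Cop p G) : Cop p (img (Re h ε) G) :=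
  img_cop _ hG fun _ hb => by
    obtain ⟨u, hu, e⟩ := hε.ker_pow h hb
    exact (h.fld.cop hV u hu).coprime_dvd_left e

variable [hr : Fact r.Prime]

lemma Prim.zero_or (h : Ext G K E ω r) (hε : Prim K E ε) {g : (En V)ˣ} (hg : g ∈ G) {a : En V}
    (ha : a ∈ alg K E) {w : V} (hw : w ∈ im V ε) (h0 : w ≠ 0) (h1 : ε • a • g • w = 0) :
    ∀ u ∈ im V ε, ε • a • g • u = 0 := by
  have h2 : ∀ u ∈ im V ε, (ε * a * cn g ε) • g • u = ε • a • g • u := fun u hu => by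
    rw [mul_smul, mul_smul, cn_smul, mem_im.1 hu]
  have h3 := h.mul_mem_alg (h.mul_mem_alg hε.mem ha) (h.cn_mem_alg hg hε.mem)
  by_cases h4 : ε * a * cn g ε = 0
  · exact fun u hu => by rw [← h2 u hu, h4, zero_smul]
  obtain ⟨y, hy, h5⟩ := h.exists_tr h3 h4
  refine absurd (h.fld.cancel (h.tr_mem (h.mul_mem_alg h3 (coe_mem_alg hy))) h5 (a := cn g ε) ?_)
    (by simpa using hε.ne0)
  rw [h.K_comm_alg (h.tr_mem (h.mul_mem_alg h3 (coe_mem_alg hy))) (h.cn_mem_alg hg hε.mem),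
    tr_apply, mul_sum]
  refine sum_eq_zero fun x _ => ?_
  obtain ⟨c, hc, e⟩ := hε.loc' h (h.cn_mem_alg (inv_mem hg)
    (h.mul_mem_alg (coe_mem_alg x.2) (h.mul_mem_alg hε.mem ha)))
  have e := congrArg (cn g) e
  rw [map_mul, map_mul, cn_cn_inv, map_mul, mul_assoc, mul_assoc] at e
  have h6 : cn g c = 0 := h.fld.smul_eq_zero (h.fld.stab g hg c hc)
    ((smul_ne_zero_iff_ne g).2 h0) (by
      rw [← mem_im.1 hw, ← cn_smul g ε, ← mul_smul, ← e, mul_smul, mul_smul, h2 w hw, h1]; simp)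
  rw [h6, zero_mul] at e
  rw [cn_apply (x : (En V)ˣ), mul_assoc, mul_assoc, ← mul_assoc _ (_ * _ * _), ← mul_assoc, mul_assoc (cn g ε),
    ← mul_assoc (cn g ε), e]
  simp

lemma Prim.exists_Re (h : Ext G K E ω r) (hε : Prim K E ε) {g : (En V)ˣ} (hg : g ∈ G) {a : En V}
    (ha : a ∈ alg K E) {w : V} (hw : w ∈ im V ε) (h1 : ε • a • g • w ≠ 0) :
    ∃ φ ∈ img (Re h ε) G, ∀ u : im V ε, ((φ • u : im V ε) : V) = ε • a • g • (u : V) := by
  obtain ⟨φ, hφ⟩ := exists_unit (V := im V ε) (((DistribSMul.toAddMonoidHom V (ε * a * g)).comp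
    (im V ε).subtype).codRestrict _ fun w => by
      change (ε * a * g) • (w : V) ∈ _
      rw [mul_assoc, mul_smul]; exact smul_mem_im hε.idem _) (by
    rw [injective_iff_map_eq_zero]
    intro u hu
    by_contra h0
    exact h1 (hε.zero_or h hg ha u.2 (fun e => h0 (Subtype.ext e)) (congrArg Subtype.val hu) w hw))
  have h2 : ∀ u : im V ε, ((φ • u : im V ε) : V) = ε • a • g • (u : V) := fun u => by rw [hφ]; rfl
  exact ⟨φ, mem_img.2 ⟨g, hg, hg, _, h.mul_mem_alg hε.mem ha, h2⟩, h2⟩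

lemma Prim.irr (h : Ext G K E ω r) (hε : Prim K E ε) (hG : Irr G) : Irr (img (Re h ε) G) := by
  obtain ⟨v, hv, h0⟩ := exists_mem_im hε.idem hε.ne0
  refine ⟨⟨⟨v, hv⟩, 0, fun e => h0 (congrArg Subtype.val e)⟩, fun W hW =>
    or_iff_not_imp_left.2 fun h1 => eq_top_iff.2 fun w _ => ?_⟩
  obtain ⟨⟨u, hu⟩, hu0⟩ := AddSubgroup.ne_bot_iff_exists_ne_zero.1 h1
  let U : AddSubgroup V :=
    { carrier := {x | ∀ g ∈ G, ε • g • x ∈ W.map (im V ε).subtype}
      zero_mem' := fun g _ => by simp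
      add_mem' := fun ha hb g hg => by
        rw [smul_add, smul_add]; exact add_mem (ha g hg) (hb g hg)
      neg_mem' := fun ha g hg => by rw [smul_neg, smul_neg]; exact neg_mem (ha g hg) }
  have h3 : U = ⊤ := hG.eq_top (fun k hk x hx g hg => by
    rw [← mul_smul g]; exact hx _ (mul_mem hg hk)) (w := u) (fun g hg => by
      by_cases h2 : ε • (1 : En V) • g • (u : V) = 0
      · rw [one_smul] at h2
        rw [h2]; exact zero_mem _
      obtain ⟨φ, hφ, e⟩ := hε.exists_Re h hg (K_mem_alg K.one_mem) u.2 h2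
      exact ⟨_, hW φ hφ u hu, e u⟩) fun e => hu0 (Subtype.ext (Subtype.ext e))
  obtain ⟨a, ha, e⟩ := (h3 ▸ AddSubgroup.mem_top (w : V) : (w : V) ∈ U) 1 (one_mem _)
  rw [one_smul, mem_im.1 w.2] at e
  rwa [← show a = w from Subtype.ext e]

end Cfsg.Agent.H1.BS
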