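import Cfsg.Agent.H1.BS7

/-! Base sizes of solvable linear groups: maximal stabilizers in the extraspecial group. -/

set_option autoImplicit false

namespace Cfsg.Agent.H1.BS

open Subgroup Finset
open scoped commutatorElement

universe v

variable {V : Type v} [AddCommGroup V] [Finite V] {G E L : Subgroup (En V)ˣ} {K : Subring (En V)}
  {ω : (En V)ˣ} {r : ℕ}

/-- The fixed points of a subgroup. -/
def Fx (L : Subgroup (En V)ˣ) : AddSubgroup V where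
  carrier := {v | ∀ l ∈ L, l • v = v}
  add_mem' := fun ha hb n hn => by rw [smul_add, ha n hn, hb n hn]
  zero_mem' := fun _ _ => smul_zero _
  neg_mem' := fun ha n hn => by rw [smul_neg, ha n hn]

/-- A maximal stabilizer of a nonzero vector. -/
structure Mx (E L : Subgroup (En V)ˣ) : Prop where
  le : L ≤ E
  ex : ∃ v ∈ Fx L, v ≠ 0
  max : ∀ u ∈ Fx L, u ≠ 0 → ∀ x ∈ E, x • u = u → x ∈ L

lemma exists_mx [Nontrivial V] (E : Subgroup (En V)ˣ) : ∃ L, Mx E L := by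
  obtain ⟨v, hv, hmax⟩ := Set.exists_max_image {v : V | v ≠ 0}
    (fun v => Nat.card (E ⊓ MulAction.stabilizer (En V)ˣ v : Subgroup _)) (Set.toFinite _)
    (exists_ne 0)
  refine ⟨E ⊓ MulAction.stabilizer (En V)ˣ v, inf_le_left, ⟨v, fun _ h => h.2, hv⟩,
    fun u hu h0 x hx h => ?_⟩
  rw [eq_of_le_of_card_ge (H := E ⊓ MulAction.stabilizer (En V)ˣ v)
    (K := E ⊓ MulAction.stabilizer (En V)ˣ u) (fun l hl => ⟨hl.1, hu l hl⟩) (hmax u h0)]
  exact ⟨hx, h⟩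

/-- The centralizer of `L` in `E`. -/
abbrev Dn (E L : Subgroup (En V)ˣ) : Subgroup (En V)ˣ := E ⊓ centralizer (L : Set (En V)ˣ)

omit [Finite V] in
lemma fx_of_comm {d : En V} (hd : ∀ l ∈ L, (l : En V) * d = d * l) {u : V} (hu : u ∈ Fx L) :
    d • u ∈ Fx L := fun l hl => by
  rw [Units.smul_def, ← mul_smul, hd l hl, mul_smul]
  exact congrArg _ (hu l hl)

omit [Finite V] in
lemma fx_D {d : (En V)ˣ} (hd : d ∈ Dn E L) {u : V} (hu : u ∈ Fx L) : d • u ∈ Fx L :=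
  fx_of_comm (fun l hl => congrArg Units.val (hd.2 l hl)) hu

omit [Finite V] in
lemma fx_nrm {g : (En V)ˣ} (hg : g ∈ normalizer (L : Set (En V)ˣ)) {u : V} (hu : u ∈ Fx L) :
    g • u ∈ Fx L := fun l hl => by
  have := hu _ ((mem_normalizer_iff.1 (inv_mem hg) l).1 hl)
  rwa [inv_inv, mul_smul, mul_smul, inv_smul_eq_iff] at this

omit [Finite V] in
lemma nrm_D (hE : Nrm G E) {g : (En V)ˣ} (hG : g ∈ G) (hg : g ∈ normalizer (L : Set (En V)ˣ)) :
    ∀ d ∈ Dn E L, g * d * g⁻¹ ∈ Dn E L := fun d hd => ⟨hE g hG d hd.1, fun l hl => by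
  have := hd.2 _ ((mem_normalizer_iff.1 (inv_mem hg) l).1 hl)
  calc l * (g * d * g⁻¹) = g * (g⁻¹ * l * g⁻¹⁻¹ * d) * g⁻¹ := by group
    _ = _ := by rw [this]; group⟩

/-- The projection onto the fixed points. -/
structure Pj (K : Subring (En V)) (E L : Subgroup (En V)ˣ) (π : En V) : Prop where
  mem : π ∈ alg K E
  fix : ∀ v : V, π • v ∈ Fx L
  id : ∀ u ∈ Fx L, π • u = u
  abs : ∀ l ∈ L, π * l = π
  comm : ∀ d ∈ Dn E L, π * d = d * π
  tr0 : ∀ x ∈ E, tr E (x * π) ≠ 0 → ∃ l ∈ L, x * l ∈ un K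

lemma Pj.idem {π : En V} (h : Pj K E L π) : π * π = π :=
  en_ext fun v => by rw [mul_smul, h.id _ (h.fix v)]

lemma Pj.im_eq {π : En V} (h : Pj K E L π) : im V π = Fx L :=
  le_antisymm (fun v hv => mem_im.1 hv ▸ h.fix v) h.id

namespace Mx

variable (h : Ext G K E ω r) (hL : Mx E L)
include hL

lemma nrm (hE : Nrm G E) {g : (En V)ˣ} (hG : g ∈ G) {v : V} (hv : v ∈ Fx L) (h0 : v ≠ 0)
    (hg : g • v = v) : g ∈ normalizer (L : Set (En V)ˣ) := by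
  have : ∀ g ∈ G, g⁻¹ • v = v → ∀ l ∈ L, g * l * g⁻¹ ∈ L := fun g hG hg l hl =>
    hL.max v hv h0 _ (hE g hG l (hL.le hl)) (by
      rw [mul_smul, mul_smul, hg, hv l hl, ← inv_smul_eq_iff.1 hg])
  exact mem_normalizer_iff.2 fun l => ⟨this g hG (inv_smul_eq_iff.2 hg.symm) l, fun hl => by
    simpa [mul_assoc] using this _ (inv_mem hG) (by simpa using hg) _ hl⟩

include h

lemma z_eq_one {z : (En V)ˣ} (hz : z ∈ zpowers ω) (hz' : z ∈ L) : z = 1 := by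
  obtain ⟨v, hv, h0⟩ := hL.ex
  exact h.fld.un_eq_one (h.zU hz) h0 (hv z hz')

lemma le_D : L ≤ Dn E L := fun a ha => ⟨hL.le ha, fun b hb =>
  commutatorElement_eq_one_iff_mul_comm.1 (hL.z_eq_one h (h.comm _ (hL.le hb) _ (hL.le ha))
    (mul_mem (mul_mem (mul_mem hb ha) (inv_mem hb)) (inv_mem ha)))⟩

lemma z_D {z : (En V)ˣ} (hz : z ∈ zpowers ω) : z ∈ Dn E L :=
  ⟨h.zE hz, fun _ hl => (h.zc hz (hL.le hl)).symm⟩

lemma nonempty_quo : Nonempty (Quo E (Dn E L)) :=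
  BS.nonempty_quo fun x hx y hy => hL.z_D h (h.comm x hx y hy)

lemma fx_K {c : En V} (hc : c ∈ K) {u : V} (hu : u ∈ Fx L) : c • u ∈ Fx L :=
  fx_of_comm (fun _ hl => (h.cK' hc (hL.le hl)).symm) hu

/-- The product of `L` with the centre. -/
def Lh : Subgroup (En V)ˣ where
  carrier := {x | ∃ z ∈ zpowers ω, z * x ∈ L}
  one_mem' := ⟨1, one_mem _, by simp [one_mem]⟩
  mul_mem' := fun {a b} ⟨z, hz, ha⟩ ⟨w, hw, hb⟩ => ⟨_, mul_mem hw hz, by
    rw [mul_assoc, ← mul_assoc z, ← mul_assoc, h.zc hw (hL.le ha), mul_assoc]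
    exact mul_mem ha hb⟩
  inv_mem' := fun {a} ⟨z, hz, ha⟩ => ⟨_, inv_mem hz, by
    rw [← mul_inv_rev, ← h.zc hz ((mul_mem_cancel_left (h.zE hz)).1 (hL.le ha))]
    exact inv_mem ha⟩

lemma Lh_le : hL.Lh h ≤ Dn E L := fun _ ⟨_, hz, ha⟩ =>
  (mul_mem_cancel_left (hL.z_D h hz)).1 (hL.le_D h ha)

lemma le_Lh : L ≤ hL.Lh h := fun _ ha => ⟨1, one_mem _, by rwa [one_mul]⟩

lemma z_Lh {z : (En V)ˣ} (hz : z ∈ zpowers ω) : z ∈ hL.Lh h :=
  ⟨_, inv_mem hz, by simp [one_mem]⟩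

lemma Lh_comm {a d : (En V)ˣ} (ha : a ∈ hL.Lh h) (hd : d ∈ Dn E L) : a * d = d * a := by
  obtain ⟨z, hz, ha⟩ := ha
  have := hd.2 _ ha
  rwa [← mul_assoc d, ← h.zc hz hd.1, mul_assoc, mul_assoc, mul_right_inj] at this

lemma Lh_smul {a : (En V)ˣ} (ha : a ∈ hL.Lh h) : ∃ z ∈ zpowers ω, ∀ u ∈ Fx L, a • u = z • u := by
  obtain ⟨z, hz, ha⟩ := ha
  exact ⟨_, inv_mem hz, fun u hu => by rw [eq_inv_smul_iff, ← mul_smul, hu _ ha]⟩

lemma proj {π : En V} (hπ : Pj K E L π) {x : (En V)ˣ} (hx : x ∈ E) (hx' : x ∉ Dn E L) {u : V}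
    (hu : u ∈ Fx L) : π • x • u = 0 := by
  obtain ⟨l, hl, h1⟩ : ∃ l ∈ L, l * x ≠ x * l := by
    by_contra h1
    push Not at h1
    exact hx' ⟨hx, h1⟩
  have h2 := h.zU (h.comm l (hL.le hl) x hx)
  by_contra h3
  refine h1 (commutatorElement_eq_one_iff_mul_comm.1 (h.fld.un_eq_one h2 h3 ?_))
  rw [Units.smul_def, ← mul_smul, h.K_comm_alg h2 hπ.mem, mul_smul, ← Units.smul_def, ← mul_smul _ x,
    commutatorElement_def, inv_mul_cancel_right, mul_smul, mul_smul, hu _ (inv_mem hl),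
    Units.smul_def l, ← mul_smul, hπ.abs l hl]

variable [hr : Fact r.Prime]

lemma exists_pj : ∃ π, Pj K E L π := by
  obtain ⟨c, hc, e⟩ := h.fld.inv _ (natCast_mem K _) (h.card_ne_zero hL.le)
  have h1 : ∀ l ∈ L, c * (l : En V) = l * c := fun l hl => h.cK' hc (hL.le hl)
  refine ⟨∑ l : L, c * (l : (En V)ˣ), sum_mem fun l _ => mono_mem hc (hL.le l.2),
    fun v l hl => ?_, fun u hu => ?_, fun l hl => ?_, fun d hd => ?_, fun x hx h2 => ?_⟩
  · rw [Units.smul_def, ← mul_smul, mul_sum]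
    refine congrArg (· • v) (Fintype.sum_equiv (Equiv.mulLeft ⟨l, hl⟩) _ _ fun w => ?_)
    rw [← mul_assoc, ← h1 l hl, mul_assoc]; rfl
  · rw [Finset.sum_smul, sum_congr rfl fun (l : L) _ => show (c * (l : (En V)ˣ)) • u = c • u by
      rw [mul_smul]; exact congrArg _ (hu l l.2), sum_const, card_univ, ← Nat.card_eq_fintype_card,
      ← Nat.cast_smul_eq_nsmul (En V), ← mul_smul, e, one_smul]
  · rw [sum_mul]
    exact Fintype.sum_equiv (Equiv.mulRight ⟨l, hl⟩) _ _ fun w => mul_assoc _ _ _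
  · rw [sum_mul, mul_sum]
    exact sum_congr rfl fun l _ => by
      rw [← mul_assoc, ← h.cK' hc hd.1, mul_assoc, mul_assoc, ← Units.val_mul, hd.2 l l.2]; rfl
  · rw [mul_sum, map_sum] at h2
    obtain ⟨l, -, hl⟩ := exists_ne_zero_of_sum_ne_zero h2
    rw [← mul_assoc, ← h.cK' hc hx, mul_assoc, h.tr_mul hc, ← Units.val_mul] at hl
    by_contra h3
    exact hl (by rw [h.tr_eq_zero (mul_mem hx (hL.le l.2)) fun e => h3 ⟨l, l.2, h.zU e⟩, mul_zero])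

lemma Lh_of_pow {x : (En V)ˣ} (hx : x ∈ Dn E L) (h1 : x ^ r = 1) : x ∈ hL.Lh h := by
  obtain ⟨v, hv, h0⟩ := hL.ex
  have hc : ∀ i : ℕ, Commute (ω ^ i) x := fun i => h.zc (pow_mem (mem_zpowers ω) i) hx.1
  have hD : ∀ i : ℕ, ω ^ i * x ∈ Dn E L := fun i =>
    mul_mem (hL.z_D h (pow_mem (mem_zpowers ω) i)) hx
  by_contra h2
  have h3 : ∀ i : ℕ, ∑ j ∈ range r, (ω ^ i * x) ^ j • v = 0 := fun i => by
    by_contra h3
    refine h2 ⟨_, pow_mem (mem_zpowers ω) i, hL.max _ (sum_mem fun j _ =>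
      fx_D (pow_mem (hD i) j) hv) h3 _ (hD i).1 ?_⟩
    have := sum_range_succ' (fun j => (ω ^ i * x) ^ j • v) r
    rw [sum_range_succ, (hc i).mul_pow, h1, h.z_pow (pow_mem (mem_zpowers ω) i), pow_zero, mul_one,
      add_left_inj] at this
    rw [smul_sum]
    simpa only [pow_succ', mul_smul] using this.symm
  have h4 := sum_eq_zero fun i (_ : i ∈ range r) => h3 i
  rw [sum_comm, sum_eq_single_of_mem 0 (mem_range.2 hr.out.pos) fun j hj hj0 => ?_] at h4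
  · simp only [pow_zero, one_smul, sum_const, card_range] at h4
    exact h.fld.natCast_ne_zero h.ωK h.ord (h.fld.smul_eq_zero (natCast_mem K r) h0 (by simpa using h4))
  · by_contra h5
    refine hj0 (Nat.eq_zero_of_dvd_of_lt (h.ord ▸ orderOf_dvd_of_pow_eq_one
      (h.fld.un_eq_one (pow_mem h.ωK j) h5 ?_)) (mem_range.1 hj))
    have := sum_range_succ' (fun i => (ω ^ i * x) ^ j • v) r
    rw [sum_range_succ, h.z_pow (mem_zpowers ω), pow_zero, add_left_inj] at this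
    rw [smul_sum, this]
    refine sum_congr rfl fun i _ => ?_
    rw [(hc _).mul_pow, (hc _).mul_pow, ← mul_smul, ← mul_assoc, ← pow_mul, ← pow_mul, ← pow_add]
    congr 3; ring

lemma Lh_of_cent {x : (En V)ˣ} (hx : x ∈ Dn E L) (h1 : ∀ d ∈ Dn E L, x * d = d * x) :
    x ∈ hL.Lh h := by
  classical
  obtain ⟨π, hπ⟩ := hL.exists_pj h
  obtain ⟨v, hv, h0⟩ := hL.ex
  obtain ⟨l, hl, h2⟩ := hπ.tr0 x hx.1 fun e => by
    have h2 : π * tr E (x * π) = Nat.card (Dn E L) * (x * π) := by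
      rw [tr_apply, mul_sum, sum_congr rfl fun (y : E) _ => show _ =
        if y.1 ∈ Dn E L then (x : En V) * π else 0 from ?_, ← sum_filter, sum_const, nsmul_eq_mul,
        ← Nat.card_congr (subgroupOfEquivOfLe (inf_le_left : Dn E L ≤ E)).toEquiv,
        ← Fintype.card_subtype, ← Nat.card_eq_fintype_card]
      · rfl
      split_ifs with hy
      · rw [map_mul, cn_eq_iff.2 (hπ.comm _ hy).symm,
          cn_eq_iff.2 (congrArg Units.val (h1 _ hy).symm), ← mul_assoc, hπ.comm x hx, mul_assoc,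
          hπ.idem]
      · refine en_ext fun w => ?_
        rw [cn_apply, ← mul_assoc (y.1 : En V), ← Units.val_mul, mul_smul, mul_smul, mul_smul]
        exact hL.proj h hπ (mul_mem y.2 hx.1) (mt (mul_mem_cancel_right hx).1 hy) (hπ.fix _)
    rw [e, mul_zero] at h2
    have := congrArg (· • v) (h.fld.cancel (natCast_mem K _) (h.card_ne_zero inf_le_left) h2.symm)
    simp only [mul_smul, hπ.id v hv, zero_smul] at this
    exact h0 ((smul_eq_zero_iff_eq x).1 this)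
  exact (mul_mem_cancel_right (hL.le_Lh h hl)).1
    (hL.z_Lh h (h.inK _ (mul_mem hx.1 (hL.le hl)) h2))

lemma eq_one {g : (En V)ˣ} (h1 : ∀ u ∈ Fx L, g • u = u) (h2 : ∀ x ∈ E, g * x * g⁻¹ = x)
    (hg : g ∈ G) : g = 1 := by
  obtain ⟨π, hπ⟩ := hL.exists_pj h
  obtain ⟨v, hv, h0⟩ := hL.ex
  exact h.eq_one hπ.mem hπ.idem (fun e => h0 (by rw [← hπ.id v hv, e, zero_smul])) hg
    (hπ.im_eq ▸ h1) (fun c hc w hw => hπ.im_eq ▸ hL.fx_K h hc (hπ.im_eq ▸ hw)) h2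

/-- The vectors with prescribed components. -/
theorem block (Q : Quo E (Dn E L)) {ι κ : Type} {v : V} (hv : v ∈ Fx L) (h0 : v ≠ 0) (u : ι → V)
    (hu : ∀ i, u i ∈ Fx L) (col : Q.X → κ) (c : κ → ι → V) (hc : ∀ k i, c k i ∈ Fx L)
    (sep : ∀ k k', ∀ d ∈ Dn E L, (∀ i, d • c k i = c k' i) → k = k') :
    ∃ w : ι → V, ∀ g ∈ G, g • v = v → (∀ i, g • w i = w i) → (∀ i, g • u i = u i) ∧
      ((∀ u ∈ Fx L, g • u = u) → ∃ φ, (g, φ) ∈ Q.R ∧ (∀ m, m ≠ 0 → col (φ • m) = col m) ∧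
        (φ = 1 → ∀ x ∈ E, x⁻¹ * (g * x * g⁻¹) ∈ Dn E L ∧
          (Q.cl x = 0 ∨ c (col (Q.cl x)) ≠ 0 → x⁻¹ * (g * x * g⁻¹) ∈ L))) := by
  classical
  obtain ⟨π, hπ⟩ := hL.exists_pj h
  have := Fintype.ofFinite Q.X
  let t : Q.X → ι → V := fun m => if m = 0 then u else c (col m)
  have ht : ∀ m i, t m i ∈ Fx L := fun m i => by
    simp only [t]; split_ifs; exacts [hu i, hc _ i]
  refine ⟨fun i => ∑ m, Q.rep m • t m i, fun g hg h1 h2 => ?_⟩
  have hn := hL.nrm h.nrm hg hv h0 h1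
  obtain ⟨φ, hφ⟩ := Q.exists_R (h.nrm.mem_normalizer hg) (nrm_D h.nrm hg hn)
  have h3 : ∀ m m', (Q.rep m')⁻¹ * (g * Q.rep m * g⁻¹) ∈ Dn E L ↔ m' = φ • m := fun m m' => by
    rw [← Q.mk_eq (Q.rep_mem _) (h.nrm g hg _ (Q.rep_mem _)), ← hφ.2 _ (Q.rep_mem _), Q.mk_rep,
      Q.mk_rep]
  have h4 : ∀ m i, ((Q.rep (φ • m))⁻¹ * (g * Q.rep m * g⁻¹)) • g • t m i = t (φ • m) i := by
    intro m i
    have e := congrArg (fun x => π • (Q.rep (φ • m))⁻¹ • x) (h2 i)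
    simp only [smul_sum, ← mul_smul _ (Q.rep _), ← mul_smul _ (g * _)] at e
    rw [sum_eq_single_of_mem m (mem_univ _) fun m' _ hm => ?_,
      sum_eq_single_of_mem (φ • m) (mem_univ _) fun m' _ hm => ?_, inv_mul_cancel, one_smul,
      hπ.id _ (ht _ _)] at e
    · rw [← e, ← hπ.id _ (fx_D ((h3 _ _).2 rfl) (fx_nrm hn (ht m i))), ← mul_smul _ g]
      simp [mul_assoc]
    · exact hL.proj h hπ (mul_mem (inv_mem (Q.rep_mem _)) (Q.rep_mem _)) (fun e => hm (by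
        rw [← Q.mk_eq (Q.rep_mem _) (Q.rep_mem _), Q.mk_rep, Q.mk_rep] at e
        exact e.symm)) (ht _ _)
    · have := hL.proj h hπ (mul_mem (inv_mem (Q.rep_mem (φ • m))) (h.nrm g hg _ (Q.rep_mem m')))
        (fun e => hm (smul_left_cancel φ ((h3 _ _).1 e)).symm) (fx_nrm hn (ht m' i))
      rwa [← mul_smul _ g, mul_assoc, inv_mul_cancel_right] at this
  refine ⟨fun i => by simpa [t, Q.rep_zero] using h4 0 i, fun h5 => ⟨φ, hφ, fun m hm => ?_,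
    fun e x hx => ?_⟩⟩
  · refine (sep _ _ _ ((h3 m _).2 rfl) fun i => ?_).symm
    have := h4 m i
    rwa [h5 _ (ht _ _), show t m = c (col m) from if_neg hm,
      show t (φ • m) = c (col (φ • m)) from if_neg ((smul_ne_zero_iff_ne φ).2 hm)] at this
  subst e
  refine ⟨(Q.mk_eq hx (h.nrm g hg x hx)).1 (hφ.2 x hx), fun h6 => ?_⟩
  have h7 : ∀ d ∈ Dn E L, d⁻¹ * (g * d * g⁻¹) ∈ L := fun d hd =>
    hL.max v hv h0 _ (mul_mem (inv_mem hd.1) (h.nrm g hg d hd.1)) (by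
      rw [mul_smul, mul_smul, mul_smul, inv_smul_eq_iff.2 h1.symm, h5 _ (fx_D hd hv), inv_smul_smul])
  by_cases h8 : Q.cl x = 0
  · exact h7 x ((Q.mk_eq_zero x hx).1 h8)
  obtain ⟨i, hi⟩ := Function.ne_iff.1 (h6.resolve_left h8)
  have h9 := h4 (Q.cl x) i
  rw [h5 _ (ht _ _), one_smul, show t (Q.cl x) = c (col (Q.cl x)) from if_neg h8] at h9
  have h10 := hL.max _ (hc _ i) hi _
    (mul_mem (inv_mem (Q.rep_mem _)) (h.nrm g hg _ (Q.rep_mem _))) h9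
  have h11 := (Q.mk_eq (Q.rep_mem _) hx).1 (Q.mk_rep _)
  have h12 := mul_mem h10 (h7 _ h11)
  rw [← mul_assoc, (inv_mem h11).2 _ h10] at h12
  convert h12 using 1
  group

end Mx

end Cfsg.Agent.H1.BS
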