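import Cfsg.Agent.H1.BS8
import Cfsg.Agent.H1.BS4

/-! Base sizes of solvable linear groups: elements acting trivially on the blocks. -/

set_option autoImplicit false

namespace Cfsg.Agent.H1.BS

open Subgroup Finset
open scoped commutatorElement

universe v

variable {V : Type v} [AddCommGroup V] [Finite V] {G E L : Subgroup (En V)ˣ} {K : Subring (En V)}
  {ω : (En V)ˣ} {r : ℕ}

/-- The displacement of `x` under conjugation by `g`. -/
def dl {A : Type*} [Group A] (g x : A) : A := x⁻¹ * (g * x * g⁻¹)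

lemma dl_mul {A : Type*} [Group A] (g x y : A) : dl g (x * y) = y⁻¹ * dl g x * y * dl g y := by
  simp only [dl]; group

lemma dl_eq_one {A : Type*} [Group A] {g x : A} (h : dl g x = 1) : g * x * g⁻¹ = x :=
  (inv_mul_eq_one.1 h).symm

lemma Ext.dl_mem (h : Ext G K E ω r) {g x : (En V)ˣ} (hg : g ∈ G) (hx : x ∈ E) : dl g x ∈ E :=
  mul_mem (inv_mem hx) (h.nrm g hg x hx)

lemma Quo.cover {D : Subgroup (En V)ˣ} (Q : Quo E D) (hD : D ≤ E) {B : Set Q.X} {x : (En V)ˣ}
    (hx : x ∈ E) {Y : Set (En V)ˣ} (h : ∀ y ∈ E, Q.cl y ∉ B → Q.cl (x * y) ∉ B → y ∈ Y) :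
    Nat.card Q.X * Nat.card D ≤ Y.ncard + 2 * (B.ncard * Nat.card D) := by
  rw [← Q.card_eq hD, ← Q.ncard_preimage hD, ← SetLike.coe_sort_coe, Nat.card_coe_set_eq, two_mul,
    ← add_assoc]
  refine (Set.ncard_le_ncard (t := Y ∪ {y | y ∈ E ∧ Q.cl y ∈ B} ∪
    (x⁻¹ * ·) '' {y | y ∈ E ∧ Q.cl y ∈ B}) fun y hy => ?_).trans ((Set.ncard_union_le _ _).trans
      (add_le_add (Set.ncard_union_le _ _) (Set.ncard_image_le)))
  by_cases h1 : Q.cl y ∈ B
  · exact Or.inl (Or.inr ⟨hy, h1⟩)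
  by_cases h2 : Q.cl (x * y) ∈ B
  · exact Or.inr ⟨_, ⟨mul_mem hx hy, h2⟩, inv_mul_cancel_left _ _⟩
  exact Or.inl (Or.inl (h y hy h1 h2))

lemma Ext.conj_eq (h : Ext G K E ω r) {a y : (En V)ˣ} (ha : a ∈ E) (hy : y ∈ E) :
    ∃ z ∈ zpowers ω, y⁻¹ * a * y = z * a :=
  ⟨_, h.comm _ (inv_mem hy) a ha, by rw [commutatorElement_def]; group⟩

theorem Mx.diag [hr : Fact r.Prime] (h : Ext G K E ω r) (hL : Mx E L) (Q : Quo E (Dn E L))
    {g : (En V)ˣ} (hg : g ∈ G) {B : Set Q.X} (hB : 2 * r * B.ncard < (r - 1) * Nat.card Q.X)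
    (hT : ∀ x ∈ E, Q.cl x ∉ B → dl g x ∈ L) : ∀ x ∈ E, g * x * g⁻¹ = x := by
  intro x hx
  by_contra h0
  have h1 := h.dl_mem hg hx
  have h2 := Q.cover inf_le_left hx (Y := {y | y ∈ E ∧ y⁻¹ * dl g x * y ∈ L}) fun y hy h2 h3 =>
    ⟨hy, (mul_mem_cancel_right (hT y hy h2)).1 (dl_mul g x y ▸ hT _ (mul_mem hx hy) h3)⟩
  have h3 : r * {y | y ∈ E ∧ y⁻¹ * dl g x * y ∈ L}.ncard ≤ Nat.card E := by
    rcases Set.eq_empty_or_nonempty {y | y ∈ E ∧ y⁻¹ * dl g x * y ∈ L} with h3 | ⟨y, hy, h3⟩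
    · simp [h3]
    let C := (centralizer {dl g x}).subgroupOf E
    obtain ⟨n, hn⟩ := h.isPGroup.index C
    have h4 : r ≤ C.index := by
      rw [hn]
      refine Nat.le_self_pow (fun e => h0 (dl_eq_one ?_)) r
      rw [e, pow_zero, index_eq_one, subgroupOf_eq_top] at hn
      have h5 := h.cen _ h1 fun y hy => hn hy _ rfl
      rw [mul_assoc, h.zc h5 hy, inv_mul_cancel_left] at h3
      exact hL.z_eq_one h h5 h3
    rw [← C.card_mul_index, mul_comm]
    refine Nat.mul_le_mul ?_ h4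
    rw [← SetLike.coe_sort_coe, Nat.card_coe_set_eq]
    refine (Set.ncard_le_ncard (t := (fun c : E => c.1 * y) '' C) fun w hw => ?_).trans
      Set.ncard_image_le
    refine ⟨⟨_, mul_mem hw.1 (inv_mem hy)⟩, mem_subgroupOf.2 (mem_centralizer_singleton_iff.2 ?_),
      inv_mul_cancel_right _ _⟩
    obtain ⟨z, hz, e⟩ := h.conj_eq h1 hy
    obtain ⟨z', hz', e'⟩ := h.conj_eq h1 hw.1
    have h5 := mul_mem h3 (inv_mem hw.2)
    have h6 := hL.z_eq_one h (mul_mem hz (inv_mem hz')) (by convert h5 using 1; rw [e, e']; group)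
    rw [← mul_inv_eq_one.1 h6, ← e] at e'
    calc w * y⁻¹ * dl g x = w * (y⁻¹ * dl g x * y) * y⁻¹ := by group
      _ = _ := by rw [← e']; group
  rw [Q.card_eq inf_le_left] at h3
  have := Nat.card_pos (α := Dn E L)
  obtain ⟨s, rfl⟩ : ∃ s, r = s + 1 := ⟨r - 1, by have := hr.out.pos; omega⟩
  simp only [Nat.add_sub_cancel] at hB
  nlinarith

section Two

variable (h : Ext G K E ω 2)
include h

lemma Ext.ωω : ω * ω = 1 := by simpa [sq] using h.z_pow (mem_zpowers ω)

lemma Ext.ne_one : ω ≠ 1 := fun e => by simpa [e] using h.ord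

lemma Ext.coe_eq : (ω : En V) = -1 := eq_neg_of_add_eq_zero_left (h.fld.cancel
  (K.sub_mem h.ωK K.one_mem) (fun e => h.ne_one (Units.ext (sub_eq_zero.1 e))) (by
    rw [sub_mul, mul_add, ← Units.val_mul, h.ωω]; simp [add_comm]))

lemma Ext.anti {a y : (En V)ˣ} (ha : a ∈ E) (hy : y ∈ E) (hn : ¬ Commute a y) :
    a * y = ω * (y * a) := by
  rw [← (mem_zpowers_two h.ord (h.comm a ha y hy)).resolve_left
    (mt commutatorElement_eq_one_iff_mul_comm.1 hn), commutatorElement_def]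
  group

lemma Ext.not_comm {a y : (En V)ˣ} (e : a * y = ω * (y * a)) : ¬ Commute a y := fun e' =>
  h.ne_one (by rw [e'.eq] at e; exact (right_eq_mul.1 e))

lemma Ext.comm_mul {a x y : (En V)ˣ} (ha : a ∈ E) (hx : x ∈ E) (hy : y ∈ E) :
    Commute a (x * y) ↔ (Commute a x ↔ Commute a y) := by
  by_cases h1 : Commute a x <;> by_cases h2 : Commute a y <;> simp only [h1, h2, iff_true, iff_false, not_true, not_false_iff]
  · exact h1.mul_right h2
  · exact fun e => h2 (by have := h1.inv_right.mul_right e; simpa using this)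
  · exact fun e => h1 (by have := e.mul_right h2.inv_right; simpa using this)
  · rw [commute_iff_eq, ← mul_assoc, h.anti ha hx h1, mul_assoc, mul_assoc, h.anti ha hy h2,
      ← mul_assoc x, ← h.zc (mem_zpowers ω) hx, mul_assoc ω x, ← mul_assoc ω, h.ωω, one_mul, mul_assoc]

lemma Mx.mem_or (hL : Mx E L) {a : (En V)ˣ} (ha : a ∈ hL.Lh h) : a ∈ L ∨ ω * a ∈ L := by
  obtain ⟨z, hz, e⟩ := ha
  rcases mem_zpowers_two h.ord hz with rfl | rfl
  · exact Or.inl (one_mul a ▸ e)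
  · exact Or.inr e

lemma Mx.mul_mem_iff (hL : Mx E L) {a b : (En V)ˣ} (ha : a ∈ hL.Lh h) (hb : b ∈ hL.Lh h) :
    a * b ∈ L ↔ (a ∈ L ↔ b ∈ L) := by
  by_cases h1 : a ∈ L
  · simp [h1, mul_mem_cancel_left h1]
  by_cases h2 : b ∈ L
  · simp [h2, mul_mem_cancel_right h2]
  have := mul_mem ((hL.mem_or h ha).resolve_left h1) ((hL.mem_or h hb).resolve_left h2)
  rw [← mul_assoc, mul_assoc ω, ← h.zc (mem_zpowers ω) (hL.Lh_le h ha).1, ← mul_assoc, h.ωω,
    one_mul] at this
  simp [h1, h2, this]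

lemma Mx.Lh_sq (hL : Mx E L) {a : (En V)ˣ} (ha : a ∈ hL.Lh h) : a * a = 1 :=
  hL.z_eq_one h (by simpa [sq] using h.pw a (hL.Lh_le h ha).1) ((hL.mul_mem_iff h ha ha).2 Iff.rfl)

set_option maxHeartbeats 1000000 in
theorem Mx.diag_three (hL : Mx E L) (Q : Quo E (Dn E L)) (h3 : Cop 3 G)
    {g : (En V)ˣ} (hg : g ∈ G) {B : Set Q.X} (hB : 2 * B.ncard < Nat.card Q.X)
    (hB' : 4 * B.ncard < Nat.card Q.X + 8)
    (hT : ∀ x ∈ E, Q.cl x ∉ B → dl g x ∈ L) : ∀ x ∈ E, g * x * g⁻¹ = x := by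
  classical
  have hD := Nat.card_pos (α := Dn E L)
  have hz : ∀ z ∈ zpowers ω, g * z * g⁻¹ = z := fun z hz => by
    rcases mem_zpowers_two h.ord hz with rfl | rfl
    · simp
    · exact Units.ext (by simp [h.coe_eq])
  have h1 : ∀ x ∈ E, dl g x ∈ hL.Lh h := fun x hx => by
    by_contra h1
    have := Q.cover inf_le_left hx (Y := ∅) (B := B) fun y hy h4 h5 => h1 (by
      obtain ⟨z, hz, e⟩ := h.conj_eq (h.dl_mem hg hx) hy
      have := hT _ (mul_mem hx hy) h5
      rw [dl_mul, mul_mem_cancel_right (hT y hy h4), e] at this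
      exact ⟨z, hz, this⟩)
    rw [Set.ncard_empty] at this
    nlinarith
  have h2 : ∀ x ∈ E, ∀ y ∈ E, Commute (g * x * g⁻¹) (g * y * g⁻¹) ↔ Commute x y := fun _ _ _ _ =>
    Commute.conj_iff g
  have h4 : ∀ x ∈ E, ∀ y ∈ E, Commute (dl g x) y ↔ Commute (dl g y) x := fun x hx y hy => by
    have := h2 x hx y hy
    rw [← mul_inv_cancel_left x (g * x * g⁻¹), ← mul_inv_cancel_left y (g * y * g⁻¹)] at this
    have e1 := h.dl_mem hg hx
    have e2 := h.dl_mem hg hy
    change Commute (x * dl g x) (y * dl g y) ↔ _ at this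
    rw [h.comm_mul (mul_mem hx e1) hy e2, Commute.symm_iff, h.comm_mul hy hx e1,
      Commute.symm_iff (b := dl g y), h.comm_mul e2 hx e1] at this
    have e3 : Commute (dl g y) (dl g x) := hL.Lh_comm h (h1 y hy) (hL.Lh_le h (h1 x hx))
    rw [Commute.symm_iff (a := dl g x)]
    have := Commute.symm_iff (a := x) (b := y)
    tauto
  let s : E → ℤ := fun x => if dl g x ∈ L then 1 else -1
  let b : E → E → ℤ := fun x y => if Commute (dl g x) y then 1 else -1
  have h5 : ∀ x y, s (x * y) = s x * s y * b x y := fun x y => by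
    simp only [s, b, Subgroup.coe_mul, dl_mul]
    by_cases e : Commute (dl g x) y
    · rw [mul_assoc _ (dl g x), e.eq, inv_mul_cancel_left, hL.mul_mem_iff h (h1 x x.2) (h1 y y.2)]
      split_ifs <;> simp_all
    · have hω := hL.z_Lh h (mem_zpowers ω)
      have : ω ∉ L := fun e => h.ne_one (hL.z_eq_one h (mem_zpowers ω) e)
      rw [mul_assoc _ (dl g x), h.anti (h.dl_mem hg x.2) y.2 e, ← mul_assoc ω,
        h.zc (mem_zpowers ω) y.2, mul_assoc y.1, inv_mul_cancel_left,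
        hL.mul_mem_iff h (mul_mem hω (h1 x x.2)) (h1 y y.2), hL.mul_mem_iff h hω (h1 x x.2)]
      split_ifs <;> simp_all
  have h6 : (Nat.card Q.X * Nat.card (Dn E L) : ℤ) ≤ ∑ x, s x + 2 * (B.ncard * Nat.card (Dn E L)) := by
    have e1 : ∑ x : E, (1 : ℤ) ≤ ∑ x : E, (s x + 2 * if Q.cl x ∈ B then 1 else 0) :=
      sum_le_sum fun x _ => by
        have := hT x x.2
        simp only [s]; split_ifs <;> simp_all
    rw [sum_add_distrib, ← mul_sum, sum_boole, sum_const, card_univ, ← Nat.card_eq_fintype_card,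
      Q.card_eq inf_le_left, nsmul_one] at e1
    have e2 := Q.ncard_preimage inf_le_left B
    rw [show {x | x ∈ E ∧ Q.cl x ∈ B} = Subtype.val '' ((univ.filter fun x : E => Q.cl x ∈ B : Finset E) : Set E) by
      ext; simp [and_comm], Set.ncard_image_of_injective _ Subtype.val_injective, Set.ncard_coe_finset] at e2
    rw [e2] at e1
    exact_mod_cast e1
  have h7 : 0 < ∑ x, s x := by
    have : (2 * B.ncard : ℤ) < Nat.card Q.X := by exact_mod_cast hB
    have : (0 : ℤ) < Nat.card (Dn E L) := by exact_mod_cast hD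
    nlinarith
  have h8 : ∀ x ∈ E, dl g x ∈ zpowers ω → dl g x = 1 := fun x hx e => hL.z_eq_one h e (by
    by_contra e'
    have : ∑ y, s y = ∑ y, -s y := (Equiv.sum_comp (Equiv.mulLeft ⟨x, hx⟩) s).symm.trans
      (sum_congr rfl fun y _ => by
        rw [Equiv.coe_mulLeft, h5]
        simp only [s, b, e', show Commute (dl g x) y from h.zc e y.2]
        split_ifs <;> simp_all)
    rw [sum_neg_distrib] at this
    omega)
  have h9 : (∑ x, s x) * ∑ x, s x =
      Nat.card E * (univ.filter fun x : E => dl g x ∈ zpowers ω).card := by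
    rw [sum_mul, sum_congr rfl fun y _ => show s y * ∑ x, s x = ∑ x, s x * b x y by
      rw [← Equiv.sum_comp (Equiv.mulRight y), mul_sum]
      refine sum_congr rfl fun x _ => ?_
      rw [Equiv.coe_mulRight, h5]
      simp only [s]; split_ifs <;> simp, sum_comm, card_filter, Nat.cast_sum, mul_sum]
    refine sum_congr rfl fun x _ => ?_
    rw [← mul_sum]
    split_ifs with e
    · simp [s, b, h8 x x.2 e, one_mem]
    · obtain ⟨y, hy, e'⟩ : ∃ y ∈ E, ¬ Commute (dl g x) y := by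
        by_contra e'
        push Not at e'
        exact e (h.cen _ (h.dl_mem hg x.2) e')
      have : ∑ w, b x w = ∑ w, -b x w := (Equiv.sum_comp (Equiv.mulRight ⟨y, hy⟩) _).symm.trans
        (sum_congr rfl fun w _ => by
          simp only [b, Equiv.coe_mulRight, Subgroup.coe_mul, h.comm_mul (h.dl_mem hg x.2) w.2 hy]
          split_ifs <;> simp_all)
      rw [sum_neg_distrib] at this
      simp [show ∑ w, b x w = 0 by omega]
  obtain ⟨M⟩ := BS.nonempty_quo (Z := zpowers ω) h.comm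
  obtain ⟨t, ht⟩ := M.exists_R (h.nrm.mem_normalizer hg) (h.nrm_z g hg)
  have h10 : ∀ x ∈ E, t • M.cl x = M.cl x ↔ dl g x ∈ zpowers ω := fun x hx => by
    rw [ht.2 x hx, eq_comm, M.mk_eq hx (h.nrm g hg x hx)]; rfl
  have h11 : (univ.filter fun x : E => dl g x ∈ zpowers ω).card * Nat.card (rg t) = Nat.card E := by
    let f := ((t : En M.X) - 1).toAddMonoidHom
    have e2 := M.ncard_preimage (fun _ => h.zE) f.ker
    rw [show {x | x ∈ E ∧ M.cl x ∈ (f.ker : Set M.X)} =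
      Subtype.val '' ((univ.filter fun x : E => dl g x ∈ zpowers ω : Finset E) : Set E) by
        ext x
        simp only [Set.mem_ofPred_eq, coe_filter, mem_univ, true_and, Set.mem_image, Subtype.exists,
          exists_and_right, exists_eq_right, exists_prop]
        exact and_congr_right fun hx => sub_eq_zero.trans (h10 x hx),
      Set.ncard_image_of_injective _ Subtype.val_injective, Set.ncard_coe_finset] at e2
    rw [e2, M.card_eq fun _ => h.zE, ← f.ker.card_mul_index, AddSubgroup.index_ker, mul_right_comm]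
    rfl
  have h12 : Nat.card (Dn E L) ≤ (univ.filter fun x : E => dl g x ∈ zpowers ω).card := by
    rw [← Nat.card_congr (subgroupOfEquivOfLe (inf_le_left : Dn E L ≤ E)).toEquiv,
      ← Fintype.card_coe, ← Nat.card_eq_fintype_card]
    exact Nat.card_le_card_of_injective (fun d => ⟨d.1, mem_filter.2 ⟨mem_univ _,
      h.cen _ (h.dl_mem hg d.1.2) fun y hy => (h4 _ d.1.2 y hy).2 (hL.Lh_comm h (h1 y hy) d.2)⟩⟩)
      fun a b e => Subtype.ext (Subtype.mk.inj e)
  have hO : ∀ x ∈ E, ∀ y ∈ E, Commute (M.rep (M.cl x)) y ↔ Commute x y := fun x hx y hy => by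
    have e := (M.mk_eq (M.rep_mem _) hx).1 (M.mk_rep _)
    nth_rewrite 2 [← mul_inv_cancel_left (M.rep (M.cl x)) x]
    rw [Commute.symm_iff (b := y), Commute.symm_iff (b := y), h.comm_mul hy (M.rep_mem _) (h.zE e)]
    simp [show Commute y _ from (h.zc e hy).symm]
  have hO' : ∀ x ∈ E, ∀ y ∈ E, Commute (M.rep (M.cl x)) (M.rep (M.cl y)) ↔ Commute x y :=
    fun x hx y hy => by rw [hO x hx _ (M.rep_mem _), Commute.symm_iff, hO y hy x hx, Commute.symm_iff]
  have h13 : t = 1 := no_a_two (M.irr (fun _ => h.zE) h.nrm h.nrm_z h.nab h.irr)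
    (M.nsmul_eq_zero h.pw) (img_cop' _ h3 M.R_ker) (fun a b => Commute (M.rep a) (M.rep b))
    (fun _ _ => Commute.symm) (fun a b c => by
      rw [← M.mk_rep a, ← M.mk_rep b, ← M.mk_mul _ (M.rep_mem _) _ (M.rep_mem _),
        hO _ (mul_mem (M.rep_mem _) (M.rep_mem _)) _ (M.rep_mem _), M.mk_rep, M.mk_rep,
        Commute.symm_iff, h.comm_mul (M.rep_mem _) (M.rep_mem _) (M.rep_mem _),
        Commute.symm_iff, Commute.symm_iff (a := M.rep c)])
    (fun φ hφ a b => by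
      obtain ⟨k, hk, e⟩ := mem_img.1 hφ
      rw [← M.mk_rep a, ← M.mk_rep b, e.2 _ (M.rep_mem _), e.2 _ (M.rep_mem _),
        hO' _ (h.nrm k hk _ (M.rep_mem _)) _ (h.nrm k hk _ (M.rep_mem _)), M.mk_rep, M.mk_rep]
      exact Commute.conj_iff k)
    (fun a ha => by
      rw [← M.mk_rep a, M.mk_eq_zero _ (M.rep_mem _)]
      exact h.cen _ (M.rep_mem _) fun y hy => ((hO y hy _ (M.rep_mem _)).1 (ha _).symm).symm)
    (mem_img.2 ⟨g, hg, ht⟩) (unit_eq_one fun m => ?_) ?_ fun m => ?_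
  · exact fun x hx => dl_eq_one (h8 x hx ((h10 x hx).1 (by rw [h13, one_smul])))
  · obtain ⟨x, hx, rfl⟩ := M.surj m
    have e := h.dl_mem hg hx
    have e1 : ∀ x ∈ E, t • M.cl x = M.cl x + M.cl (dl g x) := fun x hx => by
      rw [ht.2 x hx, ← M.mk_mul _ hx _ (h.dl_mem hg hx), dl, mul_inv_cancel_left]
    have e2 := h.cen _ (h.dl_mem hg e) fun y hy =>
      (h4 _ e y hy).2 (hL.Lh_comm h (h1 y hy) (hL.Lh_le h (h1 x hx)))
    rw [mul_smul, e1 x hx, smul_add, (h10 _ e).2 e2, e1 x hx, add_assoc, ← two_nsmul,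
      M.nsmul_eq_zero h.pw, add_zero]
  · by_contra h14
    obtain ⟨n, hn⟩ := IsPGroup.iff_card.1 h.isPGroup
    obtain ⟨S, hS⟩ := Int.eq_ofNat_of_zero_le h7.le
    rw [hS] at h6 h7 h9
    have h15 : S * S * Nat.card (rg t) = 2 ^ (n + n) := by
      rw [← Nat.cast_mul, ← Nat.cast_mul, Nat.cast_inj] at h9
      rw [h9, mul_assoc, h11, hn, pow_add]
    obtain ⟨a, -, ha⟩ := (Nat.dvd_prime_pow Nat.prime_two).1 (Dvd.intro _ (mul_assoc S _ _ ▸ h15))
    obtain ⟨c, -, hc⟩ := (Nat.dvd_prime_pow Nat.prime_two).1 (Dvd.intro_left _ h15)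
    have h16 : 16 ≤ Nat.card (rg t) := by
      rw [ha, hc, ← pow_add, ← pow_add, Nat.pow_right_inj one_lt_two] at h15
      rw [hc] at h14 ⊢
      have : 2 < c := lt_of_not_ge fun e => h14 (Nat.pow_le_pow_right two_pos e)
      exact Nat.pow_le_pow_right two_pos (show 4 ≤ c by omega)
    have h17 : 4 * S ≤ Nat.card E := by
      rw [pow_add, ← hn] at h15
      exact Nat.mul_self_le_mul_self_iff.1 (by nlinarith)
    rw [Q.card_eq inf_le_left] at h11 h17
    have h18 : Nat.card Q.X * Nat.card (Dn E L) ≤ S + 2 * (B.ncard * Nat.card (Dn E L)) := by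
      exact_mod_cast h6
    have h19 : Nat.card (rg t) ≤ Nat.card Q.X := by nlinarith
    nlinarith
  · obtain ⟨x, hx, rfl⟩ := M.surj m
    rw [ht.2 x hx, hO' x hx _ (h.nrm g hg x hx)]
    have e := hz _ (h.pw x hx)
    rw [← conj_pow, ← mul_inv_cancel_left x (g * x * g⁻¹)] at e
    change (x * dl g x) ^ 2 = _ at e
    rw [← mul_inv_cancel_left x (g * x * g⁻¹)]
    refine (Commute.refl x).mul_right (show x * dl g x = dl g x * x from ?_)
    rw [sq, sq, mul_assoc, mul_right_inj] at e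
    calc x * dl g x = dl g x * (dl g x * (x * dl g x)) := by
          rw [← mul_assoc, hL.Lh_sq h (h1 x hx), one_mul]
      _ = _ := by rw [e]

end Two

end Cfsg.Agent.H1.BS
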