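import Cfsg.Agent.H1.PVal

/-! The principal `p`-block and special cases of Brauer's second main theorem, for any prime. -/

set_option autoImplicit false

namespace Cfsg.Agent.H1.PB

open scoped MonoidAlgebra
open Cfsg.Agent.H3 (gE gE_mul gE_one gE_inv_mul gE_mul_inv coeff_gE coeff_gE_mul coeff_mul_gE
  coeff_conj ext_coeff commute_gE_iff ofFun coeff_ofFun coeff_mul_sum coeff_mul_sum' Wedd trunc
  coeff_trunc_of_mem coeff_trunc_of_notMem trunc_mul_of_supp conj_perm_pow avg coeff_avg_of_mem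
  coeff_avg_of_notMem card_cast_ne_zero sum_ite_mem mul_avg_of_forall avg_mul_gE gE_mul_avg
  avg_idem gE_commute_avg aug aug_avg orderOf_conj'' central_of_commute_gE)

variable {p : ℕ} [hp : Fact p.Prime] {G : Type*} [Group G] [Fintype G]

lemma isInt_avg {H : Subgroup G} (h : ¬ p ∣ Nat.card H) : IsInt p (avg H) := by
  intro g
  by_cases hg : g ∈ H
  · rw [coeff_avg_of_mem hg, map_inv₀, vp_not_dvd h, inv_one]
  · rw [coeff_avg_of_notMem hg]; simp

open Classical in
/-- The sum of the elements of order prime to `p`. -/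
noncomputable def regSum (p : ℕ) (G : Type*) [Group G] [Fintype G] : ℂ[G] :=
  ofFun fun g => if ¬ p ∣ orderOf g then 1 else 0

omit hp in
lemma regSum_central (c : ℂ[G]) : c * regSum p G = regSum p G * c := by
  apply central_of_commute_gE
  intro g
  rw [commute_gE_iff]
  intro h
  simp [regSum, orderOf_conj'']

lemma isInt_regSum : IsInt p (regSum p G) := by
  intro g
  simp only [regSum, coeff_ofFun]
  split_ifs <;> simp

/-- The number of `p`-regular elements is prime to `p`. -/
lemma not_dvd_card_reg : ¬ p ∣ Nat.card {g : G // ¬ p ∣ orderOf g} := by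
  classical
  obtain ⟨P⟩ : Nonempty (Sylow p G) := inferInstance
  let X := {g : G // ¬ p ∣ orderOf g}
  let _ : MulAction P X :=
    { smul := fun s x => ⟨s * x.1 * (s : G)⁻¹, by
        have := orderOf_conj'' (s : G)⁻¹ x.1
        rw [inv_inv] at this
        rw [this]; exact x.2⟩
      one_smul := fun x => Subtype.ext (by
        show ((1 : P) : G) * x.1 * ((1 : P) : G)⁻¹ = x.1
        simp)
      mul_smul := fun a b x => Subtype.ext (by
        show ((a * b : P) : G) * x.1 * ((a * b : P) : G)⁻¹ =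
          (a : G) * ((b : G) * x.1 * (b : G)⁻¹) * (a : G)⁻¹
        simp [mul_assoc]) }
  have h1 := P.isPGroup'.card_modEq_card_fixedPoints X
  set C := Subgroup.centralizer ((P : Subgroup G) : Set G) with hC
  have hS : IsSylowIn p ((P : Subgroup G) ⊓ C) C := by
    have h2 : IsSylowIn p (P : Subgroup G) (Subgroup.normalizer ((P : Subgroup G) : Set G)) :=
      sylow_isSylowIn P Subgroup.le_normalizer
    exact h2.inf_of_normal (Subgroup.centralizer_le_normalizer _)
      (normalizer_le_normalizer_centralizer _)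
  have hN : HasNormalPComplement p C :=
    hS.hasNormalPComplement_of_normalizer_le
      (inf_le_left.trans (Subgroup.centralizer_le inf_le_left))
  have h3 := hasNormalPComplement_subgroup_iff_not_dvd.1 hN
  have h4 := hasNormalPComplement_subgroup_iff.1 hN
  have h5 : Nat.card (MulAction.fixedPoints P X) = Nat.card (pResidualOf p C) := by
    refine Nat.card_congr
      { toFun := fun x => ⟨x.1.1, mem_pResidualOf ?_
          ((hp.out.coprime_iff_not_dvd).2 x.1.2).symm⟩
        invFun := fun y => ⟨⟨y.1, (hp.out.coprime_iff_not_dvd).1 (h4 y.1 y.2).symm⟩, fun s =>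
          Subtype.ext ?_⟩
        left_inv := fun x => rfl
        right_inv := fun y => rfl }
    · intro s hs
      have := congrArg Subtype.val (x.2 ⟨s, hs⟩)
      change s * x.1.1 * s⁻¹ = x.1.1 at this
      rw [mul_inv_eq_iff_eq_mul] at this
      exact this
    · show (s : G) * y.1 * (s : G)⁻¹ = y.1
      rw [pResidualOf_le C y.2 s s.2]; group
  intro h
  rw [h5] at h1
  exact h3 ((Nat.modEq_zero_iff_dvd).1 (h1.symm.trans ((Nat.modEq_zero_iff_dvd).2 h)))

lemma vp_aug_regSum : vp p (aug (regSum p G)) = 1 := by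
  classical
  have h1 : aug (regSum p G) = Nat.card {g : G // ¬ p ∣ orderOf g} := by
    simp only [aug, regSum, coeff_ofFun]
    rw [← Finset.sum_filter, Finset.sum_const, nsmul_eq_mul, mul_one, Nat.card_eq_fintype_card,
      Fintype.card_subtype]
  rw [h1]
  exact vp_not_dvd not_dvd_card_reg

variable (W : Wedd G)

/-- The central character of the sum of the elements of order prime to `p`. -/
noncomputable def ω (p : ℕ) (W : Wedd G) (i : Fin W.n) : ℂ := (W.exists_scalar (regSum_central (p := p) (G := G)) i).choose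

lemma φ_regSum (i : Fin W.n) : W.φ (regSum p G) i = ω p W i • (1 : Matrix _ _ ℂ) :=
  (W.exists_scalar (regSum_central (p := p) (G := G)) i).choose_spec

lemma vp_ω_le (i : Fin W.n) : vp p (ω p W i) ≤ 1 :=
  isInt_regSum.eigen_le (W.e_ne_zero i) (W.mul_e_of_scalar ((φ_regSum W) i))

open Classical in
/-- The principal `p`-block. -/
noncomputable def B0 (p : ℕ) [Fact p.Prime] (W : Wedd G) : Finset (Fin W.n) := Finset.univ.filter fun i => vp p (ω p W i) = 1

lemma mem_B0 {i : Fin W.n} : i ∈ B0 p W ↔ vp p (ω p W i) = 1 := by simp [B0]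

lemma vp_ω_lt {i : Fin W.n} (h : i ∉ B0 p W) : vp p (ω p W i) < 1 :=
  lt_of_le_of_ne ((vp_ω_le W) i) fun h' => h ((mem_B0 W).2 h')

lemma mem_B0_of_ker_eq_top {i : Fin W.n} (h : W.ker i = ⊤) : i ∈ B0 p W := by
  rw [mem_B0, ← vp_aug_regSum (G := G), ← W.χ_of_ker_eq_top h, W.χ_of_scalar ((φ_regSum W) i),
    W.d_eq_one_of_ker_eq_top h]
  simp

/-- The principal block idempotent. -/
noncomputable def eB (p : ℕ) [Fact p.Prime] (W : Wedd G) : ℂ[G] := ∑ i ∈ B0 p W, W.e i

lemma φ_eB (i : Fin W.n) :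
    W.φ (eB p W) i = (if i ∈ B0 p W then 1 else 0 : ℂ) • (1 : Matrix _ _ ℂ) := by
  rw [eB, map_sum, Finset.sum_apply]
  simp only [Wedd.φ_e]
  rw [← Finset.sum_smul, Finset.sum_ite_eq']

lemma eB_central (c : ℂ[G]) : c * eB p W = eB p W * c := W.central_of_scalar (φ_eB W) c

lemma eB_idem : eB p W * eB p W = eB p W := by
  apply W.ext_φ
  intro i
  rw [map_mul, Pi.mul_apply, φ_eB]
  split_ifs <;> simp

lemma χ_mul_eB (i : Fin W.n) (a : ℂ[G]) :
    W.χ i (a * eB p W) = if i ∈ B0 p W then W.χ i a else 0 := by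
  rw [W.χ_mul_of_scalar ((φ_eB W) i)]
  split_ifs <;> simp

/-- Integral central elements with prescribed central characters. -/
def IntCen (p : ℕ) [Fact p.Prime] (W : Wedd G) (f : Fin W.n → ℂ) : Prop :=
  ∃ a : ℂ[G], IsInt p a ∧ ∀ i, W.φ a i = f i • (1 : Matrix _ _ ℂ)

variable {W}

lemma IntCen.const {c : ℂ} (hc : vp p c ≤ 1) : IntCen p W fun _ => c :=
  ⟨c • 1, isInt_one.smul hc, fun i => by simp⟩

lemma IntCen.mul {f g : Fin W.n → ℂ} (hf : IntCen p W f) (hg : IntCen p W g) :
    IntCen p W fun i => f i * g i := by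
  obtain ⟨a, ha, ha'⟩ := hf
  obtain ⟨b, hb, hb'⟩ := hg
  exact ⟨a * b, ha.mul hb, fun i => by simp [ha', hb', smul_smul, mul_comm]⟩

lemma IntCen.sub {f g : Fin W.n → ℂ} (hf : IntCen p W f) (hg : IntCen p W g) :
    IntCen p W fun i => f i - g i := by
  obtain ⟨a, ha, ha'⟩ := hf
  obtain ⟨b, hb, hb'⟩ := hg
  exact ⟨a - b, ha.sub hb, fun i => by simp [ha', hb', sub_smul]⟩

lemma IntCen.prod {ι : Type*} (s : Finset ι) {f : ι → Fin W.n → ℂ} (hf : ∀ j ∈ s, IntCen p W (f j)) :
    IntCen p W fun i => ∏ j ∈ s, f j i := by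
  classical
  induction s using Finset.induction_on with
  | empty => simpa using IntCen.const (W := W) (c := 1) (by simp)
  | insert j s hj ih =>
    simp only [Finset.prod_insert hj]
    exact (hf j (by simp)).mul (ih fun k hk => hf k (by simp [hk]))

lemma IntCen.congr {f g : Fin W.n → ℂ} (hf : IntCen p W f) (h : ∀ i, f i = g i) : IntCen p W g :=
  (funext h : f = g) ▸ hf

lemma intCen_ω : IntCen p W (ω p W) := ⟨regSum p G, isInt_regSum, (φ_regSum W)⟩

/-- If `f` is a unit on `S` and vanishes off `S`, its partial inverse is integral. -/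
lemma IntCen.inv {f : Fin W.n → ℂ} (hf : IntCen p W f) (S : Finset (Fin W.n))
    (h1 : ∀ i ∈ S, vp p (f i) = 1) :
    ∃ g, IntCen p W g ∧ ∀ i ∈ S, f i * g i = 1 := by
  classical
  induction S using Finset.induction_on with
  | empty => exact ⟨f, hf, by simp⟩
  | insert j S hj ih =>
    obtain ⟨g, hg, hg'⟩ := ih fun i hi => h1 i (by simp [hi])
    have hj1 : vp p (f j) = 1 := h1 j (by simp)
    have hj0 : f j ≠ 0 := by intro h; rw [h, map_zero] at hj1; exact zero_ne_one hj1
    have hc : vp p (f j)⁻¹ ≤ 1 := by rw [map_inv₀, hj1, inv_one]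
    refine ⟨fun i => g i - (f j)⁻¹ * (f i * g i - 1), hg.sub ((IntCen.const hc).mul
      ((hf.mul hg).sub (IntCen.const (by simp)))), fun i hi => ?_⟩
    rcases Finset.mem_insert.1 hi with rfl | hi
    · field_simp; ring
    · simp only [hg' i hi, sub_self, mul_zero, sub_zero]

variable (W)

lemma exists_eB_eq : ∃ u : ℂ[G], IsInt p u ∧ (∀ c, c * u = u * c) ∧ eB p W = u * regSum p G := by
  classical
  have h1 : IntCen p W fun i => ∏ j ∈ (B0 p W)ᶜ, (ω p W i - ω p W j) :=
    IntCen.prod _ fun j _ => intCen_ω.sub (IntCen.const ((vp_ω_le W) j))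
  have h2 := h1.mul intCen_ω
  obtain ⟨g, hg, hg'⟩ := h2.inv (B0 p W) fun i hi => by
    rw [map_mul, map_prod, (mem_B0 W).1 hi, mul_one]
    refine Finset.prod_eq_one fun j hj => ?_
    rw [(vp p).map_sub_eq_of_lt_left, (mem_B0 W).1 hi]
    rw [(mem_B0 W).1 hi]
    exact (vp_ω_lt W) (Finset.mem_compl.1 hj)
  obtain ⟨u, hu, hu'⟩ := h1.mul hg
  refine ⟨u, hu, W.central_of_scalar hu', W.ext_φ fun i => ?_⟩
  rw [map_mul, Pi.mul_apply, hu', φ_regSum, φ_eB, smul_mul_smul_comm, mul_one]
  congr 1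
  split_ifs with hi
  · rw [← hg' i hi]; ring
  · have : ∏ j ∈ (B0 p W)ᶜ, (ω p W i - ω p W j) = 0 :=
      Finset.prod_eq_zero (Finset.mem_compl.2 hi) (sub_self _)
    simp only [this, zero_mul]

lemma isInt_eB : IsInt p (eB p W) := by
  obtain ⟨u, hu, -, h⟩ := exists_eB_eq (p := p) W
  rw [h]; exact hu.mul isInt_regSum

lemma eB_coeff_comm (a b : G) : (eB p W).coeff (a * b) = (eB p W).coeff (b * a) := by
  rw [← (commute_gE_iff a (eB p W)).1 ((eB_central W) _) (a * b)]
  congr 1; group

/-- Block orthogonality between `p`-singular and `p`-regular elements. -/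
theorem block_orth {h y : G} (hh : p ∣ orderOf h) (hy : ¬ p ∣ orderOf y) :
    ∑ i, W.χ i (gE h * eB p W) * W.χ i (gE y) = 0 := by
  classical
  rw [Wedd.column_gE]
  let σ : Equiv.Perm G := (Equiv.mulLeft h).trans (Equiv.mulRight y)
  have hσ : ∀ x, σ x = h * x * y := fun x => rfl
  have hσk : ∀ (k : ℕ) x, (σ ^ k) x = h ^ k * x * y ^ k := by
    intro k x
    induction k with
    | zero => simp
    | succ k ih => rw [pow_succ', Equiv.Perm.mul_apply, ih, hσ, pow_succ' h, pow_succ y]; group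
  obtain ⟨ζ, hζ, hζ1⟩ := exists_root p
  obtain ⟨ε, hε, hε'⟩ := exists_sign σ hζ
  have hζ0 : ζ ≠ 0 := by
    rintro rfl
    rw [zero_pow hp.out.ne_zero] at hζ
    exact zero_ne_one hζ
  have hε2 : ∀ x, ε (h * x * y) = ζ * ε x := by
    intro x
    refine hε' x fun k hk hx => ?_
    rw [hσk] at hx
    have h1 : h ^ k = x * (y ^ k)⁻¹ * x⁻¹ := by
      rw [eq_mul_inv_iff_mul_eq, eq_mul_inv_iff_mul_eq, hx]
    have h2 : h ^ (k * orderOf y) = 1 := by
      rw [pow_mul, h1, conj_pow, inv_pow, ← pow_mul, mul_comm k, pow_mul, pow_orderOf_eq_one]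
      simp
    exact (hp.out.dvd_mul.1 (hh.trans (orderOf_dvd_of_pow_eq_one h2))).elim hk hy
  let T : Matrix G G ℂ := Matrix.of fun a b => if a = h * b * y then 1 else 0
  let E : Matrix G G ℂ := Matrix.of fun a b => (eB p W).coeff (a * b⁻¹)
  have hTl : ∀ (M : Matrix G G ℂ) a b, (T * M) a b = M (h⁻¹ * a * y⁻¹) b := by
    intro M a b
    rw [Matrix.mul_apply, Finset.sum_eq_single (h⁻¹ * a * y⁻¹)]
    · simp [T, mul_assoc]
    · intro c _ hc
      have : a ≠ h * c * y := by rintro rfl; exact hc (by group)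
      simp [T, this]
    · simp
  have hTr : ∀ (M : Matrix G G ℂ) a b, (M * T) a b = M a (h * b * y) := by
    intro M a b
    rw [Matrix.mul_apply, Finset.sum_eq_single (h * b * y)]
    · simp [T]
    · intro c _ hc
      simp [T, hc]
    · simp
  have hEE : E * E = E := by
    ext a b
    rw [Matrix.mul_apply]
    simp only [E, Matrix.of_apply]
    conv_rhs => rw [← (eB_idem W), coeff_mul_sum']
    refine Fintype.sum_equiv (Equiv.mulRight b⁻¹) _ _ fun c => ?_
    simp [mul_assoc]
  have key := trace_eq_zero_of_twist (A := Matrix G G ℂ) (Matrix.traceLinearMap G ℂ ℂ)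
    (fun a b => Matrix.trace_mul_comm a b) (i := E) (w := T) (c₁ := Matrix.diagonal ε) hEE ?_
    (ζ := ζ⁻¹) (fun h => hζ1 (inv_eq_one.1 h)) ?_ ?_
  · rw [← key, Matrix.traceLinearMap_apply, Matrix.trace]
    refine Finset.sum_congr rfl fun x _ => ?_
    rw [Matrix.diag_apply, hTl, coeff_gE_mul]
    simp [E, mul_assoc]
  · ext a b
    rw [hTl, hTr]
    simp only [E, Matrix.of_apply]
    rw [mul_assoc, mul_assoc, (eB_coeff_comm W)]
    congr 1; group
  · ext a b
    rw [Matrix.smul_apply, Matrix.mul_diagonal, Matrix.diagonal_mul]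
    simp only [T, Matrix.of_apply]
    split_ifs with hab
    · rw [hab, hε2]; simp [hζ0]
    · simp
  · apply isUnit_matrix_of_small (p := p)
    have : E * Matrix.diagonal ε * E + (1 - E) - 1 = E * (Matrix.diagonal ε - 1) * E := by
      rw [mul_sub, sub_mul, mul_one, hEE]; abel
    rw [this, ← Matrix.diagonal_one, Matrix.diagonal_sub]
    intro a b
    rw [Matrix.mul_apply]
    refine vp_sum_lt fun c _ => vp_mul_lt_left ?_ ((isInt_eB W) _)
    rw [Matrix.mul_diagonal]
    refine vp_mul_lt_right ((isInt_eB W) _) ?_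
    rw [(vp p).map_sub_swap]
    exact vp_sign (hε c)

theorem osima {h : G} (hh : p ∣ orderOf h) : ∑ i ∈ B0 p W, W.d i * W.χ i (gE h) = 0 := by
  classical
  have := block_orth W hh (y := 1) (by simpa using hp.out.ne_one)
  rw [← this, ← Finset.sum_filter_add_sum_filter_not Finset.univ (· ∈ B0 p W)]
  simp only [χ_mul_eB, gE_one, Wedd.χ_one]
  rw [Finset.sum_eq_zero (s := Finset.univ.filter fun i => ¬ i ∈ B0 p W)
    (fun i hi => by rw [if_neg (Finset.mem_filter.1 hi).2, zero_mul]), add_zero]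
  refine Finset.sum_congr (by ext; simp) fun i hi => ?_
  rw [if_pos (Finset.mem_filter.1 hi).2, mul_comm]

lemma coeff_central_mul_eB {z : ℂ[G]} (hz : ∀ c, c * z = z * c) (g : G) :
    (Fintype.card G : ℂ) * (z * eB p W).coeff g =
      ∑ y, z.coeff y * ∑ i, W.χ i (gE g⁻¹ * eB p W) * W.χ i (gE y) := by
  have : (z * eB p W).coeff g = (gE g⁻¹ * eB p W * z).coeff 1 := by
    rw [mul_assoc, coeff_gE_mul, hz]; simp
  rw [this, W.regular]
  simp only [W.χ_mul_central hz, Finset.mul_sum]
  rw [Finset.sum_comm]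
  refine Finset.sum_congr rfl fun i _ => ?_
  rw [W.χ_eq_sum i z, Finset.mul_sum]
  refine Finset.sum_congr rfl fun y _ => by ring

theorem regSum_mul_eB : regSum p G * eB p W = regSum p G := by
  classical
  have hG : (Fintype.card G : ℂ) ≠ 0 := by exact_mod_cast Fintype.card_ne_zero
  apply ext_coeff
  intro g
  by_cases hg : ¬ p ∣ orderOf g
  · let s : ℂ[G] := ofFun fun _ => 1
    have hsc : ∀ c, c * s = s * c := central_of_commute_gE fun g => by
      rw [commute_gE_iff]; intro h; simp [s]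
    have h1 : ((s - regSum p G) * eB p W).coeff g = 0 := by
      apply mul_left_cancel₀ hG
      rw [(coeff_central_mul_eB W) (fun c => by rw [mul_sub, sub_mul, hsc, regSum_central]),
        mul_zero]
      refine Finset.sum_eq_zero fun y _ => ?_
      by_cases hy : ¬ p ∣ orderOf y
      · simp [s, regSum, hy]
      · have := block_orth W (not_not.1 hy) (y := g⁻¹) (by simpa using hg)
        have h2 : ∑ i, W.χ i (gE g⁻¹ * eB p W) * W.χ i (gE y) = 0 := by
          rw [← this]
          refine Finset.sum_congr rfl fun i _ => ?_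
          rw [χ_mul_eB, χ_mul_eB]
          split_ifs <;> ring
        rw [h2, mul_zero]
    have h2 : (s * eB p W).coeff g = 1 := by
      obtain ⟨i, hi⟩ := W.exists_ker_eq_top
      have h3 := χ_mul_eB (p := p) W i 1
      rw [one_mul, if_pos ((mem_B0_of_ker_eq_top W) hi), W.χ_of_ker_eq_top hi, Wedd.χ_one,
        W.d_eq_one_of_ker_eq_top hi] at h3
      rw [coeff_mul_sum']
      simpa [s, aug] using h3
    rw [sub_mul, MonoidAlgebra.coeff_sub, Finsupp.sub_apply, h2] at h1
    rw [← sub_eq_zero.1 h1]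
    simp [regSum, hg]
  · apply mul_left_cancel₀ hG
    rw [(coeff_central_mul_eB W) regSum_central]
    have : (regSum p G).coeff g = 0 := by simp [regSum, hg]
    rw [this, mul_zero]
    refine Finset.sum_eq_zero fun y _ => ?_
    by_cases hy : ¬ p ∣ orderOf y
    · rw [(block_orth W) (by simpa using hg) hy, mul_zero]
    · simp [regSum, hy]


omit [Fintype G] in
lemma reg_orderOf_mul_of_normal [Finite G] {N : Subgroup G} (hN : ¬ p ∣ Nat.card N) {g n : G}
    (hg : ∀ m ∈ N, g * m * g⁻¹ ∈ N) (hn : n ∈ N) (ho : ¬ p ∣ orderOf g) :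
    ¬ p ∣ orderOf (g * n) := by
  have h1 : ∀ k : ℕ, (g * n) ^ k * (g ^ k)⁻¹ ∈ N := by
    intro k
    induction k with
    | zero => simp
    | succ k ih =>
      have := hg _ (N.mul_mem hn ih)
      rw [pow_succ', pow_succ']
      simpa [mul_assoc] using this
  have h2 := h1 (orderOf g)
  rw [pow_orderOf_eq_one, inv_one, mul_one] at h2
  have h3 : (g * n) ^ (orderOf g * Nat.card N) = 1 := by
    rw [pow_mul]
    have := pow_card_eq_one' (x := (⟨_, h2⟩ : N))
    exact congrArg Subtype.val this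
  exact fun h => (hp.out.dvd_mul.1 (h.trans (orderOf_dvd_of_pow_eq_one h3))).elim ho hN

variable (W : Wedd G)

theorem χ_eB_one_sub_avg (j : Fin W.n) {z y : G} {n : ℕ} (hz : z ^ p ^ n = 1)
    (hy : ¬ p ∣ orderOf y) (hzy : Commute z y) {N : Subgroup G} (hN : ¬ p ∣ Nat.card N)
    (hNC : N ≤ Subgroup.centralizer {z})
    (hNn : ∀ c ∈ Subgroup.centralizer ({z} : Set G), ∀ m ∈ N, c * m * c⁻¹ ∈ N) :
    W.χ j (gE (z * y) * (eB p W * (1 - avg N))) = 0 := by
  classical
  set C := Subgroup.centralizer ({z} : Set G) with hC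
  have hwC : z * y ∈ C := Subgroup.mem_centralizer_singleton_iff.2 (by
    rw [mul_assoc, ← hzy.eq])
  refine χ_eq_zero_of_trunc_small W j hz hy hzy
    ((isInt_eB W).mul (isInt_one.sub (isInt_avg hN))) ?_ ?_ ?_
  · rw [mul_assoc, ← mul_assoc (1 - avg N), (eB_central W), mul_assoc, ← mul_assoc, (eB_idem W)]
    congr 1
    rw [sub_mul, mul_sub, mul_sub, avg_idem]; simp
  · rw [← mul_assoc, (eB_central W), mul_assoc, mul_assoc]
    congr 1
    rw [mul_sub, sub_mul, gE_commute_avg (hNn _ hwC)]; simp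
  · obtain ⟨u, hu, huc, he⟩ := exists_eB_eq (p := p) W
    have hsupp : ∀ g, g ∉ C → (1 - avg N : ℂ[G]).coeff g = 0 := by
      intro g hg
      rw [MonoidAlgebra.coeff_sub, Finsupp.sub_apply, coeff_avg_of_notMem (fun h => hg (hNC h)),
        ← gE_one, coeff_gE, if_neg (by rintro rfl; exact hg C.one_mem), sub_zero]
    rw [trunc_mul_of_supp _ hsupp, he]
    have h1 := brauer_mul hz hu isInt_regSum (huc _) (regSum_central _)
    have h2 : trunc C (regSum p G) * (1 - avg N) = 0 := by
      rw [mul_sub, mul_one, mul_avg_of_forall, sub_self]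
      intro m hm
      apply ext_coeff
      intro g
      rw [coeff_mul_gE]
      by_cases hg : g ∈ C
      · rw [coeff_trunc_of_mem _ hg, coeff_trunc_of_mem _ (C.mul_mem hg (C.inv_mem (hNC hm)))]
        simp only [regSum, coeff_ofFun]
        congr 1
        apply propext
        constructor
        · intro h
          have := reg_orderOf_mul_of_normal hN (hNn _ (C.mul_mem hg (C.inv_mem (hNC hm)))) hm h
          simpa using this
        · exact reg_orderOf_mul_of_normal hN (hNn _ hg) (N.inv_mem hm)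
      · rw [coeff_trunc_of_notMem _ hg, coeff_trunc_of_notMem]
        intro h
        exact hg (by simpa using C.mul_mem h (hNC hm))
    have h3 := h1.mul_right (isInt_one.sub (isInt_avg hN))
    rwa [sub_mul, mul_assoc, h2, mul_zero, sub_zero] at h3

theorem χ_eB_eq_avg (j : Fin W.n) {z y : G} {n : ℕ} (hz : z ^ p ^ n = 1)
    {N : Subgroup G} (hN : ¬ p ∣ Nat.card N) (hNC : N ≤ Subgroup.centralizer {z})
    (hNn : ∀ c ∈ Subgroup.centralizer ({z} : Set G), ∀ m ∈ N, c * m * c⁻¹ ∈ N) (hy : y ∈ N) :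
    W.χ j (gE (z * y) * eB p W) = W.χ j (gE z * avg N * eB p W) := by
  have hyo : ¬ p ∣ orderOf y := fun h => hN (h.trans (N.orderOf_dvd_natCard hy))
  have hzy : Commute z y := (Subgroup.mem_centralizer_singleton_iff.1 (hNC hy)).symm
  have := (χ_eB_one_sub_avg W) j hz hyo hzy hN hNC hNn
  rw [mul_sub, mul_one, mul_sub, map_sub, sub_eq_zero] at this
  rw [this, ← (eB_central W), gE_mul, mul_assoc, ← mul_assoc (gE y), gE_mul_avg hy, mul_assoc]

/-- Characters of the principal block are constant on `z N`. -/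
theorem χ_B0_mul {j : Fin W.n} (hj : j ∈ B0 p W) {z y : G} {n : ℕ} (hz : z ^ p ^ n = 1)
    {N : Subgroup G} (hN : ¬ p ∣ Nat.card N) (hNC : N ≤ Subgroup.centralizer {z})
    (hNn : ∀ c ∈ Subgroup.centralizer ({z} : Set G), ∀ m ∈ N, c * m * c⁻¹ ∈ N) (hy : y ∈ N) :
    W.χ j (gE (z * y)) = W.χ j (gE z) := by
  have h1 := (χ_eB_eq_avg W) j hz hN hNC hNn hy
  have h2 := (χ_eB_eq_avg W) j hz hN hNC hNn N.one_mem
  rw [← h2, χ_mul_eB, χ_mul_eB, if_pos hj, if_pos hj, mul_one] at h1
  exact h1

/-- When the centralizer of `z` has the normal `p`-complement `N`. -/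
theorem χ_mul_avg (j : Fin W.n) {z : G} {n : ℕ} (hz : z ^ p ^ n = 1)
    {N : Subgroup G} (hN : ¬ p ∣ Nat.card N) (hNC : N ≤ Subgroup.centralizer {z})
    (hall : ∀ c ∈ Subgroup.centralizer ({z} : Set G), ¬ p ∣ orderOf c → c ∈ N) :
    W.χ j (gE z * avg N) = if j ∈ B0 p W then W.χ j (gE z) else 0 := by
  classical
  set C := Subgroup.centralizer ({z} : Set G) with hC
  have hNn : ∀ c ∈ C, ∀ m ∈ N, c * m * c⁻¹ ∈ N := by
    intro c hc m hm
    apply hall _ (C.mul_mem (C.mul_mem hc (hNC hm)) (C.inv_mem hc))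
    have := orderOf_conj'' c⁻¹ m
    rw [inv_inv] at this
    rw [this]
    exact fun h => hN (h.trans (N.orderOf_dvd_natCard hm))
  have h1 := (χ_eB_eq_avg W) j hz hN hNC hNn N.one_mem
  rw [mul_one, χ_mul_eB] at h1
  rw [h1]
  have hzC : z ∈ C := Subgroup.mem_centralizer_singleton_iff.2 rfl
  have hce : ∀ c, c * (1 - eB p W) = (1 - eB p W) * c := fun c => by
    rw [mul_sub, sub_mul, (eB_central W), mul_one, one_mul]
  have key : W.χ j (gE (z * 1) * ((1 - eB p W) * avg N)) = 0 := by
    refine χ_eq_zero_of_trunc_small W j hz (by simpa using hp.out.ne_one) (Commute.one_right z)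
      ((isInt_one.sub (isInt_eB W)).mul (isInt_avg hN)) ?_ ?_ ?_
    · rw [mul_assoc, ← mul_assoc (avg N), hce, mul_assoc, avg_idem, ← mul_assoc]
      congr 1
      rw [sub_mul, mul_sub, mul_sub, (eB_idem W)]; simp
    · rw [mul_one, ← mul_assoc, hce, mul_assoc, mul_assoc, gE_commute_avg (hNn _ hzC)]
    · rw [trunc_mul_of_supp _ (fun g hg => coeff_avg_of_notMem (fun h => hg (hNC h)))]
      have h2 := brauer_mul hz (isInt_one.sub (isInt_eB W)) isInt_regSum (hce _) (regSum_central _)
      have h3 : (1 - eB p W) * regSum p G = 0 := by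
        rw [← hce, mul_sub, mul_one, regSum_mul_eB, sub_self]
      have h4 : trunc C (0 : ℂ[G]) = 0 := ext_coeff fun g => by simp [trunc]
      have h5 : avg N = (Nat.card N : ℂ)⁻¹ • trunc C (regSum p G) := by
        apply ext_coeff
        intro g
        rw [MonoidAlgebra.coeff_smul_apply]
        by_cases hg : g ∈ N
        · rw [coeff_avg_of_mem hg, coeff_trunc_of_mem _ (hNC hg)]
          have : ¬ p ∣ orderOf g := fun h => hN (h.trans (N.orderOf_dvd_natCard hg))
          simp [regSum, this]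
        · rw [coeff_avg_of_notMem hg]
          by_cases hgC : g ∈ C
          · rw [coeff_trunc_of_mem _ hgC]
            have : ¬ ¬ p ∣ orderOf g := fun h => hg (hall g hgC h)
            simp [regSum, this]
          · rw [coeff_trunc_of_notMem _ hgC, smul_zero]
      rw [h3, h4, zero_sub] at h2
      rw [h5, mul_smul_comm]
      have h6 := h2.neg
      rw [neg_neg] at h6
      exact h6.smul (by rw [map_inv₀, vp_not_dvd hN, inv_one])
  rw [mul_one, ← hce, mul_sub, mul_one, mul_sub, map_sub, sub_eq_zero] at key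
  rw [key, mul_assoc]


end Cfsg.Agent.H1.PB
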