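import Cfsg.Agent.H1.PPairs

/-! Multiplicities of the linear characters of an abelian subgroup. -/

set_option autoImplicit false

namespace Cfsg.Agent.H1.PB

open scoped MonoidAlgebra
open Subgroup
open Cfsg.Agent.H3 (gE gE_mul gE_one Wedd)

variable {A : Type*} [CommGroup A] [Fintype A]

noncomputable instance : Fintype (A →* ℂˣ) := Fintype.ofFinite _

open Classical in
lemma sum_char (l : A →* ℂˣ) : ∑ z, (l z : ℂ) = if l = 1 then (Fintype.card A : ℂ) else 0 := by
  split_ifs with h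
  · simp [h]
  · refine sum_hom_units_eq_zero ((Units.coeHom ℂ).comp l) fun h' => h ?_
    ext z
    simpa using DFunLike.congr_fun h' z

lemma card_char : Fintype.card (A →* ℂˣ) = Fintype.card A := by
  rw [← Nat.card_eq_fintype_card, ← Nat.card_eq_fintype_card,
    CommGroup.card_monoidHom_of_hasEnoughRootsOfUnity]

open Classical in
lemma sum_char_dual (z : A) :
    ∑ l : A →* ℂˣ, (l z : ℂ) = if z = 1 then (Fintype.card A : ℂ) else 0 := by
  split_ifs with h
  · simp [h, card_char]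
  · obtain ⟨l, hl⟩ := CommGroup.exists_apply_ne_one_of_hasEnoughRootsOfUnity A ℂ h
    refine sum_hom_units_eq_zero ((Units.coeHom ℂ).comp (MonoidHom.eval z)) fun h' => hl ?_
    ext
    simpa using DFunLike.congr_fun h' l

lemma cardA_ne : (Fintype.card A : ℂ) ≠ 0 := by exact_mod_cast Fintype.card_ne_zero

variable {G : Type*} [Group G] (ι : A →* G)

/-- The idempotent attached to a linear character. -/
noncomputable def eL (l : A →* ℂˣ) : ℂ[G] :=
  ∑ z : A, ((Fintype.card A : ℂ)⁻¹ * l z) • gE (ι z)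

lemma eL_mul_gE (l : A →* ℂˣ) (w : A) : eL ι l * gE (ι w) = ((l w⁻¹ : ℂˣ) : ℂ) • eL ι l := by
  simp only [eL, Finset.sum_mul, Finset.smul_sum, smul_mul_assoc, ← gE_mul, ← map_mul, smul_smul]
  refine Fintype.sum_equiv (Equiv.mulRight w) _ _ fun z => ?_
  simp only [Equiv.coe_mulRight, map_mul, map_inv, Units.val_mul, Units.val_inv_eq_inv_val]
  congr 1
  field_simp

lemma eL_idem (l : A →* ℂˣ) : eL ι l * eL ι l = eL ι l := by
  nth_rewrite 2 [eL]
  simp only [Finset.mul_sum, mul_smul_comm, eL_mul_gE, smul_smul]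
  rw [← Finset.sum_smul]
  have : ∑ z : A, (Fintype.card A : ℂ)⁻¹ * l z * ((l z⁻¹ : ℂˣ) : ℂ) = 1 := by
    simp only [mul_assoc, ← Units.val_mul, ← map_mul, mul_inv_cancel, map_one, Units.val_one,
      mul_one, Finset.sum_const, Finset.card_univ, nsmul_eq_mul]
    exact mul_inv_cancel₀ cardA_ne
  rw [this, one_smul]

lemma gE_eq_sum (z : A) : gE (ι z) = ∑ l : A →* ℂˣ, ((l z⁻¹ : ℂˣ) : ℂ) • eL ι l := by
  classical
  simp only [eL, Finset.smul_sum, smul_smul]
  rw [Finset.sum_comm]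
  have : ∀ w : A, ∑ l : A →* ℂˣ,
      (((l z⁻¹ : ℂˣ) : ℂ) * ((Fintype.card A : ℂ)⁻¹ * l w)) • gE (ι w) =
      if z = w then gE (ι w) else 0 := by
    intro w
    rw [← Finset.sum_smul]
    have h1 : ∑ l : A →* ℂˣ, ((l z⁻¹ : ℂˣ) : ℂ) * ((Fintype.card A : ℂ)⁻¹ * l w) =
        (Fintype.card A : ℂ)⁻¹ * ∑ l : A →* ℂˣ, ((l (z⁻¹ * w) : ℂˣ) : ℂ) := by
      rw [Finset.mul_sum]
      refine Finset.sum_congr rfl fun l _ => ?_
      rw [map_mul, Units.val_mul]; ring
    rw [h1, sum_char_dual]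
    simp only [inv_mul_eq_one]
    split_ifs
    · rw [inv_mul_cancel₀ cardA_ne, one_smul]
    · simp
  simp only [this, Finset.sum_ite_eq, Finset.mem_univ, if_true]

variable [Fintype G] (W : Wedd G)

/-- The multiplicity of a linear character. -/
noncomputable def nL (j : Fin W.n) (l : A →* ℂˣ) : ℕ := (W.χ_idem j (eL_idem ι l)).choose

lemma χ_eL (j : Fin W.n) (l : A →* ℂˣ) : W.χ j (eL ι l) = nL ι W j l :=
  (W.χ_idem j (eL_idem ι l)).choose_spec.1

lemma card_mul_nL (j : Fin W.n) (l : A →* ℂˣ) :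
    (Fintype.card A : ℂ) * nL ι W j l = ∑ z, (l z : ℂ) * W.χ j (gE (ι z)) := by
  rw [← χ_eL, eL, map_sum, Finset.mul_sum]
  refine Finset.sum_congr rfl fun z _ => ?_
  rw [map_smul, smul_eq_mul]
  field_simp [cardA_ne (A := A)]

lemma χ_eq_sum_nL (j : Fin W.n) (z : A) :
    W.χ j (gE (ι z)) = ∑ l : A →* ℂˣ, ((l z⁻¹ : ℂˣ) : ℂ) * nL ι W j l := by
  rw [gE_eq_sum, map_sum]
  simp only [map_smul, χ_eL, smul_eq_mul]

lemma d_eq_sum_nL (j : Fin W.n) : W.d j = ∑ l : A →* ℂˣ, nL ι W j l := by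
  have := χ_eq_sum_nL ι W j 1
  simp only [map_one, gE_one, W.χ_one, inv_one, Units.val_one, one_mul] at this
  exact_mod_cast this

lemma mem_ker_of_nL (j : Fin W.n) {z : A} (h : ∀ l : A →* ℂˣ, l z ≠ 1 → nL ι W j l = 0) :
    ι z ∈ W.ker j := by
  rw [W.mem_ker]
  have h1 : W.φ (gE (ι z)) j = W.φ (gE (ι 1)) j := by
    rw [gE_eq_sum, gE_eq_sum, map_sum, map_sum, Finset.sum_apply, Finset.sum_apply]
    refine Finset.sum_congr rfl fun l _ => ?_
    by_cases hl : l z = 1
    · simp [hl]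
    · have := (W.χ_idem j (eL_idem ι l)).choose_spec.2 (h l hl)
      simp [this]
  rw [h1]; simp

lemma nL_of_ker_eq_top [DecidableEq (A →* ℂˣ)] {j : Fin W.n} (h : W.ker j = ⊤) (l : A →* ℂˣ) :
    nL ι W j l = if l = 1 then 1 else 0 := by
  have h1 := card_mul_nL ι W j l
  simp only [W.χ_gE_of_ker_eq_top h, mul_one, sum_char] at h1
  split_ifs at h1 ⊢ with hl
  · exact_mod_cast mul_left_cancel₀ cardA_ne (h1.trans (mul_one _).symm)
  · exact_mod_cast (mul_eq_zero.1 h1).resolve_left cardA_ne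

section Form

variable (E : Subgroup (MulAut A))

open Classical in
/-- The number of elements of `E` carrying `m` to `l`. -/
noncomputable def II (l m : A →* ℂˣ) : ℕ :=
  (Finset.univ.filter fun σ : E => l = m.comp (σ : MulAut A).toMonoidHom).card

variable {E}

lemma exists_of_II {l m : A →* ℂˣ} (h : II E l m ≠ 0) :
    ∃ σ ∈ E, l = m.comp (σ : MulAut A).toMonoidHom := by
  classical
  obtain ⟨σ, hσ⟩ := Finset.card_ne_zero.1 h
  exact ⟨σ, σ.2, (Finset.mem_filter.1 hσ).2⟩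

lemma II_one_one : II E 1 1 = Nat.card E := by
  classical
  simp [II, Nat.card_eq_fintype_card]

lemma II_one_left {m : A →* ℂˣ} (h : m ≠ 1) : II E 1 m = 0 := by
  by_contra h1
  obtain ⟨σ, -, hσ⟩ := exists_of_II h1
  refine h (MonoidHom.ext fun z => ?_)
  simpa using (DFunLike.congr_fun hσ (σ.symm z)).symm

lemma II_one_right {m : A →* ℂˣ} (h : m ≠ 1) : II E m 1 = 0 := by
  by_contra h1
  obtain ⟨σ, -, hσ⟩ := exists_of_II h1
  exact h (by rw [hσ]; rfl)

lemma II_self (hE : ∀ σ ∈ E, ∀ z : A, z ≠ 1 → σ z = z → σ = 1) {m : A →* ℂˣ} (h : m ≠ 1) :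
    II E m m = 1 := by
  classical
  refine Finset.card_eq_one.2 ⟨1, Finset.eq_singleton_iff_unique_mem.2
    ⟨Finset.mem_filter.2 ⟨Finset.mem_univ _, rfl⟩, fun σ hσ => ?_⟩⟩
  have hσ := (Finset.mem_filter.1 hσ).2
  by_contra hne
  let f : A →* A := (σ : MulAut A).toMonoidHom / MonoidHom.id A
  have hf : Function.Injective f := by
    rw [injective_iff_map_eq_one]
    intro z hz
    by_contra hz1
    exact hne (Subtype.ext (hE σ σ.2 z hz1 (div_eq_one.1 hz)))
  refine h (MonoidHom.ext fun z => ?_)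
  obtain ⟨w, rfl⟩ := Finite.surjective_of_injective hf z
  have : m w = m ((σ : MulAut A) w) := DFunLike.congr_fun hσ w
  simp [f, ← this]

lemma card_II_le (l : A →* ℂˣ) [DecidablePred fun m => II E m l ≠ 0] :
    (Finset.univ.filter fun m => II E m l ≠ 0).card ≤ Nat.card E := by
  classical
  rw [Nat.card_eq_fintype_card, ← Finset.card_univ]
  refine le_trans (Finset.card_le_card ?_)
    (Finset.card_image_le (f := fun σ : E => l.comp (σ : MulAut A).toMonoidHom))
  intro m hm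
  obtain ⟨σ, hσ, h⟩ := exists_of_II (Finset.mem_filter.1 hm).2
  exact Finset.mem_image.2 ⟨⟨σ, hσ⟩, Finset.mem_univ _, h.symm⟩

lemma nL_comp (j : Fin W.n) (m : A →* ℂˣ) {σ : MulAut A} (h : ∀ z, IsConj (ι (σ z)) (ι z)) :
    nL ι W j (m.comp σ.toMonoidHom) = nL ι W j m := by
  have h1 := card_mul_nL ι W j (m.comp σ.toMonoidHom)
  have h2 := card_mul_nL ι W j m
  rw [← Equiv.sum_comp σ.toEquiv] at h2
  have h3 : (Fintype.card A : ℂ) * nL ι W j (m.comp σ.toMonoidHom) =
      Fintype.card A * nL ι W j m := by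
    rw [h1, h2]
    exact Finset.sum_congr rfl fun z _ => by rw [← W.χ_gE_isConj j (h z)]; rfl
  exact_mod_cast mul_left_cancel₀ cardA_ne h3

open Classical in
lemma form_nL (B : Finset (Fin W.n)) (hE : ∀ σ ∈ E, ∀ z : A, z ≠ 1 → σ z = z → σ = 1)
    (hc : ∀ z z' : A, z ≠ 1 → ∑ j ∈ B, W.χ j (gE (ι z)) * W.χ j (gE (ι z')) =
      if ∃ σ ∈ E, σ z = z'⁻¹ then (Fintype.card A : ℂ) else 0) (l m l' m' : A →* ℂˣ) :
    ∑ j ∈ B, ((nL ι W j l : ℤ) - nL ι W j m) * ((nL ι W j l' : ℤ) - nL ι W j m') =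
      (II E l l' : ℤ) - II E l m' - II E m l' + II E m m' := by
  set q : ℂ := (Fintype.card A : ℂ) with hq
  have hq0 : q ≠ 0 := cardA_ne
  have h1 : ∀ (θ' : A → ℂ) (z : A), z ≠ 1 →
      ∑ z', θ' z' * ∑ j ∈ B, W.χ j (gE (ι z)) * W.χ j (gE (ι z')) =
        q * ∑ σ : E, θ' ((σ : MulAut A) z)⁻¹ := by
    intro θ' z hz
    simp only [hc z _ hz, mul_ite, mul_zero]
    rw [← Finset.sum_filter, Finset.mul_sum]
    symm
    refine Finset.sum_bij (fun σ _ => ((σ : MulAut A) z)⁻¹) (fun σ _ => ?_) (fun σ _ τ _ h => ?_)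
      (fun z' hz' => ?_) (fun σ _ => mul_comm _ _)
    · exact Finset.mem_filter.2 ⟨Finset.mem_univ _, σ, σ.2, (inv_inv _).symm⟩
    · have h2 : ((τ⁻¹ * σ : E) : MulAut A) z = z := by
        rw [inv_inj] at h
        simp [h]
      have := hE _ (τ⁻¹ * σ).2 z hz h2
      exact (inv_mul_eq_one.1 (Subtype.ext this)).symm
    · obtain ⟨σ, hσ, h⟩ := (Finset.mem_filter.1 hz').2
      exact ⟨⟨σ, hσ⟩, Finset.mem_univ _, by simp [h]⟩
  have h2 : ∀ a b : A →* ℂˣ, ∑ σ : E, ∑ z, (a z : ℂ) * b ((σ : MulAut A) z)⁻¹ = q * II E a b := by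
    intro a b
    rw [II, Finset.card_filter, Nat.cast_sum, Finset.mul_sum]
    refine Finset.sum_congr rfl fun σ _ => ?_
    have := sum_char (a / b.comp (σ : MulAut A).toMonoidHom)
    rw [show ∑ z, (a z : ℂ) * b ((σ : MulAut A) z)⁻¹ =
      ∑ z, (((a / b.comp (σ : MulAut A).toMonoidHom) z : ℂˣ) : ℂ) from
        Finset.sum_congr rfl fun z _ => by simp [div_eq_mul_inv], this]
    by_cases h : a = b.comp (σ : MulAut A).toMonoidHom
    · rw [if_pos h, if_pos (div_eq_one.2 h)]; simp [hq]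
    · rw [if_neg h, if_neg (fun h' => h (div_eq_one.1 h'))]; simp
  have h3 : ∀ j a b, q * ((nL ι W j a : ℂ) - nL ι W j b) =
      ∑ z, ((a z : ℂ) - b z) * W.χ j (gE (ι z)) := by
    intro j a b
    rw [mul_sub, card_mul_nL, card_mul_nL, ← Finset.sum_sub_distrib]
    exact Finset.sum_congr rfl fun z _ => by ring
  have h4 : q * q * ∑ j ∈ B, ((nL ι W j l : ℂ) - nL ι W j m) * ((nL ι W j l' : ℂ) - nL ι W j m') =
      q * q * ((II E l l' : ℂ) - II E l m' - II E m l' + II E m m') := by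
    calc _ = ∑ j ∈ B, (q * ((nL ι W j l : ℂ) - nL ι W j m)) *
          (q * ((nL ι W j l' : ℂ) - nL ι W j m')) := by
          rw [Finset.mul_sum]; exact Finset.sum_congr rfl fun j _ => by ring
      _ = ∑ z, ((l z : ℂ) - m z) * ∑ z', ((l' z' : ℂ) - m' z') *
          ∑ j ∈ B, W.χ j (gE (ι z)) * W.χ j (gE (ι z')) := by
          simp only [h3, Finset.sum_mul_sum]
          simp only [Finset.mul_sum]
          rw [Finset.sum_comm]
          refine Finset.sum_congr rfl fun z _ => ?_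
          rw [Finset.sum_comm]
          exact Finset.sum_congr rfl fun z' _ => Finset.sum_congr rfl fun j _ => by ring
      _ = ∑ z, ((l z : ℂ) - m z) * (q * ∑ σ : E,
          ((l' ((σ : MulAut A) z)⁻¹ : ℂ) - m' ((σ : MulAut A) z)⁻¹)) := by
          refine Finset.sum_congr rfl fun z _ => ?_
          by_cases hz : z = 1
          · simp [hz]
          · rw [h1 (fun z' => (l' z' : ℂ) - m' z') z hz]
      _ = q * (∑ σ : E, ∑ z, (l z : ℂ) * l' ((σ : MulAut A) z)⁻¹ -
          ∑ σ : E, ∑ z, (l z : ℂ) * m' ((σ : MulAut A) z)⁻¹ -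
          ∑ σ : E, ∑ z, (m z : ℂ) * l' ((σ : MulAut A) z)⁻¹ +
          ∑ σ : E, ∑ z, (m z : ℂ) * m' ((σ : MulAut A) z)⁻¹) := by
          simp only [← Finset.sum_sub_distrib, ← Finset.sum_add_distrib, Finset.mul_sum]
          rw [Finset.sum_comm]
          exact Finset.sum_congr rfl fun σ _ => Finset.sum_congr rfl fun z _ => by ring
      _ = _ := by simp only [h2]; ring
  have := mul_left_cancel₀ (mul_ne_zero hq0 hq0) h4
  exact_mod_cast this

lemma osima_nL (B : Finset (Fin W.n))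
    (ho : ∀ z : A, z ≠ 1 → ∑ j ∈ B, (W.d j : ℂ) * W.χ j (gE (ι z)) = 0) (l m : A →* ℂˣ) :
    ∑ j ∈ B, (W.d j : ℤ) * ((nL ι W j l : ℤ) - nL ι W j m) = 0 := by
  have h1 : (Fintype.card A : ℂ) * ∑ j ∈ B, (W.d j : ℂ) * ((nL ι W j l : ℂ) - nL ι W j m) = 0 := by
    calc _ = ∑ j ∈ B, (W.d j : ℂ) * ∑ z, ((l z : ℂ) - m z) * W.χ j (gE (ι z)) := by
          rw [Finset.mul_sum]
          refine Finset.sum_congr rfl fun j _ => ?_
          simp only [sub_mul, Finset.sum_sub_distrib, ← card_mul_nL]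
          ring
      _ = ∑ z, ((l z : ℂ) - m z) * ∑ j ∈ B, (W.d j : ℂ) * W.χ j (gE (ι z)) := by
          simp only [Finset.mul_sum]
          rw [Finset.sum_comm]
          exact Finset.sum_congr rfl fun z _ => Finset.sum_congr rfl fun j _ => by ring
      _ = 0 := Finset.sum_eq_zero fun z _ => by
          by_cases hz : z = 1
          · simp [hz]
          · rw [ho z hz, mul_zero]
  exact_mod_cast (mul_eq_zero.1 h1).resolve_left cardA_ne

end Form

section Sylow

variable {p : ℕ} [hp : Fact p.Prime]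

omit [Fintype G] hp in
lemma centralizer_conj (g x : G) :
    centralizer ({g * x * g⁻¹} : Set G) = cj g (centralizer ({x} : Set G)) := by
  ext y
  rw [mem_cj, mem_centralizer_singleton_iff, mem_centralizer_singleton_iff]
  constructor
  · intro h
    calc g⁻¹ * y * g * x = g⁻¹ * (y * (g * x * g⁻¹)) * g := by group
      _ = _ := by rw [h]; group
  · intro h
    calc y * (g * x * g⁻¹) = g * (g⁻¹ * y * g * x) * g⁻¹ := by group
      _ = _ := by rw [h]; group

omit [Fintype G] hp in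
lemma card_Kz_conj (g x : G) : Nat.card (Kz p (g * x * g⁻¹)) = Nat.card (Kz p x) := by
  rw [Kz, centralizer_conj, ← cj_pResidualOf, card_cj]

lemma hasNPC_conj (g : G) {x : G} (h : HasNormalPComplement p (centralizer ({x} : Set G))) :
    HasNormalPComplement p (centralizer ({g * x * g⁻¹} : Set G)) := by
  rw [centralizer_conj]; exact hasNormalPComplement_cj g h

omit [Fintype G] hp in
lemma sylow_le_centralizer {P : Subgroup G} (hP : IsMulCommutative P) {z : G} (hz : z ∈ P) :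
    P ≤ centralizer ({z} : Set G) := fun y hy => mem_centralizer_singleton_iff.2
  (congrArg Subtype.val (hP.is_comm.comm (⟨y, hy⟩ : P) ⟨z, hz⟩))

lemma card_centralizer_eq (P : Sylow p G) (hP : IsMulCommutative (P : Subgroup G)) {z : G}
    (hz : z ∈ (P : Subgroup G)) (h : HasNormalPComplement p (centralizer ({z} : Set G))) :
    Nat.card (centralizer ({z} : Set G)) = Nat.card (Kz p z) * Nat.card (P : Subgroup G) := by
  have h1 := sylow_isSylowIn P (sylow_le_centralizer hP hz)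
  have h2 := isComplement'_of_not_dvd_of_sup h1.toSylow
    (hasNormalPComplement_iff_not_dvd.1 h) (pResidual_sup_sylow _)
  rw [← h2.card_mul, Kz, ← map_subtype_pResidual, card_map_of_injective (subtype_injective _),
    h1.coe_toSylow, Nat.card_congr (subgroupOfEquivOfLe h1.le).toEquiv]

open Classical in
lemma col_sylow (P : Sylow p G) (hP : IsMulCommutative (P : Subgroup G)) {z z' : G}
    (hz : z ∈ (P : Subgroup G)) (hz' : z' ∈ (P : Subgroup G))
    (h : HasNormalPComplement p (centralizer ({z} : Set G))) :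
    ∑ j ∈ B0 p W, W.χ j (gE z) * W.χ j (gE z') =
      if IsConj z'⁻¹ z then (Nat.card (P : Subgroup G) : ℂ) else 0 := by
  obtain ⟨n, hn⟩ := isPGroup_iff_mem.1 P.isPGroup' z hz
  obtain ⟨m, hm⟩ := isPGroup_iff_mem.1 P.isPGroup' z' hz'
  have h1 := col_B0 W hn hm h
  rw [card_centralizer_eq P hP hz h] at h1
  apply mul_left_cancel₀ (H3.card_cast_ne_zero (Kz p z))
  rw [h1]
  split_ifs <;> simp

lemma exists_conj_mem (P : Sylow p G) {d : G} (hd : orderOf d = p) :
    ∃ g : G, ∃ x ∈ (P : Subgroup G), orderOf x = p ∧ d = g * x * g⁻¹ := by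
  obtain ⟨g, -, hg⟩ := (sylow_isSylowIn_top P).exists_cj_le
    (isPGroup_zpowers (pow_one_of_orderOf hd)) le_top
  refine ⟨g⁻¹, g * d * g⁻¹, hg (conj_mem_cj (mem_zpowers d)), ?_, by group⟩
  have := H3.orderOf_conj'' g⁻¹ d
  rwa [inv_inv, hd] at this

end Sylow

end Cfsg.Agent.H1.PB
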