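import Cfsg.Agent.H1.PChar
import Cfsg.Agent.H1.Fusion

/-! Groups with a cyclic Sylow subgroup whose pairs of elements of order `p` are `p`-solvable. -/

set_option autoImplicit false

namespace Cfsg.Agent.H1.PB

open scoped MonoidAlgebra
open Subgroup Finset
open Cfsg.Agent.H3 (gE gE_mul gE_one Wedd)

lemma comb {Λ : Type*} [Fintype Λ] [DecidableEq Λ] {r : ℕ} (hr : 2 ≤ r) (o : Λ) (L0 : Finset Λ)
    (ho : o ∈ L0) (hL : Fintype.card Λ = (r + 1) * L0.card) (n : Λ → ℕ) (R : Λ → Λ → Prop)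
    [DecidableRel R] (hR : ∀ l, (univ.filter fun m => R m l).card ≤ r)
    (hR0 : ∀ l m, R l m → m ∈ L0 → l ∈ L0)
    (ha : ∀ l m, l ≠ o → m ≠ o → n l ≤ n m + 1)
    (hb : ∀ l, l ≠ o → ((n o : ℤ) - n l) ^ 2 ≤ r)
    (hc : ∀ l l' m m', l ≠ o → l' ≠ o → m ≠ o → m' ≠ o → n l = n m + 1 → n l' = n m' + 1 →
      n l = n l' → R l l' ∨ R m m')
    (h1 : ∃ l ∉ L0, n l ≠ 0) : 2 * ∑ l ∈ L0, n l ≤ r * ∑ l ∈ L0ᶜ, n l := by
  obtain ⟨l1, hl1, hn1⟩ := h1
  have hne : ∀ l ∈ L0ᶜ, l ≠ o := fun l hl h => (mem_compl.1 hl) (h ▸ ho)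
  have hl1o : l1 ≠ o := hne _ (mem_compl.2 hl1)
  obtain ⟨N, hN⟩ : ∃ N, L0.card = N + 1 := ⟨_, (Nat.succ_pred_eq_of_pos (card_pos.2 ⟨o, ho⟩)).symm⟩
  have hcc : L0ᶜ.card = r * (N + 1) := by
    rw [card_compl, hL, hN, add_mul, one_mul, Nat.add_sub_cancel]
  have hce : (L0.erase o).card = N := by rw [card_erase_of_mem ho, hN]; rfl
  obtain ⟨m0, hm0, hmin⟩ := exists_min_image (univ.erase o) n ⟨l1, by simp [hl1o]⟩
  have hm0 : m0 ≠ o := ne_of_mem_erase hm0
  have hmin : ∀ l, l ≠ o → n m0 ≤ n l := fun l hl => hmin l (by simp [hl])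
  have hs0 : ∑ l ∈ L0, n l ≤ n o + N * (n m0 + 1) := by
    rw [← add_sum_erase _ _ ho, ← hce, ← smul_eq_mul]
    exact Nat.add_le_add_left (sum_le_card_nsmul _ _ _ fun l hl =>
      ha l m0 (ne_of_mem_erase hl) hm0) _
  have hb0 := hb m0 hm0
  rcases Nat.eq_zero_or_pos (n m0) with hk | hk
  · have h2 : 2 * n o ≤ r := by
      rw [hk] at hb0
      have : n o ^ 2 ≤ r := by exact_mod_cast (by simpa using hb0 : (n o : ℤ) ^ 2 ≤ r)
      rcases le_or_gt (n o) 1 with h | h <;> nlinarith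
    by_cases hμ : ∃ μ ∈ L0, μ ≠ o ∧ n μ ≠ 0
    · obtain ⟨μ, hμ, hμo, hnμ⟩ := hμ
      have e1 : n l1 = 1 := by have := ha l1 m0 hl1o hm0; omega
      have e2 : n μ = 1 := by have := ha μ m0 hμo hm0; omega
      have hN1 : 1 ≤ N := hce ▸ card_pos.2 ⟨μ, mem_erase.2 ⟨hμo, hμ⟩⟩
      have h3 : (L0ᶜ.filter fun l => n l = 0).card ≤ r := by
        refine le_trans (card_le_card fun m hm => ?_) (hR m0)
        obtain ⟨hm, hm'⟩ := mem_filter.1 hm
        refine mem_filter.2 ⟨mem_univ _, (hc l1 μ m m0 hl1o hμo (hne m hm) hm0 (by omega)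
          (by omega) (by omega)).resolve_left fun h => hl1 (hR0 _ _ h hμ)⟩
      have h4 : (L0ᶜ.filter fun l => ¬ n l = 0).card ≤ ∑ l ∈ L0ᶜ, n l := by
        rw [card_filter]
        exact sum_le_sum fun l _ => by split_ifs <;> omega
      have h5 := card_filter_add_card_filter_not (s := L0ᶜ) fun l => n l = 0
      rw [hk] at hs0
      have h6 : r * N ≤ ∑ l ∈ L0ᶜ, n l := by
        rw [hcc, mul_add] at h5; omega
      nlinarith [Nat.mul_le_mul_left r h6, Nat.mul_le_mul hr (le_refl (r * N)),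
        Nat.mul_le_mul hr (le_refl N), Nat.mul_le_mul_left r hN1]
    · push Not at hμ
      have h3 : ∑ l ∈ L0, n l = n o := sum_eq_single_of_mem o ho fun l hl h => hμ l hl h
      have h4 : n l1 ≤ ∑ l ∈ L0ᶜ, n l :=
        single_le_sum (fun _ _ => Nat.zero_le _) (mem_compl.2 hl1)
      rw [h3]
      nlinarith [Nat.mul_le_mul_left r (le_trans (Nat.pos_of_ne_zero hn1) h4)]
  · have h2 : n o + 1 ≤ n m0 + r := by
      by_contra h
      have h' : (r : ℤ) ≤ n o - n m0 := by omega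
      have hr' : (2 : ℤ) ≤ r := by exact_mod_cast hr
      nlinarith
    have h3 : r * (N + 1) * n m0 ≤ ∑ l ∈ L0ᶜ, n l := by
      rw [← hcc, ← smul_eq_mul]
      exact card_nsmul_le_sum _ _ _ fun l hl => hmin l (hne l hl)
    obtain ⟨k, hk⟩ : ∃ k, n m0 = k + 1 := ⟨_, (Nat.succ_pred_eq_of_pos hk).symm⟩
    obtain ⟨s, rfl⟩ : ∃ s, r = s + 2 := ⟨r - 2, by omega⟩
    rw [hk] at hs0 h2 h3
    nlinarith [Nat.mul_le_mul_left (s + 2) h3, Nat.zero_le (s * s * N * k), Nat.zero_le (s * N * k),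
      Nat.zero_le (s * s * k), Nat.zero_le (s * k), Nat.zero_le (N * k), Nat.zero_le (s * s),
      Nat.zero_le (s * s * N), Nat.zero_le (s * N)]

lemma aut_eq_one {p : ℕ} [hp : Fact p.Prime] {A : Type*} [Group A] [IsCyclic A]
    (hA : IsPGroup p A) {σ : MulAut A} (hσ : (orderOf σ).Coprime p) {z : A} (hz : z ≠ 1)
    (h : σ z = z) : σ = 1 := by
  obtain ⟨i, hi⟩ := MonoidHom.map_cyclic σ.toMonoidHom
  have hi : ∀ g, σ g = g ^ i := hi
  have h1 : ∀ (k : ℕ) g, (σ ^ k) g = g ^ i ^ k := by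
    intro k
    induction k with
    | zero => simp
    | succ k ih => intro g; rw [pow_succ', MulAut.mul_apply, hi, ih, ← zpow_mul, pow_succ]
  have h2 : (p : ℤ) ∣ i - 1 := by
    obtain ⟨k, hk⟩ := (IsPGroup.iff_orderOf.1 hA) z
    have h3 : (orderOf z : ℤ) ∣ i - 1 := orderOf_dvd_iff_zpow_eq_one.2 (by
      rw [zpow_sub, ← hi, h]; simp)
    refine Dvd.dvd.trans ?_ h3
    rw [hk]
    rcases k with _ | k
    · exact absurd (orderOf_eq_one_iff.1 (by simpa using hk)) hz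
    · exact_mod_cast dvd_pow_self p k.succ_ne_zero
  set s := ∑ k ∈ range (orderOf σ), i ^ k with hs
  have h3 : (p : ℤ) ∣ s - orderOf σ := by
    have : s - orderOf σ = ∑ k ∈ range (orderOf σ), (i ^ k - 1 ^ k) := by simp [hs]
    rw [this]
    exact dvd_sum fun k _ => h2.trans (sub_dvd_pow_sub_pow _ _ _)
  ext g
  have h4 : (g ^ (i - 1)) ^ s = 1 := by
    rw [← zpow_mul, mul_comm, geom_sum_mul, zpow_sub, ← h1, pow_orderOf_eq_one]; simp
  obtain ⟨k, hk⟩ := (IsPGroup.iff_orderOf.1 hA) (g ^ (i - 1))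
  have h5 := orderOf_dvd_iff_zpow_eq_one.2 h4
  rcases k with _ | k
  · have := orderOf_eq_one_iff.1 (by simpa using hk : orderOf (g ^ (i - 1)) = 1)
    rw [zpow_sub, ← hi] at this
    simpa [mul_inv_eq_one] using this
  · rw [hk] at h5
    have h6 : (p : ℤ) ∣ s := Dvd.dvd.trans (by exact_mod_cast dvd_pow_self p k.succ_ne_zero) h5
    have h7 : (p : ℤ) ∣ orderOf σ := by simpa using dvd_sub h6 h3
    exact absurd (by exact_mod_cast h7) (hp.out.coprime_iff_not_dvd.1 hσ.symm)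

section Abstract

variable {p : ℕ} [hp : Fact p.Prime] {A : Type*} [CommGroup A] [Fintype A]

omit [Fintype A] hp in
open Classical in
lemma sum_pow_char (l : A →* ℂˣ) {y : A} (hy : y ^ p = 1) :
    ∑ i ∈ range p, ((l (y ^ i)⁻¹ : ℂˣ) : ℂ) = if l y = 1 then (p : ℂ) else 0 := by
  split_ifs with h
  · simp [h]
  · have h1 : ∀ i : ℕ, ((l (y ^ i)⁻¹ : ℂˣ) : ℂ) = ((l y⁻¹ : ℂˣ) : ℂ) ^ i := by simp
    simp only [h1]
    have h2 := mul_neg_geom_sum ((l y⁻¹ : ℂˣ) : ℂ) p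
    rw [← h1, hy, inv_one, map_one, Units.val_one, sub_self] at h2
    refine (mul_eq_zero.1 h2).resolve_left fun h3 => h ?_
    have : l y⁻¹ = 1 := Units.ext (sub_eq_zero.1 h3).symm
    simpa using this

open Classical in
lemma card_L0 {x : A} (hx : orderOf x = p) :
    Fintype.card (A →* ℂˣ) = p * (univ.filter fun l : A →* ℂˣ => l x = 1).card := by
  have h1 : ∑ l : A →* ℂˣ, ∑ i ∈ range p, ((l (x ^ i)⁻¹ : ℂˣ) : ℂ) = Fintype.card A := by
    rw [sum_comm]
    simp only [sum_char_dual]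
    rw [sum_eq_single_of_mem 0 (mem_range.2 hp.out.pos)]
    · simp
    · intro i hi h
      exact if_neg fun h' => pow_ne_one_of_lt_orderOf h (hx ▸ mem_range.1 hi) (inv_eq_one.1 h')
  simp only [sum_pow_char _ (hx ▸ pow_orderOf_eq_one x)] at h1
  rw [← sum_filter, sum_const, nsmul_eq_mul, mul_comm] at h1
  rw [card_char]
  exact_mod_cast h1.symm

variable {G : Type*} [Group G] [Fintype G] (ι : A →* G) (W : Wedd G)

omit hp in
open Classical in
lemma sum_χ_pow (j : Fin W.n) {y : A} (hy : y ^ p = 1) :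
    ∑ i ∈ range p, W.χ j (gE (ι (y ^ i))) =
      p * ∑ l ∈ univ.filter (fun l : A →* ℂˣ => l y = 1), (nL ι W j l : ℂ) := by
  simp only [χ_eq_sum_nL]
  rw [sum_comm, sum_filter, mul_sum]
  refine sum_congr rfl fun l _ => ?_
  rw [← sum_mul, sum_pow_char l hy]
  split_ifs <;> simp

open Classical in
lemma mult_bound (hp2 : p ≠ 2) {E : Subgroup (MulAut A)} (B : Finset (Fin W.n))
    (hE : ∀ σ ∈ E, ∀ z : A, z ≠ 1 → σ z = z → σ = 1)
    (hc : ∀ z z' : A, z ≠ 1 → ∑ j ∈ B, W.χ j (gE (ι z)) * W.χ j (gE (ι z')) =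
      if ∃ σ ∈ E, σ z = z'⁻¹ then (Fintype.card A : ℂ) else 0)
    (ho : ∀ z : A, z ≠ 1 → ∑ j ∈ B, (W.d j : ℂ) * W.χ j (gE (ι z)) = 0)
    (he : Nat.card E ≤ p - 1) {x : A} (hx : orderOf x = p) (hEx : ∀ σ ∈ E, σ x ∈ zpowers x)
    {j j0 : Fin W.n} (hj : j ∈ B) (hj0 : j0 ∈ B) (hk0 : W.ker j0 = ⊤) (hk : ι x ∉ W.ker j) :
    2 * ∑ l ∈ univ.filter (fun l : A →* ℂˣ => l x = 1), nL ι W j l ≤
      (p - 1) * ∑ l ∈ (univ.filter (fun l : A →* ℂˣ => l x = 1))ᶜ, nL ι W j l := by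
  have hp3 := hp.out.two_le
  have hne : j ≠ j0 := fun h => hk (by rw [h, hk0]; trivial)
  have h2 : ∀ l m : A →* ℂˣ, l ≠ 1 → m ≠ 1 →
      ∑ j ∈ B, ((nL ι W j l : ℤ) - nL ι W j m) * ((nL ι W j l : ℤ) - nL ι W j m) ≤ 2 := by
    intro l m hl hm
    rw [form_nL ι W B hE hc, II_self hE hl, II_self hE hm]
    omega
  refine comb (by omega) 1 _ (by simp) (by rw [card_L0 hx, Nat.sub_add_cancel (by omega)]) _
    (fun l m => II E l m ≠ 0) (fun l => (card_II_le l).trans he) (fun l m h hm => ?_)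
    (fun l m hl hm => ?_) (fun l hl => ?_) (fun l l' m m' hl hl' hm hm' h1 h1' _ => ?_) ?_
  · obtain ⟨σ, hσ, rfl⟩ := exists_of_II h
    obtain ⟨k, hk⟩ := hEx σ hσ
    have hk : x ^ k = σ x := hk
    simp [← hk, (mem_filter.1 hm).2]
  · have := (single_le_sum (f := fun j => ((nL ι W j l : ℤ) - nL ι W j m) *
      ((nL ι W j l : ℤ) - nL ι W j m)) (fun _ _ => mul_self_nonneg _) hj).trans (h2 l m hl hm)
    by_contra h
    have : (2 : ℤ) ≤ (nL ι W j l : ℤ) - nL ι W j m := by omega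
    nlinarith
  · have h1 := form_nL ι W B hE hc 1 l 1 l
    rw [II_one_one, II_one_left hl, II_one_right hl, II_self hE hl, ← add_sum_erase _ _ hj0,
      nL_of_ker_eq_top ι W hk0, nL_of_ker_eq_top ι W hk0, if_pos rfl, if_neg hl] at h1
    have := single_le_sum (f := fun j => ((nL ι W j 1 : ℤ) - nL ι W j l) *
      ((nL ι W j 1 : ℤ) - nL ι W j l)) (fun _ _ => mul_self_nonneg _) (mem_erase.2 ⟨hne, hj⟩)
    have he' : (Nat.card E : ℤ) ≤ (p - 1 : ℕ) := by exact_mod_cast he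
    push_cast at h1
    rw [sq]; linarith
  · by_contra h
    push Not at h
    set u : Fin W.n → ℤ := fun j => (nL ι W j l : ℤ) - nL ι W j m
    set v : Fin W.n → ℤ := fun j => (nL ι W j l' : ℤ) - nL ι W j m'
    have huv : ∑ j ∈ B, u j * v j ≤ 0 := by
      rw [form_nL ι W B hE hc, h.1, h.2]; omega
    have h3 : ∑ j ∈ B, (u j + v j) ^ 2 ≤ 4 := by
      have : ∑ j ∈ B, (u j + v j) ^ 2 =
          ∑ j ∈ B, u j * u j + 2 * ∑ j ∈ B, u j * v j + ∑ j ∈ B, v j * v j := by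
        rw [mul_sum, ← sum_add_distrib, ← sum_add_distrib]
        exact sum_congr rfl fun _ _ => by ring
      linarith [h2 l m hl hm, h2 l' m' hl' hm']
    have h4 : u j + v j = 2 := by simp only [u, v]; omega
    rw [← add_sum_erase _ _ hj, h4] at h3
    have h5 := (sum_eq_zero_iff_of_nonneg fun i _ => sq_nonneg (u i + v i)).1
      (le_antisymm (show ∑ i ∈ B.erase j, (u i + v i) ^ 2 ≤ 0 by linarith)
        (sum_nonneg fun _ _ => sq_nonneg _))
    have h6 : ∑ i ∈ B, (W.d i : ℤ) * (u i + v i) = 0 := by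
      simp only [mul_add, sum_add_distrib, u, v, osima_nL ι W B ho, add_zero]
    rw [← add_sum_erase _ _ hj, h4, sum_eq_zero fun i hi => by
      rw [pow_eq_zero_iff two_ne_zero |>.1 (h5 i hi), mul_zero]] at h6
    have := W.d_pos j
    omega
  · by_contra h
    push Not at h
    exact hk (mem_ker_of_nL ι W j fun l hl => h l (by simpa using hl))

omit [Fintype G] in
open Classical in
lemma sum_range_pow [IsCyclic A] {y : A} (hy : orderOf y = p) (f : A → ℂ) :
    ∑ i ∈ range p, f (y ^ i) = f 1 + ∑ z ∈ univ.filter (fun z : A => orderOf z = p), f z := by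
  have h1 : (1 : A) ∉ univ.filter (fun z : A => orderOf z = p) := by
    simpa using hp.out.ne_one.symm
  have hinj : Set.InjOn (y ^ ·) (range p : Set ℕ) := by
    rw [coe_range, ← hy]; exact pow_injOn_Iio_orderOf
  rw [← sum_insert h1, ← sum_image hinj]
  congr 1
  refine eq_of_subset_of_card_le (fun z hz => ?_) ?_
  · obtain ⟨i, -, rfl⟩ := mem_image.1 hz
    rcases (Nat.dvd_prime hp.out).1 (hy ▸ orderOf_pow_dvd (x := y) i) with h | h
    · simp [orderOf_eq_one_iff.1 h]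
    · simp [h]
  · rw [card_insert_of_notMem h1, card_image_of_injOn hinj, card_range,
      IsCyclic.card_orderOf_eq_totient (hy ▸ orderOf_dvd_card), Nat.totient_prime hp.out,
      Nat.sub_add_cancel hp.out.one_le]

lemma sum_Dset_pow (f : G → ℂ) {i : ℕ} (hi : i.Coprime p) :
    ∑ d ∈ Dset p G, f (d ^ i) = ∑ d ∈ Dset p G, f d := by
  obtain ⟨k, -, hk⟩ := Nat.exists_mul_mod_eq_one_of_coprime hi hp.out.one_lt
  have hk' : k.Coprime p := by
    rw [Nat.coprime_comm, hp.out.coprime_iff_not_dvd]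
    intro h
    rw [Nat.mod_eq_zero_of_dvd (h.mul_left i)] at hk
    exact zero_ne_one hk
  have h1 : ∀ d ∈ Dset p G, d ^ (i * k) = d := fun d hd => by
    rw [← pow_mod_orderOf, mem_Dset.1 hd, hk, pow_one]
  have h2 : ∀ m : ℕ, m.Coprime p → ∀ d ∈ Dset p G, d ^ m ∈ Dset p G := fun m hm d hd => by
    rw [mem_Dset] at hd ⊢
    rw [Nat.Coprime.orderOf_pow (hd ▸ hm.symm), hd]
  exact sum_nbij' (· ^ i) (· ^ k) (h2 i hi) (h2 k hk') (fun d hd => by rw [← pow_mul, h1 d hd])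
    (fun d hd => by rw [← pow_mul, mul_comm, h1 d hd]) fun _ _ => rfl

end Abstract

section Simple

open scoped IsMulCommutative

variable {p : ℕ} [hp : Fact p.Prime] {G : Type*} [Group G] [Finite G]

lemma mem_centralizer_of_cyclic (P : Sylow p G) (hP : IsCyclic (P : Subgroup G)) {z n : G}
    (hz : z ∈ (P : Subgroup G)) (hz1 : z ≠ 1) (hn : n ∈ normalizer ((P : Subgroup G) : Set G))
    (h : n * z * n⁻¹ = z) : n ∈ centralizer ((P : Subgroup G) : Set G) := by
  obtain ⟨a, b, rfl, ha, hb, ⟨k, hk⟩, hbo⟩ := exists_pPart (p := p) n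
  have haP : a ∈ (P : Subgroup G) := (sylow_isSylowIn_top P).le_of_le_normalizer
    (isPGroup_zpowers hk) le_top (zpowers_le.2 (zpowers_le.2 hn ha)) (mem_zpowers a)
  refine mul_mem (le_centralizer_iff_isMulCommutative.2 inferInstance haP) ?_
  have hbn := zpowers_le.2 hn hb
  have hbz : b ∈ centralizer ({z} : Set G) :=
    zpowers_le.2 (mem_centralizer_singleton_iff.2 (mul_inv_eq_iff_eq_mul.1 h)) hb
  have h1 : (P : Subgroup G).normalizerMonoidHom ⟨b, hbn⟩ = 1 :=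
    aut_eq_one P.isPGroup' (hbo.coprime_dvd_left ((orderOf_map_dvd _ _).trans
      (orderOf_mk _ _).dvd)) (z := ⟨z, hz⟩) (fun h => hz1 (congrArg Subtype.val h))
      (Subtype.ext (mul_inv_eq_iff_eq_mul.2 (mem_centralizer_singleton_iff.1 hbz)))
  rwa [← MonoidHom.mem_ker, normalizerMonoidHom_ker, mem_subgroupOf] at h1

lemma npc_of_cyclic (P : Sylow p G) (hP : IsCyclic (P : Subgroup G)) {z : G}
    (hz : z ∈ (P : Subgroup G)) (hz1 : z ≠ 1) :
    HasNormalPComplement p (centralizer ({z} : Set G)) :=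
  (sylow_isSylowIn P (sylow_le_centralizer inferInstance hz)).hasNormalPComplement_of_normalizer_le
    fun _ hn => mem_centralizer_of_cyclic P hP hz hz1 hn.2
      (mul_inv_eq_iff_eq_mul.2 (mem_centralizer_singleton_iff.1 hn.1))

theorem normalizer_le_of_pairs [IsSimpleGroup G] (P : Sylow p G) (hP : IsCyclic (P : Subgroup G))
    (hpr : ∀ x y : G, orderOf x = p → orderOf y = p → IsPSolvable p (closure ({x, y} : Set G))) :
    normalizer ((P : Subgroup G) : Set G) ≤ centralizer ((P : Subgroup G) : Set G) := by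
  classical
  intro n0 hn0
  by_contra hn0'
  have := Fintype.ofFinite G
  obtain ⟨W⟩ := H3.nonempty_wedd G
  have hcomm : IsMulCommutative (P : Subgroup G) := inferInstance
  let ι := (P : Subgroup G).subtype
  let φ := (P : Subgroup G).normalizerMonoidHom
  have hφ : ∀ n (z : (P : Subgroup G)), ι (φ n z) = n * ι z * n⁻¹ := fun _ _ => rfl
  have hE : ∀ σ ∈ φ.range, ∀ z : (P : Subgroup G), z ≠ 1 → σ z = z → σ = 1 := by
    rintro _ ⟨n, rfl⟩ z hz h
    rw [← MonoidHom.mem_ker, normalizerMonoidHom_ker, mem_subgroupOf]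
    exact mem_centralizer_of_cyclic P hP z.2 (fun h => hz (Subtype.ext h)) n.2
      (congrArg Subtype.val h)
  have hσ0 : φ ⟨n0, hn0⟩ ≠ 1 := fun h => hn0' (by
    rwa [← MonoidHom.mem_ker, normalizerMonoidHom_ker, mem_subgroupOf] at h)
  have hnt : Nontrivial (P : Subgroup G) := by
    by_contra h
    rw [not_nontrivial_iff_subsingleton] at h
    exact hσ0 (MulEquiv.ext fun _ => Subsingleton.elim _ _)
  have hpq : p ∣ Fintype.card (P : Subgroup G) := by
    rw [← Nat.card_eq_fintype_card]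
    exact P.isPGroup'.card_eq_or_dvd.resolve_left Finite.one_lt_card.ne'
  obtain ⟨x, hx⟩ := exists_prime_orderOf_dvd_card p hpq
  have hx1 : x ≠ 1 := by rintro rfl; exact hp.out.ne_one (by simpa using hx.symm)
  set T := univ.filter (fun z : (P : Subgroup G) => orderOf z = p) with hT
  have hTc : T.card = p - 1 := by
    rw [hT, IsCyclic.card_orderOf_eq_totient hpq, Nat.totient_prime hp.out]
  have hT1 : ∀ z ∈ T, z ≠ 1 := by
    rintro _ h rfl
    exact hp.out.ne_one (by simpa using (mem_filter.1 h).2.symm)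
  have hTσ : ∀ (σ : MulAut (P : Subgroup G)), ∀ z ∈ T, σ z ∈ T := fun σ z hz => by
    simpa [hT] using hz
  have hxT : x ∈ T := by simpa [hT] using hx
  have he : Nat.card φ.range ≤ p - 1 := by
    rw [← hTc, Nat.card_eq_fintype_card, ← card_univ]
    refine card_le_card_of_injOn (fun σ => (σ : MulAut _) x) (fun σ _ => hTσ _ x hxT)
      fun σ _ τ _ h => ?_
    have h2 : ((τ⁻¹ * σ : φ.range) : MulAut _) x = x := by
      have h : (σ : MulAut _) x = (τ : MulAut _) x := h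
      simp [h]
    exact (inv_mul_eq_one.1 (Subtype.ext (hE _ (τ⁻¹ * σ).2 x hx1 h2))).symm
  have hp2 : p ≠ 2 := by
    rintro rfl
    have : Subsingleton φ.range := Finite.card_le_one_iff_subsingleton.1 he
    exact hσ0 (congrArg Subtype.val (Subsingleton.elim (⟨_, _, rfl⟩ : φ.range) 1))
  have hp3 : (3 : ℝ) ≤ p := by
    have := hp.out.two_le
    exact_mod_cast (by omega : 3 ≤ p)
  have hnpc : ∀ z : (P : Subgroup G), z ≠ 1 → HasNormalPComplement p (centralizer ({ι z} : Set G)) :=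
    fun z hz => npc_of_cyclic P hP z.2 fun h => hz (Subtype.ext h)
  have hc : ∀ z z' : (P : Subgroup G), z ≠ 1 →
      ∑ j ∈ B0 p W, W.χ j (gE (ι z)) * W.χ j (gE (ι z')) =
      if ∃ σ ∈ φ.range, σ z = z'⁻¹ then (Fintype.card (P : Subgroup G) : ℂ) else 0 := by
    intro z z' hz
    rw [← Nat.card_eq_fintype_card]
    refine (col_sylow W P hcomm z.2 z'.2 (hnpc z hz)).trans (if_congr ⟨fun h => ?_, ?_⟩ rfl rfl)
    · obtain ⟨g, hg⟩ := isConj_iff.1 h.symm
      obtain ⟨y, hy, e⟩ := (sylow_isSylowIn_top P).fusion_elt_of_comm hcomm _ z.2 g trivial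
        (hg ▸ inv_mem z'.2)
      exact ⟨_, ⟨⟨y, hy.2⟩, rfl⟩, Subtype.ext (e.trans hg)⟩
    · rintro ⟨_, ⟨n, rfl⟩, h⟩
      exact (isConj_iff.2 ⟨(n : G), congrArg Subtype.val h⟩).symm
  have ho : ∀ z : (P : Subgroup G), z ≠ 1 →
      ∑ j ∈ B0 p W, (W.d j : ℂ) * W.χ j (gE (ι z)) = 0 := fun z hz => osima W (by
    obtain ⟨k, hk⟩ := IsPGroup.iff_orderOf.1 P.isPGroup' z
    rw [show orderOf (ι z) = p ^ k from (orderOf_coe z).trans hk]
    exact dvd_pow_self p (by rintro rfl; exact hz (orderOf_eq_one_iff.1 (by simpa using hk))))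
  let m : Fin W.n → ℕ := fun j => ∑ l ∈ univ.filter (fun l : (P : Subgroup G) →* ℂˣ => l x = 1),
    nL ι W j l
  let b : Fin W.n → ℤ := fun j => p * m j - W.d j
  have hb : ∀ j, ∑ z ∈ T, W.χ j (gE (ι z)) = b j := fun j => by
    have h1 := sum_χ_pow ι W j (orderOf_dvd_iff_pow_eq_one.1 hx.dvd)
    rw [sum_range_pow hx fun z => W.χ j (gE (ι z)), map_one, gE_one, W.χ_one] at h1
    simp only [b, m]
    push_cast
    rw [← h1]; ring
  have hcj : ∀ d : G, orderOf d = p → ∃ g, ∃ y : (P : Subgroup G), orderOf y = p ∧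
      d = g * ι y * g⁻¹ := fun d hd => by
    obtain ⟨g, y, hy, hyo, rfl⟩ := exists_conj_mem P hd
    exact ⟨g, ⟨y, hy⟩, (orderOf_mk _ _).trans hyo, rfl⟩
  have hp1 : (p : ℂ) - 1 ≠ 0 := sub_ne_zero.2 (by exact_mod_cast hp.out.ne_one)
  have hp1' : (p : ℝ) - 1 ≠ 0 := by linarith
  obtain ⟨j0, hj0⟩ := W.exists_ker_eq_top
  refine pair_false W hp2 ⟨ι x, (orderOf_coe x).trans hx⟩ (fun d hd => ?_)
    (κ := Nat.card (Kz p (ι x))) (fun d hd => ?_)
    (fun y z hy hz => pair_struct P hcomm hy hz (hpr y z hy hz)) (fun j => b j / (p - 1))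
    (fun j => ?_) (fun j hj hk => ?_) ?_
  · obtain ⟨g, y, hy, rfl⟩ := hcj d hd
    exact hasNPC_conj g (hnpc y (hT1 y (by simpa [hT] using hy)))
  · obtain ⟨g, y, hy, rfl⟩ := hcj d hd
    rw [card_Kz_conj]
    have h1 : ∀ y z : (P : Subgroup G), orderOf y = p → orderOf z = p →
        centralizer ({ι y} : Set G) ≤ centralizer ({ι z} : Set G) := by
      intro y z hy hz c hc
      have h2 := sum_range_pow hy fun w => if w = z then 1 else 0
      have hzT : z ∈ T := by simpa [hT] using hz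
      rw [if_neg (hT1 z hzT).symm, sum_ite_eq', if_pos hzT, zero_add] at h2
      obtain ⟨i, -, hi⟩ := exists_ne_zero_of_sum_ne_zero (h2 ▸ one_ne_zero)
      rw [← (show y ^ i = z by simpa using hi), map_pow, mem_centralizer_singleton_iff]
      exact (Commute.pow_right (mem_centralizer_singleton_iff.1 hc) i).eq
    rw [Kz, Kz, le_antisymm (h1 y x hy hx) (h1 x y hx hy)]
  · have h1 : ∑ d ∈ Dset p G, ∑ i ∈ range p, W.χ j (gE (d ^ i)) =
        (Dset p G).card * (W.d j + b j) := by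
      rw [← nsmul_eq_mul, ← sum_const]
      refine sum_congr rfl fun d hd => ?_
      obtain ⟨g, y, hy, rfl⟩ := hcj d (mem_Dset.1 hd)
      simp only [conj_pow, W.χ_gE_conj, ← map_pow]
      rw [sum_range_pow hy fun z => W.χ j (gE (ι z)), map_one, gE_one, W.χ_one, hb]
    rw [sum_comm, range_eq_Ico, sum_eq_sum_Ico_succ_bot hp.out.pos,
      sum_congr rfl (s₁ := Ico (0 + 1) p) fun i hi => sum_Dset_pow (fun d => W.χ j (gE d))
        (Nat.coprime_of_lt_prime (by simp at hi; omega) (mem_Ico.1 hi).2 hp.out).symm] at h1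
    simp only [pow_zero, gE_one, W.χ_one, sum_const, Nat.card_Ico, nsmul_eq_mul, zero_add,
      Nat.cast_sub hp.out.one_le, Nat.cast_one] at h1
    push_cast
    field_simp
    linear_combination h1
  · have h1 := mult_bound ι W hp2 (B0 p W) hE (fun z z' hz => by convert hc z z' hz) ho he hx (fun σ _ => by
      obtain ⟨i, hi⟩ := MonoidHom.map_cyclic σ.toMonoidHom
      exact ⟨i, (hi x).symm⟩) hj (mem_B0_of_ker_eq_top W hj0) hj0 (fun h => by
        rcases (W.ker_normal j).eq_bot_or_eq_top with h' | h'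
        · exact hx1 (Subtype.ext (by rwa [h', mem_bot] at h))
        · exact hk h')
    have h2 := d_eq_sum_nL ι W j
    rw [← sum_add_sum_compl (univ.filter (fun l : (P : Subgroup G) →* ℂˣ => l x = 1))] at h2
    set c := ∑ l ∈ (univ.filter (fun l : (P : Subgroup G) →* ℂˣ => l x = 1))ᶜ, nL ι W j l
    have h1' : 2 * (m j : ℝ) ≤ (p - 1) * c := by
      have : ((2 * m j : ℕ) : ℝ) ≤ ((p - 1) * c : ℕ) := by exact_mod_cast h1
      rwa [Nat.cast_mul, Nat.cast_mul, Nat.cast_sub hp.out.one_le, Nat.cast_one] at this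
    have h2' : (W.d j : ℝ) = m j + c := by exact_mod_cast h2
    rw [mul_assoc, mul_div_cancel₀ _ hp1']
    simp only [b]
    push_cast
    rw [h2']
    nlinarith
  · have h1 : ∑ j ∈ B0 p W, (b j : ℂ) ^ 2 = ((∑ z ∈ T, (T.filter fun z' =>
        ∃ σ ∈ φ.range, σ z = z'⁻¹).card) * Fintype.card (P : Subgroup G) : ℕ) := by
      simp only [← hb, sq, sum_mul_sum]
      rw [sum_comm, Nat.cast_mul, Nat.cast_sum, sum_mul]
      refine sum_congr rfl fun z hz => ?_
      rw [sum_comm]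
      simp only [hc z _ (hT1 z hz)]
      rw [← sum_filter, sum_const, nsmul_eq_mul]
    have h2 : (p - 1) * 2 ≤ ∑ z ∈ T, (T.filter fun z' => ∃ σ ∈ φ.range, σ z = z'⁻¹).card := by
      rw [← hTc, ← smul_eq_mul]
      refine card_nsmul_le_sum _ _ _ fun z hz => one_lt_card.2 ⟨z⁻¹, mem_filter.2
        ⟨by simpa [hT] using hz, 1, one_mem _, by simp⟩, (φ ⟨n0, hn0⟩ z)⁻¹, mem_filter.2
        ⟨by simpa [hT] using hz, _, ⟨_, rfl⟩, (inv_inv _).symm⟩, fun h => ?_⟩
      exact hσ0 (hE _ ⟨_, rfl⟩ z (hT1 z hz) (inv_inj.1 h).symm)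
    have h3 : (((p - 1) * 2 * p : ℕ) : ℝ) ≤ ∑ j ∈ B0 p W, (b j : ℝ) ^ 2 := by
      have h4 : ∑ j ∈ B0 p W, (b j : ℝ) ^ 2 = ((∑ z ∈ T, (T.filter fun z' =>
        ∃ σ ∈ φ.range, σ z = z'⁻¹).card) * Fintype.card (P : Subgroup G) : ℕ) := by
        exact_mod_cast h1
      rw [h4]
      exact_mod_cast Nat.mul_le_mul h2 (Nat.le_of_dvd Fintype.card_pos hpq)
    simp only [div_pow, ← sum_div]
    rw [Nat.cast_mul, Nat.cast_mul, Nat.cast_sub hp.out.one_le, Nat.cast_one] at h3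
    rw [sq, ← div_div, mul_div_cancel₀ _ hp1', le_div_iff₀ (by linarith)]
    push_cast at h3
    linarith

end Simple

end Cfsg.Agent.H1.PB
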