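import Mathlib.RepresentationTheory.Basic
import Mathlib.LinearAlgebra.Eigenspace.Zero
import Mathlib.LinearAlgebra.Eigenspace.Triangularizable
import Mathlib.LinearAlgebra.Charpoly.BaseChange
import Mathlib.RingTheory.Flat.Basic
import Mathlib.FieldTheory.IsAlgClosed.AlgebraicClosure
import Mathlib.FieldTheory.Finite.Basic
import Mathlib.Algebra.CharP.CharAndCard
import Mathlib.LinearAlgebra.Eigenspace.Charpoly
import Cfsg.Agent.H1.Basic
import Cfsg.Agent.H2.PGroup

/-! Derived length of linear `p`-groups in coprime characteristic. -/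

set_option autoImplicit false

namespace Cfsg.Agent.H1

open Module
open scoped commutatorElement

universe u v

theorem derivedSeries_succ_le_map {G : Type*} [Group G] {M : Subgroup G} (h : commutator G ≤ M)
    (d : ℕ) : derivedSeries G (d + 1) ≤ (derivedSeries M d).map M.subtype := by
  induction d with
  | zero => rwa [derivedSeries_zero, ← MonoidHom.range_eq_map, Subgroup.range_subtype]
  | succ d ih =>
    rw [derivedSeries_succ M, Subgroup.map_commutator, derivedSeries_succ]
    exact Subgroup.commutator_mono ih ih

theorem map_derivedSeries_commutator (G : Type*) [Group G] (d : ℕ) :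
    (derivedSeries (commutator G) d).map (commutator G).subtype = derivedSeries G (d + 1) := by
  induction d with
  | zero => rw [derivedSeries_zero, ← MonoidHom.range_eq_map, Subgroup.range_subtype]; rfl
  | succ d ih => rw [derivedSeries_succ, Subgroup.map_commutator, ih, derivedSeries_succ G (d + 1)]

variable {K : Type*} [Field K] {p : ℕ} [hp : Fact p.Prime]

theorem end_eq_one_of_invariant {V : Type*} [AddCommGroup V] [Module K V] (hK : (p : K) ≠ 0)
    {T : End K V} {k : ℕ} (hT : T ^ p ^ k = 1) {U : Submodule K V} (h1 : ∀ u ∈ U, T u = u)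
    (h2 : ∀ v, T v - v ∈ U) : T = 1 := by
  ext v
  have : ∀ m : ℕ, (T ^ m) v = v + (m : K) • (T v - v) := by
    intro m
    induction m with
    | zero => simp
    | succ m ih =>
      rw [pow_succ', End.mul_apply, ih, map_add, map_smul, h1 _ (h2 v), Nat.cast_succ, add_smul,
        one_smul]
      abel
  have h3 := this (p ^ k)
  rw [hT, End.one_apply, left_eq_add, smul_eq_zero, Nat.cast_pow] at h3
  exact sub_eq_zero.1 (h3.resolve_left (pow_ne_zero _ hK))

/-- Reduction to irreducible representations. -/
theorem rep_induction {P : Type*} [Group P] (hP : IsPGroup p P) (hK : (p : K) ≠ 0)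
    (N : Subgroup P) (n : ℕ)
    (h : ∀ (V : Type v) [AddCommGroup V] [Module K V] [FiniteDimensional K V] [Nontrivial V]
      (ρ : Representation K P V), finrank K V < n →
      (∀ U : Submodule K V, (∀ g, U ≤ U.comap (ρ g)) → U = ⊥ ∨ U = ⊤) → N ≤ MonoidHom.ker ρ)
    (V : Type v) [AddCommGroup V] [Module K V] [FiniteDimensional K V]
    (ρ : Representation K P V) (hn : finrank K V < n) : N ≤ MonoidHom.ker ρ := by
  induction hm : finrank K V using Nat.strong_induction_on generalizing V with | _ m ih => ?_
  subst hm
  rcases subsingleton_or_nontrivial V with hV | hV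
  · exact fun g _ => Subsingleton.elim _ _
  by_cases hirr : ∀ U : Submodule K V, (∀ g, U ≤ U.comap (ρ g)) → U = ⊥ ∨ U = ⊤
  · exact h V ρ hn hirr
  push Not at hirr
  obtain ⟨U, hU, h0, h1⟩ := hirr
  have h2 : finrank K U < finrank K V := Submodule.finrank_lt h1
  have h3 : finrank K (V ⧸ U) < finrank K V := by
    have := U.finrank_quotient_add_finrank
    have := mt Submodule.finrank_eq_zero.1 h0
    omega
  intro g hg
  obtain ⟨k, hk⟩ := hP g
  refine end_eq_one_of_invariant hK (k := k) (U := U) (by rw [← map_pow, hk, map_one])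
    (fun u hu => ?_) fun v => ?_
  · exact congrArg Subtype.val (LinearMap.congr_fun
      (ih _ h2 U (ρ.subrepresentation U hU) (h2.trans hn) rfl hg) ⟨u, hu⟩)
  · exact (Submodule.Quotient.eq U).1 (LinearMap.congr_fun
      (ih _ h3 (V ⧸ U) (ρ.quotient U hU) (h3.trans hn) rfl hg) (Submodule.Quotient.mk v))

theorem derivedSeries_le_ker_of_isAlgClosed [IsAlgClosed K] (hK : (p : K) ≠ 0) (d : ℕ) :
    ∀ (P : Type u) [Group P] [Finite P], IsPGroup p P →
      ∀ (V : Type v) [AddCommGroup V] [Module K V] [FiniteDimensional K V]
      (ρ : Representation K P V), finrank K V < 2 ^ d → derivedSeries P d ≤ MonoidHom.ker ρ := by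
  induction d with
  | zero =>
    intro P _ _ _ V _ _ _ ρ hn g _
    have : Subsingleton V := finrank_zero_iff.1 (by omega : finrank K V = 0)
    exact Subsingleton.elim _ _
  | succ d ih =>
    intro P _ _ hP
    refine rep_induction hP hK _ _ fun V _ _ _ _ ρ hn hirr => ?_
    have := hP.isNilpotent
    let S : Subgroup P :=
      { carrier := {g | ∃ c : K, ρ g = c • 1}
        one_mem' := ⟨1, by simp⟩
        mul_mem' := by
          rintro a b ⟨c, hc⟩ ⟨c', hc'⟩
          exact ⟨c * c', by rw [map_mul, hc, hc']; simp [smul_smul, mul_comm]⟩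
        inv_mem' := by
          rintro a ⟨c, hc⟩
          have h1 : c • ρ a⁻¹ = 1 := by
            rw [← map_one ρ, ← mul_inv_cancel a, map_mul, hc, smul_mul_assoc, one_mul]
          have h2 : c ≠ 0 := by
            rintro rfl
            exact zero_ne_one ((zero_smul K _).symm.trans h1)
          exact ⟨c⁻¹, by rw [← h1, smul_smul, inv_mul_cancel₀ h2, one_smul]⟩ }
    have hcomm : ∀ a b : P, Commute (ρ a) (ρ b) → ρ ⁅a, b⁆ = 1 := by
      intro a b h
      rw [commutatorElement_def, map_mul, map_mul, map_mul, h.eq, ← map_mul, ← map_mul, ← map_mul]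
      simp
    by_cases hS : ⊤ ≤ S
    · refine (derivedSeries_antitone P (Nat.le_add_left 1 d)).trans ?_
      rw [derivedSeries_one, _root_.commutator_def, Subgroup.commutator_le]
      intro a _ b _
      obtain ⟨c, hc⟩ := hS (Subgroup.mem_top a)
      exact hcomm a b (hc ▸ (Commute.one_left _).smul_left c)
    obtain ⟨x, -, hxS, hx⟩ := H2.exists_mem_not_mem_commutator_mem_top hS
    choose ζ hζ using hx
    have hζ' : ∀ g, ρ x * ρ g = ζ g • (ρ g * ρ x) := by
      intro g
      rw [← one_mul (ρ g * ρ x), ← smul_mul_assoc, ← hζ, ← map_mul, ← map_mul, ← map_mul,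
        commutatorElement_def]
      congr 1
      group
    have hE : ∀ g μ, ∀ v ∈ End.eigenspace (ρ x) μ, ρ g v ∈ End.eigenspace (ρ x) (ζ g * μ) := by
      intro g μ v hv
      rw [End.mem_eigenspace_iff] at hv ⊢
      rw [← End.mul_apply, hζ', LinearMap.smul_apply, End.mul_apply, hv, map_smul, smul_smul]
    obtain ⟨μ₀, hμ₀⟩ := End.exists_eigenvalue (ρ x)
    have hg : ∃ g, ζ g ≠ 1 := by
      by_contra! h
      rcases hirr (End.eigenspace (ρ x) μ₀) (fun g v hv => by simpa [h g] using hE g μ₀ v hv)
        with h | h
      · exact hμ₀ h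
      · exact hxS ⟨μ₀, LinearMap.ext fun v => End.mem_eigenspace_iff.1 (h.ge trivial)⟩
    obtain ⟨g, hg⟩ := hg
    have htop : ⨆ μ, End.eigenspace (ρ x) μ = ⊤ := by
      refine (hirr _ fun g => iSup_le fun μ v hv => ?_).resolve_left fun h => hμ₀ ?_
      · exact Submodule.mem_iSup_of_mem _ (hE g μ v hv)
      · exact eq_bot_iff.2 (h ▸ le_iSup (fun μ => End.eigenspace (ρ x) μ) μ₀)
    have hinj : ∀ g, Function.Injective (ρ g) := fun g =>
      Function.LeftInverse.injective (g := ρ g⁻¹) fun v => by
        rw [← End.mul_apply, ← map_mul, inv_mul_cancel, map_one, End.one_apply]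
    let M : Subgroup P := (Subgroup.centralizer {ρ.toHomUnits x}).comap ρ.toHomUnits
    have hM : ∀ a, a ∈ M ↔ ρ a * ρ x = ρ x * ρ a := fun a => by
      simp only [M, Subgroup.mem_comap, Subgroup.mem_centralizer_singleton_iff, Units.ext_iff,
        Units.val_mul, MonoidHom.coe_toHomUnits]
    have hPM : commutator P ≤ M := by
      rw [_root_.commutator_def, Subgroup.commutator_le]
      intro a _ b _
      have h1 : ∀ a, ζ a • (ρ x * ρ a⁻¹) = ρ a⁻¹ * ρ x := by
        intro a
        calc _ = ρ a⁻¹ * (ζ a • (ρ a * ρ x)) * ρ a⁻¹ := by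
              rw [mul_smul_comm, smul_mul_assoc, ← mul_assoc, ← map_mul ρ a⁻¹, inv_mul_cancel,
                map_one, one_mul]
          _ = _ := by rw [← hζ', mul_assoc, mul_assoc, ← map_mul ρ a, mul_inv_cancel, map_one,
            mul_one]
      rw [hM, commutatorElement_def, map_mul, map_mul, map_mul, mul_assoc, ← h1, mul_smul_comm,
        mul_assoc, ← mul_assoc (ρ a⁻¹), ← h1, smul_mul_assoc, mul_smul_comm, ← mul_assoc (ρ x),
        ← mul_assoc (ρ x), ← mul_assoc (ρ x), hζ' a, smul_mul_assoc, smul_mul_assoc,
        smul_mul_assoc, mul_assoc (ρ a) (ρ x), hζ' b, smul_comm]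
      simp only [mul_assoc, mul_smul_comm, smul_mul_assoc]
    refine (derivedSeries_succ_le_map hPM d).trans ?_
    rintro _ ⟨a, ha, rfl⟩
    refine LinearMap.ext fun v => ?_
    have hv : v ∈ ⨆ μ, End.eigenspace (ρ x) μ := htop ▸ trivial
    induction hv using Submodule.iSup_induction' with
    | zero => simp
    | add v w _ _ h1 h2 => rw [map_add, map_add, h1, h2]
    | mem μ v hv =>
      by_cases hv0 : v = 0
      · simp [hv0]
      have hμ : μ ≠ 0 := by
        rintro rfl
        exact hv0 (hinj x (by simpa using hv))
      have hdim : finrank K (End.eigenspace (ρ x) μ) < 2 ^ d := by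
        have h1 : finrank K (End.eigenspace (ρ x) μ) ≤
            finrank K (End.eigenspace (ρ x) (ζ g * μ)) :=
          LinearMap.finrank_le_finrank_of_injective (f := (ρ g).restrict (hE g μ))
            fun a b h => Subtype.ext (hinj g (congrArg Subtype.val h))
        have h2 := Submodule.finrank_add_finrank_le_of_disjoint
          ((End.eigenspaces_iSupIndep (ρ x)).pairwiseDisjoint
            (show μ ≠ ζ g * μ from fun h => hg (mul_right_cancel₀ hμ (by rw [← h, one_mul]))))
        have h3 := pow_succ 2 d
        omega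
      have := ih M (hP.to_subgroup M) _ (Representation.subrepresentation (ρ.comp M.subtype)
        (End.eigenspace (ρ x) μ) fun m => End.mapsTo_genEigenspace_of_comm
          (show Commute (ρ x) (ρ m) from ((hM m).1 m.2).symm) μ 1) hdim ha
      exact congrArg Subtype.val (LinearMap.congr_fun this ⟨v, hv⟩)

theorem derivedSeries_le_ker_of_finite {F : Type*} [Field F] [Fintype F]
    (hF : ¬ p ∣ Fintype.card F) (d : ℕ) {P : Type*} [Group P] [Finite P] (hP : IsPGroup p P)
    (V : Type v) [AddCommGroup V] [Module F V] [FiniteDimensional F V] (ρ : Representation F P V)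
    (hn : finrank F V < orderOf (Fintype.card F : ZMod p) * 2 ^ d) :
    derivedSeries P d ≤ MonoidHom.ker ρ := by
  classical
  have hpF : (p : F) ≠ 0 := fun h => hF ((prime_dvd_char_iff_dvd_card p).1
    ((ringChar.spec F p).1 h |> fun h' => by
      rw [(Nat.prime_dvd_prime_iff_eq (CharP.char_is_prime F _) hp.out).1 h']))
  refine rep_induction hP hpF _ _ (fun V _ _ _ _ ρ hn hirr => ?_) V ρ hn
  by_cases h0 : ⊤ ≤ MonoidHom.ker ρ
  · exact le_top.trans h0
  obtain ⟨z, -, hz1, hzp, hz⟩ := H2.exists_mem_not_mem_pow_mem_top hP h0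
  have hzc : ∀ g, ρ z * ρ g = ρ g * ρ z := by
    intro g
    rw [← one_mul (ρ g * ρ z), ← hz g, ← map_mul, ← map_mul, ← map_mul, commutatorElement_def]
    congr 1
    group
  have h1 : ¬ End.HasEigenvalue (ρ z) 1 := by
    rcases hirr (End.eigenspace (ρ z) 1) (fun g => End.mapsTo_genEigenspace_of_comm (hzc g) 1 1)
      with h | h
    · exact fun h' => h' h
    · exact absurd (LinearMap.ext fun v => by
        simpa using End.mem_eigenspace_iff.1 (h.ge (Submodule.mem_top (x := v)))) hz1
  let K := AlgebraicClosure F
  let ρ' : Representation K P (TensorProduct F K V) :=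
    (End.baseChangeHom F K V).toMonoidHom.comp ρ
  have hρ' : ∀ g, ρ' g = (ρ g).baseChange K := fun _ => rfl
  intro a ha
  refine LinearMap.baseChangeHom_injective F V K ?_
  change ρ' a = (1 : End F V).baseChange K
  rw [LinearMap.baseChange_one]
  refine LinearMap.ext fun v => ?_
  have hv : v ∈ ⨆ μ, End.maxGenEigenspace (ρ' z) μ :=
    End.iSup_maxGenEigenspace_eq_top (ρ' z) ▸ trivial
  induction hv using Submodule.iSup_induction' with
  | zero => simp
  | add v w _ _ h1 h2 => rw [map_add, map_add, h1, h2]
  | mem μ v hv =>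
    have hdim : finrank K (End.maxGenEigenspace (ρ' z) μ) < 2 ^ d := by
      rw [LinearMap.finrank_maxGenEigenspace_eq, hρ', LinearMap.charpoly_baseChange]
      set f := (ρ z).charpoly.map (algebraMap F K) with hf
      have hf0 : f ≠ 0 := ((ρ z).charpoly_monic.map _).ne_zero
      by_cases hroot : f.IsRoot μ
      swap
      · rw [Polynomial.rootMultiplicity_eq_zero hroot]; positivity
      have hμp : μ ^ p = 1 := by
        have h2 : End.HasEigenvalue (ρ' z) μ := by
          rwa [End.hasEigenvalue_iff_isRoot_charpoly, hρ', LinearMap.charpoly_baseChange]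
        obtain ⟨w, hw⟩ := (h2.pow p).exists_hasEigenvector
        have h3 := hw.apply_eq_smul
        rw [← map_pow, hρ', show ρ (z ^ p) = 1 from hzp, LinearMap.baseChange_one,
          End.one_apply] at h3
        exact smul_left_injective K hw.2 (h3.symm.trans (one_smul K w).symm)
      have hμ1 : μ ≠ 1 := by
        rintro rfl
        rw [hf, ← map_one (algebraMap F K), Polynomial.isRoot_map_iff (algebraMap F K).injective,
          ← End.hasEigenvalue_iff_isRoot_charpoly] at hroot
        exact h1 hroot
      have hμ : orderOf μ = p := orderOf_eq_prime hμp hμ1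
      have h2 : ∀ i : ℕ, f.rootMultiplicity (μ ^ Fintype.card F ^ i) = f.rootMultiplicity μ := by
        intro i
        induction i with
        | zero => simp
        | succ i ih =>
          rw [← ih, Polynomial.eq_rootMultiplicity_map
            (FiniteField.frobeniusAlgHom F K).toRingHom.injective (μ ^ Fintype.card F ^ i), hf,
            Polynomial.map_map, pow_succ, pow_mul]
          congr 2
          exact (FiniteField.frobeniusAlgHom F K).comp_algebraMap.symm
      set e := orderOf (Fintype.card F : ZMod p) with he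
      have h3 : Set.InjOn (fun i => μ ^ Fintype.card F ^ i) (Finset.range e) := by
        intro i hi j hj hij
        have hμu : IsUnit μ := IsUnit.of_pow_eq_one hμp hp.out.ne_zero
        obtain ⟨μ, rfl⟩ := hμu
        simp only [← Units.val_pow_eq_pow_val, Units.val_inj] at hij
        rw [pow_eq_pow_iff_modEq, ← orderOf_units, hμ, ← ZMod.natCast_eq_natCast_iff, Nat.cast_pow,
          Nat.cast_pow] at hij
        exact pow_injOn_Iio_orderOf (by simpa using hi) (by simpa using hj) hij
      have h4 : e * f.rootMultiplicity μ ≤ finrank F V := by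
        calc e * f.rootMultiplicity μ
            = ∑ x ∈ (Finset.range e).image (fun i => μ ^ Fintype.card F ^ i), f.roots.count x := by
              rw [Finset.sum_image h3]
              simp [h2]
          _ ≤ Multiset.card f.roots := by
              rw [← Multiset.toFinset_sum_count_eq]
              refine Finset.sum_le_sum_of_ne_zero fun x _ hx => ?_
              exact Multiset.mem_toFinset.2 (Multiset.count_ne_zero.1 hx)
          _ ≤ f.natDegree := f.card_roots'
          _ = finrank F V := by
              rw [hf, (ρ z).charpoly_monic.natDegree_map, LinearMap.charpoly_natDegree]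
      exact Nat.lt_of_mul_lt_mul_left (h4.trans_lt hn)
    have := derivedSeries_le_ker_of_isAlgClosed (K := K)
      (by rw [← map_natCast (algebraMap F K)]; exact (map_ne_zero _).2 hpF) d P hP
      (End.maxGenEigenspace (ρ' z) μ)
      (Representation.subrepresentation ρ' (End.maxGenEigenspace (ρ' z) μ) fun g =>
        End.mapsTo_maxGenEigenspace_of_comm (show Commute (ρ' z) (ρ' g) by
          rw [Commute, SemiconjBy, hρ', hρ', ← LinearMap.baseChange_mul, hzc,
            LinearMap.baseChange_mul]) μ) hdim ha
    exact congrArg Subtype.val (LinearMap.congr_fun this ⟨v, hv⟩)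

end Cfsg.Agent.H1
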