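import Cfsg.Agent.H1.PBlock
import Cfsg.Agent.L.PSolv

/-! Counting pairs of elements of order `p` with the principal `p`-block. -/

set_option autoImplicit false

namespace Cfsg.Agent.H1.PB

open scoped MonoidAlgebra
open Subgroup
open Cfsg.Agent.H3 (gE gE_mul gE_one coeff_gE coeff_gE_mul coeff_mul_gE ext_coeff commute_gE_iff
  ofFun coeff_ofFun coeff_mul_sum coeff_mul_sum' Wedd avg coeff_avg_of_mem coeff_avg_of_notMem
  card_cast_ne_zero aug orderOf_conj'' central_of_commute_gE coeff_finsum)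

variable {p : ℕ} [hp : Fact p.Prime] {G : Type*} [Group G]

/-- The `p`-regular part of the centralizer of an element. -/
abbrev Kz (p : ℕ) (z : G) : Subgroup G := pResidualOf p (centralizer ({z} : Set G))

lemma Kz_le (z : G) : Kz p z ≤ centralizer ({z} : Set G) := pResidualOf_le _

lemma mem_Kz {z c : G} (hc : c ∈ centralizer ({z} : Set G)) (h : ¬ p ∣ orderOf c) : c ∈ Kz p z :=
  mem_pResidualOf hc ((hp.out.coprime_iff_not_dvd).2 h).symm

lemma eq_one_of_reg {k : G} {n : ℕ} (h1 : k ^ p ^ n = 1) (h : ¬ p ∣ orderOf k) : k = 1 :=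
  eq_one_of_pow_of_coprime h1 ((hp.out.coprime_iff_not_dvd).2 h).symm

lemma reg_of_mem [Finite G] {N : Subgroup G} (hN : ¬ p ∣ Nat.card N) {k : G} (hk : k ∈ N) :
    ¬ p ∣ orderOf k := fun h => hN (h.trans (N.orderOf_dvd_natCard hk))

lemma eq_of_mul_Kz [Finite G] {z z' : G} {n m : ℕ} (hz : z ^ p ^ n = 1) (hz' : z' ^ p ^ m = 1)
    (hK : ¬ p ∣ Nat.card (Kz p z)) (h : z⁻¹ * z' ∈ Kz p z) : z' = z := by
  have h1 : Commute z (z⁻¹ * z') := (mem_centralizer_singleton_iff.1 (Kz_le z h)).symm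
  have h2 : Commute z z' := by
    have := (Commute.refl z).mul_right h1
    rwa [mul_inv_cancel_left] at this
  have h3 : (z⁻¹ * z') ^ p ^ (n + m) = 1 := by
    rw [h2.inv_left.mul_pow, inv_pow, pow_add, pow_mul, hz, mul_comm (p ^ n), pow_mul, hz']
    simp
  have := eq_one_of_reg h3 (reg_of_mem hK h)
  rw [inv_mul_eq_one] at this
  exact this.symm

variable [Fintype G]

lemma χ_Kz (W : Wedd G) (j : Fin W.n) {z : G} {n : ℕ} (hz : z ^ p ^ n = 1)
    (hC : HasNormalPComplement p (centralizer ({z} : Set G))) :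
    W.χ j (gE z * avg (Kz p z)) = if j ∈ B0 p W then W.χ j (gE z) else 0 :=
  χ_mul_avg W j hz (hasNormalPComplement_subgroup_iff_not_dvd.1 hC) (Kz_le z)
    fun _ hc h => mem_Kz hc h

open Classical in
/-- Column orthogonality in the principal block. -/
theorem col_B0 (W : Wedd G) {z z' : G} {n m : ℕ} (hz : z ^ p ^ n = 1) (hz' : z' ^ p ^ m = 1)
    (hC : HasNormalPComplement p (centralizer ({z} : Set G))) :
    (Nat.card (Kz p z) : ℂ) * ∑ j ∈ B0 p W, W.χ j (gE z) * W.χ j (gE z') =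
      if IsConj z'⁻¹ z then (Nat.card (centralizer ({z} : Set G)) : ℂ) else 0 := by
  have hK := hasNormalPComplement_subgroup_iff_not_dvd.1 hC
  have h1 : ∑ j ∈ B0 p W, W.χ j (gE z) * W.χ j (gE z') =
      ∑ j, W.χ j (gE z * avg (Kz p z)) * W.χ j (gE z') := by
    rw [← Finset.sum_filter_add_sum_filter_not Finset.univ (· ∈ B0 p W),
      Finset.sum_eq_zero (s := Finset.univ.filter fun i => ¬ i ∈ B0 p W)
      (fun i hi => by rw [χ_Kz W i hz hC, if_neg (Finset.mem_filter.1 hi).2, zero_mul]), add_zero]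
    refine Finset.sum_congr (by ext; simp) fun i hi => ?_
    rw [χ_Kz W i hz hC, if_pos (Finset.mem_filter.1 hi).2]
  rw [h1, W.column_gE, Finset.mul_sum]
  have h2 : ∀ x : G, (Nat.card (Kz p z) : ℂ) * (gE z * avg (Kz p z)).coeff (x * z'⁻¹ * x⁻¹) =
      if x * z'⁻¹ * x⁻¹ = z then 1 else 0 := by
    intro x
    rw [coeff_gE_mul]
    split_ifs with hx
    · rw [hx, inv_mul_cancel, coeff_avg_of_mem (one_mem _), mul_inv_cancel₀ (card_cast_ne_zero _)]
    · rw [coeff_avg_of_notMem, mul_zero]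
      intro h
      refine hx (eq_of_mul_Kz (m := m) hz ?_ hK h)
      rw [conj_pow, inv_pow, hz']; simp
  simp only [h2]
  rw [← Finset.sum_filter, Finset.sum_const, nsmul_eq_mul, mul_one]
  split_ifs with hc
  · obtain ⟨c, hc⟩ := isConj_iff.1 hc
    rw [Nat.card_eq_fintype_card, Fintype.card_subtype]
    congr 1
    refine Finset.card_bij (fun x _ => x * c⁻¹) (fun x hx => ?_) (fun x _ y _ h => ?_)
      (fun y hy => ⟨y * c, ?_, by simp⟩)
    · have hx := (Finset.mem_filter.1 hx).2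
      simp only [Finset.mem_filter, Finset.mem_univ, true_and, mem_centralizer_singleton_iff]
      calc x * c⁻¹ * z = x * z'⁻¹ * x⁻¹ * (x * c⁻¹) := by rw [← hc]; group
        _ = z * (x * c⁻¹) := by rw [hx]
    · simpa using h
    · have hy := mem_centralizer_singleton_iff.1 (Finset.mem_filter.1 hy).2
      simp only [Finset.mem_filter, Finset.mem_univ, true_and]
      calc y * c * z'⁻¹ * (y * c)⁻¹ = y * (c * z'⁻¹ * c⁻¹) * y⁻¹ := by group
        _ = z := by rw [hc, hy]; group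
  · rw [Finset.filter_eq_empty_iff.2 fun x _ hx => hc (isConj_iff.2 ⟨x, hx⟩)]
    simp

open Classical in
/-- The elements of order `p`. -/
noncomputable def Dset (p : ℕ) (G : Type*) [Group G] [Fintype G] : Finset G :=
  Finset.univ.filter fun g => orderOf g = p

omit hp in
lemma mem_Dset {g : G} : g ∈ Dset p G ↔ orderOf g = p := by simp [Dset]

omit [Fintype G] in
lemma pow_one_of_orderOf {d : G} (h : orderOf d = p) : d ^ p ^ 1 = 1 := by
  rw [pow_one, ← h, pow_orderOf_eq_one]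

omit [Fintype G] in
lemma mem_of_reg_of_pow_mem {N : Subgroup G} {g : G} (h : ¬ p ∣ orderOf g) (hg : g ^ p ∈ N) :
    g ∈ N := by
  obtain ⟨m, hm⟩ := exists_pow_eq_self_of_coprime ((hp.out.coprime_iff_not_dvd).2 h)
  rw [← hm]
  exact N.pow_mem hg m

open Classical in
/-- At most a proportion `1 / (p - 1)` of the pairs has a `p`-regular product. -/
lemma card_reg_pairs
    (hN : ∀ x y : G, orderOf x = p → orderOf y = p → ∃ N : Subgroup G, ¬ p ∣ Nat.card N ∧
      ∀ g ∈ closure ({x, y} : Set G), g ^ p ∈ N) :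
    ((Dset p G ×ˢ Dset p G).filter fun q => ¬ p ∣ orderOf (q.1 * q.2)).card * (p - 1) ≤
      (Dset p G).card * (Dset p G).card := by
  rw [← Finset.card_product, ← Nat.card_Ico 1 p, ← Finset.card_product]
  have hord : ∀ {y : G} {i : ℕ}, orderOf y = p → i ∈ Finset.Ico 1 p → orderOf (y ^ i) = p := by
    intro y i hy hi
    rw [Finset.mem_Ico] at hi
    rw [Nat.Coprime.orderOf_pow, hy]
    rw [hy]
    exact (hp.out.coprime_iff_not_dvd).2 (Nat.not_dvd_of_pos_of_lt hi.1 hi.2)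
  refine Finset.card_le_card_of_injOn (fun r => (r.1.1, r.1.2 ^ r.2)) (fun r hr => ?_) ?_
  · simp only [Finset.coe_product, Set.mem_prod, Finset.mem_coe, Finset.mem_filter,
      Finset.mem_product, mem_Dset] at hr ⊢
    exact ⟨hr.1.1.1, hord hr.1.1.2 hr.2⟩
  rintro ⟨⟨x, y⟩, i⟩ h1 ⟨⟨x', y'⟩, i'⟩ h2 h
  simp only [Finset.coe_product, Set.mem_prod, Finset.mem_coe, Finset.mem_filter,
    Finset.mem_product, mem_Dset, Prod.mk.injEq] at h1 h2 h
  obtain ⟨rfl, h⟩ := h
  have hz : ∀ {y : G} {i : ℕ}, orderOf y = p → i ∈ Finset.Ico 1 p → y ∈ zpowers (y ^ i) := by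
    intro y i hy hi
    rw [Finset.mem_Ico] at hi
    obtain ⟨m, hm⟩ := exists_pow_eq_self_of_coprime (x := y) (n := i)
      (by rw [hy]; exact ((hp.out.coprime_iff_not_dvd).2 (Nat.not_dvd_of_pos_of_lt hi.1 hi.2)).symm)
    exact ⟨m, by simpa using hm⟩
  obtain ⟨N, hN1, hN2⟩ := hN x (y ^ i) h1.1.1.1 (hord h1.1.1.2 h1.2)
  have hle : zpowers (y ^ i) ≤ closure ({x, y ^ i} : Set G) :=
    zpowers_le.2 (subset_closure (by simp))
  have hx : x ∈ closure ({x, y ^ i} : Set G) := subset_closure (by simp)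
  have hy := hz h1.1.1.2 h1.2
  have hy' := hz h2.1.1.2 h2.2
  rw [← h] at hy'
  have m1 := mem_of_reg_of_pow_mem h1.1.2 (hN2 _ (mul_mem hx (hle hy)))
  have m2 := mem_of_reg_of_pow_mem h2.1.2 (hN2 _ (mul_mem hx (hle hy')))
  have m3 : y⁻¹ * y' ∈ N := by simpa using N.mul_mem (N.inv_mem m1) m2
  have m4 : (y⁻¹ * y') ^ p ^ 1 = 1 := by
    obtain ⟨k, hk⟩ := mem_zpowers_iff.1 (mul_mem (inv_mem hy) hy')
    rw [← hk, ← zpow_natCast, ← zpow_mul, mul_comm, zpow_mul, zpow_natCast,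
      pow_one_of_orderOf (hord h1.1.1.2 h1.2), one_zpow]
  have m5 := eq_one_of_reg m4 (reg_of_mem hN1 m3)
  rw [inv_mul_eq_one] at m5
  subst m5
  have hi := Finset.mem_Ico.1 h1.2
  have hi' := Finset.mem_Ico.1 h2.2
  have := pow_injOn_Iio_orderOf (x := y) (by rw [h1.1.1.2]; exact hi.2)
    (by rw [h1.1.1.2]; exact hi'.2) h
  rw [this]

omit [Fintype G] in
lemma exists_part [Finite G] {N : Subgroup G} (hN : ¬ p ∣ Nat.card N) {g : G} (hg : g ^ p ∈ N)
    (h : p ∣ orderOf g) : ∃ d : G, orderOf d = p ∧ d⁻¹ * g ∈ Kz p d := by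
  obtain ⟨a, b, hab, ha, hb, ⟨k, hk⟩, hbo⟩ := exists_pPart (p := p) g
  have hc : Commute a b := by
    obtain ⟨i, rfl⟩ := mem_zpowers_iff.1 ha
    obtain ⟨j, hj⟩ := mem_zpowers_iff.1 hb
    rw [← hj]; exact Commute.zpow_zpow_self g i j
  have h1 : a ^ p = 1 := by
    refine eq_one_of_reg (p := p) (n := k) (by rw [← pow_mul, mul_comm, pow_mul, hk, one_pow]) ?_
    obtain ⟨i, hi⟩ := mem_zpowers_iff.1 ha
    refine reg_of_mem hN ?_
    rw [← hi, ← zpow_natCast, ← zpow_mul, mul_comm, zpow_mul, zpow_natCast]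
    exact N.zpow_mem hg i
  have hbr := (hp.out.coprime_iff_not_dvd).1 hbo.symm
  refine ⟨a, orderOf_eq_prime h1 ?_, ?_⟩
  · rintro rfl
    rw [one_mul] at hab
    exact hbr (hab ▸ h)
  · rw [hab, inv_mul_cancel_left]
    exact mem_Kz (mem_centralizer_singleton_iff.2 hc.symm) hbr

lemma numeric_false {ι : Type*} (B : Finset ι) (a d : ι → ℝ) (j0 : ι) (hj0 : j0 ∈ B) {P : ℝ}
    (hP : 3 ≤ P) (ha0 : a j0 = 1) (hd0 : d j0 = 1) (hd : ∀ j, 0 < d j)
    (h1 : ∑ j ∈ B, d j * a j = 0)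
    (h2 : (P - 2) * ∑ j ∈ B, a j ^ 2 ≤ (P - 1) * ∑ j ∈ B, a j ^ 3 / d j)
    (hb : ∀ j ∈ B, j ≠ j0 → (P + 1) * (P - 1) * a j ≤ (P ^ 2 - 2 * P - 1) * d j)
    (hA : 2 * P ≤ (P - 1) * ∑ j ∈ B, a j ^ 2) : False := by
  classical
  have hρ : 0 < P ^ 2 - 2 * P - 1 := by nlinarith
  obtain ⟨j1, hj1, hneg⟩ : ∃ j ∈ B, a j < 0 := by
    by_contra h
    push Not at h
    have := Finset.single_le_sum (f := fun j => d j * a j)
      (fun j hj => mul_nonneg (hd j).le (h j hj)) hj0
    simp only [ha0, hd0, h1] at this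
    linarith
  have hne : j1 ≠ j0 := by rintro rfl; linarith
  have h3 : ∑ j ∈ B.erase j0, (P + 1) * (P - 1) * (a j ^ 3 / d j) <
      ∑ j ∈ B.erase j0, (P ^ 2 - 2 * P - 1) * a j ^ 2 := by
    refine Finset.sum_lt_sum (fun j hj => ?_) ⟨j1, Finset.mem_erase.2 ⟨hne, hj1⟩, ?_⟩
    · have h4 := hb j (Finset.mem_of_mem_erase hj) (Finset.ne_of_mem_erase hj)
      rw [← mul_div_assoc, div_le_iff₀ (hd j)]
      nlinarith [sq_nonneg (a j)]
    · have h4 : a j1 ^ 3 / d j1 < 0 := div_neg_of_neg_of_pos (Odd.pow_neg (by decide) hneg) (hd j1)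
      have h5 : 0 ≤ (P ^ 2 - 2 * P - 1) * a j1 ^ 2 := mul_nonneg hρ.le (sq_nonneg _)
      have h6 : 0 < (P + 1) * (P - 1) := by nlinarith
      nlinarith
  rw [← Finset.mul_sum, ← Finset.mul_sum] at h3
  rw [← Finset.add_sum_erase B _ hj0, ← Finset.add_sum_erase B _ hj0] at h2
  rw [← Finset.add_sum_erase B _ hj0] at hA
  simp only [ha0, hd0, one_pow, div_one] at h2 hA
  nlinarith

open Classical in
theorem pair_false (W : Wedd G) (hp2 : p ≠ 2) (hD : ∃ x : G, orderOf x = p)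
    (hC : ∀ d : G, orderOf d = p → HasNormalPComplement p (centralizer ({d} : Set G)))
    {κ : ℕ} (hκ : ∀ d : G, orderOf d = p → Nat.card (Kz p d) = κ)
    (hN : ∀ x y : G, orderOf x = p → orderOf y = p → ∃ N : Subgroup G, ¬ p ∣ Nat.card N ∧
      ∀ g ∈ closure ({x, y} : Set G), g ^ p ∈ N)
    (a : Fin W.n → ℝ) (ha : ∀ j, ∑ d ∈ Dset p G, W.χ j (gE d) = (Dset p G).card * a j)
    (hb : ∀ j ∈ B0 p W, W.ker j ≠ ⊤ →
      ((p : ℝ) + 1) * (p - 1) * a j ≤ (p ^ 2 - 2 * p - 1) * W.d j)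
    (hA : 2 * (p : ℝ) ≤ (p - 1) * ∑ j ∈ B0 p W, a j ^ 2) : False := by
  set D := Dset p G with hDdef
  have hD0 : (0 : ℝ) < D.card := by
    obtain ⟨x, hx⟩ := hD
    exact_mod_cast Finset.card_pos.2 ⟨x, mem_Dset.2 hx⟩
  have hD0' : (D.card : ℂ) ≠ 0 := by exact_mod_cast hD0.ne'
  have hκ0 : (0 : ℝ) < κ := by
    obtain ⟨x, hx⟩ := hD
    rw [← hκ x hx]; exact_mod_cast Nat.card_pos
  let s : ℂ[G] := ∑ d ∈ D, gE d
  have hs : ∀ g, s.coeff g = if g ∈ D then 1 else 0 := by
    intro g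
    simp only [s, coeff_finsum, coeff_gE, Finset.sum_ite_eq']
  have hsc : ∀ c, c * s = s * c := central_of_commute_gE fun g => by
    rw [commute_gE_iff]; intro h
    simp only [hs, hDdef, mem_Dset, orderOf_conj'']
  have hχs : ∀ j, W.χ j s = D.card * a j := fun j => by rw [map_sum, ha]
  let σ : ℂ[G] := ∑ d ∈ D, (κ : ℂ) • (gE d * avg (Kz p d))
  let cnt : G → ℕ := fun g => (D.filter fun d => d⁻¹ * g ∈ Kz p d).card
  have hσ : ∀ g, σ.coeff g = cnt g := by
    intro g
    simp only [σ, cnt, coeff_finsum, Finset.card_filter, Nat.cast_sum]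
    refine Finset.sum_congr rfl fun d hd => ?_
    rw [MonoidAlgebra.coeff_smul_apply, coeff_gE_mul]
    split_ifs with h
    · rw [coeff_avg_of_mem h, ← hκ d (mem_Dset.1 hd), smul_eq_mul,
        mul_inv_cancel₀ (card_cast_ne_zero _), Nat.cast_one]
    · rw [coeff_avg_of_notMem h]; simp
  have hχσ : ∀ j, W.χ j σ = if j ∈ B0 p W then (κ : ℂ) * (D.card * a j) else 0 := by
    intro j
    simp only [σ, map_sum, map_smul, smul_eq_mul]
    rw [Finset.sum_congr rfl fun d hd => by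
      rw [χ_Kz W j (pow_one_of_orderOf (mem_Dset.1 hd)) (hC d (mem_Dset.1 hd))]]
    split_ifs
    · rw [← Finset.mul_sum, ha]
    · simp
  have hG : (0 : ℝ) < Fintype.card G := by exact_mod_cast Fintype.card_pos
  -- first moment
  have m1 : ∑ j ∈ B0 p W, (W.d j : ℝ) * a j = 0 := by
    have h1 : ∑ d ∈ D, ∑ j ∈ B0 p W, (W.d j : ℂ) * W.χ j (gE d) = 0 :=
      Finset.sum_eq_zero fun d hd => osima W (by rw [mem_Dset.1 hd])
    rw [Finset.sum_comm] at h1
    simp only [← Finset.mul_sum, ha] at h1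
    have h2 : (D.card : ℂ) * ∑ j ∈ B0 p W, (W.d j : ℂ) * a j = 0 := by
      rw [← h1, Finset.mul_sum]
      exact Finset.sum_congr rfl fun j _ => by ring
    exact_mod_cast (mul_eq_zero.1 h2).resolve_left hD0'
  have hsum : ∀ f : Fin W.n → ℂ, ∑ j, (if j ∈ B0 p W then f j else 0) = ∑ j ∈ B0 p W, f j :=
    fun f => by rw [← Finset.sum_filter]; congr 1; ext; simp
  -- second moment
  have m2 : (Fintype.card G : ℝ) = κ * D.card * ∑ j ∈ B0 p W, a j ^ 2 := by
    have h1 := W.regular (σ * s)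
    have h2 : (σ * s).coeff 1 = D.card := by
      rw [coeff_mul_sum']
      simp only [hs, hσ, mul_ite, mul_one, mul_zero, one_mul]
      rw [← Finset.sum_filter, Finset.filter_mem_eq_inter, Finset.univ_inter, Finset.card_eq_sum_ones,
        Nat.cast_sum]
      refine Finset.sum_congr rfl fun x hx => ?_
      have hx' : orderOf x⁻¹ = p := by rw [orderOf_inv]; exact mem_Dset.1 hx
      congr 1
      refine Finset.card_eq_one.2 ⟨x⁻¹, Finset.eq_singleton_iff_unique_mem.2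
        ⟨Finset.mem_filter.2 ⟨mem_Dset.2 hx', by simp⟩, fun d hd => ?_⟩⟩
      have hd' := mem_Dset.1 (Finset.mem_filter.1 hd).1
      exact (eq_of_mul_Kz (pow_one_of_orderOf hd') (pow_one_of_orderOf hx')
        (hasNormalPComplement_subgroup_iff_not_dvd.1 (hC d hd')) (Finset.mem_filter.1 hd).2).symm
    simp only [W.χ_mul_central hsc, hχσ, hχs, ite_mul, zero_mul, hsum] at h1
    rw [h2] at h1
    have h3 : (Fintype.card G : ℂ) = κ * D.card * ∑ j ∈ B0 p W, (a j : ℂ) ^ 2 := by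
      apply mul_right_cancel₀ hD0'
      rw [h1, Finset.mul_sum, Finset.sum_mul]
      exact Finset.sum_congr rfl fun j _ => by ring
    exact_mod_cast h3
  -- third moment
  let S : ℕ := ∑ q ∈ D ×ˢ D, cnt (q.1 * q.2)⁻¹
  have m3 : (Fintype.card G : ℝ) * S = κ * D.card ^ 3 * ∑ j ∈ B0 p W, a j ^ 3 / W.d j := by
    have h1 := W.regular (σ * s * s)
    have h2 : (σ * s * s).coeff 1 = S := by
      rw [coeff_mul_sum']
      simp only [coeff_mul_sum' σ, hs, hσ, mul_ite, mul_one, mul_zero, one_mul]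
      simp only [← Finset.sum_filter, Finset.filter_mem_eq_inter, Finset.univ_inter, S,
        Nat.cast_sum, mul_inv_rev]
      rw [Finset.sum_product_right]
    have h3 : ∀ j, (W.d j : ℂ) * W.χ j (σ * s * s) =
        if j ∈ B0 p W then κ * D.card ^ 3 * ((a j : ℂ) ^ 3 / W.d j) else 0 := by
      intro j
      apply mul_left_cancel₀ (W.d_ne_zero j)
      rw [W.χ_mul_central hsc, ← mul_assoc, W.χ_mul_central hsc, hχσ, hχs]
      split_ifs
      · field_simp [W.d_ne_zero j]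
      · simp
    simp only [h3, hsum, h2, ← Finset.mul_sum] at h1
    exact_mod_cast h1
  have hp3 : 3 ≤ p := by have := hp.out.two_le; omega
  have hS : ((p : ℝ) - 2) * D.card ^ 2 ≤ (p - 1) * S := by
    have h1 := card_reg_pairs hN
    have h2 : ((D ×ˢ D).filter fun q => p ∣ orderOf (q.1 * q.2)).card ≤ S := by
      rw [Finset.card_filter]
      refine Finset.sum_le_sum fun q hq => ?_
      split_ifs with h
      · obtain ⟨N, hN1, hN2⟩ := hN q.1 q.2 (mem_Dset.1 (Finset.mem_product.1 hq).1)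
          (mem_Dset.1 (Finset.mem_product.1 hq).2)
        obtain ⟨d, hd, hd'⟩ := exists_part hN1 (g := (q.1 * q.2)⁻¹)
          (hN2 _ (inv_mem (mul_mem (subset_closure (by simp)) (subset_closure (by simp)))))
          (by rwa [orderOf_inv])
        exact Finset.card_pos.2 ⟨d, Finset.mem_filter.2 ⟨mem_Dset.2 hd, hd'⟩⟩
      · exact Nat.zero_le _
    have h3 := Finset.card_filter_add_card_filter_not (s := D ×ˢ D)
      (fun q => p ∣ orderOf (q.1 * q.2))
    rw [Finset.card_product] at h3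
    rw [← hDdef] at h1
    have h1' := (Nat.cast_le (α := ℝ)).2 h1
    have h2' := (Nat.cast_le (α := ℝ)).2 h2
    have h3' := congrArg (Nat.cast : ℕ → ℝ) h3
    push_cast [Nat.cast_sub (show 1 ≤ p by omega)] at h1' h3'
    have hp1 : (0 : ℝ) ≤ p - 1 := by
      have : (3 : ℝ) ≤ p := by exact_mod_cast hp3
      linarith
    nlinarith [mul_le_mul_of_nonneg_left h2' hp1]
  obtain ⟨j0, hj0⟩ := W.exists_ker_eq_top
  refine numeric_false (B0 p W) a (fun j => W.d j) j0 (mem_B0_of_ker_eq_top W hj0)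
    (P := p) (by exact_mod_cast hp3) ?_ (by simp [W.d_eq_one_of_ker_eq_top hj0])
    (fun j => by exact_mod_cast W.d_pos j) m1 ?_
    (fun j hj hne => hb j hj fun h => hne (W.eq_of_ker_eq_top h hj0)) hA
  · have h1 := ha j0
    simp only [W.χ_gE_of_ker_eq_top hj0, Finset.sum_const, nsmul_eq_mul] at h1
    exact_mod_cast (mul_left_cancel₀ hD0' h1).symm
  · have h1 : 0 < (κ : ℝ) * D.card ^ 3 := by positivity
    refine le_of_mul_le_mul_left ?_ h1
    have h2 := mul_le_mul_of_nonneg_left hS hG.le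
    calc (κ : ℝ) * D.card ^ 3 * ((p - 2) * ∑ j ∈ B0 p W, a j ^ 2)
        = (Fintype.card G : ℝ) * ((p - 2) * D.card ^ 2) := by rw [m2]; ring
      _ ≤ (Fintype.card G : ℝ) * ((p - 1) * S) := h2
      _ = ((p : ℝ) - 1) * (Fintype.card G * S) := by ring
      _ = _ := by rw [m3]; ring

omit [Fintype G] in
/-- Two elements of order `p` generating a `p`-solvable group with abelian Sylow subgroups. -/
lemma pair_struct [Finite G] (P : Sylow p G) (hP : IsMulCommutative (P : Subgroup G)) {x y : G}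
    (hx : orderOf x = p) (hy : orderOf y = p) (h : IsPSolvable p (closure ({x, y} : Set G))) :
    ∃ N : Subgroup G, ¬ p ∣ Nat.card N ∧ ∀ g ∈ closure ({x, y} : Set G), g ^ p ∈ N := by
  set H := closure ({x, y} : Set G) with hH
  let f := QuotientGroup.mk' (pPrimeCore p H)
  have hq := L.isPSolvable_quotient h (pPrimeCore p H)
  have hc := L.centralizer_pCore_le hq (L.pPrimeCore_quotient p)
  refine ⟨(pPrimeCore p H).map H.subtype, ?_, ?_⟩
  · rw [card_map_of_injective H.subtype_injective]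
    exact (hp.out.coprime_iff_not_dvd).1 (L.pPrimeCore_coprime p).symm
  -- Sylow subgroups of the quotient are commutative
  have hab : ∀ T : Subgroup (H ⧸ pPrimeCore p H), IsPGroup p T → ∀ a ∈ T, ∀ b ∈ T, a * b = b * a := by
    intro T hT a ha b hb
    obtain ⟨S⟩ : Nonempty (Sylow p H) := inferInstance
    have h1 := (sylow_isSylowIn_top S).map f
    rw [map_top_of_surjective _ (QuotientGroup.mk'_surjective _)] at h1
    obtain ⟨g, -, hg⟩ := h1.exists_cj_le hT le_top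
    obtain ⟨a', ha', ea⟩ := hg (conj_mem_cj ha)
    obtain ⟨b', hb', eb⟩ := hg (conj_mem_cj hb)
    obtain ⟨u, -, hu⟩ := (sylow_isSylowIn_top P).exists_cj_le
      (S.isPGroup'.map H.subtype) le_top
    have e1 := hP.is_comm.comm ⟨_, hu (conj_mem_cj (mem_map_of_mem H.subtype ha'))⟩
      ⟨_, hu (conj_mem_cj (mem_map_of_mem H.subtype hb'))⟩
    have e2 : a' * b' = b' * a' := by
      have := congrArg Subtype.val e1
      simp only [coe_mul, coe_subtype] at this
      apply Subtype.ext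
      simp only [coe_mul]
      calc (a' : G) * b' = u⁻¹ * (u * a' * u⁻¹ * (u * b' * u⁻¹)) * u := by group
        _ = b' * a' := by rw [this]; group
    have e3 := congrArg f e2
    rw [map_mul, map_mul, ea, eb] at e3
    calc a * b = g⁻¹ * (g * a * g⁻¹ * (g * b * g⁻¹)) * g := by group
      _ = b * a := by rw [e3]; group
  have hO : IsPGroup p (pCore p (H ⧸ pPrimeCore p H)) := L.pCore_isPGroup p
  have hmem : ∀ a : H ⧸ pPrimeCore p H, a ^ p = 1 → a ∈ pCore p (H ⧸ pPrimeCore p H) := by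
    intro a ha
    have h1 : IsPGroup p (zpowers a ⊔ pCore p (H ⧸ pPrimeCore p H) : Subgroup _) :=
      IsPGroup.to_sup_of_normal_right (isPGroup_zpowers (k := 1) (by rwa [pow_one])) hO
    exact hc fun b hb => hab _ h1 b (mem_sup_right hb) a (mem_sup_left (mem_zpowers a))
  intro g hg
  suffices hs : f ⟨g, hg⟩ ^ p = 1 by
    rw [← map_pow, QuotientGroup.mk'_apply, QuotientGroup.eq_one_iff] at hs
    exact ⟨_, hs, rfl⟩
  induction hg using closure_induction with
  | mem z hz =>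
    rw [← map_pow]
    have : (⟨z, subset_closure hz⟩ : H) ^ p = 1 := Subtype.ext (by
      rcases hz with rfl | rfl
      · simpa using pow_one_of_orderOf hx
      · simpa using pow_one_of_orderOf hy)
    rw [this, map_one]
  | one => exact (by rw [← map_pow]; simp; rfl)
  | mul a b ha hb iha ihb =>
    have : f ⟨a * b, mul_mem ha hb⟩ = f ⟨a, ha⟩ * f ⟨b, hb⟩ := map_mul f ⟨a, ha⟩ ⟨b, hb⟩
    rw [this, Commute.mul_pow (hab _ hO _ (hmem _ iha) _ (hmem _ ihb)), iha, ihb, one_mul]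
  | inv a ha iha =>
    have : f ⟨a⁻¹, inv_mem ha⟩ = (f ⟨a, ha⟩)⁻¹ := map_inv f ⟨a, ha⟩
    rw [this, inv_pow, iha, inv_one]

end Cfsg.Agent.H1.PB
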