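import Cfsg.Agent.H3.Block
import Cfsg.Agent.H1.Fusion

/-! A valuation of the complex numbers lying over a prime `p`, and reduction arguments
(the version for an arbitrary prime of the file on the prime two). -/

set_option autoImplicit false

namespace Cfsg.Agent.H1.PB

open scoped MonoidAlgebra
open Cfsg.Agent.H3 (gE gE_mul gE_one gE_inv_mul gE_mul_inv coeff_gE coeff_gE_mul coeff_mul_gE
  coeff_conj ext_coeff commute_gE_iff ofFun coeff_ofFun coeff_mul_sum coeff_mul_sum' Wedd trunc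
  coeff_trunc_of_mem coeff_trunc_of_notMem trunc_mul_of_supp conj_perm_pow)

theorem exists_valuationSubring (p : ℕ) [hp : Fact p.Prime] :
    ∃ B : ValuationSubring ℂ, (p : ℂ) ∈ B.nonunits := by
  let A : Subring ℂ := ⊥
  have h2 : (Ideal.span {(p : A)}) ≠ ⊤ := by
    rw [Ne, Ideal.span_singleton_eq_top, isUnit_iff_exists_inv]
    rintro ⟨⟨b, hb⟩, h⟩
    obtain ⟨m, rfl⟩ := Subring.mem_bot.1 hb
    have h1 : (p : ℂ) * m = 1 := congrArg Subtype.val h
    have h3 : (p : ℤ) * m = 1 := by exact_mod_cast h1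
    have h4 : (p : ℤ) ∣ 1 := ⟨m, h3.symm⟩
    exact hp.out.not_dvd_one (by exact_mod_cast h4)
  obtain ⟨B, -, hB⟩ := Ideal.image_subset_nonunits_valuationSubring _ h2
  exact ⟨B, hB ⟨p, Ideal.subset_span rfl, rfl⟩⟩

/-- A valuation subring of the complex numbers in which `p` is not a unit. -/
noncomputable def Rp (p : ℕ) [Fact p.Prime] : ValuationSubring ℂ :=
  (exists_valuationSubring p).choose

/-- The valuation attached to `Rp`. -/
noncomputable def vp (p : ℕ) [Fact p.Prime] : Valuation ℂ (Rp p).ValueGroup := (Rp p).valuation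

variable {p : ℕ} [hp : Fact p.Prime]

lemma vp_p : vp p p < 1 := (Rp p).mem_nonunits_iff.1 (exists_valuationSubring p).choose_spec

lemma vp_natCast (n : ℕ) : vp p n ≤ 1 := ((Rp p).valuation_le_one_iff _).2 (natCast_mem _ n)

lemma vp_intCast (n : ℤ) : vp p n ≤ 1 := ((Rp p).valuation_le_one_iff _).2 (intCast_mem _ n)

lemma vp_mul_lt_left {a b : ℂ} (ha : vp p a < 1) (hb : vp p b ≤ 1) : vp p (a * b) < 1 := by
  rw [map_mul]
  exact lt_of_le_of_lt (mul_le_of_le_one_right' hb) ha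

lemma vp_mul_lt_right {a b : ℂ} (ha : vp p a ≤ 1) (hb : vp p b < 1) : vp p (a * b) < 1 := by
  rw [mul_comm]; exact vp_mul_lt_left hb ha

lemma vp_mul_le {a b : ℂ} (ha : vp p a ≤ 1) (hb : vp p b ≤ 1) : vp p (a * b) ≤ 1 := by
  rw [map_mul]
  exact mul_le_one' ha hb

lemma vp_not_dvd {n : ℕ} (hn : ¬ p ∣ n) : vp p n = 1 := by
  have hc : IsCoprime (p : ℤ) n := Nat.isCoprime_iff_coprime.2 ((hp.out.coprime_iff_not_dvd).2 hn)
  obtain ⟨a, b, hab⟩ := hc
  have h1 : (a : ℂ) * p + b * n = 1 := by exact_mod_cast hab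
  refine le_antisymm (vp_natCast n) (not_lt.1 fun h => ?_)
  have := (vp p).map_add_lt (vp_mul_lt_right (vp_intCast a) vp_p)
    (vp_mul_lt_right (vp_intCast b) h)
  rw [h1, map_one] at this
  exact lt_irrefl _ this

lemma vp_zero_lt : vp p 0 < 1 := by rw [map_zero]; exact zero_lt_one

lemma vp_sum_le {ι : Type*} {s : Finset ι} {f : ι → ℂ} (h : ∀ i ∈ s, vp p (f i) ≤ 1) :
    vp p (∑ i ∈ s, f i) ≤ 1 := (vp p).map_sum_le h

lemma vp_sum_lt {ι : Type*} {s : Finset ι} {f : ι → ℂ} (h : ∀ i ∈ s, vp p (f i) < 1) :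
    vp p (∑ i ∈ s, f i) < 1 := (vp p).map_sum_lt one_ne_zero h

lemma vp_sign_le {e : ℂ} (h : e ^ p = 1) : vp p e ≤ 1 := by
  have h1 : vp p e ^ p = 1 := by rw [← map_pow, h, map_one]
  by_contra h3
  have := one_lt_pow₀ (not_le.1 h3) hp.out.ne_zero
  rw [h1] at this
  exact lt_irrefl _ this

lemma vp_sign {e : ℂ} (h : e ^ p = 1) : vp p (1 - e) < 1 := by
  have he : e ∈ Rp p := ((Rp p).valuation_le_one_iff _).1 (vp_sign_le h)
  obtain ⟨r, hr⟩ := exists_add_pow_prime_eq hp.out (1 - (⟨e, he⟩ : Rp p)) ⟨e, he⟩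
  have h1 : (1 : ℂ) = (1 - e) ^ p + e ^ p + p * (1 - e) * e * r := by
    have := congrArg (Subtype.val : Rp p → ℂ) hr
    simpa using this
  have h2 : (1 - e) ^ p = p * (-((1 - e) * e * r)) := by
    rw [h] at h1; linear_combination -h1
  have h3 : vp p (1 - e) ≤ 1 := (vp p).map_sub_le (by simp) (vp_sign_le h)
  have h4 : vp p ((1 - e) ^ p) < 1 := by
    rw [h2]
    refine vp_mul_lt_left vp_p ?_
    rw [Valuation.map_neg]
    exact vp_mul_le (vp_mul_le h3 (vp_sign_le h)) (((Rp p).valuation_le_one_iff _).2 r.2)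
  refine lt_of_le_of_ne h3 fun h5 => ?_
  rw [map_pow, h5, one_pow] at h4
  exact lt_irrefl _ h4

section Max
variable {X : Type*} [Fintype X]

lemma eigen_aux (M : X → X → ℂ) (x : X → ℂ) (hx : x ≠ 0) :
    ∃ i, x i ≠ 0 ∧ ∀ j, vp p (x j / x i) ≤ 1 := by
  obtain ⟨i0, hi0⟩ := Function.ne_iff.1 hx
  obtain ⟨i, -, hi⟩ := Finset.exists_max_image Finset.univ (fun j => vp p (x j)) ⟨i0, Finset.mem_univ _⟩
  have hne : x i ≠ 0 := by
    intro h
    have := hi i0 (Finset.mem_univ _)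
    rw [h, map_zero, le_zero_iff, map_eq_zero] at this
    exact hi0 this
  refine ⟨i, hne, fun j => ?_⟩
  rw [map_div₀]
  exact div_le_one_of_le₀ (hi j (Finset.mem_univ _)) zero_le

lemma eigen_le (M : X → X → ℂ) (x : X → ℂ) (hx : x ≠ 0) (ω : ℂ)
    (h : ∀ i, ∑ j, M i j * x j = ω * x i) (hM : ∀ i j, vp p (M i j) ≤ 1) : vp p ω ≤ 1 := by
  obtain ⟨i, hi, hj⟩ := eigen_aux (p := p) M x hx
  have : ω = ∑ j, M i j * (x j / x i) := by
    rw [← mul_left_inj' hi, ← h, Finset.sum_mul]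
    refine Finset.sum_congr rfl fun j _ => ?_
    field_simp
  rw [this]
  exact vp_sum_le fun j _ => vp_mul_le (hM i j) (hj j)

lemma eigen_lt (M : X → X → ℂ) (x : X → ℂ) (hx : x ≠ 0) (ω : ℂ)
    (h : ∀ i, ∑ j, M i j * x j = ω * x i) (hM : ∀ i j, vp p (M i j) < 1) : vp p ω < 1 := by
  obtain ⟨i, hi, hj⟩ := eigen_aux (p := p) M x hx
  have : ω = ∑ j, M i j * (x j / x i) := by
    rw [← mul_left_inj' hi, ← h, Finset.sum_mul]
    refine Finset.sum_congr rfl fun j _ => ?_
    field_simp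
  rw [this]
  exact vp_sum_lt fun j _ => vp_mul_lt_left (hM i j) (hj j)

lemma isUnit_matrix_of_small [DecidableEq X] (c : Matrix X X ℂ)
    (h : ∀ i j, vp p ((c - 1) i j) < 1) : IsUnit c := by
  rw [← Matrix.mulVec_injective_iff_isUnit, ← Matrix.coe_mulVecLin,
    ← LinearMap.ker_eq_bot, LinearMap.ker_eq_bot']
  intro x hx
  by_contra hne
  have := eigen_lt (c - 1) x hne (-1) (fun i => by
    have h1 : ((c - 1).mulVec x) i = -1 * x i := by
      rw [Matrix.sub_mulVec, Matrix.one_mulVec, Matrix.mulVecLin_apply] at *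
      simp [hx]
    exact h1) h
  rw [Valuation.map_neg, map_one] at this
  exact lt_irrefl _ this

end Max

/-- The twisting argument: a trace vanishes. -/
lemma trace_eq_zero_of_twist {A : Type*} [Ring A] [Algebra ℂ A] (τ : A →ₗ[ℂ] ℂ)
    (hτ : ∀ a b, τ (a * b) = τ (b * a)) {i w c₁ : A} (hi : i * i = i) (hw : w * i = i * w)
    {ζ : ℂ} (hζ : ζ ≠ 1) (hc : w * c₁ = ζ • (c₁ * w)) (hu : IsUnit (i * c₁ * i + (1 - i))) :
    τ (w * i) = 0 := by
  obtain ⟨c, hcu⟩ := hu
  have h1 : w * i * c = ζ • (c * (w * i)) := by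
    rw [hcu]
    have e1 : w * i * (i * c₁ * i + (1 - i)) = i * (w * c₁) * i := by
      rw [mul_add, mul_assoc w i (1 - i), mul_sub, mul_one, hi, sub_self, mul_zero, add_zero,
        ← mul_assoc, ← mul_assoc, mul_assoc w i i, hi, hw, mul_assoc i w]
    have e2 : (i * c₁ * i + (1 - i)) * (w * i) = i * (c₁ * w) * i := by
      rw [add_mul, hw, ← mul_assoc (1 - i), sub_mul, one_mul, hi, sub_self, zero_mul, add_zero,
        ← mul_assoc, mul_assoc (i * c₁) i i, hi, mul_assoc (i * c₁), ← hw]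
      simp only [mul_assoc]
    rw [e1, e2, hc]; simp
  have h2 : τ (w * i) = ζ * τ (w * i) := by
    calc τ (w * i) = τ (w * i * c * (c⁻¹ : Aˣ)) := by rw [Units.mul_inv_cancel_right]
      _ = ζ * τ (c * (w * i) * (c⁻¹ : Aˣ)) := by rw [h1, smul_mul_assoc, map_smul, smul_eq_mul]
      _ = ζ * τ (w * i) := by rw [hτ, ← mul_assoc, Units.inv_mul, one_mul]
  have h3 : (1 - ζ) * τ (w * i) = 0 := by linear_combination h2
  exact (mul_eq_zero.1 h3).resolve_left (sub_ne_zero.2 hζ.symm)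

lemma exists_root (p : ℕ) [hp : Fact p.Prime] : ∃ ζ : ℂ, ζ ^ p = 1 ∧ ζ ≠ 1 :=
  ⟨_, (Complex.isPrimitiveRoot_exp p hp.out.ne_zero).pow_eq_one,
    (Complex.isPrimitiveRoot_exp p hp.out.ne_zero).ne_one hp.out.one_lt⟩

/-- A twisting function along the cycles of length divisible by `p` of a permutation. -/
lemma exists_sign {X : Type*} [Finite X] (σ : Equiv.Perm X) {ζ : ℂ} (hζ : ζ ^ p = 1) :
    ∃ ε : X → ℂ, (∀ x, ε x ^ p = 1) ∧
      ∀ x, (∀ k, ¬ p ∣ k → (σ ^ k) x ≠ x) → ε (σ x) = ζ * ε x := by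
  classical
  let s := Equiv.Perm.SameCycle.setoid σ
  have hk : ∀ x, ∃ k : ℕ, (σ ^ k) (Quotient.mk s x).out = x := fun x =>
    Equiv.Perm.SameCycle.exists_nat_pow_eq (Quotient.mk_out (s := s) x)
  choose k hk using hk
  refine ⟨fun x => ζ ^ k x, fun x => by rw [← pow_mul, mul_comm, pow_mul, hζ, one_pow],
    fun x hx => ?_⟩
  have hq : Quotient.mk s (σ x) = Quotient.mk s x :=
    Quotient.sound (show σ.SameCycle (σ x) x from by simp [Equiv.Perm.SameCycle.refl])
  have h1 := hk (σ x)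
  rw [hq] at h1
  have h2 := hk x
  set r := (Quotient.mk s x).out
  have h3 : (σ ^ (k x + 1)) r = σ x := by rw [pow_succ', Equiv.Perm.mul_apply, h2]
  have key : ∀ a b : ℕ, (σ ^ (a + b)) r = (σ ^ a) r → ζ ^ b = 1 := by
    intro a b hab
    by_cases hb : p ∣ b
    · obtain ⟨c, rfl⟩ := hb
      rw [pow_mul, hζ, one_pow]
    exfalso
    rw [pow_add, Equiv.Perm.mul_apply, (σ ^ a).injective.eq_iff] at hab
    apply hx b hb
    rw [← h2, ← Equiv.Perm.mul_apply, ← pow_add, add_comm, pow_add, Equiv.Perm.mul_apply, hab]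
  show ζ ^ k (σ x) = ζ * ζ ^ k x
  rw [← pow_succ']
  rcases le_total (k (σ x)) (k x + 1) with hle | hle
  · obtain ⟨b, hb⟩ := Nat.exists_eq_add_of_le hle
    have := key _ b (by rw [← hb, h3, h1])
    rw [hb, pow_add, this, mul_one]
  · obtain ⟨b, hb⟩ := Nat.exists_eq_add_of_le hle
    have := key _ b (by rw [← hb, h3, h1])
    rw [hb, pow_add _ (k x + 1), this, mul_one]

/-- An invariant integral function vanishing on the cycles of length prime to `p` has a small
sum. -/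
lemma vp_sum_lt_of_invariant {X : Type*} [Fintype X] (σ : Equiv.Perm X) (f : X → ℂ)
    (hf : ∀ x, vp p (f x) ≤ 1) (hσ : ∀ x, f (σ x) = f x)
    (h0 : ∀ x, f x ≠ 0 → ∀ k, ¬ p ∣ k → (σ ^ k) x ≠ x) : vp p (∑ x, f x) < 1 := by
  obtain ⟨ζ, hζ, hζ1⟩ := exists_root p
  obtain ⟨ε, hε, hε'⟩ := exists_sign σ hζ
  have h1 : ∑ x, ε x * f x = ζ * ∑ x, ε x * f x := by
    rw [Finset.mul_sum, ← Equiv.sum_comp σ]
    refine Finset.sum_congr rfl fun x _ => ?_
    rw [hσ]
    by_cases h : f x = 0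
    · simp [h]
    · rw [hε' x (h0 x h), mul_assoc]
  have h2 : ∑ x, ε x * f x = 0 := by
    have h3 : (1 - ζ) * ∑ x, ε x * f x = 0 := by linear_combination h1
    exact (mul_eq_zero.1 h3).resolve_left (sub_ne_zero.2 hζ1.symm)
  have h3 : ∑ x, f x = ∑ x, (1 - ε x) * f x := by
    simp only [sub_mul, one_mul, Finset.sum_sub_distrib, h2, sub_zero]
  rw [h3]
  exact vp_sum_lt fun x _ => vp_mul_lt_left (vp_sign (hε x)) (hf x)

section GroupAlg
variable {G : Type*} [Group G]

/-- Elements of the group algebra with integral coefficients. -/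
def IsInt (p : ℕ) [Fact p.Prime] (a : ℂ[G]) : Prop := ∀ g, vp p (a.coeff g) ≤ 1

/-- Elements of the group algebra with coefficients in the maximal ideal. -/
def IsSmall (p : ℕ) [Fact p.Prime] (a : ℂ[G]) : Prop := ∀ g, vp p (a.coeff g) < 1

lemma IsSmall.isInt {a : ℂ[G]} (h : IsSmall p a) : IsInt p a := fun g => (h g).le

lemma isInt_gE (g : G) : IsInt p (gE g) := by
  classical
  intro h
  rw [coeff_gE]
  split_ifs <;> simp

lemma isInt_one : IsInt p (1 : ℂ[G]) := isInt_gE 1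

lemma isSmall_zero : IsSmall p (0 : ℂ[G]) := fun g => by simp

lemma IsInt.add {a b : ℂ[G]} (ha : IsInt p a) (hb : IsInt p b) : IsInt p (a + b) :=
  fun g => (vp p).map_add_le (ha g) (hb g)

lemma IsInt.sub {a b : ℂ[G]} (ha : IsInt p a) (hb : IsInt p b) : IsInt p (a - b) :=
  fun g => (vp p).map_sub_le (ha g) (hb g)

lemma IsInt.neg {a : ℂ[G]} (ha : IsInt p a) : IsInt p (-a) :=
  fun g => ((vp p).map_neg _).trans_le (ha g)

lemma IsInt.smul {a : ℂ[G]} (ha : IsInt p a) {c : ℂ} (hc : vp p c ≤ 1) : IsInt p (c • a) :=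
  fun g => vp_mul_le hc (ha g)

lemma IsSmall.add {a b : ℂ[G]} (ha : IsSmall p a) (hb : IsSmall p b) : IsSmall p (a + b) :=
  fun g => (vp p).map_add_lt (ha g) (hb g)

lemma IsSmall.sub {a b : ℂ[G]} (ha : IsSmall p a) (hb : IsSmall p b) : IsSmall p (a - b) :=
  fun g => (vp p).map_sub_lt (ha g) (hb g)

lemma IsSmall.neg {a : ℂ[G]} (ha : IsSmall p a) : IsSmall p (-a) :=
  fun g => ((vp p).map_neg _).trans_lt (ha g)

lemma IsSmall.smul {a : ℂ[G]} (ha : IsSmall p a) {c : ℂ} (hc : vp p c ≤ 1) : IsSmall p (c • a) :=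
  fun g => vp_mul_lt_right hc (ha g)

variable [Fintype G]

lemma IsInt.mul {a b : ℂ[G]} (ha : IsInt p a) (hb : IsInt p b) : IsInt p (a * b) := fun g => by
  rw [coeff_mul_sum]
  exact vp_sum_le fun h _ => vp_mul_le (ha _) (hb _)

lemma IsSmall.mul_right {a b : ℂ[G]} (ha : IsSmall p a) (hb : IsInt p b) : IsSmall p (a * b) :=
  fun g => by
  rw [coeff_mul_sum]
  exact vp_sum_lt fun h _ => vp_mul_lt_left (ha _) (hb _)

lemma IsSmall.mul_left {a b : ℂ[G]} (hb : IsSmall p b) (ha : IsInt p a) : IsSmall p (a * b) :=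
  fun g => by
  rw [coeff_mul_sum]
  exact vp_sum_lt fun h _ => vp_mul_lt_right (ha _) (hb _)

lemma IsInt.list_prod {l : List ℂ[G]} (h : ∀ a ∈ l, IsInt p a) : IsInt p l.prod := by
  induction l with
  | nil => exact isInt_one
  | cons a l ih =>
    rw [List.prod_cons]
    exact (h a (by simp)).mul (ih fun b hb => h b (by simp [hb]))

lemma IsInt.eigen_le {a x : ℂ[G]} (ha : IsInt p a) (hx : x ≠ 0) {ω : ℂ} (h : a * x = ω • x) :
    vp p ω ≤ 1 := by
  refine PB.eigen_le (fun g h => a.coeff (g * h⁻¹)) x.coeff ?_ ω (fun g => ?_) fun _ _ => ha _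
  · intro h0
    exact hx (ext_coeff fun g => congrFun h0 g)
  · rw [← coeff_mul_sum', h]; rfl

lemma IsSmall.eigen_lt {a x : ℂ[G]} (ha : IsSmall p a) (hx : x ≠ 0) {ω : ℂ} (h : a * x = ω • x) :
    vp p ω < 1 := by
  refine PB.eigen_lt (fun g h => a.coeff (g * h⁻¹)) x.coeff ?_ ω (fun g => ?_) fun _ _ => ha _
  · intro h0
    exact hx (ext_coeff fun g => congrFun h0 g)
  · rw [← coeff_mul_sum', h]; rfl

lemma isUnit_of_isSmall {c : ℂ[G]} (h : IsSmall p (c - 1)) : IsUnit c := by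
  rw [← Algebra.lmul_isUnit_iff (R := ℂ), LinearMap.isUnit_iff_ker_eq_bot, LinearMap.ker_eq_bot']
  intro x hx
  by_contra hne
  have h1 : (c - 1) * x = (-1 : ℂ) • x := by
    have : c * x = 0 := hx
    rw [sub_mul, this]; simp
  have := h.eigen_lt hne h1
  rw [Valuation.map_neg, map_one] at this
  exact lt_irrefl _ this

lemma IsInt.trunc {a : ℂ[G]} (ha : IsInt p a) (C : Subgroup G) : IsInt p (trunc C a) := by
  intro g
  by_cases h : g ∈ C
  · rw [coeff_trunc_of_mem _ h]; exact ha g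
  · rw [coeff_trunc_of_notMem _ h]; simp

omit [Fintype G] in
lemma mem_centralizer_of_reg_pow {z y g : G} {n : ℕ} (hz : z ^ p ^ n = 1) (hy : ¬ p ∣ orderOf y)
    (hzy : Commute z y) {k : ℕ} (hk : ¬ p ∣ k) (h : ((z * y) ^ k)⁻¹ * g * (z * y) ^ k = g) :
    g ∈ Subgroup.centralizer ({z} : Set G) := by
  have h1 : Commute ((z * y) ^ k) g := by
    have : g * (z * y) ^ k = (z * y) ^ k * g := by
      conv_rhs => rw [← h]
      group
    exact this.symm
  have h2 : Commute (z ^ (k * orderOf y)) g := by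
    have := h1.pow_left (orderOf y)
    rwa [← pow_mul, hzy.mul_pow, mul_comm k, pow_mul y, pow_orderOf_eq_one, one_pow, mul_one,
      mul_comm (orderOf y) k] at this
  have hco : (k * orderOf y).Coprime (orderOf z) := by
    obtain ⟨m, -, hm⟩ := (Nat.dvd_prime_pow hp.out).1 (orderOf_dvd_of_pow_eq_one hz)
    rw [hm]
    exact Nat.Coprime.pow_right _ ((hp.out.coprime_iff_not_dvd).2
      (fun h => (hp.out.dvd_mul.1 h).elim hk hy)).symm
  obtain ⟨m, hm⟩ := exists_pow_eq_self_of_coprime hco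
  rw [Subgroup.mem_centralizer_singleton_iff]
  have := h2.pow_left m
  rw [hm] at this
  exact this.symm

/-- The Brauer homomorphism is multiplicative modulo the maximal ideal. -/
lemma brauer_mul {z : G} {n : ℕ} (hz : z ^ p ^ n = 1) {a b : ℂ[G]} (ha : IsInt p a) (hb : IsInt p b)
    (haz : gE z * a = a * gE z) (hbz : gE z * b = b * gE z) :
    IsSmall p (trunc (Subgroup.centralizer {z}) (a * b) -
      trunc (Subgroup.centralizer {z}) a * trunc (Subgroup.centralizer {z}) b) := by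
  classical
  set C := Subgroup.centralizer ({z} : Set G) with hC
  rw [commute_gE_iff] at haz hbz
  have hsupp : ∀ g, g ∉ C → (trunc C b).coeff g = 0 := fun g hg => coeff_trunc_of_notMem _ hg
  rw [← trunc_mul_of_supp a hsupp]
  intro c
  rw [MonoidAlgebra.coeff_sub, Finsupp.sub_apply]
  by_cases hc : c ∈ C
  swap
  · rw [coeff_trunc_of_notMem _ hc, coeff_trunc_of_notMem _ hc, sub_zero]; exact vp_zero_lt
  rw [coeff_trunc_of_mem _ hc, coeff_trunc_of_mem _ hc, coeff_mul_sum', coeff_mul_sum',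
    ← Finset.sum_sub_distrib]
  have hcz : z⁻¹ * c * z = c := by
    have := Subgroup.mem_centralizer_singleton_iff.1 hc
    rw [mul_assoc, this]; group
  have hmem : ∀ g, z⁻¹ * g * z ∈ C ↔ g ∈ C := by
    intro g
    have hzC : z ∈ C := Subgroup.mem_centralizer_singleton_iff.2 rfl
    constructor
    · intro h
      have := C.mul_mem (C.mul_mem hzC h) (C.inv_mem hzC)
      simpa [mul_assoc] using this
    · intro h
      exact C.mul_mem (C.mul_mem (C.inv_mem hzC) h) hzC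
  apply vp_sum_lt_of_invariant ((MulAut.conj z⁻¹).toEquiv : Equiv.Perm G)
  · intro x
    exact (vp p).map_sub_le (vp_mul_le (ha _) (hb _)) (vp_mul_le (ha _) (hb.trunc C _))
  · intro x
    have e0 : ((MulAut.conj z⁻¹).toEquiv : Equiv.Perm G) x = z⁻¹ * x * z := by simp
    have e1 : a.coeff (c * (z⁻¹ * x * z)⁻¹) = a.coeff (c * x⁻¹) := by
      rw [← haz (c * x⁻¹)]
      congr 1
      conv_lhs => rw [← hcz]
      group
    rw [e0, e1, hbz]
    by_cases hx : x ∈ C
    · rw [coeff_trunc_of_mem _ hx, coeff_trunc_of_mem _ ((hmem x).2 hx), hbz]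
    · rw [coeff_trunc_of_notMem _ hx, coeff_trunc_of_notMem _ (fun h => hx ((hmem x).1 h))]
  · intro x hx k hk h
    apply hx
    have hxC : x ∈ C := by
      rw [conj_perm_pow] at h
      exact mem_centralizer_of_reg_pow (y := 1) hz (by simpa using hp.out.ne_one) (Commute.one_right _) hk
        (by simpa using h)
    rw [coeff_trunc_of_mem _ hxC, sub_self]

/-- The core of Brauer's second main theorem for the prime `p`. -/
theorem χ_eq_zero_of_trunc_small (W : Wedd G) (j : Fin W.n) {z y : G} {n : ℕ} (hz : z ^ p ^ n = 1)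
    (hy : ¬ p ∣ orderOf y) (hzy : Commute z y) {i : ℂ[G]} (hint : IsInt p i) (hi : i * i = i)
    (hw : gE (z * y) * i = i * gE (z * y))
    (hs : IsSmall p (trunc (Subgroup.centralizer {z}) i)) : W.χ j (gE (z * y) * i) = 0 := by
  classical
  set C := Subgroup.centralizer ({z} : Set G) with hC
  set w := z * y with hwdef
  obtain ⟨ζ, hζ, hζ1⟩ := exists_root p
  obtain ⟨ε, hε, hε'⟩ := exists_sign ((MulAut.conj w⁻¹).toEquiv : Equiv.Perm G) hζ
  have hwC : w ∈ C := Subgroup.mem_centralizer_singleton_iff.2 (by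
    rw [hwdef, mul_assoc, ← hzy.eq])
  have hmem : ∀ g, w⁻¹ * g * w ∈ C ↔ g ∈ C := by
    intro g
    constructor
    · intro h
      have := C.mul_mem (C.mul_mem hwC h) (C.inv_mem hwC)
      simpa [mul_assoc] using this
    · intro h
      exact C.mul_mem (C.mul_mem (C.inv_mem hwC) h) hwC
  have hε2 : ∀ g, g ∉ C → ε (w⁻¹ * g * w) = ζ * ε g := by
    intro g hg
    have := hε' g fun k hk h => hg (by
      rw [conj_perm_pow] at h
      exact mem_centralizer_of_reg_pow hz hy hzy hk h)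
    simpa using this
  let c₁ : ℂ[G] := ofFun fun g => if g ∈ C then 0 else ε g * i.coeff g
  have hw' := (commute_gE_iff _ _).1 hw
  refine trace_eq_zero_of_twist (W.χ j) (W.χ_mul_comm j) (c₁ := c₁) hi hw hζ1 ?_ ?_
  · have : gE w * c₁ * gE w⁻¹ = ζ • c₁ := by
      apply ext_coeff
      intro g
      rw [coeff_conj, MonoidAlgebra.coeff_smul_apply]
      simp only [c₁, coeff_ofFun, hmem]
      split_ifs with hg
      · simp
      · rw [hε2 g hg, hw', smul_eq_mul, mul_assoc]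
    rw [← smul_mul_assoc, ← this, mul_assoc, gE_inv_mul, mul_one]
  · apply isUnit_of_isSmall (p := p)
    have h1 : IsSmall p (c₁ - i) := by
      intro g
      rw [MonoidAlgebra.coeff_sub, Finsupp.sub_apply]
      simp only [c₁, coeff_ofFun]
      split_ifs with hg
      · rw [zero_sub, Valuation.map_neg, ← coeff_trunc_of_mem _ hg]; exact hs g
      · rw [(vp p).map_sub_swap, ← one_sub_mul]
        exact vp_mul_lt_left (vp_sign (hε g)) (hint g)
    have h2 : i * c₁ * i + (1 - i) - 1 = i * (c₁ - i) * i := by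
      rw [mul_sub, sub_mul, hi, hi]; abel
    rw [h2]
    exact (h1.mul_left hint).mul_right hint

end GroupAlg

end Cfsg.Agent.H1.PB
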