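import Mathlib.GroupTheory.Perm.Cycle.Type
import Cfsg.Agent.H1.ThompsonTransfer

/-! Thompson transfer through the sign of a semiregular permutation. -/

set_option autoImplicit false
open Cfsg

namespace Cfsg.Agent.H1

theorem sign_eq_neg_one_of_semiregular {X : Type*} [Fintype X] [DecidableEq X]
    {σ : Equiv.Perm X} {m k : ℕ} (hm : Even m) (hm0 : m ≠ 0) (hσ : σ ^ m = 1) (hk : Odd k)
    (hX : Fintype.card X = m * k) (hfree : ∀ (n : ℕ) (x : X), (σ ^ n) x = x → m ∣ n) :
    Equiv.Perm.sign σ = -1 := by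
  have h1 : ∀ n ∈ σ.cycleType, n = m := by
    intro n hn
    refine Nat.dvd_antisymm ((Equiv.Perm.dvd_of_mem_cycleType hn).trans
      (orderOf_dvd_of_pow_eq_one hσ)) ?_
    obtain ⟨c, τ, rfl, hd, hc, rfl⟩ := Equiv.Perm.mem_cycleType_iff.1 hn
    obtain ⟨x, hx, -⟩ := id hc
    refine hfree _ x ?_
    rw [hd.commute.mul_pow, ← hc.orderOf, pow_orderOf_eq_one, one_mul]
    exact Equiv.Perm.pow_apply_eq_self_of_apply_eq_self ((hd x).resolve_left hx) _
  have h2 : σ.support = Finset.univ := by
    refine Finset.eq_univ_iff_forall.2 fun x => Equiv.Perm.mem_support.2 fun h => ?_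
    have := Nat.le_of_dvd one_pos (hfree 1 x (by simpa using h))
    obtain ⟨j, rfl⟩ := hm
    omega
  have h3 : σ.cycleType.sum = Multiset.card σ.cycleType * m := by
    rw [Multiset.eq_replicate_card.2 h1]; simp
  have h4 : Multiset.card σ.cycleType = k := by
    rw [Equiv.Perm.sum_cycleType, h2, Finset.card_univ, hX, mul_comm] at h3
    exact (Nat.eq_of_mul_eq_mul_right (Nat.pos_of_ne_zero hm0) h3).symm
  rw [Equiv.Perm.sign_of_cycleType, h3, h4]
  exact Odd.neg_one_pow ((hm.mul_left k).add_odd hk)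

variable {G : Type*} [Group G] [Finite G]

/-- If `y` has even order, acts semiregularly on `G / U` with an odd number of orbits, then
`y ∉ O^2(G)`. -/
theorem not_mem_pResidual_of_semiregular {U : Subgroup G} {y : G} (hy : Even (orderOf y))
    {k : ℕ} (hk : Odd k) (hU : U.index = orderOf y * k)
    (hfree : ∀ (n : ℕ) (g : G), g⁻¹ * y ^ n * g ∈ U → y ^ n = 1) : y ∉ pResidual 2 G := by
  classical
  have := Fintype.ofFinite (G ⧸ U)
  intro h
  have h1 := pResidual_le_ker (p := 2) (G' := ℤˣ)
    (IsPGroup.of_card (n := 1) (by simp)) (Equiv.Perm.sign.comp (MulAction.toPermHom G (G ⧸ U))) h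
  rw [MonoidHom.mem_ker, MonoidHom.comp_apply, sign_eq_neg_one_of_semiregular (m := orderOf y)
    hy (orderOf_pos y).ne' (by rw [← map_pow, pow_orderOf_eq_one, map_one]) hk
    (by rw [← Nat.card_eq_fintype_card, ← hU]; rfl)] at h1
  · exact absurd h1 (by decide)
  · intro n x hx
    induction x using QuotientGroup.induction_on with | H g => ?_
    rw [← map_pow] at hx
    exact orderOf_dvd_of_pow_eq_one (hfree n g (smul_mk_eq_iff.1 hx))

end Cfsg.Agent.H1
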