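import Cfsg.Agent.H2.PU4

/-! A symmetric amalgam with dihedral vertex action (after Tutte and Sims). -/

set_option autoImplicit false
set_option linter.unusedSectionVars false

namespace Cfsg.Agent.H1.Tu

open Subgroup Cfsg.Agent.FT Cfsg.Agent.H2.PU
open scoped commutatorElement

variable {G : Type*} [Group G] [Finite G]

/-- index two -/
def I2 (A B : Subgroup G) : Prop :=
  A ≤ B ∧ ¬ B ≤ A ∧ ∀ x ∈ B, ∀ y ∈ B, x ∉ A → y ∉ A → x * y ∈ A

section I2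
variable {A B X : Subgroup G} {a : G}

theorem I2.le_of_mem (h : I2 A B) (ha : a ∈ B) (haA : a ∉ A) (h1 : A ≤ X) (h2 : a ∈ X) :
    B ≤ X := fun b hb => by
  by_cases hbA : b ∈ A
  · exact h1 hbA
  · simpa using mul_mem (h1 (h.2.2 b hb a ha hbA haA)) (inv_mem h2)

theorem I2.cj (h : I2 A B) (g : G) : I2 (cj g A) (cj g B) :=
  ⟨cj_mono g h.1, fun e => h.2.1 (cj_le_cj_iff.1 e), fun x hx y hy h1 h2 => by
    rw [mem_cj] at *
    have := h.2.2 _ hx _ hy h1 h2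
    convert this using 1; group⟩

theorem I2.exists (h : I2 A B) : ∃ a ∈ B, a ∉ A := SetLike.not_le_iff_exists.1 h.2.1

theorem I2.relIndex (h : I2 A B) : A.relIndex B = 2 := by
  obtain ⟨a, ha, haA⟩ := h.exists
  refine relIndex_eq_two_iff_exists_notMem_and.2 ⟨a, ha, haA, fun b hb => ?_⟩
  by_cases hbA : b ∈ A
  · exact Or.inr hbA
  · exact Or.inl (h.2.2 b hb a ha hbA haA)

theorem I2.card (h : I2 A B) : ♯B = 2 * ♯A := by
  rw [← H2.card_mul_relIndex h.1, h.relIndex, mul_comm]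

theorem i2_of_relIndex (h1 : A ≤ B) (h : A.relIndex B = 2) : I2 A B :=
  ⟨h1, fun e => by simp [relIndex_eq_one.2 e] at h, fun x hx y hy h2 h3 => by
    have := (mul_mem_iff_of_index_two (H := A.subgroupOf B) h (a := ⟨x, hx⟩) (b := ⟨y, hy⟩)).2
      (by simp [mem_subgroupOf, h2, h3])
    exact this⟩

end I2

theorem cube {N W A B : Subgroup G} {r : G} (hr : Odd (orderOf r))
    (hA : ∀ x ∈ W, ∀ y ∈ W, x ∉ A → y ∉ A → x * y ∈ A)
    (hB : ∀ x ∈ W, ∀ y ∈ W, x ∉ B → y ∉ B → x * y ∈ B) (hrW : r ∈ 𝐍(W)) (hrN : r ∈ 𝐍(N))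
    (hN : N ≤ W ⊓ (A ⊓ B)) (hD : ∀ d ∈ W ⊓ (A ⊓ B), ⁅r, d⁆ ∈ N) (hsq : ∀ w ∈ W, w * w ∈ N) :
    r ^ 3 ∈ cm N W := by
  set D := W ⊓ (A ⊓ B)
  have hrD : r ∈ cm N D := ⟨hrN, hD⟩
  have nD : ∀ s ∈ cm N (D : Set G), ∀ d ∈ D, s * d * s⁻¹ ∈ D := fun s hs d hd => by
    have := mul_mem (hN (hs.2 d hd)) hd
    simpa [commutatorElement_def] using this
  have pat : ∀ {S : Subgroup G}, (∀ x ∈ W, ∀ y ∈ W, x ∉ S → y ∉ S → x * y ∈ S) →
      ∀ x ∈ W, ∀ y ∈ W, (x ∈ S ↔ y ∈ S) → x * y⁻¹ ∈ S := fun {S} hS x hx y hy e => by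
    by_cases h : x ∈ S
    · exact mul_mem h (inv_mem (e.1 h))
    · exact hS x hx _ (inv_mem hy) h (fun h' => h (e.2 (by simpa using h')))
  have h12 : ∀ w ∈ W, ⁅r ^ 12, w⁆ ∈ D := fun w hw => by
    have mem : ∀ i : ℕ, r ^ i * w * (r ^ i)⁻¹ ∈ W := fun i =>
      conj_mem_of_mem_normalizer (pow_mem hrW i) hw
    have step : ∀ d : ℕ, ⁅r ^ d, w⁆ ∈ D → ∀ j : ℕ, ⁅r ^ (d * j), w⁆ ∈ D := fun d hd j => by
      induction j with
      | zero => simp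
      | succ j ih =>
        have := mul_mem (nD _ (pow_mem hrD d) _ ih) hd
        convert this using 1
        simp only [commutatorElement_def, mul_add, mul_one, pow_add]; group
    have key : ∀ i j : Fin 5, i < j → ((r ^ i.1 * w * (r ^ i.1)⁻¹ ∈ A ↔ r ^ j.1 * w * (r ^ j.1)⁻¹ ∈ A) ∧
        (r ^ i.1 * w * (r ^ i.1)⁻¹ ∈ B ↔ r ^ j.1 * w * (r ^ j.1)⁻¹ ∈ B)) → ⁅r ^ 12, w⁆ ∈ D := by
      intro i j hij e
      obtain ⟨d, hd⟩ := Nat.exists_eq_add_of_lt (show i.1 < j.1 from hij)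
      have h1 : r ^ j.1 * w * (r ^ j.1)⁻¹ * (r ^ i.1 * w * (r ^ i.1)⁻¹)⁻¹ ∈ D :=
        mem_inf.2 ⟨mul_mem (mem _) (inv_mem (mem _)), pat hA _ (mem _) _ (mem _) e.1.symm,
          pat hB _ (mem _) _ (mem _) e.2.symm⟩
      have h2 := nD _ (inv_mem (pow_mem hrD i.1)) _ h1
      have h3 : ⁅r ^ (d + 1), w⁆ ∈ D := by
        convert h2 using 1
        simp only [commutatorElement_def, hd, pow_add]; group
      have hj := j.2
      have : d + 1 ∣ 12 := by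
        have : d < 4 := by omega
        interval_cases d <;> norm_num
      obtain ⟨k, hk⟩ := this
      rw [hk]; exact step _ h3 k
    obtain ⟨i, j, hij, e⟩ := Fintype.exists_ne_map_eq_of_card_lt
      (fun i : Fin 5 => ((r ^ i.1 * w * (r ^ i.1)⁻¹ ∈ A), (r ^ i.1 * w * (r ^ i.1)⁻¹ ∈ B)))
      (by simp)
    rw [Prod.mk.injEq, eq_iff_iff, eq_iff_iff] at e
    rcases lt_or_gt_of_ne hij with h | h
    · exact key i j h e
    · exact key j i h ⟨e.1.symm, e.2.symm⟩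
  have h24 : (r ^ 3) ^ 8 ∈ cm N W := ⟨pow_mem (pow_mem hrN 3) 8, fun w hw => by
    have h1 := h12 w hw
    have := mul_mem ((pow_mem hrD 12).2 _ h1) (hsq _ h1.1)
    convert this using 1
    rw [← pow_mul, show 3 * 8 = 12 + 12 from rfl, pow_add]
    simp only [commutatorElement_def]; group⟩
  refine zpowers_le.2 h24 (mem_zpowers_pow_iff.2 ?_)
  exact ((Nat.coprime_two_left.2 (hr.of_dvd_nat (orderOf_pow_dvd 3))).pow_left 3)

/-- local structure at a vertex -/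
structure Loc (v Q T : Subgroup G) (r : G) : Prop where
  i2 : I2 Q T
  Tv : T ≤ v
  nQ : v ≤ 𝐍(Q)
  pT : IsPGroup 2 T
  rv : r ∈ v
  odd : Odd (orderOf r)
  dec : ∀ h ∈ v, ∃ i : ℕ, ∃ t ∈ T, h = r ^ i * t
  inv : ∀ a ∈ T, a ∉ Q → a * r * a⁻¹ * r ∈ Q

section Loc
variable {v Q T X : Subgroup G} {r a : G}

theorem Loc.cj (h : Loc v Q T r) (g : G) : Loc (cj g v) (cj g Q) (cj g T) (g * r * g⁻¹) where
  i2 := h.i2.cj g
  Tv := cj_mono g h.Tv
  nQ := by rw [← cj_normalizer]; exact cj_mono g h.nQ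
  pT := isPGroup_cj g h.pT
  rv := conj_mem_cj h.rv
  odd := by
    have : orderOf (g * r * g⁻¹) = orderOf r := (MulAut.conj g).orderOf_eq r
    rw [this]; exact h.odd
  dec := fun k hk => by
    obtain ⟨i, t, ht, e⟩ := h.dec _ (mem_cj.1 hk)
    refine ⟨i, g * t * g⁻¹, conj_mem_cj ht, ?_⟩
    rw [conj_pow, conj_mul, ← e]; group
  inv := fun a ha haQ => by
    rw [mem_cj] at *
    convert h.inv _ ha haQ using 1; group

theorem Loc.QT (h : Loc v Q T r) : Q ≤ T := h.i2.1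
theorem Loc.cjQ (h : Loc v Q T r) {g : G} (hg : g ∈ v) : H1.cj g Q = Q :=
  cj_eq_iff_mem_normalizer.2 (h.nQ hg)
theorem Loc.nZ (h : Loc v Q T r) : v ≤ 𝐍(oz Q) := h.nQ.trans (norm_oz Q)

theorem Loc.of_mem (h : Loc v Q T r) {g : G} (hg : g ∈ v) :
    Loc v Q (H1.cj g T) (g * r * g⁻¹) := by
  have := h.cj g
  rwa [cj_eq_of_mem hg, h.cjQ hg] at this

theorem Loc.gen (h : Loc v Q T r) (h1 : T ≤ X) (h2 : H1.cj r T ≤ X) : v ≤ X := by
  obtain ⟨a, ha, haQ⟩ := h.i2.exists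
  have h3 : r * r ∈ X := by
    have h6 : r * a * r⁻¹ * a⁻¹ ∈ X := mul_mem (h2 (conj_mem_cj ha)) (inv_mem (h1 ha))
    have := mul_mem h6 (h1 (h.QT (h.inv a ha haQ)))
    convert this using 1; group
  have h4 : r ∈ X := zpowers_le.2 h3 (by
    rw [← pow_two]; exact mem_zpowers_pow_iff.2 (Nat.coprime_two_left.2 h.odd))
  intro k hk
  obtain ⟨i, t, ht, rfl⟩ := h.dec k hk
  exact mul_mem (pow_mem h4 i) (h1 ht)

theorem Loc.le_of_nrm (h : Loc v Q T r) (hX : v ≤ 𝐍(X)) (hQ : Q ≤ X) (ha : a ∈ T) (haQ : a ∉ Q)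
    (haX : a ∈ X) : v ≤ X :=
  have h1 := h.i2.le_of_mem ha haQ hQ haX
  h.gen h1 ((cj_mono r h1).trans (cj_eq_iff_mem_normalizer.2 (hX h.rv)).le)

end Loc

/-- the amalgam -/
structure Am (H Q P : Subgroup G) (r y : G) : Prop where
  loc : Loc H Q P r
  yN : y ∈ 𝐍(P)
  y2 : y * y ∈ P ⊔ 𝐂(P)
  nn : ∀ U ≤ P, H ≤ 𝐍(U) → cj y U = U → U = ⊥

/-- the central part -/
def Cc (H Q : Subgroup G) (g : G) : Subgroup G := oz (cj g Q) ⊓ 𝐂(cj g H)

theorem cj_Cc (H Q : Subgroup G) (x g : G) : cj x (Cc H Q g) = Cc H Q (x * g) := by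
  rw [Cc, Cc, cj_inf, cj_oz, cj_centralizer, cj_mul, cj_mul]

/-- edges -/
def E (H P : Subgroup G) (y g g' : G) (T : Subgroup G) : Prop :=
  ∃ h ∈ H, ∃ u ∈ P ⊔ 𝐂(P), ∃ h' ∈ H, g' = g * h * y * u * h' ∧ T = cj (g * h) P

inductive W (H P : Subgroup G) (y : G) : ℕ → G → G → Prop
  | nil (g h : G) : h ∈ H → W H P y 0 g (g * h)
  | cons {k : ℕ} {g g' z : G} {T : Subgroup G} : E H P y g g' T → W H P y k g' z →
      W H P y (k + 1) g z

section Am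
variable {H Q P T T' U : Subgroup G} {r y g g' z z' h : G} {k : ℕ}

theorem E.mul (e : E H P y g g' T) (x : G) : E H P y (x * g) (x * g') (cj x T) := by
  obtain ⟨h, hh, u, hu, h', hh', rfl, rfl⟩ := e
  exact ⟨h, hh, u, hu, h', hh', by group, by rw [← cj_mul, mul_assoc]⟩

theorem E.left (e : E H P y g g' T) (hh : h ∈ H) : E H P y (g * h) g' T := by
  obtain ⟨h₁, hh₁, u, hu, h', hh', rfl, rfl⟩ := e
  exact ⟨h⁻¹ * h₁, mul_mem (inv_mem hh) hh₁, u, hu, h', hh', by group, by congr 1; group⟩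

theorem E.right (e : E H P y g g' T) (hh : h ∈ H) : E H P y g (g' * h) T := by
  obtain ⟨h₁, hh₁, u, hu, h', hh', rfl, rfl⟩ := e
  exact ⟨h₁, hh₁, u, hu, h' * h, mul_mem hh' hh, by group, rfl⟩

theorem sup_le_norm (P : Subgroup G) : P ⊔ 𝐂(P) ≤ 𝐍(P) := sup_le le_normalizer (cent_le_norm P)

theorem E.symm (A : Am H Q P r y) (e : E H P y g g' T) : E H P y g' g T := by
  obtain ⟨h, hh, u, hu, h', hh', rfl, rfl⟩ := e
  have n : y ∈ 𝐍(P ⊔ 𝐂(P)) :=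
    normalizer_inf_le_sup _ _ ⟨A.yN, normalizer_le_normalizer_centralizer P A.yN⟩
  refine ⟨h'⁻¹, inv_mem hh', (y⁻¹ * u⁻¹ * y) * (y * y)⁻¹, mul_mem
    (conj_mem_of_mem_normalizer' n (inv_mem hu)) (inv_mem A.y2), h⁻¹, inv_mem hh, by group, ?_⟩
  rw [show g * h * y * u * h' * h'⁻¹ = g * h * (y * u) by group, cj_mul (g * h),
    cj_eq_iff_mem_normalizer.2 (mul_mem A.yN (sup_le_norm P hu))]

theorem E.base (A : Am H Q P r y) : E H P y 1 y P :=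
  ⟨1, one_mem _, 1, one_mem _, 1, one_mem _, by simp, by simp [cj_one]⟩

theorem W.mul (w : W H P y k g z) (x : G) : W H P y k (x * g) (x * z) := by
  induction w with
  | nil g h hh => rw [← mul_assoc]; exact W.nil _ _ hh
  | cons e _ ih => exact W.cons (e.mul x) ih

theorem W.refl (g : G) : W H P y 0 g g := by simpa using W.nil (y := y) (P := P) g 1 (one_mem H)

theorem W.left (w : W H P y k g z) (hh : h ∈ H) : W H P y k (g * h) z := by
  cases w with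
  | nil _ h' hh' => simpa using W.nil (g * h) (h⁻¹ * h') (mul_mem (inv_mem hh) hh')
  | cons e w => exact W.cons (e.left hh) w

theorem W.right (w : W H P y k g z) (hh : h ∈ H) : W H P y k g (z * h) := by
  induction w with
  | nil g h' hh' => rw [mul_assoc]; exact W.nil _ _ (mul_mem hh' hh)
  | cons e _ ih => exact W.cons e ih

theorem W.snoc (w : W H P y k g z) (e : E H P y z z' T) : W H P y (k + 1) g z' := by
  induction w with
  | nil g h hh => exact W.cons (by simpa using e.left (inv_mem hh)) (W.refl _)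
  | cons e' _ ih => exact W.cons e' (ih e)

theorem W.symm (A : Am H Q P r y) (w : W H P y k g z) : W H P y k z g := by
  induction w with
  | nil g h hh => simpa using W.nil (g * h) h⁻¹ (inv_mem hh)
  | cons e _ ih => exact ih.snoc (e.symm A)

theorem W.unsnoc (A : Am H Q P r y) (w : W H P y (k + 1) g z) :
    ∃ z' T, W H P y k g z' ∧ E H P y z' z T := by
  cases w.symm A with
  | cons e w => exact ⟨_, _, w.symm A, e.symm A⟩

theorem Am.cjH (A : Am H Q P r y) (hh : h ∈ H) : cj (g * h) H = cj g H := by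
  rw [cj_mul, cj_eq_of_mem hh]
theorem Am.cjQ (A : Am H Q P r y) (hh : h ∈ H) : cj (g * h) Q = cj g Q := by
  rw [cj_mul, A.loc.cjQ hh]
theorem Am.cjC (A : Am H Q P r y) (hh : h ∈ H) : Cc H Q (g * h) = Cc H Q g := by
  rw [Cc, Cc, A.cjH hh, A.cjQ hh]

theorem Am.fix (hU : U ≤ P) (hn : P ≤ 𝐍(U)) {u : G} (hu : u ∈ P ⊔ 𝐂(P)) : cj u U = U :=
  cj_eq_iff_mem_normalizer.2 (sup_le hn ((cent_anti hU).trans (cent_le_norm U)) hu)

theorem Am.C_le (A : Am H Q P r y) : Cc H Q 1 ≤ P := by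
  rw [Cc, cj_one]; exact inf_le_left.trans ((oz_le Q).trans A.loc.QT)

theorem Am.fixQ (A : Am H Q P r y) {u : G} (hu : u ∈ P ⊔ 𝐂(P)) (g : G) :
    cj (g * u) Q = cj g Q := by
  rw [cj_mul, Am.fix A.loc.QT (A.loc.Tv.trans A.loc.nQ) hu]

theorem Am.fixC (A : Am H Q P r y) {u : G} (hu : u ∈ P ⊔ 𝐂(P)) (g : G) :
    Cc H Q (g * u) = Cc H Q g := by
  have : cj u (Cc H Q 1) = Cc H Q 1 := Am.fix A.C_le (fun p hp => cj_eq_iff_mem_normalizer.1 (by
    rw [cj_Cc, mul_one, ← one_mul p, A.cjC (A.loc.Tv hp)])) hu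
  rw [← mul_one (g * u), ← cj_Cc, cj_mul, this, cj_Cc, mul_one]

theorem E.norm (A : Am H Q P r y) (e : E H P y g g' T) : ∃ h ∈ H, T = cj (g * h) P ∧
    cj g' Q = cj (g * h * y) Q ∧ Cc H Q g' = Cc H Q (g * h * y) := by
  obtain ⟨h, hh, u, hu, h', hh', rfl, rfl⟩ := e
  exact ⟨h, hh, rfl, by rw [A.cjQ hh', A.fixQ hu], by rw [A.cjC hh', A.fixC hu]⟩

theorem E.loc (A : Am H Q P r y) (e : E H P y g g' T) : ∃ s, Loc (cj g H) (cj g Q) T s := by
  obtain ⟨h, hh, rfl, -⟩ := e.norm A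
  exact ⟨_, A.cjH hh ▸ A.cjQ hh ▸ A.loc.cj (g * h)⟩

theorem E.trans2 (A : Am H Q P r y) (e : E H P y g g' T) (e' : E H P y z z' T') :
    ∃ x, ∃ h ∈ H, x * g = z * h ∧ cj x T = T' ∧ cj (x * g') Q = cj z' Q ∧
      Cc H Q (x * g') = Cc H Q z' := by
  obtain ⟨h, hh, rfl, h1, h2⟩ := e.norm A
  obtain ⟨h', hh', rfl, h3, h4⟩ := e'.norm A
  refine ⟨z * h' * (g * h)⁻¹, h' * h⁻¹, mul_mem hh' (inv_mem hh), by group, ?_, ?_, ?_⟩
  · rw [← cj_mul]; congr 1; group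
  · rw [cj_mul, h1, h3, ← cj_mul]; congr 1; group
  · rw [← cj_Cc, h2, h4, cj_Cc]; congr 1; group

theorem E.swap (A : Am H Q P r y) (e : E H P y g g' T) : ∃ t, cj t T = T ∧
    cj t (cj g Q) = cj g' Q ∧ cj t (cj g' Q) = cj g Q ∧ cj t (Cc H Q g) = Cc H Q g' ∧
    cj t (Cc H Q g') = Cc H Q g ∧ ∀ U ≤ T, cj g H ≤ 𝐍(U) → cj t U = U → U = ⊥ := by
  obtain ⟨h, hh, rfl, h1, h2⟩ := e.norm A
  have y2 := A.y2
  refine ⟨g * h * y * (g * h)⁻¹, ?_, ?_, ?_, ?_, ?_, fun U h3 h4 h5 => ?_⟩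
  · rw [← cj_mul, inv_mul_cancel_right, cj_mul, cj_eq_iff_mem_normalizer.2 A.yN]
  · rw [h1, ← A.cjQ hh, ← cj_mul, inv_mul_cancel_right]
  · rw [h1, ← A.cjQ (g := g) hh, ← A.fixQ y2 (g * h), ← cj_mul]; congr 1; group
  · rw [h2, ← A.cjC hh, cj_Cc, inv_mul_cancel_right]
  · rw [h2, ← A.cjC (g := g) hh, ← A.fixC y2 (g * h), cj_Cc]; congr 1; group
  · rw [← cj_eq_bot_iff (g := (g * h)⁻¹)]
    refine A.nn _ (by rwa [cj_le_iff_le_cj_inv, inv_inv]) ?_ ?_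
    · rw [← cj_normalizer, ← cj_le_iff_le_cj_inv, A.cjH hh]; exact h4
    · conv_rhs => rw [← h5]
      rw [← cj_mul, ← cj_mul]; congr 1; group

end Am

end Cfsg.Agent.H1.Tu
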