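import Cfsg.Agent.H1.Tutte

/-! The amalgam argument for a symmetric amalgam with dihedral vertex action. -/

set_option autoImplicit false
set_option linter.unusedSectionVars false

namespace Cfsg.Agent.H1.Tu

open Subgroup Cfsg.Agent.FT Cfsg.Agent.H2.PU
open scoped commutatorElement

variable {G : Type*} [Group G] [Finite G]
variable {H Q P T T' T₂ U : Subgroup G} {r y g g' z z' h a w : G} {k m : ℕ}

structure AmB (H Q P : Subgroup G) (r y : G) : Prop extends Am H Q P r y where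
  hB : P ⊓ 𝐂(Q) ≤ Q

theorem E.QT (A : AmB H Q P r y) (e : E H P y g g' T) : cj g Q ≤ T :=
  let ⟨_, h⟩ := e.loc A.toAm; h.QT
theorem E.ZT (A : AmB H Q P r y) (e : E H P y g g' T) : oz (cj g Q) ≤ T :=
  (oz_le _).trans (e.QT A)
theorem E.i2Q (A : AmB H Q P r y) (e : E H P y g g' T) : I2 (cj g Q) T :=
  let ⟨_, h⟩ := e.loc A.toAm; h.i2
theorem E.Tv (A : AmB H Q P r y) (e : E H P y g g' T) : T ≤ cj g H :=
  let ⟨_, h⟩ := e.loc A.toAm; h.Tv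
theorem AmB.nQ (A : AmB H Q P r y) (g : G) : cj g H ≤ 𝐍(cj g Q) := (A.loc.cj g).nQ
theorem AmB.nZ (A : AmB H Q P r y) (g : G) : cj g H ≤ 𝐍(oz (cj g Q)) := (A.loc.cj g).nZ

theorem E.oz_le (A : AmB H Q P r y) (e : E H P y g g' T) : oz T ≤ oz (cj g Q) := fun x hx => by
  have h1 := cent_anti (e.QT A) hx.2.1
  refine ⟨?_, h1, hx.2.2⟩
  obtain ⟨h, hh, rfl, -⟩ := e.norm A.toAm
  rw [← A.cjQ hh] at h1 ⊢
  refine cj_mono _ A.hB ?_
  rw [cj_inf, cj_centralizer]; exact ⟨hx.1, h1⟩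

theorem E.oz_ne (A : AmB H Q P r y) (e : E H P y g g' T) : oz T ≠ ⊥ := by
  obtain ⟨_, h⟩ := e.loc A.toAm
  exact oz_ne_bot h.pT fun h1 => h.i2.2.1 (h1 ▸ bot_le)

theorem E.not_oz (A : AmB H Q P r y) (e : E H P y g g' T) : ¬ cj g H ≤ 𝐍(oz T) := fun h => by
  obtain ⟨t, h1, -, -, -, -, h2⟩ := e.swap A.toAm
  exact e.oz_ne A (h2 _ (H2.PU.oz_le T) h (by rw [cj_oz, h1]))

theorem E.C_le (A : AmB H Q P r y) (e : E H P y g g' T) : Cc H Q g ≤ oz T := fun _ hx =>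
  ⟨e.ZT A hx.1, cent_anti (e.Tv A) hx.2, hx.1.2.2⟩

theorem E.cZ (A : AmB H Q P r y) (e : E H P y g g' T) (ha : a ∈ T) (h : a ∈ 𝐂(oz (cj g Q))) :
    a ∈ cj g Q := by
  by_contra haQ
  obtain ⟨s, L⟩ := e.loc A.toAm
  have h1 := L.le_of_nrm (X := 𝐂(oz (cj g Q))) (H2.le_normalizer_centralizer L.nZ)
    (cent_symm (oz_cent _)) ha haQ h
  exact e.not_oz A ((h1.trans (cent_anti (e.oz_le A))).trans (cent_le_norm _))

theorem E.notZZ (A : AmB H Q P r y) (e : E H P y g g' T) :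
    ¬ cj g H ≤ 𝐍(oz (cj g' Q) ⊔ oz (cj g Q)) := fun h => by
  obtain ⟨t, -, h1, h2, -, -, h3⟩ := e.swap A.toAm
  have := h3 _ (sup_le ((e.symm A.toAm).ZT A) (e.ZT A)) h
    (by rw [cj_sup, cj_oz, cj_oz, h1, h2, sup_comm])
  exact e.oz_ne A (eq_bot_iff.2 ((e.oz_le A).trans (le_sup_right.trans this.le)))

theorem E.CC (A : AmB H Q P r y) (e : E H P y g g' T) : Cc H Q g ⊓ Cc H Q g' = ⊥ := by
  obtain ⟨t, -, -, -, h1, h2, h3⟩ := e.swap A.toAm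
  exact h3 _ (inf_le_left.trans ((e.C_le A).trans (H2.PU.oz_le _)))
    ((cent_symm (inf_le_left.trans inf_le_right)).trans (cent_le_norm _))
    (by rw [cj_inf, h1, h2, inf_comm])

theorem AmB.exists_b (A : AmB H Q P r y) :
    ∃ k, ∃ g z, W H P y k g z ∧ ¬ oz (cj g Q) ≤ cj z Q := by
  by_contra hne
  push Not at hne
  let U := ⨆ g : {g // ∃ k, W H P y k g 1}, oz (cj g.1 Q)
  have key : ∀ x, (∀ g, (∃ k, W H P y k g 1) → ∃ k, W H P y k (x * g) 1) → x ∈ 𝐍(U) :=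
    fun x hx => mem_normalizer_of_cj_le (by
      rw [cj_le_iff_le_cj_inv]
      refine iSup_le fun g => ?_
      rw [← cj_le_iff_le_cj_inv, cj_oz, ← cj_mul]
      exact le_iSup (fun g : {g // ∃ k, W H P y k g 1} => oz (cj g.1 Q)) ⟨_, hx g.1 g.2⟩)
  have hU : U = ⊥ := A.nn U (iSup_le fun ⟨g, k, w⟩ => (hne k g 1 w).trans (by
    rw [cj_one]; exact A.loc.QT)) (fun h hh => key h fun g ⟨k, w⟩ =>
      ⟨k, by simpa using (w.mul h).right (inv_mem hh)⟩)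
    (cj_eq_iff_mem_normalizer.2 (key y fun g ⟨k, w⟩ =>
      ⟨k + 1, (w.mul y).snoc (by simpa using (E.base A.toAm).symm A.toAm)⟩))
  have := le_iSup (fun g : {g // ∃ k, W H P y k g 1} => oz (cj g.1 Q)) ⟨1, 0, W.refl 1⟩
  exact (E.base A.toAm).oz_ne A (eq_bot_iff.2 (((E.base A.toAm).oz_le A).trans (this.trans hU.le)))

/-- critical pairs -/
structure CP (H Q P : Subgroup G) (y g z : G) (T T' : Subgroup G) : Prop where
  e1 : ∃ g', E H P y g g' T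
  e2 : ∃ z', E H P y z z' T'
  l1 : oz (cj g Q) ≤ T'
  l2 : oz (cj z Q) ≤ T
  nl : ¬ oz (cj g Q) ≤ cj z Q

theorem CP.symm (A : AmB H Q P r y) (c : CP H Q P y g z T T') : CP H Q P y z g T' T :=
  ⟨c.e2, c.e1, c.l2, c.l1, fun h => c.nl fun x hx => let ⟨_, e⟩ := c.e2
    e.cZ A (c.l1 hx) (cent_anti h (oz_cent _ hx))⟩

theorem CP.oz_eq (A : AmB H Q P r y) (c : CP H Q P y g z T T') :
    oz T = oz (cj g Q) ⊓ cj z Q := by
  obtain ⟨g', e⟩ := c.e1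
  obtain ⟨z', e'⟩ := c.e2
  refine le_antisymm (fun x hx => ⟨e.oz_le A hx,
    e'.cZ A (c.l1 (e.oz_le A hx)) (cent_anti c.l2 hx.2.1)⟩) fun x hx => ⟨e.ZT A hx.1, ?_, hx.1.2.2⟩
  obtain ⟨a, ha, haQ⟩ := SetLike.not_le_iff_exists.1 (c.symm A).nl
  exact le_cent1_iff.1 ((e.i2Q A).le_of_mem (c.l2 ha) haQ (le_cent1_iff.2 hx.1.2.1)
    (mem_cent1_iff.2 (mem_cent_iff.1 ha.2.1 x hx.2).symm))

theorem CP.i2 (A : AmB H Q P r y) (c : CP H Q P y g z T T') : I2 (oz T) (oz (cj g Q)) := by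
  obtain ⟨z', e'⟩ := c.e2
  rw [c.oz_eq A]
  exact ⟨inf_le_left, fun h => c.nl (h.trans inf_le_right), fun x hx w hw h1 h2 =>
    ⟨mul_mem hx hw, (e'.i2Q A).2.2 x (c.l1 hx) w (c.l1 hw) (fun h => h1 ⟨hx, h⟩)
      (fun h => h2 ⟨hw, h⟩)⟩⟩

theorem CP.comm_eq (A : AmB H Q P r y) (c : CP H Q P y g z T T') :
    ⁅oz (cj g Q), T⁆ = ⁅oz (cj g Q), oz (cj z Q)⁆ := by
  obtain ⟨g', e⟩ := c.e1
  refine le_antisymm (commutator_le.2 fun x hx t ht => ?_) (commutator_mono le_rfl c.l2)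
  obtain ⟨a, ha, haQ⟩ := SetLike.not_le_iff_exists.1 (c.symm A).nl
  by_cases htQ : t ∈ cj g Q
  · rw [commutatorElement_eq_one_iff_mul_comm.2 (mem_cent_iff.1 hx.2.1 t htQ).symm]
    exact one_mem _
  have hq := (e.i2Q A).2.2 t ht a⁻¹ (inv_mem (c.l2 ha)) htQ (by simpa using haQ)
  have h1 : ⁅x, a⁆ ∈ oz (cj g Q) := commutator_le_left' (c.l2.trans ((e.Tv A).trans (A.nZ g)))
    (commutator_mem_commutator hx ha)
  have e1 := mem_cent_iff.1 hx.2.1 _ hq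
  have e2 := mem_cent_iff.1 h1.2.1 _ hq
  have : ⁅x, t⁆ = ⁅x, a⁆ := by
    calc ⁅x, t⁆ = (x * (t * a⁻¹)) * a * x⁻¹ * t⁻¹ := by rw [commutatorElement_def]; group
      _ = (t * a⁻¹ * ⁅x, a⁆) * (t * a⁻¹)⁻¹ := by rw [← e1, commutatorElement_def]; group
      _ = _ := by rw [e2]; group
  rw [this]; exact commutator_mem_commutator hx ha

theorem CP.comm_eq' (A : AmB H Q P r y) (c : CP H Q P y g z T T') :
    ⁅oz (cj g Q), T⁆ = ⁅oz (cj z Q), T'⁆ := by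
  rw [c.comm_eq A, (c.symm A).comm_eq A, commutator_comm]

theorem E.comm_le (A : AmB H Q P r y) (e : E H P y g g' T) : ⁅oz (cj g Q), T⁆ ≤ oz (cj g Q) :=
  commutator_le_left' ((e.Tv A).trans (A.nZ g))

theorem CP.comm_le (A : AmB H Q P r y) (c : CP H Q P y g z T T') : ⁅oz (cj g Q), T⁆ ≤ oz T := by
  obtain ⟨g', e⟩ := c.e1
  obtain ⟨z', e'⟩ := c.e2
  rw [c.oz_eq A]
  exact le_inf (e.comm_le A) (c.comm_eq' A ▸ (e'.comm_le A).trans (H2.PU.oz_le _))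

theorem E.comm_ne (A : AmB H Q P r y) (e : E H P y g g' T) : ⁅oz (cj g Q), T⁆ ≠ ⊥ := fun h => by
  obtain ⟨a, ha, haQ⟩ := (e.i2Q A).exists
  exact haQ (e.cZ A ha (le_cent_iff_commutator'.2 h ha))

theorem CP.mul (c : CP H Q P y g z T T') (x : G) :
    CP H Q P y (x * g) (x * z) (cj x T) (cj x T') :=
  ⟨let ⟨_, e⟩ := c.e1; ⟨_, e.mul x⟩, let ⟨_, e⟩ := c.e2; ⟨_, e.mul x⟩,
    by rw [cj_mul, ← cj_oz]; exact cj_mono x c.l1, by rw [cj_mul, ← cj_oz]; exact cj_mono x c.l2,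
    by rw [cj_mul, cj_mul, ← cj_oz, cj_le_cj_iff]; exact c.nl⟩

/-- some critical pair exists -/
structure AmC (H Q P : Subgroup G) (r y : G) : Prop extends AmB H Q P r y where
  ex : ∃ g z T T', CP H Q P y g z T T'

theorem AmC.from (A : AmC H Q P r y) (e : E H P y g g' T) : ∃ z T', CP H Q P y g z T T' := by
  obtain ⟨g₀, z, T₀, T', c⟩ := A.ex
  obtain ⟨g₁, e₁⟩ := c.e1
  obtain ⟨x, h, hh, h1, h2, -⟩ := e₁.trans2 A.toAm e
  have := c.mul x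
  rw [h1, h2] at this
  exact ⟨_, _, ⟨_, e⟩, this.e2, A.cjQ hh ▸ this.l1, this.l2, A.cjQ hh ▸ this.nl⟩

theorem E.i2 (A : AmC H Q P r y) (e : E H P y g g' T) : I2 (oz T) (oz (cj g Q)) :=
  let ⟨_, _, c⟩ := A.from e; c.i2 A.toAmB
theorem E.comm_oz (A : AmC H Q P r y) (e : E H P y g g' T) : ⁅oz (cj g Q), T⁆ ≤ oz T :=
  let ⟨_, _, c⟩ := A.from e; c.comm_le A.toAmB

theorem E.rot (e : E H P y g g' T) (hh : h ∈ cj g H) : E H P y g (h * g') (cj h T) := by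
  have := (e.mul h).left (inv_mem (mem_cj.1 hh))
  rwa [show h * g * (g⁻¹ * h * g)⁻¹ = g by group] at this

theorem E.inf_le_C (A : AmB H Q P r y) (e : E H P y g g' T) (hv : cj g H ≤ T ⊔ T') :
    oz T ⊓ oz T' ≤ Cc H Q g := fun _ hx =>
  ⟨e.oz_le A hx.1, cent_anti hv (by rw [cent_sup]; exact ⟨hx.1.2.1, hx.2.2.1⟩)⟩

theorem E.i2C (A : AmC H Q P r y) (e : E H P y g g' T) : I2 (Cc H Q g) (oz T) := by
  obtain ⟨s, L⟩ := e.loc A.toAm
  have e' := e.rot L.rv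
  have hv := e.inf_le_C A.toAmB (L.gen le_sup_left le_sup_right)
  refine ⟨e.C_le A.toAmB, fun h => e.not_oz A.toAmB
    ((cent_symm (h.trans inf_le_right)).trans (cent_le_norm _)), fun x hx w hw h1 h2 =>
      hv ⟨mul_mem hx hw, (e'.i2 A).2.2 x (e.oz_le A.toAmB hx) w (e.oz_le A.toAmB hw)
        (fun h => h1 (hv ⟨hx, h⟩)) (fun h => h2 (hv ⟨hw, h⟩))⟩⟩

theorem E.C_uniq (A : AmC H Q P r y) (e : E H P y g g' T) {c d : G} (hc : c ∈ Cc H Q g)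
    (hd : d ∈ Cc H Q g) (hc1 : c ≠ 1) (hd1 : d ≠ 1) : c = d := by
  have e' := e.symm A.toAm
  have h0 := e.CC A.toAmB
  have n : ∀ {x}, x ∈ Cc H Q g → x ≠ 1 → x ∉ Cc H Q g' := fun hx h1 h =>
    h1 (mem_bot.1 (h0 ▸ mem_inf.2 ⟨hx, h⟩))
  have := (e'.i2C A).2.2 c (e.C_le A.toAmB hc) d (e.C_le A.toAmB hd) (n hc hc1) (n hd hd1)
  have h2 : c * d = 1 := mem_bot.1 (h0 ▸ mem_inf.2 ⟨mul_mem hc hd, this⟩)
  rw [← inv_eq_of_mul_eq_one_right hd.1.2.2, eq_inv_iff_mul_eq_one, h2]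

theorem E.inf_le_C' (A : AmC H Q P r y) (e : E H P y g g' T) (e' : E H P y g z T')
    (hne : oz T ≠ oz T') : oz T ⊓ oz T' ≤ Cc H Q g := fun x hx => by
  by_contra hc
  exact hne (le_antisymm ((e.i2C A).le_of_mem hx.1 hc (e'.C_le A.toAmB) hx.2)
    ((e'.i2C A).le_of_mem hx.2 hc (e.C_le A.toAmB) hx.1))

theorem CP.ext (A : AmB H Q P r y) (c : CP H Q P y g z T T') (e : E H P y g w T₂)
    (hv : cj g H ≤ T₂ ⊔ T) : ¬ oz (cj w Q) ≤ T' := fun h => by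
  obtain ⟨g', e₁⟩ := c.e1
  obtain ⟨a, ha, haQ⟩ := SetLike.not_le_iff_exists.1 (c.symm A).nl
  have h1 : T₂ ≤ 𝐍(oz (cj w Q) ⊔ oz (cj g Q)) := H2.le_normalizer_sup
    (((e.symm A.toAm).Tv A).trans (A.nZ w)) ((e.Tv A).trans (A.nZ g))
  refine e.notZZ A (hv.trans (sup_le h1 ((e₁.i2Q A).le_of_mem (c.l2 ha) haQ
    ((e.QT A).trans h1) ?_)))
  refine le_normalizer_of_commutator_le (A := oz (cj z Q)) ?_ ha
  refine le_trans (commutator_mono (sup_le h c.l1) le_rfl) ?_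
  rw [commutator_comm, ← c.comm_eq' A]
  exact (e₁.comm_le A).trans le_sup_right

end Cfsg.Agent.H1.Tu
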