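import Cfsg.Agent.H1.Tutte2

/-! The critical distance of a symmetric amalgam with dihedral vertex action is one. -/

set_option autoImplicit false
set_option linter.unusedSectionVars false

namespace Cfsg.Agent.H1.Tu

open Subgroup Cfsg.Agent.FT Cfsg.Agent.H2.PU
open scoped commutatorElement

variable {G : Type*} [Group G] [Finite G]
variable {H Q P T T' T₂ U : Subgroup G} {r y g g' g₁ z z₁ z' h a w s : G} {k m : ℕ}

theorem E.cube (A : AmC H Q P r y) (e : E H P y g g' T) (L : Loc (cj g H) (cj g Q) T s) :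
    s ^ 3 ∈ 𝐂(oz (cj g Q)) := by
  have hv := e.inf_le_C A.toAmB (L.gen le_sup_left le_sup_right)
  have := Tu.cube (N := ⊥) L.odd (e.i2 A).2.2 ((e.rot L.rv).i2 A).2.2 (L.nZ L.rv)
    (by rw [norm_bot]; trivial) bot_le (fun d hd => mem_bot.2
      (commutatorElement_eq_one_iff_mul_comm.2 (mem_cent_iff.1 (hv hd.2).2 s L.rv)))
    (fun w hw => mem_bot.2 hw.2.2)
  exact mem_cent_iff_comm.2 fun a ha => mem_bot.1 (this.2 a ha)

structure Cr (H Q P : Subgroup G) (y : G) (m : ℕ) (g g₁ z₁ z : G) (T T' : Subgroup G) : Prop where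
  e1 : E H P y g g₁ T
  w : W H P y m g₁ z₁
  e2 : E H P y z₁ z T'
  nl : ¬ oz (cj g Q) ≤ cj z Q

structure AmD (H Q P : Subgroup G) (r y : G) (m : ℕ) : Prop extends AmB H Q P r y where
  hb : ∀ k < m + 2, ∀ g z, W H P y k g z → oz (cj g Q) ≤ cj z Q
  ex : ∃ g g₁ z₁ z T T', Cr H Q P y m g g₁ z₁ z T T'

theorem Cr.cp (A : AmD H Q P r y m) (c : Cr H Q P y m g g₁ z₁ z T T') : CP H Q P y g z T T' :=
  ⟨⟨_, c.e1⟩, ⟨_, c.e2.symm A.toAm⟩,
    (A.hb _ (by omega) _ _ (W.cons c.e1 c.w)).trans (c.e2.QT A.toAmB),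
    (A.hb _ (by omega) _ _ (W.cons (c.e2.symm A.toAm) (c.w.symm A.toAm))).trans
      ((c.e1.symm A.toAm).QT A.toAmB), c.nl⟩

theorem AmD.c (A : AmD H Q P r y m) : AmC H Q P r y :=
  ⟨A.toAmB, let ⟨_, _, _, _, _, _, c⟩ := A.ex; ⟨_, _, _, _, c.cp A⟩⟩

theorem Cr.symm (A : AmD H Q P r y m) (c : Cr H Q P y m g g₁ z₁ z T T') :
    Cr H Q P y m z z₁ g₁ g T' T :=
  ⟨c.e2.symm A.toAm, c.w.symm A.toAm, c.e1.symm A.toAm, ((c.cp A).symm A.toAmB).nl⟩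

theorem Cr.ext (A : AmD H Q P r y m) (c : Cr H Q P y m g g₁ z₁ z T T') (e : E H P y g w T₂)
    (hv : cj g H ≤ T₂ ⊔ T) : ∃ z₂ T₃, Cr H Q P y m w g z₂ z₁ T₂ T₃ := by
  obtain ⟨z₂, T₃, w', e'⟩ := (W.cons c.e1 c.w).unsnoc A.toAm
  exact ⟨z₂, T₃, e.symm A.toAm, w', e', fun h =>
    (c.cp A).ext A.toAmB e hv (h.trans (c.e2.QT A.toAmB))⟩

theorem AmD.from (A : AmD H Q P r y m) (e : E H P y g g' T) : ∃ g₁ z₁ z T',
    Cr H Q P y m g g₁ z₁ z T T' ∧ cj g₁ Q = cj g' Q ∧ Cc H Q g₁ = Cc H Q g' := by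
  obtain ⟨g₀, g₁, z₁, z, T₀, T', c⟩ := A.ex
  obtain ⟨x, h, hh, h1, h2, h3, h4⟩ := c.e1.trans2 A.toAm e
  refine ⟨x * g₁, x * z₁, x * z, cj x T', ⟨?_, c.w.mul x, c.e2.mul x, ?_⟩, h3, h4⟩
  · have := (c.e1.mul x).left (inv_mem hh)
    rwa [h1, h2, mul_inv_cancel_right] at this
  · rw [← A.cjQ (g := g) hh, ← h1]; exact ((c.cp A).mul x).nl

theorem AmD.adj (A : AmD H Q P r y m) (e : E H P y g g' T) : oz (cj g Q) ≤ cj g' Q :=
  A.hb 1 (by omega) _ _ (W.cons e (W.refl _))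

theorem AmD.n3 (A : AmD H Q P r y m) (e : E H P y g g' T) (e' : E H P y g w T₂)
    (he : oz T = oz T₂) : oz (cj w Q) ≤ oz (cj g' Q) ⊔ oz (cj g Q) := by
  obtain ⟨g₁, z₁, z, T', c, -, -⟩ := A.from e
  obtain ⟨s, L⟩ := e.loc A.toAm
  obtain ⟨z₂, T₃, w', e₃⟩ := (W.cons c.e1 c.w).unsnoc A.toAm
  obtain ⟨a, ha, haQ⟩ := SetLike.not_le_iff_exists.1 (c.symm A).nl
  set N := oz (cj g Q)
  set V := (⨆ d : {d // ∃ T, E H P y g d T}, oz (cj d.1 Q)) ⊔ N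
  have le : ∀ {X : Subgroup G}, (∀ d T, E H P y g d T → oz (cj d Q) ≤ X) → N ≤ X → V ≤ X :=
    fun h1 h2 => sup_le (iSup_le fun ⟨d, T, e⟩ => h1 d T e) h2
  have ge : ∀ {d T}, E H P y g d T → oz (cj d Q) ≤ V := fun {d T} e => (le_iSup
    (fun d : {d // ∃ T, E H P y g d T} => oz (cj d.1 Q)) ⟨d, T, e⟩).trans le_sup_left
  have VQ : V ≤ cj g Q := le (fun d T e => A.adj (e.symm A.toAm)) (H2.PU.oz_le _)
  have nV : cj g H ≤ 𝐍(V) := fun h hh => mem_normalizer_of_cj_le (by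
    rw [cj_le_iff_le_cj_inv]
    refine le (fun d T e => ?_) ?_
    · rw [← cj_le_iff_le_cj_inv, cj_oz, ← cj_mul]; exact ge (e.rot hh)
    · rw [← cj_le_iff_le_cj_inv, cj_eq_iff_mem_normalizer.2 (L.nZ hh)]; exact le_sup_right)
  have nN : cj g Q ≤ 𝐍(N) := L.QT.trans (L.Tv.trans L.nZ)
  have Vc : V ≤ cm N (cj g Q) := le (fun d T e x hx => ⟨nN (VQ (ge e hx)), fun q hq =>
      e.oz_le A.toAmB ((e.symm A.toAm).comm_oz A.c (commutator_mem_commutator hx (e.QT A.toAmB hq)))⟩)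
    fun x hx => ⟨le_normalizer hx, fun q hq => e.comm_le A.toAmB
      (commutator_mem_commutator hx (L.QT hq))⟩
  have sq : ∀ x ∈ V, x * x ∈ N := by
    let S : Subgroup G :=
      { carrier := {x | x ∈ V ∧ x * x ∈ N}
        one_mem' := ⟨one_mem _, by simp⟩
        mul_mem' := fun {x w} hx hw => ⟨mul_mem hx.1 hw.1, by
          have := mul_mem (mul_mem (conj_mem_of_mem_normalizer (nN (VQ hx.1))
            ((Vc hw.1).2 x (VQ hx.1))) hx.2) hw.2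
          convert this using 1; rw [commutatorElement_def]; group⟩
        inv_mem' := fun {x} hx => ⟨inv_mem hx.1, by simpa using inv_mem hx.2⟩ }
    have : V ≤ S := le (fun d T e x hx => ⟨ge e hx, by rw [hx.2.2]; exact one_mem _⟩)
      fun x hx => ⟨mem_sup_right hx, mul_mem hx hx⟩
    exact fun x hx => (this hx).2
  have VT : V ≤ T₃ := le (fun d T e => (A.hb _ (by omega) _ _ (W.cons (e.symm A.toAm) w')).trans
    (e₃.QT A.toAmB)) ((A.hb _ (by omega) _ _ w').trans (e₃.QT A.toAmB))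
  have hA : ∀ x ∈ V, ∀ w ∈ V, x ∉ cm N {a} → w ∉ cm N {a} → x * w ∈ cm N {a} := by
    have : ∀ x ∈ V, x ∈ cj z₁ Q → x ∈ cm N {a} := fun x hx h => mem_cm1.2 ⟨nN (VQ hx),
      e.comm_le A.toAmB ((c.cp A).comm_eq' A.toAmB ▸
        commutator_mem_commutator ha (c.e2.QT A.toAmB h))⟩
    exact fun x hx w hw h1 h2 => this _ (mul_mem hx hw) (((e₃.symm A.toAm).i2Q A.toAmB).2.2 x (VT hx)
      w (VT hw) (fun h => h1 (this x hx h)) (fun h => h2 (this w hw h)))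
  have key : ∀ d ∈ V, d ∈ cm N {a} → T ≤ cm N {d} := fun d hd h =>
    L.i2.le_of_mem ((c.cp A).l2 ha) haQ (fun q hq => mem_cm1.2 ⟨nN hq, (Vc hd).2 q hq⟩)
      (mem_cm1.2 ⟨L.nZ (L.Tv ((c.cp A).l2 ha)), h.2 a rfl⟩)
  have h3 := Tu.cube (N := N) (B := cj s (cm N {a})) L.odd hA (fun x hx w hw h1 h2 => by
      rw [mem_cj] at *
      have := hA _ (conj_mem_of_mem_normalizer' (nV L.rv) hx) _
        (conj_mem_of_mem_normalizer' (nV L.rv) hw) h1 h2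
      convert this using 1; group) (nV L.rv) (L.nZ L.rv) (by
      have h1 : N ≤ cm N {a} := fun x hx => mem_cm1.2 ⟨le_normalizer hx, comm_mem_symm
        (e.comm_le A.toAmB (commutator_mem_commutator hx ((c.cp A).l2 ha)))⟩
      exact le_inf le_sup_right (le_inf h1
        ((cj_eq_iff_mem_normalizer.2 (L.nZ L.rv)).ge.trans (cj_mono s h1))))
    (fun d hd => (L.gen (key d hd.1 hd.2.1) (cj_le_iff.2 fun t ht => by
      have := key _ (conj_mem_of_mem_normalizer' (nV L.rv) hd.1) (mem_cj.1 hd.2.2) ht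
      refine mem_cm1.2 ⟨L.nZ (mul_mem (mul_mem L.rv (L.Tv ht)) (inv_mem L.rv)), ?_⟩
      convert conj_mem_of_mem_normalizer (L.nZ L.rv) (mem_cm1.1 this).2 using 1
      simp only [commutatorElement_def]; group) L.rv).2 d rfl) sq
  obtain ⟨x, h, hh, h1, h2, h4, -⟩ := e.trans2 A.toAm e'
  obtain ⟨i, t, ht, rfl⟩ := L.dec x (by rw [mem_cj, mul_assoc, h1]; simpa using hh)
  rw [cj_mul, cj_eq_of_mem ht] at h2
  rw [mul_assoc, cj_mul, cj_mul, cj_eq_iff_mem_normalizer.2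
    (A.nQ g' ((e.symm A.toAm).Tv A.toAmB ht))] at h4
  have hi : 3 ∣ i := by
    by_contra hi
    have h5 : s ^ i ∈ 𝐍(oz T) := cj_eq_iff_mem_normalizer.1 (by rw [cj_oz, h2, he])
    have h6 : s ^ 3 ∈ 𝐍(oz T) := cent_le_norm _ (cent_anti (e.oz_le A.toAmB) (e.cube A.c L))
    have h7 : s ∈ 𝐍(oz T) := by
      obtain ⟨j, hj | hj⟩ : ∃ j, i = 3 * j + 1 ∨ i * 2 = 3 * j + 1 := by
        rcases (by omega : i % 3 = 1 ∨ i % 3 = 2) with h | h
        · exact ⟨i / 3, Or.inl (by omega)⟩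
        · exact ⟨i * 2 / 3, Or.inr (by omega)⟩
      · rw [hj, pow_succ, pow_mul] at h5
        simpa using mul_mem (inv_mem (pow_mem h6 j)) h5
      · have := pow_mem h5 2
        rw [← pow_mul, hj, pow_succ, pow_mul] at this
        simpa using mul_mem (inv_mem (pow_mem h6 j)) this
    refine e.not_oz A.toAmB fun k hk => ?_
    obtain ⟨j, t, ht, rfl⟩ := L.dec k hk
    exact mul_mem (pow_mem h7 j) (norm_oz T (le_normalizer ht))
  obtain ⟨j, rfl⟩ := hi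
  rw [← h4, ← cj_oz, cj_le_iff]
  intro x hx
  have := mul_mem (mem_sup_right ((pow_mem h3 j).2 x (ge e hx))) (mem_sup_left hx :
    x ∈ oz (cj g' Q) ⊔ N)
  rw [pow_mul]
  simpa [commutatorElement_def] using this

theorem Cr.comm_eq (A : AmD H Q P r y m) (c : Cr H Q P y m g g₁ z₁ z T T') :
    ⁅oz (cj g Q), T⁆ = Cc H Q z₁ := by
  obtain ⟨s, L⟩ := c.e1.loc A.toAm
  obtain ⟨z₂, T₃, c'⟩ := c.ext A (c.e1.rot L.rv) (L.gen le_sup_right le_sup_left)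
  have e₃ := c'.e2.symm A.toAm
  have h1 : ⁅oz (cj g Q), T⁆ ≤ oz T' := (c.cp A).comm_eq' A.toAmB ▸ (c.e2.symm A.toAm).comm_oz A.c
  have h2 : ⁅oz (cj g Q), T⁆ ≤ Cc H Q z₁ := by
    refine le_trans (le_inf ?_ h1) (e₃.inf_le_C' A.c c.e2 fun he => c.nl fun x hx => ?_)
    · rw [((c'.cp A).symm A.toAmB).oz_eq A.toAmB]
      exact le_inf (h1.trans (c.e2.oz_le A.toAmB))
        ((c.e1.comm_le A.toAmB).trans (A.adj (c'.e1.symm A.toAm)))
    · refine (c.e2.symm A.toAm).cZ A.toAmB ((c.cp A).l1 hx) (cent_anti (A.n3 e₃ c.e2 he) ?_)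
      rw [cent_sup]
      exact ⟨cent_symm (oz_cent _) (A.hb _ (by omega) _ _ c'.w hx),
        cent_symm (oz_cent _) (A.hb _ (by omega) _ _ (W.cons c.e1 c.w) hx)⟩
  refine le_antisymm h2 fun x hx => ?_
  obtain ⟨d, hd, hd1⟩ := exists_ne_one_of_ne_bot (c.e1.comm_ne A.toAmB)
  by_cases h : x = 1
  · rw [h]; exact one_mem _
  · rwa [c.e2.C_uniq A.c hx (h2 hd) h hd1]

theorem AmD.comm_eq (A : AmD H Q P r y m) (e : E H P y g g' T) :
    ⁅oz (cj g Q), T⁆ = Cc H Q g' := by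
  obtain ⟨g₁, z₁, z, T', c, -, h⟩ := A.from e
  rw [← h, (c.cp A).comm_eq' A.toAmB, (c.symm A).comm_eq A]

theorem AmD.false_of_pos (A : AmD H Q P r y (m + 1)) : False := by
  obtain ⟨g, g₁, z₁, z, T, T', c⟩ := A.ex
  obtain ⟨s, L⟩ := c.e1.loc A.toAm
  have hv := L.gen (X := cj s T ⊔ T) le_sup_right le_sup_left
  have e := c.e1.rot L.rv
  obtain ⟨z₂, T₃, c'⟩ := c.ext A e hv
  obtain ⟨s', L'⟩ := c'.e1.loc A.toAm
  obtain ⟨z₃, T₅, c''⟩ := c'.ext A (c'.e1.rot L'.rv) (L'.gen le_sup_right le_sup_left)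
  have h1 : Cc H Q (s * g₁) = Cc H Q z₃ := by rw [← c''.comm_eq A, A.comm_eq c''.e1]
  have h2 : Cc H Q (s * g₁) ≤ oz (cj s T) := c'.e1.C_le A.toAmB
  have h3 : Cc H Q (s * g₁) ≤ oz T := by
    rw [(c.cp A).oz_eq A.toAmB]
    refine le_inf (h2.trans (e.oz_le A.toAmB)) ?_
    rw [h1]
    exact (c''.e2.C_le A.toAmB).trans (((c''.e2.symm A.toAm).oz_le A.toAmB).trans
      (A.hb 2 (by omega) _ _ (W.cons c'.e2 (W.cons c.e2 (W.refl _)))))
  refine e.comm_ne A.toAmB ?_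
  rw [A.comm_eq e, eq_bot_iff, ← e.CC A.toAmB]
  exact le_inf ((le_inf h2 h3).trans (e.inf_le_C A.toAmB hv)) le_rfl

theorem W.zero (A : AmB H Q P r y) (w : W H P y 0 g z) :
    cj z Q = cj g Q ∧ Cc H Q z = Cc H Q g := by
  cases w with
  | nil _ h hh => exact ⟨A.cjQ hh, A.cjC hh⟩

theorem AmD.false_of_zero (A : AmD H Q P r y 0) : False := by
  obtain ⟨g, g₁, z₁, z, T, T', c⟩ := A.ex
  obtain ⟨s, L⟩ := c.e1.loc A.toAm
  have hv := L.gen (X := cj s T ⊔ T) le_sup_right le_sup_left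
  have e := c.e1.rot L.rv
  set w := s * g₁
  set T₂ := cj s T
  obtain ⟨hQ, hC⟩ := c.w.zero A.toAmB
  obtain ⟨a, ha, haQ⟩ := SetLike.not_le_iff_exists.1 (c.symm A).nl
  have haT := (c.cp A).l2 ha
  obtain ⟨x, hx, hxT⟩ := SetLike.not_le_iff_exists.1 ((c.cp A).ext A.toAmB e hv)
  have hxQ : x ∉ cj z₁ Q := fun h => hxT (c.e2.QT A.toAmB h)
  have hx0 : x ∈ cj g Q := A.adj (e.symm A.toAm) hx
  have hx' : a * x * a⁻¹ ∈ cj g Q := conj_mem_of_mem_normalizer (L.nQ (L.Tv haT)) hx0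
  have hx'Q : a * x * a⁻¹ ∉ cj z₁ Q := fun h => hxQ (by
    simpa [mul_assoc] using conj_mem_of_mem_normalizer' (A.nQ z₁ (c.e2.Tv A.toAmB
      ((c.e2.symm A.toAm).ZT A.toAmB ha))) h)
  have h1 : x * (a * x * a⁻¹) ∈ cj z₁ Q := by
    rw [hQ] at *
    exact ((c.e1.symm A.toAm).i2Q A.toAmB).2.2 _ (L.QT hx0) _ (L.QT hx') hxQ hx'Q
  have h2 : ⁅a * x * a⁻¹, x⁆ ∈ Cc H Q g₁ := by
    rw [← hC, ← A.comm_eq (c.e2.symm A.toAm)]
    convert commutator_mem_commutator ha (c.e2.QT A.toAmB h1) using 1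
    calc ⁅a * x * a⁻¹, x⁆ = a * x * a⁻¹ * (1 * x * 1⁻¹) * (x * (a * x * a⁻¹))⁻¹ := by
          rw [commutatorElement_def]; group
      _ = _ := by rw [← ha.2.2, commutatorElement_def]; group
  have h3 : ⁅a * x * a⁻¹, x⁆ ∈ Cc H Q g := by
    rw [← A.comm_eq (e.symm A.toAm)]
    exact comm_mem_symm (commutator_mem_commutator hx (e.QT A.toAmB hx'))
  have h4 : a * x * a⁻¹ * x = x * (a * x * a⁻¹) := commutatorElement_eq_one_iff_mul_comm.1
    (mem_bot.1 (c.e1.CC A.toAmB ▸ mem_inf.2 ⟨h3, h2⟩))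
  have e' := e.rot (L.Tv haT)
  have hv' : cj g H ≤ T₂ ⊔ cj a T₂ := by
    have n2 : T₂ ≤ 𝐍(T₂ ⊔ cj a T₂) := le_sup_left.trans le_normalizer
    obtain ⟨b, hb, hbQ⟩ := (e.i2Q A.toAmB).exists
    refine (L.of_mem L.rv).le_of_nrm (hv.trans (sup_le n2 (L.i2.le_of_mem haT haQ
      ((e.QT A.toAmB).trans n2) (cj_eq_iff_mem_normalizer.1 ?_))))
      ((e.QT A.toAmB).trans le_sup_left) hb hbQ (mem_sup_left hb)
    rw [cj_sup, ← cj_mul a a, ha.2.2, cj_one, sup_comm]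
  obtain ⟨g₂, z₂, z', T'', c', hQ', -⟩ := A.from e'
  refine (c'.cp A).ext A.toAmB e hv' (le_trans (fun u hu => ?_) (c'.e2.QT A.toAmB))
  rw [(c'.w.zero A.toAmB).1, hQ']
  have hxo : x ∉ oz T₂ := fun h => hxQ (A.hb 1 (by omega) _ _ (W.cons c.e1 c.w) (e.oz_le A.toAmB h))
  refine (e'.symm A.toAm).cZ A.toAmB (e'.QT A.toAmB (A.adj (e.symm A.toAm) hu))
    (((e.symm A.toAm).i2 A.c).le_of_mem hx hxo ((e.oz_le A.toAmB).trans ((oz_cent _).trans
      (cent_anti (A.adj (e'.symm A.toAm))))) (le_cent1_iff.1 ?_) hu)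
  refine ((e'.symm A.toAm).i2 A.c).le_of_mem (a := a * x * a⁻¹) ?_ ?_
    ((e'.oz_le A.toAmB).trans ((oz_cent _).trans (cent_le_cent1 hx0))) (mem_cent1_iff.2 h4)
  · rw [cj_mul, ← cj_oz]; exact conj_mem_cj hx
  · rw [← cj_oz, conj_mem_cj_iff]; exact hxo

/-- the critical distance is one -/
theorem AmB.exists_one (A : AmB H Q P r y) :
    ∃ g z T, E H P y g z T ∧ ¬ oz (cj g Q) ≤ cj z Q := by
  classical
  have ex := A.exists_b
  obtain ⟨g, z, w, hn⟩ := Nat.find_spec ex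
  have hmin : ∀ k < Nat.find ex, ∀ g z, W H P y k g z → oz (cj g Q) ≤ cj z Q :=
    fun k hk g z w => by
      by_contra h
      exact Nat.find_min ex hk ⟨g, z, w, h⟩
  generalize Nat.find ex = b at w hmin
  obtain _ | _ | m := b
  · exact absurd ((w.zero A).1 ▸ H2.PU.oz_le _) hn
  · cases w with
    | cons e w => exact ⟨_, _, _, e, (w.zero A).1 ▸ hn⟩
  · exfalso
    cases w with
    | cons e w =>
    obtain ⟨z₁, T', w', e'⟩ := w.unsnoc A.toAm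
    have D : AmD H Q P r y m := ⟨A, hmin, _, _, _, _, _, _, e, w', e', hn⟩
    cases m with
    | zero => exact D.false_of_zero
    | succ m => exact D.false_of_pos

end Cfsg.Agent.H1.Tu
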