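import Cfsg.Agent.H1.Tutte3
import Mathlib.GroupTheory.SpecificGroups.KleinFour

/-! Identification of the vertex group of the symmetric amalgam. -/

set_option autoImplicit false
set_option linter.unusedSectionVars false

namespace Cfsg.Agent.H1.Tu

open Subgroup Cfsg.Agent.FT Cfsg.Agent.H2.PU
open scoped commutatorElement

variable {G : Type*} [Group G] [Finite G]
variable {H Q P T T' : Subgroup G} {r y g z a s : G}

theorem AmB.fin (A : AmB H Q P r y) : (∀ q ∈ Q, q * q = 1) ∧ r ^ 3 ∈ 𝐂(Q) ∧ r ∉ 𝐂(Q) ∧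
    ♯Q = 4 * ♯(Q ⊓ 𝐂(H)) ∧ ♯(Q ⊓ 𝐂(H)) ≤ 2 ∧ ∃ a ∈ P, a ∉ Q ∧ a * a = 1 := by
  obtain ⟨g, z, T, e, hn⟩ := A.exists_one
  have e' := e.symm A.toAm
  have c : CP H Q P y g z T T := ⟨⟨_, e⟩, ⟨_, e'⟩, e.ZT A, e'.ZT A, hn⟩
  have C : AmC H Q P r y := ⟨A, _, _, _, _, c⟩
  have sq : ∀ {g z}, E H P y g z T → ¬ oz (cj g Q) ≤ cj z Q →
      Subgroup.closure ((fun x => x * x) '' (cj g Q : Set G)) ≤
        Subgroup.closure ((fun x => x * x) '' (cj z Q : Set G)) := fun {g z} e hn => by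
    obtain ⟨u, hu, huQ⟩ := SetLike.not_le_iff_exists.1 hn
    rw [closure_le]
    rintro _ ⟨q, hq, rfl⟩
    by_cases h : q ∈ cj z Q
    · exact Subgroup.subset_closure ⟨q, h, rfl⟩
    · refine Subgroup.subset_closure ⟨q * u, ((e.symm A.toAm).i2Q A).2.2 q (e.QT A hq) u (e.ZT A hu) h huQ, ?_⟩
      show q * u * (q * u) = q * q
      rw [mul_assoc, ← mul_assoc u, ← mem_cent_iff.1 hu.2.1 q hq, mul_assoc, hu.2.2, mul_one]
  have cjs : ∀ (t : G) (X : Subgroup G), cj t (Subgroup.closure ((fun x => x * x) '' (X : Set G))) =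
      Subgroup.closure ((fun x => x * x) '' (cj t X : Set G)) := fun t X => by
    rw [cj_def, MonoidHom.map_closure, cj_def, coe_map, Set.image_image, Set.image_image]
    simp only [map_mul]
  obtain ⟨t, -, h1, -, -, -, h2⟩ := e.swap A.toAm
  have h3 := h2 (Subgroup.closure ((fun x => x * x) '' (cj g Q : Set G))) (by
    rw [closure_le]
    rintro _ ⟨q, hq, rfl⟩
    exact e.QT A (mul_mem hq hq)) (fun h hh => cj_eq_iff_mem_normalizer.1 (by
      rw [cjs, cj_eq_iff_mem_normalizer.2 (A.nQ g hh)]))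
    (by rw [cjs, h1]; exact le_antisymm (sq e' (c.symm A).nl) (sq e hn))
  have hQ : ∀ q ∈ Q, q * q = 1 := fun q hq => by
    have := h3.le (Subgroup.subset_closure ⟨_, conj_mem_cj (g := g) hq, rfl⟩)
    rw [mem_bot] at this
    simpa using this
  have hz : oz Q = Q := le_antisymm (H2.PU.oz_le Q) fun q hq =>
    ⟨hq, mem_cent_iff.2 fun w hw => by
      have := inv_eq_of_mul_eq_one_right (hQ _ (mul_mem hw hq))
      rw [mul_inv_rev, inv_eq_of_mul_eq_one_right (hQ _ hq),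
        inv_eq_of_mul_eq_one_right (hQ _ hw)] at this
      exact this.symm, hQ q hq⟩
  have b := E.base A.toAm
  have hC : Cc H Q 1 = Q ⊓ 𝐂(H) := by rw [Cc, cj_one, cj_one, hz]
  have i1 := b.i2 C
  have i2 := b.i2C C
  have h4 := b.cube C (s := r) (by rw [cj_one, cj_one]; exact A.loc)
  rw [cj_one, hz] at i1 h4
  refine ⟨hQ, h4, fun h => b.not_oz A fun k hk => ?_, by rw [i1.card, i2.card, hC]; ring, ?_, ?_⟩
  · rw [cj_one] at hk
    obtain ⟨j, t, ht, rfl⟩ := A.loc.dec k hk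
    exact mul_mem (pow_mem (cent_le_norm _ (cent_anti i1.1 h)) j) (norm_oz P (le_normalizer ht))
  · rw [← hC]
    by_cases h : Cc H Q 1 = ⊥
    · rw [h, card_bot]; norm_num
    obtain ⟨c, hc, hc1⟩ := exists_ne_one_of_ne_bot h
    have : Cc H Q 1 ≤ zpowers c := fun d hd => by
      by_cases h : d = 1
      · rw [h]; exact one_mem _
      · rw [b.C_uniq C hd hc h hc1]; exact mem_zpowers c
    refine (card_le_of_le this).trans ?_
    rw [Nat.card_zpowers]
    exact Nat.le_of_dvd two_pos (orderOf_dvd_of_pow_eq_one (by rw [pow_two, hc.1.2.2]))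
  · obtain ⟨x, h, hh, h5, h6, h7, -⟩ := e'.trans2 A.toAm (b.symm A.toAm)
    obtain ⟨u, hu, huQ⟩ := SetLike.not_le_iff_exists.1 ((c.symm A).mul x).nl
    rw [h7, cj_one] at huQ
    exact ⟨u, h6 ▸ ((c.symm A).mul x).symm A |>.l2 hu, huQ, hu.2.2⟩

theorem Am.caseA (A : Am H Q P r y) (hQ : Q ≠ ⊥) (ha : a ∈ P) (haQ : a ∉ Q) (hc : a ∈ 𝐂(Q)) :
    H ≤ 𝐂(Q) ∧ ♯P = 4 ∧ ∀ p ∈ P, p * p = 1 := by
  have L := A.loc
  have h1 : H ≤ Q ⊔ 𝐂(Q) := L.le_of_nrm (H2.le_normalizer_sup L.nQ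
    (H2.le_normalizer_centralizer L.nQ)) le_sup_left ha haQ (mem_sup_right hc)
  have b := E.base A
  obtain ⟨t, -, h2, h3, -, -, h4⟩ := b.swap A
  obtain ⟨s, L'⟩ := (b.symm A).loc A
  rw [cj_one] at h2 h3 h4
  have h5 : Q ⊓ cj y Q = ⊥ := h4 _ (inf_le_left.trans L.QT) (h1.trans (sup_le
    (H2.le_normalizer_inf le_normalizer (L.QT.trans (L'.Tv.trans L'.nQ)))
    ((cent_anti inf_le_left).trans (cent_le_norm _)))) (by rw [cj_inf, h2, h3, inf_comm])
  have n : ∀ q ∈ Q, q ≠ 1 → q ∉ cj y Q := fun q hq h1 h => h1 (mem_bot.1 (h5 ▸ mem_inf.2 ⟨hq, h⟩))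
  have h6 : ∀ q ∈ Q, ∀ w ∈ Q, q ≠ 1 → w ≠ 1 → q * w = 1 := fun q hq w hw h1 h2 =>
    mem_bot.1 (h5 ▸ mem_inf.2 ⟨mul_mem hq hw, L'.i2.2.2 q (L.QT hq) w (L.QT hw) (n q hq h1)
      (n w hw h2)⟩)
  have i : I2 ⊥ Q := ⟨bot_le, fun h => hQ (eq_bot_iff.2 h), fun q hq w hw h1 h2 =>
    mem_bot.2 (h6 q hq w hw (by simpa using h1) (by simpa using h2))⟩
  have sq : ∀ q ∈ Q, q * q = 1 := fun q hq => by
    by_cases h : q = 1
    · simp [h]
    · exact h6 q hq q hq h h
  have sq' : ∀ q ∈ cj y Q, q * q = 1 := fun q hq => by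
    have := sq _ (mem_cj.1 hq)
    rwa [show y⁻¹ * q * y * (y⁻¹ * q * y) = y⁻¹ * (q * q) * y⁻¹⁻¹ by group, mul_inv_eq_one,
      mul_eq_left] at this
  obtain ⟨q, hq, hq1⟩ := exists_ne_one_of_ne_bot hQ
  have h7 : H ≤ 𝐂(Q) := h1.trans (sup_le (fun u hu => mem_cent_iff.2 fun w hw => by
    by_cases h : u = 1
    · simp [h]
    by_cases h' : w = 1
    · simp [h']
    rw [h6 u hu w hw h h', h6 w hw u hu h' h]) le_rfl)
  refine ⟨h7, by rw [L.i2.card, i.card, card_bot], fun p hp => ?_⟩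
  by_cases h : p ∈ cj y Q
  · exact sq' p h
  have := sq' _ (L'.i2.2.2 p hp q (L.QT hq) h (n q hq hq1))
  rwa [mul_assoc, ← mul_assoc q, mem_cent_iff.1 (h7 (L.Tv hp)) q hq, mul_assoc, sq q hq,
    mul_one] at this

theorem equiv_of_ker {T : Type*} [Group T] [Finite T] (f : G →* T) (h : f.ker = oddCore G)
    (hc : (oddCore G).index = Nat.card T) : Nonempty (G ⧸ oddCore G ≃* T) := by
  have hs : Function.Surjective f := by
    rw [← MonoidHom.range_eq_top, ← card_eq_iff_eq_top, ← index_ker, h, hc]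
  exact ⟨(QuotientGroup.quotientMulEquivOfEq h.symm).trans
    (QuotientGroup.quotientKerEquivOfSurjective f hs)⟩

theorem Loc.normal (L : Loc ⊤ Q P r) : Q.Normal := nrm_top_iff.1 ⟨le_top, L.nQ⟩

theorem Loc.conj_pow (L : Loc ⊤ Q P r) {t : G} (ht : t ∈ P) (htQ : t ∉ Q) (i : ℕ) :
    t * r ^ i * t⁻¹ * r ^ i ∈ Q := by
  have := L.normal
  have h := (QuotientGroup.eq_one_iff _).2 (L.inv t ht htQ)
  rw [← QuotientGroup.eq_one_iff, ← _root_.conj_pow]
  rw [QuotientGroup.mk_mul, mul_eq_one_iff_eq_inv] at h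
  rw [QuotientGroup.mk_mul, QuotientGroup.mk_pow, h, QuotientGroup.mk_pow, inv_pow, inv_mul_cancel]

theorem Loc.eq_one (L : Loc ⊤ Q P r) {x : G} (hx : x ∈ P) (h : x ^ orderOf r = 1) : x = 1 := by
  obtain ⟨k, hk⟩ := isPGroup_iff_mem.1 L.pT x hx
  exact eq_one_of_pow_of_coprime hk (Nat.coprime_two_right.2
    (L.odd.of_dvd_nat (orderOf_dvd_of_pow_eq_one h)))

theorem Loc.inf_eq (L : Loc ⊤ Q P r) : P ⊓ zpowers r = ⊥ := eq_bot_iff.2 fun x hx =>
  mem_bot.2 (L.eq_one hx.1 (by rw [← Nat.card_zpowers]; exact pow_card_eq_one'' hx.2))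

theorem Loc.oddCore_eq (L : Loc ⊤ Q P r) {k : ℕ} (h1 : r ^ k ∈ 𝐂(Q)) (hQ : Q ≤ 𝐂(Q))
    (h2 : ∀ i : ℕ, r ^ i ∈ 𝐂(Q) → k ∣ i) : oddCore G = zpowers (r ^ k) := by
  have := L.normal
  have hn : (zpowers (r ^ k)).Normal := nrm_top_iff.1 ⟨le_top, fun g _ => by
    obtain ⟨i, t, ht, rfl⟩ := L.dec g trivial
    refine mul_mem (pow_mem (cent_le_norm _ ?_) i) ?_
    · rw [cent_zpowers, mem_cent1_iff]; exact (Commute.self_pow r k).eq
    by_cases htQ : t ∈ Q
    · refine cent_le_norm _ ?_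
      rw [cent_zpowers, mem_cent1_iff]; exact mem_cent_iff.1 h1 t htQ
    refine mem_normalizer_of_cj_le ?_
    rw [cj_zpowers, zpowers_le]
    have h3 := L.conj_pow ht htQ k
    have c : Commute (t * r ^ k * t⁻¹) (r ^ k) := by
      have := mem_cent_iff.1 h1 _ h3
      rw [← mul_assoc] at this
      exact mul_right_cancel this
    have h4 := L.eq_one (L.QT h3) (by
      rw [c.mul_pow, _root_.conj_pow, ← pow_mul, mul_comm k, pow_mul, pow_orderOf_eq_one]; simp)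
    rw [mul_eq_one_iff_eq_inv.1 h4]; exact inv_mem (mem_zpowers _)⟩
  have hle : zpowers (r ^ k) ≤ oddCore G := Agent.L.le_pPrimeCore (by
    rw [Nat.card_zpowers]; exact Nat.coprime_two_right.2 (L.odd.of_dvd_nat (orderOf_pow_dvd k)))
  have hinf : P ⊓ oddCore G = ⊥ := Agent.L.inf_eq_bot_of_isPGroup L.pT (Agent.L.pPrimeCore_coprime 2)
  have bot : ∀ {x}, x ∈ Q → x ∈ oddCore G → x = 1 := fun h1 h2 =>
    mem_bot.1 (hinf ▸ mem_inf.2 ⟨L.QT h1, h2⟩)
  refine le_antisymm (fun x hx => ?_) hle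
  obtain ⟨i, t, ht, rfl⟩ := L.dec x trivial
  by_cases htQ : t ∈ Q
  · have h5 : r ^ i * t ∈ 𝐂(Q) := mem_cent_iff_comm.2 fun q hq => bot
      (commutator_le_right _ Q (commutator_mem_commutator (mem_top _) hq))
      (commutator_le_left _ ⊤ (commutator_mem_commutator hx (mem_top _)))
    obtain ⟨j, rfl⟩ := h2 i (by simpa using mul_mem h5 (inv_mem (hQ htQ)))
    rw [pow_mul] at hx ⊢
    have h6 := pow_mem (mem_zpowers (r ^ k)) j
    rw [bot htQ (by simpa using mul_mem (inv_mem (hle h6)) hx), mul_one]; exact h6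
  · have h5 : r ^ i * t * (r ^ i * t) = 1 := bot (by
      convert mul_mem (Normal.conj_mem ‹Q.Normal› _ (L.conj_pow ht htQ i) (r ^ i))
        (L.i2.2.2 t ht t ht htQ htQ) using 1
      group) (mul_mem hx hx)
    have : orderOf (r ^ i * t) ∣ 1 := by
      rw [← (Agent.L.pPrimeCore_coprime (G := G) 2).gcd_eq_one]
      exact Nat.dvd_gcd (orderOf_dvd_card' hx) (orderOf_dvd_of_pow_eq_one (by rwa [pow_two]))
    rw [orderOf_eq_one_iff.1 (Nat.dvd_one.1 this)]; exact one_mem _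

theorem Loc.card (L : Loc ⊤ Q P r) : Nat.card G = ♯P * orderOf r := by
  rw [mul_comm, ← Nat.card_zpowers]
  refine (IsComplement'.card_mul_card (isComplement'_of_disjoint_and_mul_eq_univ
    (disjoint_iff.2 (inf_comm P _ ▸ L.inf_eq)) (Set.eq_univ_of_forall fun g => ?_))).symm
  obtain ⟨i, t, ht, rfl⟩ := L.dec g trivial
  exact Set.mul_mem_mul (pow_mem (mem_zpowers r) i) ht

theorem Loc.klein (L : Loc ⊤ Q P r) (h : ⊤ ≤ 𝐂(Q)) (h4 : ♯P = 4) (h2 : ∀ p ∈ P, p * p = 1) :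
    Nonempty (G ⧸ oddCore G ≃* Multiplicative (ZMod 2) × Multiplicative (ZMod 2)) := by
  have e := L.oddCore_eq (k := 1) (h trivial) (le_top.trans h) fun i _ => one_dvd i
  rw [pow_one] at e
  have hc : Nat.card (G ⧸ oddCore G) = 4 := by
    have := (oddCore G).card_mul_index
    rw [L.card, h4, e, Nat.card_zpowers, mul_comm] at this
    rw [← index_eq_card, e]
    exact Nat.eq_of_mul_eq_mul_right (orderOf_pos r) this
  have : Nontrivial (G ⧸ oddCore G) := Finite.one_lt_card_iff_nontrivial.1 (by omega)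
  have : IsKleinFour (G ⧸ oddCore G) := ⟨hc, (Monoid.exponent_eq_prime_iff Nat.prime_two).2
    fun x hx => orderOf_eq_prime (by
      obtain ⟨g, rfl⟩ := QuotientGroup.mk_surjective x
      obtain ⟨i, t, ht, rfl⟩ := L.dec g trivial
      rw [QuotientGroup.mk_mul, (QuotientGroup.eq_one_iff _).2 (e ▸ pow_mem (mem_zpowers r) i),
        one_mul, pow_two, ← QuotientGroup.mk_mul, h2 t ht, QuotientGroup.mk_one]) hx⟩
  have : IsKleinFour (Multiplicative (ZMod 2) × Multiplicative (ZMod 2)) :=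
    ⟨by simp, by simp [Monoid.exponent_prod]⟩
  exact IsKleinFour.nonempty_mulEquiv

theorem mem_of_cube {X : Subgroup G} (h3 : r ^ 3 ∈ X) {i : ℕ} (h : r ^ i ∈ X) (hi : ¬ 3 ∣ i) :
    r ∈ X := by
  obtain ⟨j, hj | hj⟩ : ∃ j, i = 3 * j + 1 ∨ i * 2 = 3 * j + 1 := by
    rcases (by omega : i % 3 = 1 ∨ i % 3 = 2) with h | h
    · exact ⟨i / 3, Or.inl (by omega)⟩
    · exact ⟨i * 2 / 3, Or.inr (by omega)⟩
  · rw [hj, pow_succ, pow_mul] at h
    simpa using mul_mem (inv_mem (pow_mem h3 j)) h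
  · have := pow_mem h 2
    rw [← pow_mul, hj, pow_succ, pow_mul] at this
    simpa using mul_mem (inv_mem (pow_mem h3 j)) this

theorem Loc.sfour (L : Loc ⊤ Q P r) (hQ : ∀ q ∈ Q, q * q = 1) (h3 : r ^ 3 ∈ 𝐂(Q)) (hr : r ∉ 𝐂(Q))
    {c : ℕ} (hc : ♯(Q ⊓ 𝐂((⊤ : Subgroup G))) = c) (h4 : ♯Q = 4 * c) (h2 : c ≤ 2) (ha : a ∈ P)
    (haQ : a ∉ Q) (haa : a * a = 1) :
    (c = 1 ∧ Nonempty (G ⧸ oddCore G ≃* Equiv.Perm (Fin 4))) ∨
    (c = 2 ∧ Nonempty (G ⧸ oddCore G ≃* Equiv.Perm (Fin 4) × Multiplicative (ZMod 2))) := by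
  classical
  have := L.normal
  have QQ : Q ≤ 𝐂(Q) := fun q hq => mem_cent_iff.2 fun w hw => by
    have := inv_eq_of_mul_eq_one_right (hQ _ (mul_mem hw hq))
    rw [mul_inv_rev, inv_eq_of_mul_eq_one_right (hQ _ hq),
      inv_eq_of_mul_eq_one_right (hQ _ hw)] at this
    exact this.symm
  have dv : ∀ i : ℕ, r ^ i ∈ 𝐂(Q) → 3 ∣ i := fun i h => by
    by_contra hi; exact hr (mem_of_cube h3 h hi)
  have e := L.oddCore_eq h3 QQ dv
  set C := Q ⊓ 𝐂((⊤ : Subgroup G))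
  set R := zpowers r
  set O := oddCore G
  have OR : O ≤ R := by rw [e]; exact zpowers_le.2 (pow_mem (mem_zpowers r) 3)
  have QR : Q ⊓ R = ⊥ := eq_bot_iff.2 ((inf_le_inf_right _ L.QT).trans L.inf_eq.le)
  have cop : (♯R).Coprime ♯Q := by
    obtain ⟨k, hk⟩ := IsPGroup.iff_card.1 (L.pT.to_le L.QT)
    rw [hk, Nat.card_zpowers]; exact (Nat.coprime_two_right.2 L.odd).pow_right k
  have sol : Group.IsSolvable R ∨ Group.IsSolvable Q := Or.inr (isSolvable_of_isPGroup (L.pT.to_le L.QT))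
  have cR : orderOf r = 3 * ♯O := by
    rw [e, Nat.card_zpowers, orderOf_pow_of_dvd (by norm_num) (dv _ (by simp)),
      Nat.mul_div_cancel' (dv _ (by simp))]
  have cG : Nat.card G = 24 * c * ♯O := by rw [L.card, L.i2.card, h4, cR]; ring
  have c0 : 0 < c := hc ▸ Nat.card_pos
  have sq : ∀ s : G, (∀ q ∈ Q, ⁅s, q⁆ ∈ 𝐂[s]) → s * s ∈ 𝐂(Q) := fun s h =>
    mem_cent_iff.2 fun q hq => by
      have h1 := mem_cent1_iff.1 (h q hq)
      have h2 := hQ _ (commutator_le_right ⊤ Q (commutator_mem_commutator (mem_top s) hq))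
      have e : s * q = ⁅s, q⁆ * q * s := by rw [commutatorElement_def]; group
      generalize ⁅s, q⁆ = d at h1 h2 e
      calc q * (s * s) = d * (d * q * s) * s := by
            rw [← mul_assoc d, ← mul_assoc d, h2]; group
        _ = (d * s) * q * s := by rw [← e]; group
        _ = s * (d * q * s) := by rw [h1]; group
        _ = _ := by rw [← e, mul_assoc]
  have hD : Q ⊓ 𝐂[r] = C := by
    have h5 : C ≤ Q ⊓ 𝐂[r] := inf_le_inf_left _ (cent_le_cent1 trivial)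
    have h6 := H2.card_mul_relIndex h5
    have h7 := H2.card_mul_relIndex (inf_le_left : Q ⊓ 𝐂[r] ≤ Q)
    have h8 : C.relIndex (Q ⊓ 𝐂[r]) * (Q ⊓ 𝐂[r]).relIndex Q = 2 ^ 2 := by
      rw [← h6, hc, h4, mul_assoc, mul_comm 4] at h7
      exact Nat.eq_of_mul_eq_mul_left c0 h7
    obtain ⟨k, hk, h9⟩ := (Nat.dvd_prime_pow Nat.prime_two).1 (Dvd.intro_left _ h8)
    interval_cases k
    · exact absurd (le_cent1_iff.1 ((relIndex_eq_one.1 h9).trans inf_le_right)) hr
    · have i := i2_of_relIndex inf_le_left h9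
      refine absurd (mem_of_cube h3 (i := 2) (pow_two r ▸ sq r fun q hq => ?_) (by norm_num)) hr
      by_cases h : q ∈ Q ⊓ 𝐂[r]
      · rw [commutatorElement_eq_one_iff_mul_comm.2 (mem_cent1_iff.1 h.2).symm]; exact one_mem _
      refine (i.2.2 _ (this.conj_mem q hq r) _ (inv_mem hq) (fun h' => h ⟨hq, ?_⟩)
        (by simpa using h)).2
      simpa [mul_assoc] using conj_mem_of_mem_normalizer' (le_normalizer (mem_cent1_self r)) h'.2
    · rw [h9] at h8
      exact le_antisymm (relIndex_eq_one.1 (by omega)) h5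
  have QN : ∀ g : G, ∃ q ∈ Q, q⁻¹ * g ∈ 𝐍(R) := fun g => by
    obtain ⟨n, hn, h⟩ := H2.exists_conj_le_of_le_sup (A := H1.cj g R) (B := R) (N := Q)
      (H1.le_normalizer_of_normal _ _) (inf_comm Q R ▸ QR) (by
        obtain ⟨i, t, ht, rfl⟩ := L.dec g trivial
        rw [cj_mul]
        refine cj_le_of_le (mem_sup_left (pow_mem (mem_zpowers r) i)) ?_
        rw [cj_zpowers, zpowers_le]
        by_cases htQ : t ∈ Q
        · simpa [mul_assoc] using mul_mem (mem_sup_right (mul_mem htQ (this.conj_mem _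
            (inv_mem htQ) r))) (mem_sup_left (mem_zpowers r) : r ∈ R ⊔ Q)
        · simpa using mul_mem (mem_sup_right (L.inv t ht htQ))
            (mem_sup_left (inv_mem (mem_zpowers r)) : r⁻¹ ∈ R ⊔ Q))
      (by rwa [card_cj]) (Or.inr (isSolvable_of_isPGroup (L.pT.to_le L.QT)))
    exact ⟨n, hn, mem_normalizer_of_conj_mem fun x hx => by
      simpa [mul_assoc] using h _ (conj_mem_cj hx)⟩
  have NQ : 𝐍(R) ⊓ Q = C := by
    rw [← hD]
    refine le_antisymm (fun x hx => ⟨hx.2, mem_cent1_iff.2 (commutatorElement_eq_one_iff_mul_comm.1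
      (mem_bot.1 (QR ▸ mem_inf.2 ⟨commutator_le_left Q ⊤ (commutator_mem_commutator hx.2 trivial),
        mul_mem (conj_mem_of_mem_normalizer hx.1 (mem_zpowers r)) (inv_mem (mem_zpowers r))⟩)))⟩)
      fun x hx => ⟨cent_le_norm _ (by rw [cent_zpowers]; exact hx.2), hx.1⟩
  have top : Q ⊔ 𝐍(R) = ⊤ := eq_top_iff.2 fun g _ => by
    obtain ⟨q, hq, h⟩ := QN g
    simpa using mul_mem (mem_sup_left hq) (mem_sup_right h : _ ∈ Q ⊔ 𝐍(R))
  have iN : (𝐍(R)).index = 4 := by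
    have h5 := H2.card_sup_mul_card_inf (H := 𝐍(R)) (K := Q) (H1.le_normalizer_of_normal _ _)
    have h6 := (𝐍(R)).card_mul_index
    rw [sup_comm, top, card_top, NQ, hc, h4, ← h6] at h5
    have : 0 < ♯(𝐍(R)) * c := Nat.mul_pos Nat.card_pos c0
    exact Nat.eq_of_mul_eq_mul_left this (by linarith)
  have nC : C.Normal := nrm_top_iff.1 (nrm_of_le_cent le_top inf_le_right)
  have core : (𝐍(R)).normalCore = C ⊔ O := by
    refine le_antisymm (fun x hx => ?_) (normal_le_normalCore.2 (sup_le (NQ.ge.trans inf_le_left)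
      (OR.trans le_normalizer)))
    have JQ : ∀ s q : G, q ∈ Q → s * q ∈ (𝐍(R)).normalCore → s * s ∈ 𝐂(Q) := fun s q hq h =>
      sq s fun w hw => by
        have h5 : ⁅s * q, w⁆ ∈ C := NQ ▸ mem_inf.2 ⟨normalCore_le _ (commutator_le_left _ ⊤
          (commutator_mem_commutator h trivial)),
          commutator_le_right ⊤ Q (commutator_mem_commutator trivial hw)⟩
        have : ⁅s * q, w⁆ = ⁅s, w⁆ := by
          rw [commutatorElement_def, commutatorElement_def, mul_assoc s q w,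
            ← mem_cent_iff.1 (QQ hq) w hw]; group
        exact cent_le_cent1 (mem_top s) (this ▸ h5.2)
    obtain ⟨i, t, ht, rfl⟩ := L.dec x trivial
    by_cases htQ : t ∈ Q
    · obtain ⟨j, rfl⟩ := (Nat.Prime.dvd_mul Nat.prime_three).1 (dv (i * 2)
        (by rw [pow_mul, pow_two]; exact JQ _ t htQ hx)) |>.resolve_right (by norm_num)
      have h5 : r ^ (3 * j) ∈ O := by rw [e, pow_mul]; exact pow_mem (mem_zpowers _) j
      refine mul_mem (mem_sup_right h5) (mem_sup_left (NQ ▸ mem_inf.2 ⟨?_, htQ⟩))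
      simpa using mul_mem (inv_mem (le_normalizer (OR h5))) (normalCore_le _ hx)
    · exfalso
      have h5 := commutator_le_right ⊤ _ (commutator_mem_commutator (mem_top r) hx)
      have h6 := JQ (r * r) _ (inv_mem (this.conj_mem _ (L.inv t ht htQ) (r ^ i)))
        (by convert h5 using 1; rw [commutatorElement_def]; group)
      have := dv 4 (by simpa [pow_succ, mul_assoc] using h6)
      norm_num at this
  have CO : C ⊓ O = ⊥ := eq_bot_iff.2 ((inf_le_inf inf_le_left OR).trans QR.le)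
  let φ : G →* Equiv.Perm (Fin 4) := (Finite.equivFinOfCardEq iN).permCongrHom.toMonoidHom.comp
    (MulAction.toPermHom G (G ⧸ 𝐍(R)))
  have kφ : φ.ker = C ⊔ O := by
    rw [← core, normalCore_eq_ker, ← MonoidHom.comap_ker, (MonoidHom.ker_eq_bot_iff _).2
      (MulEquiv.injective _), MonoidHom.comap_bot]
  have iO : O.index = 24 * c := by
    have := O.card_mul_index
    rw [cG, mul_comm] at this
    exact Nat.eq_of_mul_eq_mul_right Nat.card_pos this
  interval_cases c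
  · refine Or.inl ⟨rfl, equiv_of_ker φ ?_ (by rw [iO]; simp [Nat.card_perm]; rfl)⟩
    rw [kφ, card_eq_one.1 hc, bot_sup_eq]
  refine Or.inr ⟨rfl, ?_⟩
  set U := ⁅Q, R⁆
  have UQ : U ≤ Q := commutator_le_left Q R
  have CU : C ⊓ U = ⊥ := eq_bot_iff.2 ((inf_le_inf_right _ (inf_le_right.trans
    (cent_anti le_top))).trans (H2.centralizer_inf_commutator_eq_bot
      (H1.le_normalizer_of_normal _ _) cop (comm_iff_le_cent.2 QQ)).le)
  have cU : ♯U = 4 := by
    have h5 := H2.centralizer_sup_commutator (H1.le_normalizer_of_normal R Q) cop sol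
    rw [cent_zpowers, hD] at h5
    have := card_sup_of_inf_eq_bot (H1.le_normalizer_of_normal U C) CU
    rw [h5, h4, hc] at this
    omega
  have nK : (U ⊔ R).Normal := nrm_top_iff.1 ⟨le_top, top.ge.trans (sup_le
    (le_normalizer_of_commutator_le (H2.commutator_sup_left_le (le_sup_left.trans le_normalizer)
      (le_sup_right.trans le_normalizer) (by
        rw [le_cent_iff_commutator.1 (UQ.trans QQ)]; exact bot_le)
      (by rw [commutator_comm]; exact le_sup_left)))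
    (H2.le_normalizer_sup (H2.le_normalizer_commutator (H1.le_normalizer_of_normal _ _) le_rfl)
      le_rfl))⟩
  have KP : P ⊓ (U ⊔ R) ≤ U := by
    rw [inf_sup_of_le (UQ.trans L.QT) (Or.inr (right_le_normalizer_commutator Q R)), L.inf_eq,
      sup_bot_eq]
  have oa : orderOf a = 2 := orderOf_eq_prime (by rwa [pow_two]) fun h => haQ (h ▸ one_mem Q)
  have mX : ∀ x ∈ U ⊔ R ⊔ zpowers a, x ∈ U ⊔ R ∨ x * a ∈ U ⊔ R := fun x hx => by
    obtain ⟨k, hk, b, hb, rfl⟩ := mem_normal_sup_iff.1 hx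
    rw [mem_zpowers_iff_mem_range_orderOf, oa] at hb
    obtain ⟨i, hi, rfl⟩ := Finset.mem_image.1 hb
    rw [Finset.mem_range] at hi
    interval_cases i
    · exact Or.inl (by simpa using hk)
    · exact Or.inr (by simpa [mul_assoc, haa] using hk)
  have iX : (U ⊔ R ⊔ zpowers a).index = 2 := by
    have h5 := (U ⊔ R ⊔ zpowers a).card_mul_index
    rw [card_sup_of_inf_eq_bot (H1.le_normalizer_of_normal _ _) ((inf_eq_bot_or_le_of_card_prime
      (X := zpowers a) (by rw [Nat.card_zpowers, oa]; exact Nat.prime_two) (U ⊔ R)).elim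
      (fun h => (inf_comm _ _).trans h) fun h => absurd (UQ (KP ⟨ha, h (mem_zpowers a)⟩)) haQ),
      card_sup_of_inf_eq_bot (right_le_normalizer_commutator Q R)
        (eq_bot_iff.2 ((inf_le_inf_right _ UQ).trans QR.le)), cU, Nat.card_zpowers,
      Nat.card_zpowers, oa, cR, cG] at h5
    have : 0 < ♯O := Nat.card_pos
    nlinarith
  have nX := normal_of_index_eq_two iX
  let χ : G →* Multiplicative (ZMod 2) := (mulEquivOfPrimeCardEq (p := 2) iX
    (by simp)).toMonoidHom.comp (QuotientGroup.mk' (U ⊔ R ⊔ zpowers a))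
  have kχ : χ.ker = U ⊔ R ⊔ zpowers a := by
    rw [← MonoidHom.comap_ker, (MonoidHom.ker_eq_bot_iff _).2 (MulEquiv.injective _),
      MonoidHom.comap_bot, QuotientGroup.ker_mk']
  refine equiv_of_ker (φ.prod χ) ?_ (by rw [iO]; simp [Nat.card_perm]; rfl)
  have OX : O ≤ U ⊔ R ⊔ zpowers a := OR.trans (le_sup_right.trans le_sup_left)
  rw [MonoidHom.ker_prod, kφ, kχ, inf_comm, inf_sup_of_le' OX
    (Or.inr (H1.le_normalizer_of_normal _ _)), sup_eq_right]
  intro x hx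
  have hxQ : x ∈ Q := hx.2.1
  rcases mX x hx.1 with h | h
  · rw [mem_bot.1 (CU.le (mem_inf.2 ⟨hx.2, KP ⟨L.QT hxQ, h⟩⟩))]; exact one_mem _
  · exact absurd (by simpa using mul_mem (inv_mem hxQ) (UQ (KP
      ⟨mul_mem (L.QT hxQ) ha, h⟩))) haQ

end Cfsg.Agent.H1.Tu
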